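import Mathlib
import Cfsg.Agent.Lib.L33.Defs

/-! Involution centralizers with a 2-component of type `L₃(3)` (plans/L33.md, package BASE). -/

set_option autoImplicit false
set_option Elab.async false
set_option synthInstance.maxSize 2048
set_option linter.unusedSimpArgs false
set_option linter.unusedSectionVars false

namespace CfsgLib.L33

open Subgroup CfsgLib.Tech

variable {G : Type*} [Group G] [Finite G]

namespace Fr

variable (D : Fr G)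

namespace BaseX

theorem z2 : ∀ c : ZMod 2, c = 0 ∨ c = 1 := by decide

theorem pw_add {n : ℕ} [NeZero n] {g : G} (h : g ^ n = 1) (k k' : ZMod n) :
    g ^ (k + k').val = g ^ k.val * g ^ k'.val := by
  rw [ZMod.val_add, ← pow_add]; exact (pow_eq_pow_mod _ h).symm

theorem pw_mul {n : ℕ} [NeZero n] {g : G} (h : g ^ n = 1) (k k' : ZMod n) :
    g ^ (k * k').val = (g ^ k'.val) ^ k.val := by
  rw [ZMod.val_mul, ← pow_eq_pow_mod _ h, mul_comm, pow_mul]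

theorem inv_of {g : G} (h : g * g = 1) : g⁻¹ = g := inv_eq_of_mul_eq_one_right h

theorem conj_x {g x : G} {n : ℕ} (h : g * x * g⁻¹ = x ^ n) (k : ℕ) : g * x ^ k = (x ^ n) ^ k * g := by
  rw [← h, conj_pow, inv_mul_cancel_right]

end BaseX

open BaseX

open Classical in
/-- `0` if `τ = 1`, else `1` -/
noncomputable def δ : ZMod 2 := if D.τ = 1 then 0 else 1

theorem δ_zero : D.δ = 0 ↔ D.τ = 1 := by
  unfold δ; split_ifs with h <;> simp [h]

theorem δ_one : D.δ = 1 ↔ D.τ ≠ 1 := by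
  unfold δ; split_ifs with h <;> simp [h]

theorem τ_pow (b : ZMod 2) : D.τ ^ (D.δ * b).val = D.τ ^ b.val := by
  rcases eq_or_ne D.τ 1 with h | h
  · rw [h, one_pow, one_pow]
  · rw [D.δ_one.2 h, one_mul]

theorem ok_iff {b : ZMod 2} : D.ok b ↔ D.δ * b = b := by
  rw [ok, ← D.δ_one]; generalize D.δ = δ; revert δ b; decide

theorem e_pow_x (c : ZMod 2) (k : ZMod 8) :
    D.e ^ c.val * D.x ^ k.val = D.x ^ (k * 3 ^ c.val).val * D.e ^ c.val := by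
  rcases z2 c with rfl | rfl
  · simp
  · rw [ZMod.val_one, pow_one, pow_one, pw_mul D.rel.x8]
    exact conj_x (n := 3) (by rw [inv_of D.rel.ee, D.rel.ex]) _

theorem x_pow_τ (b : ZMod 2) (k : ZMod 8) :
    D.x ^ k.val * D.τ ^ b.val = D.τ ^ b.val * D.x ^ (k * 5 ^ (D.δ * b).val).val := by
  rcases eq_or_ne D.τ 1 with h | h
  · simp [h, D.δ_zero.2 h]
  rw [D.δ_one.2 h, one_mul]
  rcases z2 b with rfl | rfl
  · simp
  · rw [ZMod.val_one, pow_one, pow_one, pw_mul D.rel.x8]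
    have := conj_x (n := 5) (D.rel.τx.resolve_left h) k.val
    calc _ = D.τ * (D.τ * D.x ^ k.val) * D.τ := by rw [← mul_assoc, D.ττ, one_mul]
      _ = _ := by rw [this, mul_assoc, mul_assoc, D.ττ, mul_one]; rfl

theorem w_mul' (a b : ZMod 2) (k : ZMod 8) (c a' b' : ZMod 2) (k' : ZMod 8) (c' : ZMod 2) :
    D.w a b k c * D.w a' b' k' c' =
      D.w (a + a') (b + b') (k * 5 ^ (D.δ * b').val + k' * 3 ^ c.val) (c + c') := by
  have h1 : Commute (D.τ ^ b.val * D.x ^ k.val * D.e ^ c.val) (D.t ^ a'.val) :=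
    (((Commute.symm D.rel.tτ).pow_pow _ _).mul_left ((Commute.symm D.rel.tx).pow_pow _ _)).mul_left
      ((Commute.symm D.rel.te).pow_pow _ _)
  have h2 : Commute (D.e ^ c.val) (D.τ ^ b'.val) := (Commute.symm D.rel.τe).pow_pow _ _
  unfold w
  rw [pw_add (by rw [pow_two, D.rel.tt]), pw_add (by rw [pow_two, D.ττ]), pw_add D.rel.x8,
    pw_add (by rw [pow_two, D.rel.ee])]
  calc _ = D.t ^ a.val * (D.τ ^ b.val * D.x ^ k.val * D.e ^ c.val * D.t ^ a'.val) * D.τ ^ b'.val * D.x ^ k'.val *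
        D.e ^ c'.val := by simp only [mul_assoc]
    _ = D.t ^ a.val * D.t ^ a'.val * D.τ ^ b.val * D.x ^ k.val * (D.e ^ c.val * D.τ ^ b'.val) * D.x ^ k'.val *
        D.e ^ c'.val := by rw [h1.eq]; simp only [mul_assoc]
    _ = D.t ^ a.val * D.t ^ a'.val * D.τ ^ b.val * (D.x ^ k.val * D.τ ^ b'.val) * (D.e ^ c.val * D.x ^ k'.val) *
        D.e ^ c'.val := by rw [h2.eq]; simp only [mul_assoc]
    _ = _ := by rw [x_pow_τ, e_pow_x]; simp only [mul_assoc]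

theorem w_one : (1 : G) = D.w 0 0 0 0 := by simp [w]
theorem w_t : D.t = D.w 1 0 0 0 := by simp [w, ZMod.val_one]
theorem w_τ : D.τ = D.w 0 1 0 0 := by simp [w, ZMod.val_one]
theorem w_e : D.e = D.w 0 0 0 1 := by simp [w, ZMod.val_one]
theorem w_xp (k : ZMod 8) : D.x ^ k.val = D.w 0 0 k 0 := by simp [w]
theorem w_x : D.x = D.w 0 0 1 0 := by rw [← w_xp]; exact (pow_one _).symm
theorem w_y : D.y = D.w 0 0 2 0 := D.w_xp 2
theorem w_z : D.z = D.w 0 0 4 0 := D.w_xp 4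

theorem w_δ (a b : ZMod 2) (k : ZMod 8) (c : ZMod 2) : D.w a (D.δ * b) k c = D.w a b k c := by
  unfold w; rw [τ_pow]

theorem w_mem_L {a b : ZMod 2} {k : ZMod 8} {c : ZMod 2} : D.w a b k c ∈ D.L ↔ a = 0 ∧ D.δ * b = 0 := by
  rw [← w_δ, w, mul_assoc, mul_mem_cancel_right (mul_mem (pow_mem D.xL _) (pow_mem D.eL _))]
  have h : D.δ * b = 1 → D.τ ≠ 1 := fun h h' => by rw [D.δ_zero.2 h', zero_mul] at h; exact zero_ne_one h
  revert h
  generalize D.δ * b = b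
  intro h
  rcases z2 a with rfl | rfl <;> rcases z2 b with rfl | rfl
  · simp
  · simpa [ZMod.val_one] using (D.τL (h rfl)).1
  · simpa [ZMod.val_one] using D.tL
  · simpa [ZMod.val_one] using (D.τL (h rfl)).2

theorem ord_x : orderOf D.x = 8 := orderOf_eq_prime_pow (p := 2) (n := 2) D.rel.x4 D.rel.x8

theorem w_eq_one {a b : ZMod 2} {k : ZMod 8} {c : ZMod 2} (h : D.w a b k c = 1) :
    a = 0 ∧ D.δ * b = 0 ∧ k = 0 ∧ c = 0 := by
  obtain ⟨rfl, h1⟩ := D.w_mem_L.1 (h ▸ one_mem D.L)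
  rw [← w_δ, h1, w, ZMod.val_zero, pow_zero, pow_zero, one_mul, one_mul] at h
  refine ⟨rfl, h1, ?_⟩
  rcases z2 c with rfl | rfl
  · rw [ZMod.val_zero, pow_zero, mul_one, ← orderOf_dvd_iff_pow_eq_one, ord_x] at h
    exact ⟨(ZMod.val_eq_zero k).1 (Nat.eq_zero_of_dvd_of_lt h (ZMod.val_lt k)), rfl⟩
  · rw [ZMod.val_one, pow_one] at h
    have h2 : D.e * D.x = D.x * D.e := by
      rw [eq_inv_of_mul_eq_one_right h]; exact ((Commute.refl D.x).pow_left _).inv_left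
    have h3 := D.rel.ex
    rw [h2, mul_assoc, D.rel.ee, mul_one] at h3
    refine absurd ?_ D.rel.x4
    calc D.x ^ 4 = D.x ^ 3 * D.x ^ 3 * (D.x ^ 2)⁻¹ := by group
      _ = 1 := by rw [← h3]; group

theorem w_congr {a b : ZMod 2} {k : ZMod 8} {c a' b' : ZMod 2} {k' : ZMod 8} {c' : ZMod 2}
    (h : a = a' ∧ D.δ * b = D.δ * b' ∧ k = k' ∧ c = c') : D.w a b k c = D.w a' b' k' c' := by
  obtain ⟨rfl, h, rfl, rfl⟩ := h
  rw [← w_δ, h, w_δ]

theorem w_inv (a b : ZMod 2) (k : ZMod 8) (c : ZMod 2) :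
    (D.w a b k c)⁻¹ = D.w a b (-(k * 5 ^ (D.δ * b).val * 3 ^ c.val)) c := by
  rw [inv_eq_iff_mul_eq_one, w_mul', D.w_one]
  refine D.w_congr ?_
  generalize D.δ = δ; revert δ a b k c; decide +kernel

theorem w_iff {a b : ZMod 2} {k : ZMod 8} {c a' b' : ZMod 2} {k' : ZMod 8} {c' : ZMod 2} :
    D.w a b k c = D.w a' b' k' c' ↔ a = a' ∧ D.δ * b = D.δ * b' ∧ k = k' ∧ c = c' := by
  refine ⟨fun h => ?_, D.w_congr⟩
  rw [← mul_inv_eq_one, w_inv, w_mul'] at h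
  have := D.w_eq_one h
  clear h; revert this; generalize D.δ = δ; revert δ a b k c a' b' k' c'; decide +kernel

theorem w_f : D.f = D.w 0 0 6 1 := by
  rw [f, ← y, D.w_e, D.w_y, w_mul', w_iff]; generalize D.δ = δ; revert δ; decide
theorem w_i : D.i = D.w 0 0 1 1 := by
  rw [i, D.w_e, D.w_x, w_mul', w_iff]; generalize D.δ = δ; revert δ; decide

theorem w_u (a b c d : ZMod 2) : D.u a b c d = D.w a b (4 * c.val) d := by
  unfold u w z
  rcases z2 c with rfl | rfl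
  · simp
  · rw [ZMod.val_one, pow_one]; rfl

theorem of_closure {T : Set G} (p : ZMod 2 → ZMod 2 → ZMod 2 → ZMod 8 → ZMod 2 → Prop)
    (h0 : ∀ δ a b k c, p δ a (δ * b) k c ↔ p δ a b k c) (h1 : ∀ δ, p δ 0 0 0 0)
    (hm : ∀ δ a b k c a' b' k' c', p δ a b k c → p δ a' b' k' c' →
      p δ (a + a') (b + b') (k * 5 ^ (δ * b').val + k' * 3 ^ c.val) (c + c'))
    (hi : ∀ δ a b k c, p δ a b k c → p δ a b (-(k * 5 ^ (δ * b).val * 3 ^ c.val)) c)
    (hT : ∀ s ∈ T, ∃ a b k c, p D.δ a b k c ∧ s = D.w a b k c) :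
    (∀ s ∈ closure T, ∃ a b k c, s = D.w a b k c) ∧ ∀ a b k c, D.w a b k c ∈ closure T → p D.δ a b k c := by
  have h : ∀ s ∈ closure T, ∃ a b k c, p D.δ a b k c ∧ s = D.w a b k c := by
    intro s hs
    induction hs using closure_induction with
    | mem s hs => exact hT s hs
    | one => exact ⟨0, 0, 0, 0, h1 _, D.w_one⟩
    | mul s s' _ _ h h' =>
      obtain ⟨a, b, k, c, h, rfl⟩ := h
      obtain ⟨a', b', k', c', h', rfl⟩ := h'
      exact ⟨_, _, _, _, hm _ _ _ _ _ _ _ _ _ h h', D.w_mul' ..⟩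
    | inv s _ h =>
      obtain ⟨a, b, k, c, h, rfl⟩ := h
      exact ⟨_, _, _, _, hi _ _ _ _ _ h, D.w_inv ..⟩
  refine ⟨fun s hs => let ⟨a, b, k, c, _, e⟩ := h s hs; ⟨a, b, k, c, e⟩, fun a b k c hs => ?_⟩
  obtain ⟨a', b', k', c', h, e⟩ := h _ hs
  obtain ⟨rfl, h2, rfl, rfl⟩ := D.w_iff.1 e
  rw [← h0, h2, h0]; exact h

theorem w_mem_of {H : Subgroup G} {a b : ZMod 2} {k : ZMod 8} {c : ZMod 2} (ha : a = 0 ∨ D.t ∈ H)
    (hb : D.δ * b = 0 ∨ D.τ ∈ H) (hk : D.x ^ k.val ∈ H) (hc : c = 0 ∨ D.e ∈ H) : D.w a b k c ∈ H := by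
  rw [← w_δ]
  have : ∀ {j : ZMod 2} {g : G}, j = 0 ∨ g ∈ H → g ^ j.val ∈ H := by
    rintro j g (rfl | h)
    exacts [by simp, pow_mem h _]
  exact mul_mem (mul_mem (mul_mem (this ha) (this hb)) hk) (this hc)

theorem x_mem_of {H : Subgroup G} (h : D.z ∈ H) {k : ZMod 8} (hk : 2 * k = 0) : D.x ^ k.val ∈ H := by
  rcases (by decide : ∀ k : ZMod 8, 2 * k = 0 → k = 0 ∨ k = 4) k hk with rfl | rfl
  exacts [by simp, h]

theorem w_mem_S (a b : ZMod 2) (k : ZMod 8) (c : ZMod 2) : D.w a b k c ∈ D.S :=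
  D.w_mem_of (.inr (subset_closure (by simp))) (.inr (subset_closure (by simp)))
    (pow_mem (subset_closure (by simp)) _) (.inr (subset_closure (by simp)))

theorem exists_w {s : G} (h : s ∈ D.S) : ∃ a b k c, s = D.w a b k c :=
  (D.of_closure (fun _ _ _ _ _ => True) (by simp) (by simp) (by simp) (by simp) (by
    rintro _ (rfl | rfl | rfl | rfl)
    exacts [⟨_, _, _, _, trivial, D.w_t⟩, ⟨_, _, _, _, trivial, D.w_τ⟩, ⟨_, _, _, _, trivial, D.w_x⟩,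
      ⟨_, _, _, _, trivial, D.w_e⟩])).1 s h

theorem w_mem_Dg {a b : ZMod 2} {k : ZMod 8} {c : ZMod 2} : D.w a b k c ∈ D.Dg ↔ a = 0 ∧ D.δ * b = 0 :=
  ⟨(D.of_closure (fun δ a b _ _ => a = 0 ∧ δ * b = 0) (by decide +kernel) (by decide) (by decide +kernel)
    (by decide +kernel) (by
      rintro _ (rfl | rfl)
      exacts [⟨_, _, _, _, by simp, D.w_x⟩, ⟨_, _, _, _, by simp, D.w_e⟩])).2 a b k c,
    fun h => D.w_mem_of (.inl h.1) (.inl h.2) (pow_mem (subset_closure (by simp)) _) (.inr (subset_closure (by simp)))⟩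

theorem w_mem_A {a b : ZMod 2} {k : ZMod 8} {c : ZMod 2} : D.w a b k c ∈ D.A ↔ 2 * k = 0 :=
  ⟨(D.of_closure (fun _ _ _ k _ => 2 * k = 0) (by decide +kernel) (by decide) (by decide +kernel)
    (by decide +kernel) (by
      rintro _ (rfl | rfl | rfl | rfl)
      exacts [⟨_, _, _, _, by decide, D.w_t⟩, ⟨_, _, _, _, by decide, D.w_τ⟩, ⟨_, _, _, _, by decide, D.w_z⟩,
        ⟨_, _, _, _, by decide, D.w_e⟩])).2 a b k c,
    fun h => D.w_mem_of (.inr (subset_closure (by simp))) (.inr (subset_closure (by simp)))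
      (D.x_mem_of (subset_closure (by simp)) h) (.inr (subset_closure (by simp)))⟩

theorem w_mem_A0 {a b : ZMod 2} {k : ZMod 8} {c : ZMod 2} : D.w a b k c ∈ D.A0 ↔ a = 0 ∧ 2 * k = 0 :=
  ⟨(D.of_closure (fun _ a _ k _ => a = 0 ∧ 2 * k = 0) (by decide +kernel) (by decide) (by decide +kernel)
    (by decide +kernel) (by
      rintro _ (rfl | rfl | rfl)
      exacts [⟨_, _, _, _, by decide, D.w_τ⟩, ⟨_, _, _, _, by decide, D.w_z⟩,
        ⟨_, _, _, _, by decide, D.w_e⟩])).2 a b k c,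
    fun h => D.w_mem_of (.inl h.1) (.inr (subset_closure (by simp)))
      (D.x_mem_of (subset_closure (by simp)) h.2) (.inr (subset_closure (by simp)))⟩

theorem w_mem_E {a b : ZMod 2} {k : ZMod 8} {c : ZMod 2} :
    D.w a b k c ∈ D.E ↔ a = 0 ∧ D.δ * b = 0 ∧ 2 * k = 0 :=
  ⟨(D.of_closure (fun δ a b k _ => a = 0 ∧ δ * b = 0 ∧ 2 * k = 0) (by decide +kernel) (by decide) (by decide +kernel)
    (by decide +kernel) (by
      rintro _ (rfl | rfl)
      exacts [⟨_, _, _, _, ⟨rfl, mul_zero _, by decide⟩, D.w_z⟩, ⟨_, _, _, _, by simp, D.w_e⟩])).2 a b k c,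
    fun h => D.w_mem_of (.inl h.1) (.inl h.2.1)
      (D.x_mem_of (subset_closure (by simp)) h.2.2) (.inr (subset_closure (by simp)))⟩

theorem w_mem_Z1 {a b : ZMod 2} {k : ZMod 8} {c : ZMod 2} : D.w a b k c ∈ D.Z1 ↔ a = 0 ∧ 2 * k = 0 ∧ c = 0 :=
  ⟨(D.of_closure (fun _ a _ k c => a = 0 ∧ 2 * k = 0 ∧ c = 0) (by decide +kernel) (by decide) (by decide +kernel)
    (by decide +kernel) (by
      rintro _ (rfl | rfl)
      exacts [⟨_, _, _, _, by decide, D.w_τ⟩, ⟨_, _, _, _, by decide, D.w_z⟩])).2 a b k c,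
    fun h => D.w_mem_of (.inl h.1) (.inr (subset_closure (by simp)))
      (D.x_mem_of (subset_closure (by simp)) h.2.1) (.inl h.2.2)⟩

theorem w_mem_V {a b : ZMod 2} {k : ZMod 8} {c : ZMod 2} :
    D.w a b k c ∈ D.V ↔ D.δ * b = 0 ∧ 2 * k = 0 ∧ c = 0 :=
  ⟨(D.of_closure (fun δ _ b k c => δ * b = 0 ∧ 2 * k = 0 ∧ c = 0) (by decide +kernel) (by decide) (by decide +kernel)
    (by decide +kernel) (by
      rintro _ (rfl | rfl)
      exacts [⟨_, _, _, _, by simp, D.w_t⟩, ⟨_, _, _, _, ⟨mul_zero _, by decide, rfl⟩, D.w_z⟩])).2 a b k c,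
    fun h => D.w_mem_of (.inr (subset_closure (by simp))) (.inl h.1)
      (D.x_mem_of (subset_closure (by simp)) h.2.1) (.inl h.2.2)⟩

theorem w_mem_Ss {a b : ZMod 2} {k : ZMod 8} {c : ZMod 2} : D.w a b k c ∈ D.Ss ↔ 4 * k = 0 := by
  refine ⟨(D.of_closure (fun _ _ _ k _ => 4 * k = 0) (by decide +kernel) (by decide) (by decide +kernel)
    (by decide +kernel) (by
      rintro _ (rfl | rfl | rfl | rfl)
      exacts [⟨_, _, _, _, by decide, D.w_t⟩, ⟨_, _, _, _, by decide, D.w_τ⟩, ⟨_, _, _, _, by decide, D.w_e⟩,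
        ⟨_, _, _, _, by decide, D.w_f⟩])).2 a b k c,
    fun h => D.w_mem_of (.inr (subset_closure (by simp))) (.inr (subset_closure (by simp))) ?_
      (.inr (subset_closure (by simp)))⟩
  have h2 : D.x ^ 2 ∈ D.Ss := by
    have : D.e * D.f ∈ D.Ss := mul_mem (subset_closure (by simp)) (subset_closure (by simp))
    rwa [f, ← mul_assoc, D.rel.ee, one_mul] at this
  obtain ⟨j, hj⟩ := (by decide : ∀ k : ZMod 8, 4 * k = 0 → 2 ∣ k.val) k h
  rw [hj, pow_mul]; exact pow_mem h2 _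

theorem le_S_of {T : Set G} (h : ∀ s ∈ T, ∃ a b k c, s = D.w a b k c) : closure T ≤ D.S :=
  (closure_le _).2 fun s hs => by obtain ⟨a, b, k, c, rfl⟩ := h s hs; exact D.w_mem_S _ _ _ _

theorem A_le_S : D.A ≤ D.S := D.le_S_of (by
  rintro _ (rfl | rfl | rfl | rfl)
  exacts [⟨_, _, _, _, D.w_t⟩, ⟨_, _, _, _, D.w_τ⟩, ⟨_, _, _, _, D.w_z⟩, ⟨_, _, _, _, D.w_e⟩])

theorem A0_le_S : D.A0 ≤ D.S := (Subgroup.closure_mono (by intro; simp; tauto)).trans D.A_le_S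
theorem E_le_S : D.E ≤ D.S := (Subgroup.closure_mono (by intro; simp; tauto)).trans D.A_le_S
theorem Z1_le_S : D.Z1 ≤ D.S := (Subgroup.closure_mono (by intro; simp; tauto)).trans D.A_le_S
theorem V_le_S : D.V ≤ D.S := (Subgroup.closure_mono (by intro; simp; tauto)).trans D.A_le_S

theorem iff_of_S {s : G} {P Q : Prop} (hP : P → s ∈ D.S) (hQ : Q → s ∈ D.S) (h : s ∈ D.S → (P ↔ Q)) : P ↔ Q :=
  ⟨fun p => (h (hP p)).1 p, fun q => (h (hQ q)).2 q⟩

/-- parameters -/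
abbrev Pm := ZMod 2 × ZMod 2 × ZMod 8 × ZMod 2

theorem card_le_w {X : Subgroup G} (hX : X ≤ D.S) (p : Pm → Prop) [DecidablePred p]
    (h : ∀ a b k c, D.w a b k c ∈ X → p (a, b, k, c)) :
    Nat.card X ≤ (Finset.univ.filter fun q : Pm => D.δ * q.2.1 = q.2.1 ∧ p q).card := by
  rw [← Set.ncard_coe_finset, ← SetLike.coe_sort_coe, Nat.card_coe_set_eq]
  refine (Set.ncard_le_ncard (t := (fun q : Pm => D.w q.1 q.2.1 q.2.2.1 q.2.2.2) '' _) (fun s hs => ?_)).trans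
    Set.ncard_image_le
  obtain ⟨a, b, k, c, rfl⟩ := D.exists_w (hX hs)
  refine ⟨(a, D.δ * b, k, c), ?_, D.w_δ ..⟩
  simp only [Finset.coe_filter, Finset.mem_univ, true_and, Set.mem_ofPred_eq]
  exact ⟨(by decide : ∀ δ b : ZMod 2, δ * (δ * b) = δ * b) _ _, h _ _ _ _ (by rwa [w_δ])⟩

theorem card_w {X : Subgroup G} (hX : X ≤ D.S) (p : Pm → Prop) [DecidablePred p]
    (h : ∀ a b k c, D.w a b k c ∈ X ↔ p (a, b, k, c)) :
    Nat.card X = (Finset.univ.filter fun q : Pm => D.δ * q.2.1 = q.2.1 ∧ p q).card := by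
  refine le_antisymm (D.card_le_w hX p fun a b k c => (h a b k c).1) ?_
  rw [← Set.ncard_coe_finset, ← SetLike.coe_sort_coe, Nat.card_coe_set_eq]
  refine Set.ncard_le_ncard_of_injOn (fun q : Pm => D.w q.1 q.2.1 q.2.2.1 q.2.2.2) (fun q hq => ?_) ?_
  · exact (h _ _ _ _).2 (Finset.mem_filter.1 hq).2.2
  · rintro ⟨a, b, k, c⟩ hq ⟨a', b', k', c'⟩ hq' e
    obtain ⟨rfl, h2, rfl, rfl⟩ := D.w_iff.1 e
    rw [(Finset.mem_filter.1 hq).2.1, (Finset.mem_filter.1 hq').2.1] at h2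
    exact Prod.ext rfl (Prod.ext h2 rfl)

/-! elementary relations -/

theorem tt : D.t * D.t = 1 := D.rel.tt
theorem zz : D.z * D.z = 1 := by
  simp only [D.w_t, D.w_τ, D.w_x, D.w_e, D.w_y, D.w_z, D.w_f, D.w_i, D.w_one, w_inv, w_mul', w_iff]; generalize D.δ = δ; revert δ; decide
theorem z1 : D.z ≠ 1 := D.rel.x4
theorem ee : D.e * D.e = 1 := D.rel.ee
theorem ff : D.f * D.f = 1 := by
  simp only [D.w_t, D.w_τ, D.w_x, D.w_e, D.w_y, D.w_z, D.w_f, D.w_i, D.w_one, w_inv, w_mul', w_iff]; generalize D.δ = δ; revert δ; decide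
theorem yy : D.y * D.y = D.z := by
  simp only [D.w_t, D.w_τ, D.w_x, D.w_e, D.w_y, D.w_z, D.w_f, D.w_i, D.w_one, w_inv, w_mul', w_iff]; generalize D.δ = δ; revert δ; decide
theorem ii : D.i * D.i = D.z := by
  simp only [D.w_t, D.w_τ, D.w_x, D.w_e, D.w_y, D.w_z, D.w_f, D.w_i, D.w_one, w_inv, w_mul', w_iff]; generalize D.δ = δ; revert δ; decide
theorem xx : D.x * D.x = D.y := by
  simp only [D.w_t, D.w_τ, D.w_x, D.w_e, D.w_y, D.w_z, D.w_f, D.w_i, D.w_one, w_inv, w_mul', w_iff]; generalize D.δ = δ; revert δ; decide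
theorem ef : D.e * D.f = D.y := by
  simp only [D.w_t, D.w_τ, D.w_x, D.w_e, D.w_y, D.w_z, D.w_f, D.w_i, D.w_one, w_inv, w_mul', w_iff]; generalize D.δ = δ; revert δ; decide
theorem fe : D.f * D.e = D.y * D.z := by
  simp only [D.w_t, D.w_τ, D.w_x, D.w_e, D.w_y, D.w_z, D.w_f, D.w_i, D.w_one, w_inv, w_mul', w_iff]; generalize D.δ = δ; revert δ; decide
theorem fef : D.f * D.e * D.f = D.e * D.z := by
  simp only [D.w_t, D.w_τ, D.w_x, D.w_e, D.w_y, D.w_z, D.w_f, D.w_i, D.w_one, w_inv, w_mul', w_iff]; generalize D.δ = δ; revert δ; decide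
theorem efe : D.e * D.f * D.e = D.f * D.z := by
  simp only [D.w_t, D.w_τ, D.w_x, D.w_e, D.w_y, D.w_z, D.w_f, D.w_i, D.w_one, w_inv, w_mul', w_iff]; generalize D.δ = δ; revert δ; decide
theorem yi : D.i * D.y = D.y * D.i * D.z := by
  simp only [D.w_t, D.w_τ, D.w_x, D.w_e, D.w_y, D.w_z, D.w_f, D.w_i, D.w_one, w_inv, w_mul', w_iff]; generalize D.δ = δ; revert δ; decide
theorem xe : D.x * D.e * D.x⁻¹ = D.f := by
  simp only [D.w_t, D.w_τ, D.w_x, D.w_e, D.w_y, D.w_z, D.w_f, D.w_i, D.w_one, w_inv, w_mul', w_iff]; generalize D.δ = δ; revert δ; decide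
theorem xf : D.x * D.f * D.x⁻¹ = D.e * D.z := by
  simp only [D.w_t, D.w_τ, D.w_x, D.w_e, D.w_y, D.w_z, D.w_f, D.w_i, D.w_one, w_inv, w_mul', w_iff]; generalize D.δ = δ; revert δ; decide
theorem xτ (h : D.τ ≠ 1) : D.x * D.τ * D.x⁻¹ = D.τ * D.z := by
  simp only [D.w_t, D.w_τ, D.w_x, D.w_e, D.w_y, D.w_z, D.w_f, D.w_i, D.w_one, w_inv, w_mul', w_iff, D.δ_one.2 h]; decide
theorem τi (h : D.τ ≠ 1) : D.τ * D.i = D.i * D.τ * D.z := by
  simp only [D.w_t, D.w_τ, D.w_x, D.w_e, D.w_y, D.w_z, D.w_f, D.w_i, D.w_one, w_inv, w_mul', w_iff, D.δ_one.2 h]; decide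
theorem c_tτ : D.t * D.τ = D.τ * D.t := D.rel.tτ
theorem c_tx : D.t * D.x = D.x * D.t := D.rel.tx
theorem c_te : D.t * D.e = D.e * D.t := D.rel.te
theorem c_tz : D.t * D.z = D.z * D.t := by
  simp only [D.w_t, D.w_τ, D.w_x, D.w_e, D.w_y, D.w_z, D.w_f, D.w_i, D.w_one, w_inv, w_mul', w_iff]; generalize D.δ = δ; revert δ; decide
theorem c_ty : D.t * D.y = D.y * D.t := by
  simp only [D.w_t, D.w_τ, D.w_x, D.w_e, D.w_y, D.w_z, D.w_f, D.w_i, D.w_one, w_inv, w_mul', w_iff]; generalize D.δ = δ; revert δ; decide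
theorem c_tf : D.t * D.f = D.f * D.t := by
  simp only [D.w_t, D.w_τ, D.w_x, D.w_e, D.w_y, D.w_z, D.w_f, D.w_i, D.w_one, w_inv, w_mul', w_iff]; generalize D.δ = δ; revert δ; decide
theorem c_ti : D.t * D.i = D.i * D.t := by
  simp only [D.w_t, D.w_τ, D.w_x, D.w_e, D.w_y, D.w_z, D.w_f, D.w_i, D.w_one, w_inv, w_mul', w_iff]; generalize D.δ = δ; revert δ; decide
theorem c_τe : D.τ * D.e = D.e * D.τ := D.rel.τe
theorem c_τz : D.τ * D.z = D.z * D.τ := by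
  simp only [D.w_t, D.w_τ, D.w_x, D.w_e, D.w_y, D.w_z, D.w_f, D.w_i, D.w_one, w_inv, w_mul', w_iff]; generalize D.δ = δ; revert δ; decide
theorem c_τy : D.τ * D.y = D.y * D.τ := by
  simp only [D.w_t, D.w_τ, D.w_x, D.w_e, D.w_y, D.w_z, D.w_f, D.w_i, D.w_one, w_inv, w_mul', w_iff]; generalize D.δ = δ; revert δ; decide
theorem c_τf : D.τ * D.f = D.f * D.τ := by
  simp only [D.w_t, D.w_τ, D.w_x, D.w_e, D.w_y, D.w_z, D.w_f, D.w_i, D.w_one, w_inv, w_mul', w_iff]; generalize D.δ = δ; revert δ; decide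
theorem c_zx : D.z * D.x = D.x * D.z := by
  simp only [D.w_t, D.w_τ, D.w_x, D.w_e, D.w_y, D.w_z, D.w_f, D.w_i, D.w_one, w_inv, w_mul', w_iff]; generalize D.δ = δ; revert δ; decide
theorem c_ze : D.z * D.e = D.e * D.z := by
  simp only [D.w_t, D.w_τ, D.w_x, D.w_e, D.w_y, D.w_z, D.w_f, D.w_i, D.w_one, w_inv, w_mul', w_iff]; generalize D.δ = δ; revert δ; decide
theorem c_zf : D.z * D.f = D.f * D.z := by
  simp only [D.w_t, D.w_τ, D.w_x, D.w_e, D.w_y, D.w_z, D.w_f, D.w_i, D.w_one, w_inv, w_mul', w_iff]; generalize D.δ = δ; revert δ; decide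
theorem c_zy : D.z * D.y = D.y * D.z := by
  simp only [D.w_t, D.w_τ, D.w_x, D.w_e, D.w_y, D.w_z, D.w_f, D.w_i, D.w_one, w_inv, w_mul', w_iff]; generalize D.δ = δ; revert δ; decide
theorem c_zi : D.z * D.i = D.i * D.z := by
  simp only [D.w_t, D.w_τ, D.w_x, D.w_e, D.w_y, D.w_z, D.w_f, D.w_i, D.w_one, w_inv, w_mul', w_iff]; generalize D.δ = δ; revert δ; decide
theorem c_xy : D.x * D.y = D.y * D.x := by
  simp only [D.w_t, D.w_τ, D.w_x, D.w_e, D.w_y, D.w_z, D.w_f, D.w_i, D.w_one, w_inv, w_mul', w_iff]; generalize D.δ = δ; revert δ; decide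

/-! normal forms -/

theorem w_mul (a b : ZMod 2) (k : ZMod 8) (c a' : ZMod 2) {b' : ZMod 2} (h : D.ok b') (k' : ZMod 8) (c' : ZMod 2) :
    D.w a b k c * D.w a' b' k' c' = D.w (a + a') (b + b') (k * 5 ^ b'.val + k' * 3 ^ c.val) (c + c') := by
  rw [w_mul', D.ok_iff.1 h]

theorem w_inj {a b : ZMod 2} {k : ZMod 8} {c a' b' : ZMod 2} {k' : ZMod 8} {c' : ZMod 2} (h : D.ok b) (h' : D.ok b')
    (hw : D.w a b k c = D.w a' b' k' c') : a = a' ∧ b = b' ∧ k = k' ∧ c = c' := by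
  rwa [w_iff, D.ok_iff.1 h, D.ok_iff.1 h'] at hw

theorem mem_S {s : G} : s ∈ D.S ↔ ∃ a b k c, D.ok b ∧ s = D.w a b k c :=
  ⟨fun h => let ⟨a, b, k, c, e⟩ := D.exists_w h
    ⟨a, D.δ * b, k, c, D.ok_iff.2 ((by decide : ∀ δ b : ZMod 2, δ * (δ * b) = δ * b) _ _), e.trans (D.w_δ ..).symm⟩,
    fun ⟨_, _, _, _, _, e⟩ => e ▸ D.w_mem_S _ _ _ _⟩
theorem mem_Dg {s : G} : s ∈ D.Dg ↔ ∃ k c, s = D.w 0 0 k c := by
  refine ⟨fun h => ?_, fun ⟨k, c, e⟩ => e ▸ D.w_mem_Dg.2 ⟨rfl, mul_zero _⟩⟩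
  obtain ⟨a, b, k, c, rfl⟩ := D.exists_w (Subgroup.closure_mono (by intro; simp; tauto) h)
  obtain ⟨rfl, h2⟩ := D.w_mem_Dg.1 h
  exact ⟨k, c, D.w_iff.2 ⟨rfl, by rw [h2, mul_zero], rfl, rfl⟩⟩

theorem u_mul (a b c d a' b' c' d' : ZMod 2) :
    D.u a b c d * D.u a' b' c' d' = D.u (a + a') (b + b') (c + c') (d + d') := by
  simp only [w_u, w_mul', w_iff]; generalize D.δ = δ; revert δ a b c d a' b' c' d'; decide +kernel

theorem u_inj {a b c d a' b' c' d' : ZMod 2} (h : D.u a b c d = D.u a' b' c' d') :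
    a = a' ∧ (b = b' ∨ D.τ = 1) ∧ c = c' ∧ d = d' := by
  rw [w_u, w_u, w_iff] at h
  rw [← D.δ_zero]; revert h; generalize D.δ = δ; revert δ a b c d a' b' c' d'; decide +kernel

theorem u_t : D.u 1 0 0 0 = D.t := by simp [u, ZMod.val_one]
theorem u_τ : D.u 0 1 0 0 = D.τ := by simp [u, ZMod.val_one]
theorem u_z : D.u 0 0 1 0 = D.z := by simp [u, ZMod.val_one]
theorem u_e : D.u 0 0 0 1 = D.e := by simp [u, ZMod.val_one]
theorem u_one : D.u 0 0 0 0 = 1 := by simp [u, ZMod.val_one]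
theorem f_u (a b c d : ZMod 2) : D.f * D.u a b c d * D.f = D.u a b (c + d) d := by
  simp only [D.w_f, w_u, w_mul', w_iff]; generalize D.δ = δ; revert δ a b c d; decide +kernel
theorem Th0.conj_u {D : Fr G} {θ : G} (h : D.Th0 θ) (a b c d : ZMod 2) :
    θ * D.u a b c d * θ⁻¹ = D.u a b d (c + d) := by
  have h1 : θ * D.t * θ⁻¹ = D.u 1 0 0 0 := by rw [h.θt, mul_inv_cancel_right, u_t]
  have h2 : θ * D.τ * θ⁻¹ = D.u 0 1 0 0 := by rw [h.θτ, mul_inv_cancel_right, u_τ]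
  have h3 : θ * D.z * θ⁻¹ = D.u 0 0 0 1 := by rw [h.θz, u_e]
  have h4 : θ * D.e * θ⁻¹ = D.u 0 0 1 1 := by rw [h.θe, ← u_e, ← u_z, u_mul]; rfl
  have h5 : ∀ (j a b c d : ZMod 2), D.u a b c d ^ j.val = D.u (j * a) (j * b) (j * c) (j * d) := fun j a b c d => by
    rcases z2 j with rfl | rfl
    · simp [u_one]
    · simp [ZMod.val_one]
  calc _ = (θ * D.t * θ⁻¹) ^ a.val * (θ * D.τ * θ⁻¹) ^ b.val * (θ * D.z * θ⁻¹) ^ c.val * (θ * D.e * θ⁻¹) ^ d.val := by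
        simp only [conj_pow, u]; group
    _ = _ := by simp [h1, h2, h3, h4, h5, u_mul]

theorem mem_A {s : G} : s ∈ D.A ↔ ∃ a b c d, s = D.u a b c d := by
  refine D.iff_of_S (D.A_le_S ·) (fun ⟨a, b, c, d, e⟩ => by rw [e, w_u]; exact D.w_mem_S _ _ _ _) fun h => ?_
  obtain ⟨a, b, k, c, rfl⟩ := D.exists_w h
  simp only [w_mem_A, w_u, w_iff]; generalize D.δ = δ; clear h; revert δ a b k c; decide +kernel
theorem mem_A0 {s : G} : s ∈ D.A0 ↔ ∃ b c d, s = D.u 0 b c d := by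
  refine D.iff_of_S (D.A0_le_S ·) (fun ⟨b, c, d, e⟩ => by rw [e, w_u]; exact D.w_mem_S _ _ _ _) fun h => ?_
  obtain ⟨a, b, k, c, rfl⟩ := D.exists_w h
  simp only [w_mem_A0, w_u, w_iff]; generalize D.δ = δ; clear h; revert δ a b k c; decide +kernel
theorem mem_E {s : G} : s ∈ D.E ↔ s = 1 ∨ s = D.z ∨ s = D.e ∨ s = D.e * D.z := by
  refine D.iff_of_S (D.E_le_S ·) (fun h => ?_) fun h => ?_
  · simp only [D.w_t, D.w_τ, D.w_x, D.w_e, D.w_y, D.w_z, D.w_f, D.w_i, D.w_one, w_mul'] at h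
    rcases h with rfl | rfl | rfl | rfl <;> exact D.w_mem_S _ _ _ _
  obtain ⟨a, b, k, c, rfl⟩ := D.exists_w h
  simp only [w_mem_E, D.w_t, D.w_τ, D.w_x, D.w_e, D.w_y, D.w_z, D.w_f, D.w_i, D.w_one, w_inv, w_mul', w_iff]
  generalize D.δ = δ; clear h; revert δ a b k c; decide +kernel
theorem mem_E' {s : G} : s ∈ D.E ↔ ∃ c d, s = D.u 0 0 c d := by
  refine D.iff_of_S (D.E_le_S ·) (fun ⟨c, d, e⟩ => by rw [e, w_u]; exact D.w_mem_S _ _ _ _) fun h => ?_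
  obtain ⟨a, b, k, c, rfl⟩ := D.exists_w h
  simp only [w_mem_E, w_u, w_iff]; generalize D.δ = δ; clear h; revert δ a b k c; decide +kernel
theorem mem_Z1 {s : G} : s ∈ D.Z1 ↔ s = 1 ∨ s = D.z ∨ s = D.τ ∨ s = D.τ * D.z := by
  refine D.iff_of_S (D.Z1_le_S ·) (fun h => ?_) fun h => ?_
  · simp only [D.w_t, D.w_τ, D.w_x, D.w_e, D.w_y, D.w_z, D.w_f, D.w_i, D.w_one, w_mul'] at h
    rcases h with rfl | rfl | rfl | rfl <;> exact D.w_mem_S _ _ _ _
  obtain ⟨a, b, k, c, rfl⟩ := D.exists_w h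
  simp only [w_mem_Z1, D.w_t, D.w_τ, D.w_x, D.w_e, D.w_y, D.w_z, D.w_f, D.w_i, D.w_one, w_inv, w_mul', w_iff]
  generalize D.δ = δ; clear h; revert δ a b k c; decide +kernel
theorem mem_V {s : G} : s ∈ D.V ↔ s = 1 ∨ s = D.t ∨ s = D.z ∨ s = D.t * D.z := by
  refine D.iff_of_S (D.V_le_S ·) (fun h => ?_) fun h => ?_
  · simp only [D.w_t, D.w_τ, D.w_x, D.w_e, D.w_y, D.w_z, D.w_f, D.w_i, D.w_one, w_mul'] at h
    rcases h with rfl | rfl | rfl | rfl <;> exact D.w_mem_S _ _ _ _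
  obtain ⟨a, b, k, c, rfl⟩ := D.exists_w h
  simp only [w_mem_V, D.w_t, D.w_τ, D.w_x, D.w_e, D.w_y, D.w_z, D.w_f, D.w_i, D.w_one, w_inv, w_mul', w_iff]
  generalize D.δ = δ; clear h; revert δ a b k c; decide +kernel
theorem mem_Ss {s : G} : s ∈ D.Ss ↔ s ∈ D.A ∨ D.f * s ∈ D.A := by
  refine D.iff_of_S (D.le_S_of (by
    rintro _ (rfl | rfl | rfl | rfl)
    exacts [⟨_, _, _, _, D.w_t⟩, ⟨_, _, _, _, D.w_τ⟩, ⟨_, _, _, _, D.w_e⟩, ⟨_, _, _, _, D.w_f⟩]) ·)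
    (fun h => h.elim (D.A_le_S ·) fun h => (mul_mem_cancel_left (D.w_f ▸ D.w_mem_S _ _ _ _)).1 (D.A_le_S h)) fun h => ?_
  obtain ⟨a, b, k, c, rfl⟩ := D.exists_w h
  simp only [D.w_f, w_mul', w_mem_A, w_mem_Ss]; generalize D.δ = δ; clear h; revert δ a b k c; decide +kernel
theorem A_sq {s : G} (h : s ∈ D.A) : s * s = 1 := by
  obtain ⟨a, b, c, d, rfl⟩ := D.mem_A.1 h
  simp only [u_mul, CharTwo.add_self_eq_zero, u_one]
theorem A_comm {s s' : G} (h : s ∈ D.A) (h' : s' ∈ D.A) : s * s' = s' * s := by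
  obtain ⟨a, b, c, d, rfl⟩ := D.mem_A.1 h
  obtain ⟨a', b', c', d', rfl⟩ := D.mem_A.1 h'
  rw [u_mul, u_mul, add_comm a, add_comm b, add_comm c, add_comm d]
theorem E_le_A0 : D.E ≤ D.A0 := Subgroup.closure_mono (by intro; simp; tauto)
theorem Z1_le_A0 : D.Z1 ≤ D.A0 := Subgroup.closure_mono (by intro; simp; tauto)
theorem A0_le_A : D.A0 ≤ D.A := Subgroup.closure_mono (by intro; simp; tauto)
theorem A_le_Ss : D.A ≤ D.Ss := fun _ h => D.mem_Ss.2 (.inl h)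
theorem Ss_le_S : D.Ss ≤ D.S := D.le_S_of (by
  rintro _ (rfl | rfl | rfl | rfl)
  exacts [⟨_, _, _, _, D.w_t⟩, ⟨_, _, _, _, D.w_τ⟩, ⟨_, _, _, _, D.w_e⟩, ⟨_, _, _, _, D.w_f⟩])
theorem Dg_le_S : D.Dg ≤ D.S := Subgroup.closure_mono (by intro; simp; tauto)
theorem E_le_Dg : D.E ≤ D.Dg := fun s h => by
  obtain ⟨a, b, k, c, rfl⟩ := D.exists_w (D.E_le_S h)
  exact D.w_mem_Dg.2 ⟨(D.w_mem_E.1 h).1, (D.w_mem_E.1 h).2.1⟩
theorem t_not_A0 : D.t ∉ D.A0 := by rw [D.w_t, w_mem_A0]; decide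
theorem f_not_A : D.f ∉ D.A := by rw [D.w_f, w_mem_A]; decide
theorem x_not_Ss : D.x ∉ D.Ss := by rw [D.w_x, w_mem_Ss]; decide
theorem mem_A_iff {s : G} : s ∈ D.A ↔ s ∈ D.A0 ∨ D.t * s ∈ D.A0 := by
  refine D.iff_of_S (D.A_le_S ·)
    (fun h => h.elim (D.A0_le_S ·) fun h => (mul_mem_cancel_left (D.w_t ▸ D.w_mem_S _ _ _ _)).1 (D.A0_le_S h)) fun h => ?_
  obtain ⟨a, b, k, c, rfl⟩ := D.exists_w h
  simp only [D.w_t, w_mul', w_mem_A, w_mem_A0]; generalize D.δ = δ; clear h; revert δ a b k c; decide +kernel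
theorem mem_S_iff {s : G} : s ∈ D.S ↔ s ∈ D.Ss ∨ D.x * s ∈ D.Ss := by
  refine ⟨fun h => ?_,
    fun h => h.elim (D.Ss_le_S ·) fun h => (mul_mem_cancel_left (D.w_x ▸ D.w_mem_S _ _ _ _)).1 (D.Ss_le_S h)⟩
  obtain ⟨a, b, k, c, rfl⟩ := D.exists_w h
  simp only [D.w_x, w_mul', w_mem_Ss]; generalize D.δ = δ; clear h; revert δ a b k c; decide +kernel
theorem mem_Dg_of_L {s : G} (h : s ∈ D.S) (hL : s ∈ D.L) : s ∈ D.Dg := by
  obtain ⟨a, b, k, c, rfl⟩ := D.exists_w h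
  exact D.w_mem_Dg.2 (D.w_mem_L.1 hL)
theorem Dg_le_L : D.Dg ≤ D.L := (closure_le _).2 (by rintro _ (rfl | rfl); exacts [D.xL, D.eL])

theorem card_E : Nat.card D.E = 4 := by
  rw [D.card_w D.E_le_S (fun q => q.1 = 0 ∧ D.δ * q.2.1 = 0 ∧ 2 * q.2.2.1 = 0) fun _ _ _ _ => D.w_mem_E]
  generalize D.δ = δ; revert δ; decide +kernel
theorem card_A : (D.τ = 1 ∧ Nat.card D.A = 8) ∨ (D.τ ≠ 1 ∧ Nat.card D.A = 16) := by
  rw [D.card_w D.A_le_S (fun q => 2 * q.2.2.1 = 0) fun _ _ _ _ => D.w_mem_A, ← D.δ_one, ← D.δ_zero]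
  generalize D.δ = δ; revert δ; decide +kernel
theorem card_A0 : Nat.card D.A = 2 * Nat.card D.A0 := by
  rw [D.card_w D.A_le_S (fun q => 2 * q.2.2.1 = 0) fun _ _ _ _ => D.w_mem_A,
    D.card_w D.A0_le_S (fun q => q.1 = 0 ∧ 2 * q.2.2.1 = 0) fun _ _ _ _ => D.w_mem_A0]
  generalize D.δ = δ; revert δ; decide +kernel
theorem card_Ss : Nat.card D.Ss = 2 * Nat.card D.A := by
  rw [D.card_w D.A_le_S (fun q => 2 * q.2.2.1 = 0) fun _ _ _ _ => D.w_mem_A,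
    D.card_w D.Ss_le_S (fun q => 4 * q.2.2.1 = 0) fun _ _ _ _ => D.w_mem_Ss]
  generalize D.δ = δ; revert δ; decide +kernel
theorem card_S : Nat.card D.S = 4 * Nat.card D.A := by
  rw [D.card_w D.A_le_S (fun q => 2 * q.2.2.1 = 0) fun _ _ _ _ => D.w_mem_A,
    D.card_w le_rfl (fun _ => True) fun _ _ _ _ => iff_true_intro (D.w_mem_S _ _ _ _)]
  generalize D.δ = δ; revert δ; decide +kernel

/-- the frame with `τ` replaced by `k τ`, `k ∈ ⟨t, z⟩` -/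
theorem exists_ch (h : D.τ ≠ 1) {k : G} (hk : k ∈ D.V) :
    ∃ D' : Fr G, D'.t = D.t ∧ D'.x = D.x ∧ D'.e = D.e ∧ D'.τ = k * D.τ ∧ D'.A = D.A := by
  have cl : ∀ T : Set G, (∀ τ', D.V ≤ closure (insert D.t (insert τ' T))) →
      closure (insert D.t (insert (k * D.τ) T)) = closure (insert D.t (insert D.τ T)) := fun T hT => by
    have hk2 : k * (k * D.τ) = D.τ := by
      rw [← mul_assoc, D.A_sq (Subgroup.closure_mono (by intro; simp; tauto) hk), one_mul]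
    have hk3 : k * (k * D.τ) ∈ closure (insert D.t (insert (k * D.τ) T)) :=
      mul_mem (hT _ hk) (subset_closure (.inr (.inl rfl)))
    rw [hk2] at hk3
    refine le_antisymm ((closure_le _).2 ?_) ((closure_le _).2 ?_) <;> rintro s (rfl | rfl | hs)
    exacts [subset_closure (by simp), mul_mem (hT _ hk) (subset_closure (by simp)), subset_closure (by simp [hs]),
      subset_closure (by simp), hk3, subset_closure (by simp [hs])]
  have hδ := D.δ_one.2 h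
  have hz : D.z ∈ D.L := pow_mem D.xL 4
  have hk' := hk
  obtain ⟨a, b, j, c, e⟩ := D.exists_w (D.V_le_S hk)
  rw [e, w_mem_V, hδ] at hk'
  have h5 : D.x ^ 5 = D.w 0 0 5 0 := D.w_xp 5
  refine ⟨{ D with
    τ := k * D.τ
    rel := { D.rel with tτ := ?_, τe := ?_, τx := .inr ?_ }
    ττ := ?_
    syl := ?_
    τL := fun _ => ?_
    HL := fun g hg => ?_ }, rfl, rfl, rfl, rfl, ?_⟩
  · simp only [e, D.w_t, D.w_τ, w_mul', w_iff, hδ]; clear e; revert a b j c; decide +kernel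
  · simp only [e, D.w_e, D.w_τ, w_mul', w_iff, hδ]; clear e; revert a b j c; decide +kernel
  · rw [h5]; simp only [e, D.w_x, D.w_τ, w_mul', w_inv, w_iff, hδ]; clear e; revert a b j c; decide +kernel
  · simp only [e, D.w_one, D.w_τ, w_mul', w_iff, hδ]; clear e; revert a b j c; decide +kernel
  · rw [cl]
    · exact D.syl
    · exact fun τ' => (closure_le _).2 (by
        rintro _ (rfl | rfl)
        exacts [subset_closure (by simp), pow_mem (subset_closure (by simp)) 4])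
  · simp only [e, D.w_t, D.w_τ, w_mul', w_mem_L, hδ]; clear e; revert a b j c; decide +kernel
  · have h1 : D.z * D.τ * g ∈ D.L ↔ D.τ * g ∈ D.L := by rw [mul_assoc, mul_mem_cancel_left hz]
    have h2 : D.t * (D.z * D.τ) * g ∈ D.L ↔ D.t * D.τ * g ∈ D.L := by
      rw [← mul_assoc, D.c_tz, mul_assoc D.z, mul_assoc D.z, mul_mem_cancel_left hz]
    have h3 : ∀ v, D.t * (D.t * v) = v := fun v => by rw [← mul_assoc, D.tt, one_mul]
    have := D.HL g hg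
    rcases D.mem_V.1 hk with rfl | rfl | rfl | rfl
    · rwa [one_mul]
    · rw [h3]; tauto
    · rw [h1, h2]; exact this
    · rw [mul_assoc D.t D.z, h3, h1, h2]; tauto
  · exact cl _ fun τ' => Subgroup.closure_mono (by intro; simp; tauto)

end Fr

end CfsgLib.L33
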