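import Mathlib
import Cfsg.Agent.Lib.L33.Base

/-! Involution centralizers with a 2-component of type `L₃(3)` (plans/L33.md, package SF). -/

set_option autoImplicit false
set_option Elab.async false
set_option synthInstance.maxSize 2048
set_option linter.unusedSimpArgs false
set_option linter.unusedSectionVars false

namespace CfsgLib.L33

open Subgroup CfsgLib.Tech

variable {G : Type*} [Group G] [Finite G]

namespace Fr

variable (D : Fr G)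

namespace SFx

theorem p4 (r : G) : r ^ 4 = r * r * r * r := by rw [pow_succ, pow_succ, pow_two]

theorem exists_out {X A B : Subgroup G} (h1 : ¬ X ≤ A) (h2 : ¬ X ≤ B) : ∃ r ∈ X, r ∉ A ∧ r ∉ B := by
  obtain ⟨s, hs, hA⟩ := SetLike.not_le_iff_exists.1 h1
  obtain ⟨s', hs', hB⟩ := SetLike.not_le_iff_exists.1 h2
  by_cases a : s ∈ B
  · by_cases b : s' ∈ A
    · exact ⟨s * s', mul_mem hs hs', fun h => hA ((mul_mem_cancel_right b).1 h),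
        fun h => hB ((mul_mem_cancel_left a).1 h)⟩
    · exact ⟨s', hs', b, hB⟩
  · exact ⟨s, hs, hA, a⟩

theorem comm_of_sq {X : Subgroup G} (h2 : ∀ v ∈ X, v * v = 1) {a b : G} (ha : a ∈ X) (hb : b ∈ X) : a * b = b * a := by
  have h := h2 _ (mul_mem ha hb)
  calc a * b = a * (a * b * (a * b)) * b := by rw [h, mul_one]
    _ = a * a * (b * a) * (b * b) := by simp only [mul_assoc]
    _ = b * a := by rw [h2 a ha, h2 b hb, one_mul, mul_one]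

theorem cj_le_S {H : Subgroup G} (h : H ≤ D.S) : cj D.x H ≤ D.S := fun s hs => by
  have hx : D.x ∈ D.S := subset_closure (by simp)
  exact (mul_mem_cancel_left (inv_mem hx)).1 ((mul_mem_cancel_right hx).1 (h (mem_cj.1 hs)))

theorem y_pow (j : ZMod 8) : D.y ^ j.val = D.w 0 0 (j * 2) 0 := by
  rw [← w_xp, BaseX.pw_mul D.rel.x8]; rfl

theorem τy_pow (n : ℕ) : (D.τ * D.y) ^ n = D.w 0 n (2 * n) 0 := by
  induction n with
  | zero => simp [w]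
  | succ n ih =>
    rw [pow_succ, ih]
    simp only [D.w_τ, D.w_y, w_mul', w_iff, Nat.cast_succ]
    generalize D.δ = δ; generalize (n : ZMod 2) = a; generalize (n : ZMod 8) = b; revert δ a b; decide +kernel

theorem t_pow (a : ZMod 2) : D.t ^ a.val = D.w a 0 0 0 := by simp [w]

theorem elab_key {X : Subgroup G} (h : X ≤ D.S) (h2 : ∀ v ∈ X, v * v = 1) :
    X ≤ D.A ∨ X ≤ cj D.x D.A ∨ Nat.card X < Nat.card D.A := by
  by_cases h3 : X ≤ D.A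
  · exact .inl h3
  by_cases h4 : X ≤ cj D.x D.A
  · exact .inr (.inl h4)
  obtain ⟨r, hr, h5, h6⟩ := exists_out h3 h4
  obtain ⟨a, b, k, c, rfl⟩ := D.exists_w (h hr)
  have h7 := h2 _ hr
  refine .inr (.inr ((D.card_le_w h (fun q => q.2.2.1 * 5 ^ (D.δ * b).val + k * 3 ^ q.2.2.2.val =
    k * 5 ^ (D.δ * q.2.1).val + q.2.2.1 * 3 ^ c.val ∧ q.2.2.1 * 5 ^ (D.δ * q.2.1).val + q.2.2.1 * 3 ^ q.2.2.2.val = 0)
    fun a' b' k' c' hv => ?_).trans_lt ?_))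
  · have h8 := comm_of_sq h2 hv hr
    have h9 := h2 _ hv
    rw [w_mul', w_mul', w_iff] at h8
    rw [w_mul', D.w_one, w_iff] at h9
    exact ⟨h8.2.2.1, h9.2.2.1⟩
  · rw [D.card_w D.A_le_S (fun q => 2 * q.2.2.1 = 0) fun _ _ _ _ => D.w_mem_A]
    simp only [D.w_t, D.w_τ, D.w_x, D.w_e, D.w_y, D.w_z, D.w_f, D.w_i, D.w_one, w_inv, w_mul', w_iff, ne_eq, mem_cj,
    w_mem_A, w_mem_Ss, w_mem_V, w_mem_Z1, w_mem_Dg, w_mem_E] at h5 h6 h7
    clear hr; revert h5 h6 h7; generalize D.δ = δ; revert δ a b k c; decide +kernel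

end SFx

open SFx

/-- `C_S(E) = A` -/
theorem cent_E {s : G} (h : s ∈ D.S) (he : s * D.e = D.e * s) : s ∈ D.A := by
  obtain ⟨a, b, k, c, rfl⟩ := D.exists_w h
  simp only [D.w_t, D.w_τ, D.w_x, D.w_e, D.w_y, D.w_z, D.w_f, D.w_i, D.w_one, w_inv, w_mul', w_iff, ne_eq, mem_cj,
    w_mem_A, w_mem_Ss, w_mem_V, w_mem_Z1, w_mem_Dg, w_mem_E] at he ⊢
  clear h; revert he; generalize D.δ = δ; revert δ a b k c; decide +kernel

/-- `C_S(E') = A'` -/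
theorem cent_E' {s : G} (h : s ∈ D.S) (hf : s * D.f = D.f * s) : s ∈ cj D.x D.A := by
  obtain ⟨a, b, k, c, rfl⟩ := D.exists_w h
  simp only [D.w_t, D.w_τ, D.w_x, D.w_e, D.w_y, D.w_z, D.w_f, D.w_i, D.w_one, w_inv, w_mul', w_iff, ne_eq, mem_cj,
    w_mem_A, w_mem_Ss, w_mem_V, w_mem_Z1, w_mem_Dg, w_mem_E] at hf ⊢
  clear h; revert hf; generalize D.δ = δ; revert δ a b k c; decide +kernel

/-- `N_S(E) = S*` -/
theorem norm_E {s : G} (h : s ∈ D.S) (he : s * D.e * s⁻¹ ∈ D.A) : s ∈ D.Ss := by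
  obtain ⟨a, b, k, c, rfl⟩ := D.exists_w h
  simp only [D.w_t, D.w_τ, D.w_x, D.w_e, D.w_y, D.w_z, D.w_f, D.w_i, D.w_one, w_inv, w_mul', w_iff, ne_eq, mem_cj,
    w_mem_A, w_mem_Ss, w_mem_V, w_mem_Z1, w_mem_Dg, w_mem_E] at he ⊢
  clear h; revert he; generalize D.δ = δ; revert δ a b k c; decide +kernel

/-- `Z(S) = V` -/
theorem cent_S {s : G} (h : s ∈ D.S) (hx : s * D.x = D.x * s) (he : s * D.e = D.e * s) : s ∈ D.V := by
  obtain ⟨a, b, k, c, rfl⟩ := D.exists_w h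
  simp only [D.w_t, D.w_τ, D.w_x, D.w_e, D.w_y, D.w_z, D.w_f, D.w_i, D.w_one, w_inv, w_mul', w_iff, ne_eq, mem_cj,
    w_mem_A, w_mem_Ss, w_mem_V, w_mem_Z1, w_mem_Dg, w_mem_E] at hx he ⊢
  clear h; revert hx he; generalize D.δ = δ; revert δ a b k c; decide +kernel

/-- `Z(S*) = ⟨t⟩ Z₁` -/
theorem cent_Ss {s : G} (h : s ∈ D.S) (he : s * D.e = D.e * s) (hf : s * D.f = D.f * s) :
    s ∈ D.Z1 ∨ D.t * s ∈ D.Z1 := by
  obtain ⟨a, b, k, c, rfl⟩ := D.exists_w h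
  simp only [D.w_t, D.w_τ, D.w_x, D.w_e, D.w_y, D.w_z, D.w_f, D.w_i, D.w_one, w_inv, w_mul', w_iff, ne_eq, mem_cj,
    w_mem_A, w_mem_Ss, w_mem_V, w_mem_Z1, w_mem_Dg, w_mem_E] at he hf ⊢
  clear h; revert he hf; generalize D.δ = δ; revert δ a b k c; decide +kernel

/-- commutators in `S*` -/
theorem comm_Ss {s s' : G} (h : s ∈ D.Ss) (h' : s' ∈ D.Ss) : s * s' * s⁻¹ = s' ∨ s * s' * s⁻¹ = s' * D.z := by
  obtain ⟨a, b, k, c, rfl⟩ := D.exists_w (D.Ss_le_S h)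
  obtain ⟨a', b', k', c', rfl⟩ := D.exists_w (D.Ss_le_S h')
  simp only [D.w_t, D.w_τ, D.w_x, D.w_e, D.w_y, D.w_z, D.w_f, D.w_i, D.w_one, w_inv, w_mul', w_iff, ne_eq, mem_cj,
    w_mem_A, w_mem_Ss, w_mem_V, w_mem_Z1, w_mem_Dg, w_mem_E] at h h' ⊢
  revert h h'; generalize D.δ = δ; revert δ a b k c a' b' k' c'; decide +kernel

/-- `C_S(Q) = ⟨t, τ y⟩` -/
theorem cent_Q (hτ : D.τ ≠ 1) {s : G} (h : s ∈ D.S) (hy : s * D.y = D.y * s) (hi : s * D.i = D.i * s) :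
    s ∈ closure {D.t, D.τ * D.y} := by
  obtain ⟨a, b, k, c, rfl⟩ := D.exists_w h
  have : ∃ j : ZMod 4, D.w a b k c = D.t ^ a.val * (D.τ * D.y) ^ j.val := by
    simp only [t_pow, τy_pow]
    simp only [D.δ_one.2 hτ, D.w_t, D.w_τ, D.w_x, D.w_e, D.w_y, D.w_z, D.w_f, D.w_i, D.w_one, w_inv, w_mul', w_iff, ne_eq, mem_cj,
    w_mem_A, w_mem_Ss, w_mem_V, w_mem_Z1, w_mem_Dg, w_mem_E] at hy hi ⊢
    clear h; revert a b k c; decide +kernel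
  obtain ⟨j, e⟩ := this
  rw [e]
  exact mul_mem (pow_mem (subset_closure (by simp)) _) (pow_mem (subset_closure (by simp)) _)

theorem mem_CQ (hτ : D.τ ≠ 1) {s : G} :
    s ∈ closure {D.t, D.τ * D.y} ↔ ∃ a : ZMod 2, ∃ k : ZMod 4, s = D.t ^ a.val * (D.τ * D.y) ^ k.val := by
  refine ⟨fun h => ?_, fun ⟨a, k, e⟩ =>
    e ▸ mul_mem (pow_mem (subset_closure (by simp)) _) (pow_mem (subset_closure (by simp)) _)⟩
  have h1 := D.of_closure (T := {D.t, D.τ * D.y})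
    (fun δ _ b k c => c = 0 ∧ 4 * k = 0 ∧ (δ = 1 → (b = 0 ↔ 2 * k = 0))) (by decide +kernel) (by decide)
    (by decide +kernel) (by decide +kernel) (by
      rintro _ (rfl | rfl)
      · exact ⟨_, _, _, _, by simp, D.w_t⟩
      · exact ⟨0, (1 : ℕ), 2 * (1 : ℕ), 0, ⟨rfl, by decide, fun _ => by decide⟩, by rw [← τy_pow, pow_one]⟩)
  obtain ⟨a, b, k, c, rfl⟩ := h1.1 s h
  have h2 := h1.2 a b k c h
  simp only [t_pow, τy_pow]
  simp only [D.δ_one.2 hτ, w_mul', w_iff] at h2 ⊢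
  clear h1 h; revert a b k c; decide +kernel

/-- the elements of order 4 of `D` lie in `Q` -/
theorem mem_Q {d : G} (h : d ∈ D.Dg) (h4 : d ^ 4 = 1) (h2 : d * d ≠ 1) : d ∈ closure {D.y, D.i} := by
  obtain ⟨k, c, rfl⟩ := D.mem_Dg.1 h
  have : ∃ j : ZMod 8, D.w 0 0 k c = D.y ^ j.val ∨ D.w 0 0 k c = D.y ^ j.val * D.i := by
    simp only [y_pow]
    simp only [p4, D.w_t, D.w_τ, D.w_x, D.w_e, D.w_y, D.w_z, D.w_f, D.w_i, D.w_one, w_inv, w_mul', w_iff, ne_eq, mem_cj,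
    w_mem_A, w_mem_Ss, w_mem_V, w_mem_Z1, w_mem_Dg, w_mem_E] at h4 h2 ⊢
    clear h; revert h4 h2; generalize D.δ = δ; revert δ k c; decide +kernel
  obtain ⟨j, e | e⟩ := this <;> rw [e]
  exacts [pow_mem (subset_closure (by simp)) _, mul_mem (pow_mem (subset_closure (by simp)) _) (subset_closure (by simp))]

/-- an element of `S` centralizing two non-commuting elements of order 4 of `D` centralizes `Q` -/
theorem cent_Q' {d d' s : G} (h : d ∈ D.Dg) (h' : d' ∈ D.Dg) (h4 : d ^ 4 = 1) (h2 : d * d ≠ 1) (h4' : d' ^ 4 = 1)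
    (h2' : d' * d' ≠ 1) (hn : d * d' ≠ d' * d) (hs : s * d = d * s) (hs' : s * d' = d' * s) :
    s * D.y = D.y * s ∧ s * D.i = D.i * s := by
  have key : ∀ v, v = D.y ∨ v = D.i → v = d ∨ v = d⁻¹ ∨ v = d' ∨ v = d'⁻¹ ∨ v = d * d' ∨ v = (d * d')⁻¹ := by
    obtain ⟨k, c, rfl⟩ := D.mem_Dg.1 h
    obtain ⟨k', c', rfl⟩ := D.mem_Dg.1 h'
    clear hs hs' h h'
    rintro _ (rfl | rfl) <;>
    · simp only [p4, D.w_t, D.w_τ, D.w_x, D.w_e, D.w_y, D.w_z, D.w_f, D.w_i, D.w_one, w_inv, w_mul', w_iff, ne_eq, mem_cj,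
    w_mem_A, w_mem_Ss, w_mem_V, w_mem_Z1, w_mem_Dg, w_mem_E] at h4 h2 h4' h2' hn ⊢
      revert h4 h2 h4' h2' hn; generalize D.δ = δ; revert δ k c k' c'; decide +kernel
  have c1 : Commute s d := hs
  have c2 : Commute s d' := hs'
  have c3 : ∀ v, v = D.y ∨ v = D.i → Commute s v := fun v hv => by
    rcases key v hv with e | e | e | e | e | e <;> rw [e]
    exacts [c1, c1.inv_right, c2, c2.inv_right, c1.mul_right c2, (c1.mul_right c2).inv_right]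
  exact ⟨c3 _ (.inl rfl), c3 _ (.inr rfl)⟩

theorem inv_Dg {d : G} (h : d ∈ D.Dg) (h2 : d * d = 1) :
    d = 1 ∨ d = D.z ∨ d = D.e ∨ d = D.e * D.z ∨ d = D.f ∨ d = D.f * D.z := by
  obtain ⟨k, c, rfl⟩ := D.mem_Dg.1 h
  simp only [D.w_t, D.w_τ, D.w_x, D.w_e, D.w_y, D.w_z, D.w_f, D.w_i, D.w_one, w_inv, w_mul', w_iff, ne_eq, mem_cj,
    w_mem_A, w_mem_Ss, w_mem_V, w_mem_Z1, w_mem_Dg, w_mem_E] at h2 ⊢
  clear h; revert h2; generalize D.δ = δ; revert δ k c; decide +kernel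

/-- involutions of `τ D` -/
theorem inv_τDg (hτ : D.τ ≠ 1) {d : G} (h : d ∈ D.Dg) (h2 : D.τ * d * (D.τ * d) = 1) :
    d ∈ D.E ∨ d = D.f ∨ d = D.f * D.z ∨ ∃ k : ℕ, d = D.i * D.y ^ k := by
  obtain ⟨k, c, rfl⟩ := D.mem_Dg.1 h
  have : D.w 0 0 k c ∈ D.E ∨ D.w 0 0 k c = D.f ∨ D.w 0 0 k c = D.f * D.z ∨
      ∃ j : ZMod 8, D.w 0 0 k c = D.i * D.y ^ j.val := by
    simp only [y_pow]
    simp only [D.δ_one.2 hτ, D.w_t, D.w_τ, D.w_x, D.w_e, D.w_y, D.w_z, D.w_f, D.w_i, D.w_one, w_inv, w_mul', w_iff, ne_eq, mem_cj,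
    w_mem_A, w_mem_Ss, w_mem_V, w_mem_Z1, w_mem_Dg, w_mem_E] at h2 ⊢
    clear h; revert k c; decide +kernel
  exact this.imp_right (Or.imp_right (Or.imp_right fun ⟨j, e⟩ => ⟨_, e⟩))

theorem coset_Dg {s : G} (h : s ∈ D.S) : s ∈ D.Dg ∨ D.t * s ∈ D.Dg ∨ D.τ * s ∈ D.Dg ∨ D.t * D.τ * s ∈ D.Dg := by
  obtain ⟨a, b, k, c, rfl⟩ := D.exists_w h
  simp only [D.w_t, D.w_τ, D.w_x, D.w_e, D.w_y, D.w_z, D.w_f, D.w_i, D.w_one, w_inv, w_mul', w_iff, ne_eq, mem_cj,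
    w_mem_A, w_mem_Ss, w_mem_V, w_mem_Z1, w_mem_Dg, w_mem_E]
  clear h; generalize D.δ = δ; revert δ a b k c; decide +kernel

/-- four-groups of `D` -/
theorem four_Dg {F : Subgroup G} (h : F ≤ D.Dg) (h2 : ∀ v ∈ F, v * v = 1) (h4 : 4 ≤ Nat.card F) :
    F = D.E ∨ F = cj D.x D.E := by
  by_cases h3 : F ≤ D.E
  · exact .inl (eq_of_le_of_card_ge h3 (D.card_E.trans_le h4))
  by_cases h5 : F ≤ cj D.x D.E
  · exact .inr (eq_of_le_of_card_ge h5 (((card_cj _ _).trans D.card_E).trans_le h4))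
  obtain ⟨r, hr, h6, h7⟩ := exists_out h3 h5
  obtain ⟨k, c, rfl⟩ := D.mem_Dg.1 (h hr)
  have h8 := h2 _ hr
  simp only [D.w_t, D.w_τ, D.w_x, D.w_e, D.w_y, D.w_z, D.w_f, D.w_i, D.w_one, w_inv, w_mul', w_iff, ne_eq, mem_cj,
    w_mem_A, w_mem_Ss, w_mem_V, w_mem_Z1, w_mem_Dg, w_mem_E] at h6 h7 h8
  exfalso
  clear hr; revert h6 h7 h8; generalize D.δ = δ; revert δ k c; decide +kernel

/-- elementary abelian subgroups of `S` -/
theorem elab_le {X : Subgroup G} (h : X ≤ D.S) (h2 : ∀ v ∈ X, v * v = 1) : Nat.card X ≤ Nat.card D.A := by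
  rcases elab_key D h h2 with h3 | h3 | h3
  exacts [card_le_of_le h3, (card_le_of_le h3).trans_eq (card_cj _ _), h3.le]

theorem elab_eq {X : Subgroup G} (h : X ≤ D.S) (h2 : ∀ v ∈ X, v * v = 1) (hc : Nat.card D.A ≤ Nat.card X) :
    X = D.A ∨ X = cj D.x D.A := by
  rcases elab_key D h h2 with h3 | h3 | h3
  exacts [.inl (eq_of_le_of_card_ge h3 hc), .inr (eq_of_le_of_card_ge h3 ((card_cj _ _).trans_le hc)),
    absurd hc h3.not_ge]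

theorem cj_x_cj_x : cj D.x (cj D.x D.A) = D.A := by
  ext s
  refine D.iff_of_S (cj_le_S D (cj_le_S D D.A_le_S) ·) (D.A_le_S ·) fun h => ?_
  obtain ⟨a, b, k, c, rfl⟩ := D.exists_w h
  simp only [D.w_t, D.w_τ, D.w_x, D.w_e, D.w_y, D.w_z, D.w_f, D.w_i, D.w_one, w_inv, w_mul', w_iff, ne_eq, mem_cj,
    w_mem_A, w_mem_Ss, w_mem_V, w_mem_Z1, w_mem_Dg, w_mem_E]
  clear h; generalize D.δ = δ; revert δ a b k c; decide +kernel
theorem cj_x_ne : cj D.x D.A ≠ D.A := fun h => by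
  have h1 : D.e ∈ cj D.x D.A := by rw [h]; exact subset_closure (by simp)
  simp only [D.w_t, D.w_τ, D.w_x, D.w_e, D.w_y, D.w_z, D.w_f, D.w_i, D.w_one, w_inv, w_mul', w_iff, ne_eq, mem_cj,
    w_mem_A, w_mem_Ss, w_mem_V, w_mem_Z1, w_mem_Dg, w_mem_E] at h1
  clear h; revert h1; generalize D.δ = δ; revert δ; decide +kernel
theorem cj_x_le : cj D.x D.A ≤ D.Ss := by
  intro s h
  obtain ⟨a, b, k, c, rfl⟩ := D.exists_w (cj_le_S D D.A_le_S h)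
  simp only [D.w_t, D.w_τ, D.w_x, D.w_e, D.w_y, D.w_z, D.w_f, D.w_i, D.w_one, w_inv, w_mul', w_iff, ne_eq, mem_cj,
    w_mem_A, w_mem_Ss, w_mem_V, w_mem_Z1, w_mem_Dg, w_mem_E] at h ⊢
  revert h; generalize D.δ = δ; revert δ a b k c; decide +kernel
theorem Ss_norm : D.S ≤ normalizer (D.Ss : Set G) := by
  refine fun s h => mem_normalizer_of_forall fun v hv => ?_
  obtain ⟨a, b, k, c, rfl⟩ := D.exists_w h
  obtain ⟨a', b', k', c', rfl⟩ := D.exists_w (D.Ss_le_S hv)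
  simp only [D.w_t, D.w_τ, D.w_x, D.w_e, D.w_y, D.w_z, D.w_f, D.w_i, D.w_one, w_inv, w_mul', w_iff, ne_eq, mem_cj,
    w_mem_A, w_mem_Ss, w_mem_V, w_mem_Z1, w_mem_Dg, w_mem_E] at hv ⊢
  clear h; revert hv; generalize D.δ = δ; revert δ a b k c a' b' k' c'; decide +kernel
theorem Ss_norm_A : D.Ss ≤ normalizer (D.A : Set G) := by
  refine fun s h => mem_normalizer_of_forall fun v hv => ?_
  obtain ⟨a, b, k, c, rfl⟩ := D.exists_w (D.Ss_le_S h)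
  obtain ⟨a', b', k', c', rfl⟩ := D.exists_w (D.A_le_S hv)
  simp only [D.w_t, D.w_τ, D.w_x, D.w_e, D.w_y, D.w_z, D.w_f, D.w_i, D.w_one, w_inv, w_mul', w_iff, ne_eq, mem_cj,
    w_mem_A, w_mem_Ss, w_mem_V, w_mem_Z1, w_mem_Dg, w_mem_E] at h hv ⊢
  revert h hv; generalize D.δ = δ; revert δ a b k c a' b' k' c'; decide +kernel

/-- elements of order 8 -/
theorem ord8 {r : G} (h : r ∈ D.S) (h4 : r ^ 4 ≠ 1) :
    r ^ 4 = D.z ∧ (∀ v ∈ D.S, v * v = 1 → v * r = r * v → v ∈ D.V) ∧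
      (D.τ = 1 → ∀ v ∈ D.S, v * r * v⁻¹ ≠ r⁻¹) := by
  obtain ⟨a, b, k, c, rfl⟩ := D.exists_w h
  rw [← D.δ_zero]
  refine ⟨?_, fun v hv => ?_, fun h0 v hv => ?_⟩
  · simp only [p4, D.w_t, D.w_τ, D.w_x, D.w_e, D.w_y, D.w_z, D.w_f, D.w_i, D.w_one, w_inv, w_mul', w_iff, ne_eq, mem_cj,
    w_mem_A, w_mem_Ss, w_mem_V, w_mem_Z1, w_mem_Dg, w_mem_E] at h4 ⊢
    clear h; revert h4; generalize D.δ = δ; revert δ a b k c; decide +kernel
  · obtain ⟨a', b', k', c', rfl⟩ := D.exists_w hv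
    simp only [p4, D.w_t, D.w_τ, D.w_x, D.w_e, D.w_y, D.w_z, D.w_f, D.w_i, D.w_one, w_inv, w_mul', w_iff, ne_eq, mem_cj,
    w_mem_A, w_mem_Ss, w_mem_V, w_mem_Z1, w_mem_Dg, w_mem_E] at h4 ⊢
    clear h hv; revert h4; generalize D.δ = δ; revert δ a b k c a' b' k' c'; decide +kernel
  · obtain ⟨a', b', k', c', rfl⟩ := D.exists_w hv
    simp only [h0, p4, D.w_t, D.w_τ, D.w_x, D.w_e, D.w_y, D.w_z, D.w_f, D.w_i, D.w_one, w_inv, w_mul', w_iff, ne_eq, mem_cj,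
    w_mem_A, w_mem_Ss, w_mem_V, w_mem_Z1, w_mem_Dg, w_mem_E] at h4 ⊢
    clear h hv; revert a b k c a' b' k' c'; decide +kernel

end Fr

end CfsgLib.L33
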