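import Mathlib
import Cfsg.Agent.Lib.L33.Tool
import Cfsg.Agent.Lib.L33.SF

/-! Involution centralizers with a 2-component of type `L₃(3)` (plans/L33.md, package SYL). -/

set_option autoImplicit false
set_option linter.unusedSectionVars false

namespace CfsgLib.L33

open Subgroup CfsgLib.Tech

variable {G : Type*} [Group G] [Finite G]

namespace Fr

variable (D : Fr G)

theorem two_S : IsPGroup 2 D.S := D.syl.pgroup

local instance syl_fact : Fact (Nat.Prime 2) := ⟨Nat.prime_two⟩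

theorem syl_S_le : D.S ≤ centralizer {D.t} := D.syl.le

theorem syl_A_le : D.A ≤ D.S := D.A_le_Ss.trans D.Ss_le_S

theorem syl_two_A : IsPGroup 2 D.A := D.two_S.to_le D.syl_A_le

theorem syl_xS : D.x ∈ D.S := subset_closure (by simp)

theorem syl_tA : D.t ∈ D.A := subset_closure (by simp)

theorem syl_τA : D.τ ∈ D.A := subset_closure (by simp)

theorem syl_zA : D.z ∈ D.A := subset_closure (by simp)

theorem syl_eA : D.e ∈ D.A := subset_closure (by simp)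

theorem syl_conj {R : Subgroup G} (hR : IsPGroup 2 R) (h : R ≤ centralizer {D.t}) :
    ∃ h ∈ centralizer {D.t}, ∀ v ∈ R, h * v * h⁻¹ ∈ D.S := by
  obtain ⟨g, hg, hle⟩ := D.syl.exists_cj_le hR h
  exact ⟨g, hg, cj_le_iff.1 hle⟩

theorem syl_rep {h : G} (hh : h ∈ centralizer {D.t}) : ∃ k ∈ D.A, k * h ∈ D.L := by
  rcases D.HL h hh with h1 | h1 | h1 | h1
  · exact ⟨1, one_mem _, by rwa [one_mul]⟩
  · exact ⟨_, D.syl_tA, h1⟩
  · exact ⟨_, D.syl_τA, h1⟩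
  · exact ⟨_, mul_mem D.syl_tA D.syl_τA, h1⟩

omit [Finite G] in
theorem syl_comm_conj {g a b : G} (h : a * b = b * a) : g * a * g⁻¹ * (g * b * g⁻¹) = g * b * g⁻¹ * (g * a * g⁻¹) := by
  calc g * a * g⁻¹ * (g * b * g⁻¹) = g * (a * b) * g⁻¹ := by group
    _ = _ := by rw [h]; group

omit [Finite G] in
theorem syl_sq_conj {g a : G} (h : a * a = 1) : g * a * g⁻¹ * (g * a * g⁻¹) = 1 := by
  calc g * a * g⁻¹ * (g * a * g⁻¹) = g * (a * a) * g⁻¹ := by group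
    _ = _ := by rw [h]; group

theorem syl_elab_cj (g : G) {X : Subgroup G} (h2 : ∀ v ∈ X, v * v = 1) : ∀ v ∈ cj g X, v * v = 1 := fun v hv => by
  have := syl_sq_conj (g := g) (h2 _ (mem_cj.1 hv))
  rwa [show g * (g⁻¹ * v * g) * g⁻¹ = v by group] at this

theorem syl_le_of_cj {g : G} {R K K' : Subgroup G} (hK : K ≤ R) (h : cj g R ≤ K') (hc : Nat.card K' = Nat.card K) :
    R ≤ K := by
  have h1 := card_le_of_le h
  rw [card_cj, hc] at h1
  exact (eq_of_le_of_card_ge hK h1).ge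

theorem mem_S_of {P : Subgroup G} (hP : IsPGroup 2 P) (h : D.S ≤ P) {g : G} (hg : g ∈ P) (ht : g * D.t = D.t * g) :
    g ∈ D.S := by
  have h1 := D.syl.eq_of_le (Q := P ⊓ centralizer {D.t}) hP.to_inf_left (le_inf h D.syl.le) inf_le_right
  show g ∈ closure {D.t, D.τ, D.x, D.e}
  rw [← h1]
  exact mem_inf.2 ⟨hg, mem_centralizer_singleton_iff.2 ht⟩

/-- 2-subgroups centralizing a conjugate of `t` -/
theorem exists_conj_S {s : G} (hs : IsConj D.t s) {X : Subgroup G} (hX : IsPGroup 2 X)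
    (hc : ∀ v ∈ X, v * s = s * v) : ∃ g : G, g * s * g⁻¹ = D.t ∧ ∀ v ∈ X, g * v * g⁻¹ ∈ D.S := by
  obtain ⟨c, hc'⟩ := isConj_iff.1 hs
  obtain ⟨h, hh, hle⟩ := D.syl_conj (isPGroup_cj c⁻¹ hX) (cj_le_iff.2 fun v hv => mem_centralizer_singleton_iff.2 (by
    have := syl_comm_conj (g := c⁻¹) (hc v hv)
    rwa [← hc', show c⁻¹ * (c * D.t * c⁻¹) * c⁻¹⁻¹ = D.t by group] at this))
  refine ⟨h * c⁻¹, ?_, fun v hv => ?_⟩
  · rw [← hc', show h * c⁻¹ * (c * D.t * c⁻¹) * (h * c⁻¹)⁻¹ = h * D.t * h⁻¹ by group,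
      mem_centralizer_singleton_iff.1 hh, mul_inv_cancel_right]
  · rw [show h * c⁻¹ * v * (h * c⁻¹)⁻¹ = h * (c⁻¹ * v * c⁻¹⁻¹) * h⁻¹ by group]
    exact hle _ (conj_mem_cj.2 hv)

theorem card_le_S {s : G} (hs : IsConj D.t s) {X : Subgroup G} (hX : IsPGroup 2 X) (hc : ∀ v ∈ X, v * s = s * v) :
    Nat.card X ≤ 4 * Nat.card D.A := by
  obtain ⟨g, -, hg⟩ := D.exists_conj_S hs hX hc
  rw [← D.card_S, ← card_cj g X]
  exact card_le_of_le (cj_le_iff.2 hg)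

/-- a central element outside the four-group `Z(S)` halves the bound -/
theorem card_le_half {s : G} (hs : IsConj D.t s) {X : Subgroup G} (hX : IsPGroup 2 X) (hc : ∀ v ∈ X, v * s = s * v)
    {Z : Subgroup G} (hZ : Z ≤ X) (hZc : ∀ v ∈ X, ∀ c ∈ Z, v * c = c * v)
    (h : 4 < Nat.card Z ∨ ∃ c ∈ Z, c * c ≠ 1) : Nat.card X ≤ 2 * Nat.card D.A := by
  obtain ⟨g, -, hg⟩ := D.exists_conj_S hs hX hc
  by_cases hS : D.S ≤ cj g X
  · exfalso
    have hV : ∀ c ∈ Z, g * c * g⁻¹ ∈ D.V := by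
      intro c hcZ
      have key : ∀ v ∈ D.S, g * c * g⁻¹ * v = v * (g * c * g⁻¹) := fun v hv => by
        have := syl_comm_conj (g := g) (hZc _ (mem_cj.1 (hS hv)) c hcZ)
        rw [show g * (g⁻¹ * v * g) * g⁻¹ = v by group] at this
        exact this.symm
      exact D.cent_S (hg c (hZ hcZ)) (key _ D.syl_xS) (key _ (D.syl_A_le D.syl_eA))
    have hVA : D.V ≤ D.A := (closure_le _).2 (by
      rintro v (rfl | rfl)
      exacts [D.syl_tA, D.syl_zA])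
    rcases h with h | ⟨c, hcZ, h⟩
    · have h1 := card_le_of_le (cj_le_iff.2 hV)
      have h2 : Nat.card D.V ≤ 4 := by
        rw [← SetLike.coe_sort_coe, Nat.card_coe_set_eq]
        refine (Set.ncard_le_ncard (t := {1, D.t, D.z, D.t * D.z}) (fun v hv => D.mem_V.1 hv)
          (Set.toFinite _)).trans ?_
        refine (Set.ncard_insert_le _ _).trans (Nat.succ_le_succ ((Set.ncard_insert_le _ _).trans
          (Nat.succ_le_succ ((Set.ncard_insert_le _ _).trans (by simp)))))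
      rw [card_cj] at h1
      omega
    · have := syl_sq_conj (g := g⁻¹) (D.A_sq (hVA (hV c hcZ)))
      exact h (by rwa [show g⁻¹ * (g * c * g⁻¹) * g⁻¹⁻¹ = c by group] at this)
  · obtain ⟨u, hu, hu'⟩ := SetLike.not_le_iff_exists.1 hS
    have := two_mul_card_le (cj_le_iff.2 hg) hu hu'
    rw [card_cj, D.card_S] at this
    omega

theorem elab_le_conj {s : G} (hs : IsConj D.t s) {X : Subgroup G} (h2 : ∀ v ∈ X, v * v = 1) (hsX : s ∈ X) :
    Nat.card X ≤ Nat.card D.A := by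
  have hi : ∀ v ∈ X, v⁻¹ = v := fun v hv => inv_eq_of_mul_eq_one_right (h2 v hv)
  obtain ⟨g, -, hg⟩ := D.exists_conj_S hs (X := X)
    (isPGroup_iff_mem.2 fun v hv => ⟨1, by rw [pow_one, pow_two, h2 v hv]⟩) (fun v hv => by
      have := hi _ (mul_mem hv hsX)
      rw [mul_inv_rev, hi v hv, hi s hsX] at this
      exact this.symm)
  rw [← card_cj g X]
  exact D.elab_le (cj_le_iff.2 hg) (syl_elab_cj g h2)

theorem conj_sq {s : G} (hs : IsConj D.t s) : s * s = 1 := by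
  obtain ⟨c, rfl⟩ := isConj_iff.1 hs
  exact syl_sq_conj D.tt
theorem conj_ne {s : G} (hs : IsConj D.t s) : s ≠ 1 := by
  rintro rfl
  exact D.rel.t1 (isConj_one_left.1 hs)
theorem not_sq {s : G} (hs : IsConj D.t s) (g : G) : g * g ≠ s := by
  obtain ⟨c, rfl⟩ := isConj_iff.1 hs
  intro hg
  have h1 : c⁻¹ * g * c * (c⁻¹ * g * c) = D.t := by
    rw [show c⁻¹ * g * c * (c⁻¹ * g * c) = c⁻¹ * (g * g) * c by group, hg]; group
  generalize c⁻¹ * g * c = h at h1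
  obtain ⟨k, hk, hL⟩ := D.syl_rep (h := h) (mem_centralizer_singleton_iff.2 (by rw [← h1]; group))
  refine D.tL ?_
  have hkk := D.A_sq hk
  have hki : k⁻¹ = k := inv_eq_of_mul_eq_one_right hkk
  have : h * h = k * (k * h) * k⁻¹ * (k * h) := by
    rw [← mul_assoc k k h, hkk]; group
  rw [← h1, this]
  exact mul_mem (D.Ln k (D.syl_S_le (D.syl_A_le hk)) _ hL) hL
theorem conj_z_of_inv {d : G} (h : d ∈ D.Dg) (h2 : d * d = 1) (h1 : d ≠ 1) :
    ∃ l ∈ D.L, l * D.z * l⁻¹ = d := by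
  obtain ⟨θ, hθ, h3, h4⟩ := D.θ0
  replace h3 : θ * D.z * θ⁻¹ = D.e := h3
  replace h4 : θ * D.e * θ⁻¹ = D.e * D.z := h4
  have h5 : θ * θ * D.z * (θ * θ)⁻¹ = D.e * D.z := by rw [← h4, ← h3]; group
  rcases D.inv_Dg h h2 with rfl | rfl | rfl | rfl | rfl | rfl
  · exact absurd rfl h1
  · exact ⟨1, one_mem _, by group⟩
  · exact ⟨θ, hθ, h3⟩
  · exact ⟨θ * θ, mul_mem hθ hθ, h5⟩
  · exact ⟨D.x * θ, mul_mem D.xL hθ, by rw [← D.xe, ← h3]; group⟩
  · refine ⟨D.x * (θ * θ), mul_mem D.xL (mul_mem hθ hθ), ?_⟩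
    calc D.x * (θ * θ) * D.z * (D.x * (θ * θ))⁻¹ = D.x * (θ * θ * D.z * (θ * θ)⁻¹) * D.x⁻¹ := by group
      _ = D.x * D.e * D.x⁻¹ * (D.x * D.z) * D.x⁻¹ := by rw [h5]; group
      _ = _ := by rw [D.xe, ← D.c_zx]; group
theorem not_conj_Dg {d : G} (h : d ∈ D.Dg) : ¬ IsConj D.t d := by
  intro hs
  obtain ⟨l, -, hl⟩ := D.conj_z_of_inv h (D.conj_sq hs) (D.conj_ne hs)
  exact D.not_sq hs (l * D.y * l⁻¹) (by rw [← hl, ← D.yy]; group)
theorem conj_t_mul {d : G} (h : d ∈ D.Dg) (h2 : d * d = 1) : IsConj D.t (D.t * d) := by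
  by_cases h1 : d = 1
  · rw [h1, mul_one]
  obtain ⟨l, hL, hl⟩ := D.conj_z_of_inv h h2 h1
  refine D.tz.trans (isConj_iff.2 ⟨l, ?_⟩)
  have := mem_centralizer_singleton_iff.1 (D.LH hL)
  rw [← hl, ← mul_assoc l, this]
  show _ = D.t * (l * D.x ^ 4 * l⁻¹)
  group

/-- `C(t) / L` is abelian -/
theorem comm_mem_L {h s : G} (hh : h * D.t = D.t * h) (hs : s * D.t = D.t * s) : h * s * h⁻¹ * s⁻¹ ∈ D.L := by
  obtain ⟨k, hk, ha⟩ := D.syl_rep (mem_centralizer_singleton_iff.2 hh)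
  obtain ⟨k', hk', hb⟩ := D.syl_rep (mem_centralizer_singleton_iff.2 hs)
  have c := D.A_comm hk hk'
  have hC : ∀ v ∈ D.A, v⁻¹ ∈ centralizer {D.t} := fun v hv => inv_mem (D.syl_S_le (D.syl_A_le hv))
  have : h * s * h⁻¹ * s⁻¹ = k⁻¹ * (k * h) * k⁻¹⁻¹ * ((k' * k)⁻¹ * (k' * s * (k * h)⁻¹) * (k' * k)⁻¹⁻¹) *
      (k'⁻¹ * (k' * s)⁻¹ * k'⁻¹⁻¹) := by
    rw [inv_inv (k' * k), ← c]; nth_rewrite 1 [c]; group
  rw [this]
  exact mul_mem (mul_mem (D.Ln _ (hC k hk) _ ha) (D.Ln _ (hC _ (mul_mem hk' hk)) _ (mul_mem hb (inv_mem ha))))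
    (D.Ln _ (hC k' hk') _ (inv_mem hb))

theorem sylA : IsSylowIn 2 D.A (centralizer {D.t, D.z, D.e}) := by
  refine isSylowIn_of_maximal D.syl_two_A (fun v hv => mem_centralizer_iff.2 ?_) fun R hR hAR hRC => ?_
  · rintro w (rfl | rfl | rfl)
    exacts [D.A_comm D.syl_tA hv, D.A_comm D.syl_zA hv, D.A_comm D.syl_eA hv]
  obtain ⟨h, hh, hS⟩ := D.syl_conj hR (hRC.trans (centralizer_le (by simp)))
  have hEA : D.E ≤ D.A := D.E_le_A0.trans D.A0_le_A
  have hcE : ∀ r ∈ R, ∀ v ∈ cj h D.E, h * r * h⁻¹ * v = v * (h * r * h⁻¹) := by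
    intro r hr v hv
    have hz := mem_centralizer_iff.1 (hRC hr) D.z (by simp)
    have he := mem_centralizer_iff.1 (hRC hr) D.e (by simp)
    have : r * (h⁻¹ * v * h) = h⁻¹ * v * h * r := by
      rcases D.mem_E.1 (mem_cj.1 hv) with h1 | h1 | h1 | h1 <;> rw [h1]
      · simp
      · exact hz.symm
      · exact he.symm
      · rw [← mul_assoc, ← he, mul_assoc, ← hz, mul_assoc]
    have := syl_comm_conj (g := h) this
    rwa [show h * (h⁻¹ * v * h) * h⁻¹ = v by group] at this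
  have heE : D.e ∈ D.E := subset_closure (by simp)
  rcases D.four_Dg (F := cj h D.E) (cj_le_iff.2 fun v hv => D.mem_Dg_of_L (hS v (hAR (hEA hv)))
    (D.Ln h hh v (D.Dg_le_L (D.E_le_Dg hv)))) (syl_elab_cj h fun v hv => D.A_sq (hEA hv))
    (by rw [card_cj, D.card_E]) with h1 | h1
  · exact syl_le_of_cj hAR (cj_le_iff.2 fun r hr => D.cent_E (hS r hr) (hcE r hr _ (h1.ge heE))) rfl
  · refine syl_le_of_cj hAR (cj_le_iff.2 fun r hr => D.cent_E' (hS r hr) (hcE r hr _ ?_)) (card_cj _ _)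
    rw [h1, ← D.xe]
    exact conj_mem_cj.2 heE
theorem sylSs : IsSylowIn 2 D.Ss (centralizer {D.t} ⊓ normalizer (D.A : Set G)) := by
  refine isSylowIn_of_maximal (D.two_S.to_le D.Ss_le_S) (le_inf (D.Ss_le_S.trans D.syl_S_le) D.Ss_norm_A)
    fun R hR hAR hRC => ?_
  obtain ⟨h, hS, hA⟩ : ∃ h : G, (∀ v ∈ R, h * v * h⁻¹ ∈ D.S) ∧ cj h D.A = D.A := by
    obtain ⟨h, -, hS⟩ := D.syl_conj hR (hRC.trans inf_le_left)
    rcases D.elab_eq (X := cj h D.A) (cj_le_iff.2 fun v hv => hS v (hAR (D.A_le_Ss hv)))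
      (syl_elab_cj h fun v hv => D.A_sq hv) (card_cj _ _).ge with h1 | h1
    · exact ⟨h, hS, h1⟩
    · refine ⟨D.x * h, fun v hv => ?_, by rw [cj_mul, h1, D.cj_x_cj_x]⟩
      rw [show D.x * h * v * (D.x * h)⁻¹ = D.x * (h * v * h⁻¹) * D.x⁻¹ by group]
      exact mul_mem (mul_mem D.syl_xS (hS v hv)) (inv_mem D.syl_xS)
  have hN := mem_normalizer_iff_cj.2 hA
  refine syl_le_of_cj hAR (g := h) (cj_le_iff.2 fun r hr => D.norm_E (hS r hr) ?_) rfl
  exact conj_mem_of_mem_normalizer (mul_mem (mul_mem hN (mem_inf.1 (hRC hr)).2) (inv_mem hN)) D.syl_eA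
theorem sylCQ (hτ : D.τ ≠ 1) : IsSylowIn 2 (closure {D.t, D.τ * D.y}) (centralizer {D.t, D.y, D.i}) := by
  have hyD : D.y ∈ D.Dg := pow_mem (subset_closure (by simp)) 2
  have hiD : D.i ∈ D.Dg := mul_mem (subset_closure (by simp)) (subset_closure (by simp))
  have hCS : closure {D.t, D.τ * D.y} ≤ D.S := (closure_le _).2 (by
    rintro v (rfl | rfl)
    exacts [D.syl_A_le D.syl_tA, mul_mem (D.syl_A_le D.syl_τA) (D.Dg_le_S hyD)])
  have hQS : closure {D.y, D.i} ≤ D.S := (closure_le _).2 (by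
    rintro v (rfl | rfl)
    exacts [D.Dg_le_S hyD, D.Dg_le_S hiD])
  refine isSylowIn_of_maximal (D.two_S.to_le hCS) ((closure_le _).2 ?_) fun R hR hAR hRC => ?_
  · rintro v (rfl | rfl)
    · refine mem_centralizer_iff.2 ?_
      rintro w (rfl | rfl | rfl)
      exacts [rfl, D.c_ty.symm, D.c_ti.symm]
    · refine mem_centralizer_iff.2 ?_
      rintro w (rfl | rfl | rfl)
      · rw [← mul_assoc, D.c_tτ, mul_assoc, D.c_ty, mul_assoc]
      · rw [← mul_assoc, ← D.c_τy]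
      · calc D.i * (D.τ * D.y) = D.i * D.y * D.τ := by rw [D.c_τy, mul_assoc]
          _ = D.y * (D.i * D.τ * D.z) := by rw [D.yi, mul_assoc, ← D.c_τz]; group
          _ = D.τ * D.y * D.i := by rw [← D.τi hτ, D.c_τy, mul_assoc]
  have hy : ∀ r ∈ R, r * D.y = D.y * r := fun r hr => (mem_centralizer_iff.1 (hRC hr) D.y (by simp)).symm
  have hi : ∀ r ∈ R, r * D.i = D.i * r := fun r hr => (mem_centralizer_iff.1 (hRC hr) D.i (by simp)).symm
  have hP : IsPGroup 2 ↥(R ⊔ closure {D.y, D.i}) := by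
    refine IsPGroup.to_sup_of_normal_right' hR (D.two_S.to_le hQS) fun r hr => ?_
    refine centralizer_le_normalizer _ ?_
    rw [centralizer_closure]
    refine mem_centralizer_iff.2 ?_
    rintro w (rfl | rfl)
    exacts [(hy r hr).symm, (hi r hr).symm]
  obtain ⟨h, hh, hS⟩ := D.syl_conj hP (sup_le (hRC.trans (centralizer_le (by simp))) (hQS.trans D.syl_S_le))
  have hz : h * D.z * h⁻¹ ≠ 1 := fun h1 => D.z1 (by simpa using h1)
  have key : ∀ d, d * d = D.z → (h * d * h⁻¹) ^ 4 = 1 ∧ h * d * h⁻¹ * (h * d * h⁻¹) ≠ 1 := by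
    intro d hd
    have h1 : h * d * h⁻¹ * (h * d * h⁻¹) = h * D.z * h⁻¹ := by rw [← hd]; group
    refine ⟨?_, h1 ▸ hz⟩
    rw [show (4 : ℕ) = 2 * 2 from rfl, pow_mul, pow_two (h * d * h⁻¹), h1, pow_two]
    exact syl_sq_conj D.zz
  refine syl_le_of_cj hAR (g := h) (cj_le_iff.2 fun r hr => ?_) rfl
  obtain ⟨h1, h2⟩ := D.cent_Q' (d := h * D.y * h⁻¹) (d' := h * D.i * h⁻¹) (s := h * r * h⁻¹)
    (D.mem_Dg_of_L (hS _ (mem_sup_right (subset_closure (by simp)))) (D.Ln h hh _ (D.Dg_le_L hyD)))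
    (D.mem_Dg_of_L (hS _ (mem_sup_right (subset_closure (by simp)))) (D.Ln h hh _ (D.Dg_le_L hiD)))
    (key _ D.yy).1 (key _ D.yy).2 (key _ D.ii).1 (key _ D.ii).2 (fun h3 => by
      have h4 := syl_comm_conj (g := h⁻¹) h3
      rw [show h⁻¹ * (h * D.y * h⁻¹) * h⁻¹⁻¹ = D.y by group, show h⁻¹ * (h * D.i * h⁻¹) * h⁻¹⁻¹ = D.i by group,
        D.yi] at h4
      exact D.z1 (left_eq_mul.1 h4))
    (syl_comm_conj (hy r hr)) (syl_comm_conj (hi r hr))
  exact D.cent_Q hτ (hS r (mem_sup_left hr)) h1 h2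

theorem mem_A_of {P : Subgroup G} (hP : IsPGroup 2 P) (h : D.A ≤ P) {g : G} (hg : g ∈ P) (ht : g * D.t = D.t * g)
    (hz : g * D.z = D.z * g) (he : g * D.e = D.e * g) : g ∈ D.A := by
  have h1 := D.sylA.eq_of_le (Q := P ⊓ centralizer {D.t, D.z, D.e}) hP.to_inf_left (le_inf h D.sylA.le) inf_le_right
  rw [← h1]
  refine mem_inf.2 ⟨hg, mem_centralizer_iff.2 ?_⟩
  rintro w (rfl | rfl | rfl)
  exacts [ht.symm, hz.symm, he.symm]

/-- `C(A) = A × O` -/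
theorem cent_A {c : G} (h : ∀ v ∈ D.A, c * v = v * c) :
    ∃ a ∈ D.A, ∃ o, a ∈ zpowers c ∧ o ∈ zpowers c ∧ Odd (orderOf o) ∧ c = a * o := by
  obtain ⟨a, ha, o, ho, hc, h2, hodd⟩ := exists_split c
  have hC : zpowers c ≤ centralizer (D.A : Set G) := zpowers_le.2 (mem_centralizer_iff.2 fun v hv => (h v hv).symm)
  have hca := mem_centralizer_iff.1 (hC ha)
  refine ⟨a, D.mem_A_of (P := zpowers a ⊔ D.A) (IsPGroup.to_sup_of_normal_right' h2 D.syl_two_A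
    (zpowers_le.2 (centralizer_le_normalizer _ (hC ha)))) le_sup_right (mem_sup_left (mem_zpowers a))
    (hca _ D.syl_tA).symm (hca _ D.syl_zA).symm (hca _ D.syl_eA).symm, o, ha, ho, hodd, hc⟩

/-- `N(A)` controls the fusion of `t` in `A` -/
theorem fusA {s : G} (h : s ∈ D.A) (hs : IsConj D.t s) :
    ∃ g ∈ normalizer (D.A : Set G), g * D.t * g⁻¹ = s := by
  obtain ⟨g, hg, hS⟩ := D.exists_conj_S hs D.syl_two_A fun v hv => D.A_comm hv h
  rcases D.elab_eq (X := cj g D.A) (cj_le_iff.2 hS) (syl_elab_cj g fun v hv => D.A_sq hv) (card_cj _ _).ge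
    with h1 | h1
  · exact ⟨g⁻¹, inv_mem (mem_normalizer_iff_cj.2 h1), by rw [← hg]; group⟩
  · refine ⟨(D.x * g)⁻¹, inv_mem (mem_normalizer_iff_cj.2 (by rw [cj_mul, h1, D.cj_x_cj_x])), ?_⟩
    calc (D.x * g)⁻¹ * D.t * (D.x * g)⁻¹⁻¹ = g⁻¹ * D.x⁻¹ * (D.t * D.x) * g := by group
      _ = g⁻¹ * D.t * g := by rw [D.c_tx]; group
      _ = s := by rw [← hg]; group

end Fr

end CfsgLib.L33
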