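import Mathlib
import Cfsg.Agent.Lib.L33.Syl

/-! Involution centralizers with a 2-component of type `L₃(3)` (plans/L33.md, package NRM). -/

set_option autoImplicit false
set_option maxHeartbeats 400000
set_option linter.unusedSectionVars false

namespace CfsgLib.L33

open Subgroup CfsgLib.Tech

variable {G : Type*} [Group G] [Finite G]

namespace Fr

variable (D : Fr G)

namespace Nrm

theorem cj2 (a b x : G) : a * b * x * (a * b)⁻¹ = a * (b * x * b⁻¹) * a⁻¹ := by group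

theorem cjm (g a b : G) : g * (a * b) * g⁻¹ = g * a * g⁻¹ * (g * b * g⁻¹) := by group

theorem fix {g a : G} (h : g * a = a * g) : g * a * g⁻¹ = a := mul_inv_eq_iff_eq_mul.2 h

theorem com {g a : G} (h : g * a * g⁻¹ = a) : g * a = a * g := mul_inv_eq_iff_eq_mul.1 h

theorem com_mul {g h a : G} (h1 : g * a = a * g) (h2 : h * a = a * h) : g * h * a = a * (g * h) :=
  (Commute.mul_left h1 h2 : Commute _ _)

theorem com_inv {g a : G} (h1 : g * a = a * g) : g⁻¹ * a = a * g⁻¹ := (Commute.inv_left h1 : Commute _ _)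

theorem com_pow {g a : G} (h1 : g * a = a * g) (n : ℕ) : g ^ n * a = a * g ^ n := (Commute.pow_left h1 n : Commute _ _)

theorem com_zp {g a c : G} (h1 : g * a = a * g) (hc : c ∈ zpowers g) : c * a = a * c := by
  obtain ⟨n, rfl⟩ := mem_zpowers_iff.1 hc
  exact (Commute.zpow_left h1 n : Commute _ _)

/-- `k⁻¹ g` centralizes `a` -/
theorem com_of_eq {g k a : G} (h : k * a * k⁻¹ = g * a * g⁻¹) : k⁻¹ * g * a = a * (k⁻¹ * g) :=
  com (by rw [cj2, ← h]; group)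

theorem eq_of_com {g k a : G} (h : k⁻¹ * g * a = a * (k⁻¹ * g)) : g * a * g⁻¹ = k * a * k⁻¹ := by
  calc g * a * g⁻¹ = k * (k⁻¹ * g * a * (k⁻¹ * g)⁻¹) * k⁻¹ := by group
    _ = _ := by rw [fix h]

theorem z2 (a : ZMod 2) : a = 0 ∨ a = 1 := by revert a; decide

theorem norm_cent {X : Set G} {g : G} (h : ∀ c ∈ centralizer X, ∀ x ∈ X, g * x * g⁻¹ * c = c * (g * x * g⁻¹)) :
    g ∈ normalizer ((centralizer X : Subgroup G) : Set G) := by
  rw [← inv_mem_iff]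
  refine mem_normalizer_of_forall fun c hc x hx => ?_
  calc x * (g⁻¹ * c * g⁻¹⁻¹) = g⁻¹ * (g * x * g⁻¹ * c) * g := by group
    _ = _ := by rw [h c hc x hx]; group

theorem t_A : D.t ∈ D.A := subset_closure (by simp)
theorem τ_A : D.τ ∈ D.A := subset_closure (by simp)
theorem z_A : D.z ∈ D.A := subset_closure (by simp)
theorem e_A : D.e ∈ D.A := subset_closure (by simp)
theorem τ_A0 : D.τ ∈ D.A0 := subset_closure (by simp)
theorem z_A0 : D.z ∈ D.A0 := subset_closure (by simp)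
theorem e_A0 : D.e ∈ D.A0 := subset_closure (by simp)
theorem z_E : D.z ∈ D.E := subset_closure (by simp)
theorem e_E : D.e ∈ D.E := subset_closure (by simp)
theorem u_A (a b c d : ZMod 2) : D.u a b c d ∈ D.A := D.mem_A.2 ⟨a, b, c, d, rfl⟩
theorem u_A0 (b c d : ZMod 2) : D.u 0 b c d ∈ D.A0 := D.mem_A0.2 ⟨b, c, d, rfl⟩
theorem u_E (c d : ZMod 2) : D.u 0 0 c d ∈ D.E := D.mem_E'.2 ⟨c, d, rfl⟩
theorem E_le_A : D.E ≤ D.A := D.E_le_A0.trans D.A0_le_A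
theorem E_le_L : D.E ≤ D.L := D.E_le_Dg.trans D.Dg_le_L
theorem two_A : IsPGroup 2 D.A := D.sylA.pgroup
theorem f_inv : D.f⁻¹ = D.f := inv_eq_of_mul_eq_one_right D.ff
theorem f_u (a b c d : ZMod 2) : D.f * D.u a b c d * D.f⁻¹ = D.u a b (c + d) d := by rw [f_inv, D.f_u]
theorem f_z : D.f * D.z * D.f⁻¹ = D.z := fix D.c_zf.symm
theorem f_e : D.f * D.e * D.f⁻¹ = D.e * D.z := by rw [f_inv, D.fef]
theorem f_norm : D.f ∈ normalizer (D.A : Set G) := D.Ss_norm_A (subset_closure (by simp))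
theorem u_ez : D.u 0 0 1 1 = D.e * D.z := by rw [← D.u_e, ← D.u_z, D.u_mul]; rfl
theorem e1 : D.e ≠ 1 := fun h => absurd (D.u_inj (D.u_e.trans (h.trans D.u_one.symm))).2.2.2 (by decide)
theorem ez1 : D.e * D.z ≠ 1 := fun h => absurd (D.u_inj ((u_ez D).trans (h.trans D.u_one.symm))).2.2.2 (by decide)
theorem ze : D.z ≠ D.e := fun h => absurd (D.u_inj (D.u_z.trans (h.trans D.u_e.symm))).2.2.2 (by decide)

variable {D}

theorem u_τ1 (h : D.τ = 1) (a b c d : ZMod 2) : D.u a b c d = D.u a 0 c d := by simp [Fr.u, h]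

theorem u_inj' (hτ : D.τ ≠ 1) {a b c d a' b' c' d' : ZMod 2} (h : D.u a b c d = D.u a' b' c' d') :
    a = a' ∧ b = b' ∧ c = c' ∧ d = d' :=
  let ⟨h1, h2, h3⟩ := D.u_inj h; ⟨h1, h2.resolve_right hτ, h3⟩

theorem u_pow (n a b c d : ZMod 2) : D.u a b c d ^ n.val = D.u (n * a) (n * b) (n * c) (n * d) := by
  rcases z2 n with rfl | rfl
  · simp [D.u_one]
  · simp [ZMod.val_one]

/-- the matrix of an element of `N(A)` -/
theorem conj_u {g : G} {a₁ b₁ c₁ d₁ a₂ b₂ c₂ d₂ a₃ b₃ c₃ d₃ a₄ b₄ c₄ d₄ : ZMod 2}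
    (h1 : g * D.t * g⁻¹ = D.u a₁ b₁ c₁ d₁) (h2 : g * D.τ * g⁻¹ = D.u a₂ b₂ c₂ d₂)
    (h3 : g * D.z * g⁻¹ = D.u a₃ b₃ c₃ d₃) (h4 : g * D.e * g⁻¹ = D.u a₄ b₄ c₄ d₄) (a b c d : ZMod 2) :
    g * D.u a b c d * g⁻¹ = D.u (a * a₁ + b * a₂ + c * a₃ + d * a₄) (a * b₁ + b * b₂ + c * b₃ + d * b₄)
      (a * c₁ + b * c₂ + c * c₃ + d * c₄) (a * d₁ + b * d₂ + c * d₃ + d * d₄) := by
  rw [Fr.u, cjm, cjm, cjm, ← conj_pow, ← conj_pow, ← conj_pow, ← conj_pow, h1, h2, h3, h4, u_pow, u_pow, u_pow, u_pow,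
    D.u_mul, D.u_mul, D.u_mul]

theorem cent_all {g : G} (h1 : g * D.t = D.t * g) (h2 : g * D.τ = D.τ * g) (h3 : g * D.z = D.z * g)
    (h4 : g * D.e = D.e * g) : ∀ v ∈ D.A, g * v = v * g := fun v hv => by
  have h : D.A ≤ centralizer {g} := (closure_le _).2 (by
    rintro _ (rfl | rfl | rfl | rfl)
    exacts [mem_centralizer_singleton_iff.2 h1.symm, mem_centralizer_singleton_iff.2 h2.symm,
      mem_centralizer_singleton_iff.2 h3.symm, mem_centralizer_singleton_iff.2 h4.symm])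
  exact (mem_centralizer_singleton_iff.1 (h hv)).symm

theorem cent_E {g : G} (h3 : g * D.z = D.z * g) (h4 : g * D.e = D.e * g) : ∀ v ∈ D.E, g * v = v * g := fun v hv => by
  rcases D.mem_E.1 hv with rfl | rfl | rfl | rfl
  exacts [by simp, h3, h4, (com_mul h4.symm h3.symm).symm]

theorem norm_of {K : Subgroup G} {X : Set G} (hK : K = closure X) {g : G} (h : ∀ x ∈ X, g * x * g⁻¹ ∈ K) :
    g ∈ normalizer (K : Set G) :=
  mem_normalizer_of_cj_le (by rw [map_le_iff_le_comap, hK, closure_le]; exact fun x hx => hK ▸ h x hx)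

/-- `A ∩ L = E` -/
theorem mem_E_of_L {s : G} (h : s ∈ D.A) (hL : s ∈ D.L) : s ∈ D.E := by
  obtain ⟨a, b, c, d, rfl⟩ := D.mem_A.1 h
  have h1 : D.u a b 0 0 ∈ D.L := by
    have h2 := mul_mem hL (E_le_L D (u_E D c d))
    rwa [D.u_mul, add_zero, add_zero, CharTwo.add_self_eq_zero, CharTwo.add_self_eq_zero] at h2
  by_cases hτ : D.τ = 1
  · rw [u_τ1 hτ] at h1 ⊢
    rcases z2 a with rfl | rfl
    exacts [u_E D c d, absurd (D.u_t ▸ h1) D.tL]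
  · rcases z2 a with rfl | rfl <;> rcases z2 b with rfl | rfl
    exacts [u_E D c d, absurd (D.u_τ ▸ h1) (D.τL hτ).1, absurd (D.u_t ▸ h1) D.tL,
      absurd (by rw [← D.u_t, ← D.u_τ, D.u_mul]; exact h1) (D.τL hτ).2]

theorem conj_τ_eq {h : G} (hn : h ∈ normalizer (D.A : Set G)) (ht : h * D.t = D.t * h) :
    ∃ v ∈ D.E, h * D.τ * h⁻¹ = D.τ * v := by
  refine ⟨D.τ⁻¹ * (h * D.τ * h⁻¹), mem_E_of_L (mul_mem (inv_mem (τ_A D)) (conj_mem_of_mem_normalizer hn (τ_A D))) ?_,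
    by group⟩
  simpa [mul_assoc] using D.comm_mem_L (com_inv D.c_tτ.symm) ht

theorem norm_E {h : G} (hn : h ∈ normalizer (D.A : Set G)) (ht : h * D.t = D.t * h) : h ∈ normalizer (D.E : Set G) :=
  mem_normalizer_of_forall fun v hv => mem_E_of_L (conj_mem_of_mem_normalizer hn (E_le_A D hv))
    (D.Ln h (mem_centralizer_singleton_iff.2 ht) v (E_le_L D hv))

theorem θ_ez {θ : G} (h1 : θ * D.z * θ⁻¹ = D.e) (h2 : θ * D.e * θ⁻¹ = D.e * D.z) : θ * (D.e * D.z) * θ⁻¹ = D.z := by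
  rw [cjm, h1, h2, mul_assoc, D.c_ze, ← mul_assoc, D.ee, one_mul]

theorem f_ez : D.f * (D.e * D.z) * D.f⁻¹ = D.e := by rw [cjm, f_e, f_z, mul_assoc, D.zz, mul_one]

theorem ex_k {θ : G} (hθ : D.Th0 θ) {z' e' : G} (hz : z' ∈ D.E) (he : e' ∈ D.E) (z1 : z' ≠ 1) (e1 : e' ≠ 1)
    (ne : z' ≠ e') : ∃ j : ℕ, ∃ k, (k = θ ^ j ∨ k = θ ^ j * D.f) ∧ k * D.z * k⁻¹ = z' ∧ k * D.e * k⁻¹ = e' := by
  have h3 := θ_ez hθ.θz hθ.θe
  rcases D.mem_E.1 hz with rfl | rfl | rfl | rfl <;> rcases D.mem_E.1 he with rfl | rfl | rfl | rfl <;>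
    try contradiction
  · exact ⟨0, _, Or.inl rfl, by simp, by simp⟩
  · exact ⟨0, _, Or.inr rfl, by rw [pow_zero, one_mul, f_z], by rw [pow_zero, one_mul, f_e]⟩
  · exact ⟨1, _, Or.inr rfl, by rw [pow_one, cj2, f_z, hθ.θz], by rw [pow_one, cj2, f_e, h3]⟩
  · exact ⟨1, _, Or.inl rfl, by rw [pow_one, hθ.θz], by rw [pow_one, hθ.θe]⟩
  · exact ⟨2, _, Or.inl rfl, by rw [pow_two, cj2, hθ.θz, hθ.θe], by rw [pow_two, cj2, hθ.θe, h3]⟩
  · exact ⟨2, _, Or.inr rfl, by rw [pow_two, cj2, cj2, f_z, hθ.θz, hθ.θe], by rw [pow_two, cj2, cj2, f_e, h3, hθ.θz]⟩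

theorem conj_ne_one {g a : G} (h : a ≠ 1) : g * a * g⁻¹ ≠ 1 := by simpa using h

theorem conj_ne {g a b : G} (h : a ≠ b) : g * a * g⁻¹ ≠ g * b * g⁻¹ := by simpa using h

theorem k_mem {θ k : G} {j : ℕ} (h : k = θ ^ j ∨ k = θ ^ j * D.f) : k ∈ closure {θ, D.f} := by
  have h1 : θ ^ j ∈ closure {θ, D.f} := pow_mem (subset_closure (by simp)) j
  rcases h with rfl | rfl
  exacts [h1, mul_mem h1 (subset_closure (by simp))]

end Nrm

open Nrm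


/-- an element of `N(A)` centralizing `t` and `E` centralizes `A` -/
theorem cent_of_norm {h : G} (hn : h ∈ normalizer (D.A : Set G)) (ht : h * D.t = D.t * h) (hz : h * D.z = D.z * h)
    (he : h * D.e = D.e * h) : h * D.τ = D.τ * h := by
  obtain ⟨c, hc, o, ho, e, h2, odd⟩ := exists_split h
  have hle : zpowers h ≤ normalizer (D.A : Set G) := zpowers_le.2 hn
  have h1 : c ∈ D.A := D.mem_A_of ((two_A D).to_sup_of_normal_left' h2 (zpowers_le.2 (hle hc))) le_sup_left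
    (mem_sup_right (mem_zpowers c)) (com_zp ht hc) (com_zp hz hc) (com_zp he hc)
  obtain ⟨v, hv, e1⟩ := conj_τ_eq (hle ho) (com_zp ht ho)
  rw [odd_cent odd e1 (Nrm.cent_E (com_zp hz ho) (com_zp he ho) v hv) (k := 1)
    (by rw [pow_one, pow_two, D.A_sq (E_le_A D hv)]), mul_one] at e1
  rw [e]
  exact com_mul (D.A_comm h1 (τ_A D)) (com e1)

include D in
theorem exists_th0 : ∃ D' : Fr G, ∃ θ, D'.Th0 θ := by
  obtain ⟨θ, hL, (h1 : θ * D.z * θ⁻¹ = D.e), (h2 : θ * D.e * θ⁻¹ = D.e * D.z)⟩ := D.θ0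
  have h0 : θ * D.t = D.t * θ := mem_centralizer_singleton_iff.1 (D.LH hL)
  obtain ⟨n, hn, hA⟩ := D.sylA.frattini (g := θ) (norm_cent fun c hc => by
    have a1 := hc D.z (by simp)
    have a2 := hc D.e (by simp)
    rintro _ (rfl | rfl | rfl)
    · rw [fix h0]; exact hc _ (by simp)
    · rwa [h1]
    · rw [h2]; exact com_mul a2 a1)
  have nz := (hn D.z (by simp)).symm
  have ne := (hn D.e (by simp)).symm
  have g0 : n * θ * D.t = D.t * (n * θ) := com_mul (hn D.t (by simp)).symm h0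
  have g1 : n * θ * D.z * (n * θ)⁻¹ = D.e := by rw [cj2, h1, fix ne]
  have g2 : n * θ * D.e * (n * θ)⁻¹ = D.e * D.z := by rw [cj2, h2, cjm, fix ne, fix nz]
  generalize n * θ = φ at hA g0 g1 g2
  have g3 := θ_ez g1 g2
  obtain ⟨v, hv, e⟩ := conj_τ_eq hA g0
  by_cases hτ : D.τ = 1
  · exact ⟨D, φ, g0, by simp [hτ], g1, g2⟩
  have key := fix (D.cent_of_norm (mul_mem (mul_mem (mul_mem hA (f_norm D)) hA) (f_norm D))
    (com_mul (com_mul (com_mul g0 D.c_tf.symm) g0) D.c_tf.symm)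
    (com (by rw [cj2, cj2, cj2, f_z, g1, f_e, g3])) (com (by rw [cj2, cj2, cj2, f_e, g3, f_z, g1])))
  rw [cj2, cj2, cj2, fix D.c_τf.symm, e, cjm D.f, fix D.c_τf.symm, cjm, e, mul_assoc D.τ, mul_eq_left] at key
  rcases D.mem_E.1 hv with rfl | rfl | rfl | rfl
  · exact ⟨D, φ, g0, com (by rw [e, mul_one]), g1, g2⟩
  · rw [f_z, g1, D.c_ze] at key
    exact absurd key (ez1 D)
  · rw [f_e, g3] at key
    exact absurd key (ez1 D)
  · obtain ⟨D', a1, a2, a3, a4, -⟩ := D.exists_ch hτ (k := D.z) (D.mem_V.2 (by simp))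
    have a5 : D'.z = D.z := by rw [Fr.z, a2]; rfl
    refine ⟨D', φ, by rwa [a1], com ?_, by rwa [a5, a3], by rwa [a5, a3]⟩
    rw [a4, cjm, g1, e, ← mul_assoc, ← mul_assoc, ← D.c_τe, mul_assoc D.τ, D.ee, mul_one, D.c_τz]

theorem Th0.norm {D : Fr G} {θ : G} (hθ : D.Th0 θ) : θ ∈ normalizer (D.A : Set G) := by
  refine mem_normalizer_of_forall fun s hs => ?_
  obtain ⟨a, b, c, d, rfl⟩ := D.mem_A.1 hs
  rw [hθ.conj_u]
  exact u_A D _ _ _ _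

theorem Th0.clo {D : Fr G} {θ : G} (hθ : D.Th0 θ) {k : G} (hk : k ∈ closure {θ, D.f}) :
    k * D.t = D.t * k ∧ k * D.τ = D.τ * k ∧ k ∈ normalizer (D.E : Set G) ∧ k ∈ normalizer (D.A : Set G) := by
  have h : closure {θ, D.f} ≤ centralizer {D.t} ⊓ centralizer {D.τ} ⊓ normalizer (D.A : Set G) := (closure_le _).2 (by
    rintro _ (rfl | rfl)
    exacts [mem_inf.2 ⟨mem_inf.2 ⟨mem_centralizer_singleton_iff.2 hθ.θt, mem_centralizer_singleton_iff.2 hθ.θτ⟩, hθ.norm⟩,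
      mem_inf.2 ⟨mem_inf.2 ⟨mem_centralizer_singleton_iff.2 D.c_tf.symm, mem_centralizer_singleton_iff.2 D.c_τf.symm⟩,
        f_norm D⟩])
  obtain ⟨⟨h1, h2⟩, h3⟩ := h hk
  have h4 := mem_centralizer_singleton_iff.1 h1
  exact ⟨h4, mem_centralizer_singleton_iff.1 h2, Nrm.norm_E h3 h4, h3⟩

theorem Th0.nh' {D : Fr G} {θ : G} (hθ : D.Th0 θ) {h : G} (hn : h ∈ normalizer (D.A : Set G))
    (ht : h * D.t = D.t * h) : ∃ j : ℕ, ∃ k, (k = θ ^ j ∨ k = θ ^ j * D.f) ∧ ∀ v ∈ D.A, h * v * h⁻¹ = k * v * k⁻¹ := by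
  have hE := Nrm.norm_E hn ht
  obtain ⟨j, k, hk, h1, h2⟩ := ex_k hθ (conj_mem_of_mem_normalizer hE (z_E D)) (conj_mem_of_mem_normalizer hE (e_E D))
    (conj_ne_one D.z1) (conj_ne_one (e1 D)) (Nrm.conj_ne (ze D))
  obtain ⟨k1, -, -, k2⟩ := hθ.clo (k_mem hk)
  have h0 := com_mul (com_inv k1) ht
  exact ⟨j, k, hk, fun v hv => eq_of_com (cent_all h0
    (D.cent_of_norm (mul_mem (inv_mem k2) hn) h0 (com_of_eq h1) (com_of_eq h2)) (com_of_eq h1) (com_of_eq h2) v hv)⟩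

/-- `N(A) ∩ C(t)` induces `S₃ = ⟨θ, f⟩` on `A` -/
theorem Th0.nh {D : Fr G} {θ : G} (hθ : D.Th0 θ) {h : G} (hn : h ∈ normalizer (D.A : Set G))
    (ht : h * D.t = D.t * h) :
    ∃ j : ℕ, (∀ v ∈ D.A, h * v * h⁻¹ = θ ^ j * v * (θ ^ j)⁻¹) ∨
      (∀ v ∈ D.A, h * v * h⁻¹ = θ ^ j * D.f * v * (θ ^ j * D.f)⁻¹) := by
  obtain ⟨j, k, rfl | rfl, h1⟩ := hθ.nh' hn ht
  exacts [⟨j, Or.inl h1⟩, ⟨j, Or.inr h1⟩]

theorem Th0.nh_τ {D : Fr G} {θ : G} (hθ : D.Th0 θ) {h : G} (hn : h ∈ normalizer (D.A : Set G))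
    (ht : h * D.t = D.t * h) : h * D.τ = D.τ * h ∧ h ∈ normalizer (D.E : Set G) := by
  obtain ⟨j, k, hk, h1⟩ := hθ.nh' hn ht
  exact ⟨com ((h1 _ (τ_A D)).trans (fix (hθ.clo (k_mem hk)).2.1)), Nrm.norm_E hn ht⟩

/-- an element normalizing `E` acts on `E` like an element of `⟨θ, f⟩` -/
theorem Th0.adj {D : Fr G} {θ : G} (hθ : D.Th0 θ) {g : G} (hg : g ∈ normalizer (D.E : Set G)) :
    ∃ k ∈ closure {θ, D.f}, g * k * D.z = D.z * (g * k) ∧ g * k * D.e = D.e * (g * k) := by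
  have hE := inv_mem hg
  obtain ⟨j, k, hk, h1, h2⟩ := ex_k hθ (conj_mem_of_mem_normalizer hE (z_E D)) (conj_mem_of_mem_normalizer hE (e_E D))
    (conj_ne_one D.z1) (conj_ne_one (e1 D)) (Nrm.conj_ne (ze D))
  exact ⟨k, k_mem hk, com (by rw [cj2, h1]; group), com (by rw [cj2, h2]; group)⟩

/-- `τ E` and `t τ E` lie in single classes -/
theorem Th0.conj_τ {D : Fr G} {θ : G} (hθ : D.Th0 θ) (hτ : D.τ ≠ 1) {v : G} (hv : v ∈ D.E) :
    ∃ h, h * D.t = D.t * h ∧ h * D.τ * h⁻¹ = D.τ * v := by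
  have h1 := D.xτ hτ
  have h2 : θ * D.x * D.τ * (θ * D.x)⁻¹ = D.τ * D.e := by rw [cj2, h1, cjm, fix hθ.θτ, hθ.θz]
  rcases D.mem_E.1 hv with rfl | rfl | rfl | rfl
  exacts [⟨1, by simp, by simp⟩, ⟨_, D.c_tx.symm, h1⟩, ⟨_, com_mul hθ.θt D.c_tx.symm, h2⟩,
    ⟨θ * (θ * D.x), com_mul hθ.θt (com_mul hθ.θt D.c_tx.symm), by rw [cj2, h2, cjm, fix hθ.θτ, hθ.θe]⟩]

end Fr

end CfsgLib.L33
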