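import Mathlib
import Cfsg.Agent.Lib.L33.Nrm

/-! Involution centralizers with a 2-component of type `L₃(3)` (plans/L33.md, package RHO). -/

set_option autoImplicit false
set_option maxHeartbeats 400000
set_option linter.unusedSectionVars false

namespace CfsgLib.L33

open Subgroup CfsgLib.Tech

variable {G : Type*} [Group G] [Finite G]

namespace Fr

variable (D : Fr G)

open Nrm

namespace Rho

theorem iyi : D.i * (D.y * D.i) = D.y := by
  rw [← mul_assoc, D.yi, mul_assoc, D.c_zi, mul_assoc, ← mul_assoc D.i, D.ii, D.zz, mul_one]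

theorem gg : D.τ * D.y * (D.τ * D.y) = D.z := by
  rw [mul_assoc, ← mul_assoc D.y, ← D.c_τy, mul_assoc, D.yy, ← mul_assoc, D.ττ, one_mul]

theorem y4 : D.y ^ 4 = 1 := by rw [show 4 = 2 * 2 from rfl, pow_mul, pow_two D.y, D.yy, pow_two, D.zz]

theorem xi : D.x * D.i * D.x⁻¹ = D.i * D.y := by
  rw [Fr.i, cjm, D.xe, mul_inv_cancel_right, mul_assoc, ← D.ef, ← mul_assoc D.e, D.ee, one_mul]

theorem S_t {s : G} (h : s ∈ D.S) : s * D.t = D.t * s := mem_centralizer_singleton_iff.1 (D.syl.le h)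

theorem t_S : D.t ∈ D.S := subset_closure (by simp)

theorem le_A {X : Subgroup G} (h : X ≤ D.A ∨ X ≤ cj D.x D.A) : Nat.card X ≤ Nat.card D.A ∧ ∀ g ∈ X, g * g = 1 := by
  rcases h with h | h
  · exact ⟨card_le_of_le h, fun g hg => D.A_sq (h hg)⟩
  · refine ⟨(card_le_of_le h).trans (card_cj _ _).le, fun g hg => ?_⟩
    have h1 := D.A_sq (mem_cj.1 (h hg))
    calc g * g = D.x * (D.x⁻¹ * g * D.x * (D.x⁻¹ * g * D.x)) * D.x⁻¹ := by group
      _ = 1 := by rw [h1]; group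

variable {D}

theorem cj_le_A {g : G} {X W : Subgroup G} (hX : ∀ v ∈ X, g * v * g⁻¹ ∈ D.S) (h : ∀ u ∈ X, ∀ v ∈ W, u * v = v * u)
    (hW : D.e ∈ cj g W ∨ D.f ∈ cj g W) : Nat.card X ≤ Nat.card D.A ∧ ∀ u ∈ X, u * u = 1 := by
  have h1 : ∀ w ∈ cj g W, ∀ u ∈ X, g * u * g⁻¹ * w = w * (g * u * g⁻¹) := fun w hw u hu => by
    calc _ = g * (u * (g⁻¹ * w * g)) * g⁻¹ := by group
      _ = _ := by rw [h u hu _ (mem_cj.1 hw)]; group
  obtain ⟨h2, h3⟩ := le_A D (X := cj g X) (hW.imp (fun hw => cj_le_iff.2 fun u hu => D.cent_E (hX u hu) (h1 _ hw u hu))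
    fun hw => cj_le_iff.2 fun u hu => D.cent_E' (hX u hu) (h1 _ hw u hu))
  refine ⟨card_cj g X ▸ h2, fun u hu => ?_⟩
  have h4 := h3 _ (conj_mem_cj.2 hu)
  rw [← cjm] at h4
  simpa using h4

theorem elab_sup {F : Subgroup G} {s : G} (hF : ∀ v ∈ F, v * v = 1) (hs : s * s = 1) (c : ∀ v ∈ F, s * v = v * s) :
    ∀ u ∈ F ⊔ zpowers s, u * u = 1 := fun u hu => by
  rcases (mem_sup_two (fun k hk => by rwa [fix (c k hk)]) (hs ▸ one_mem _)).1 hu with h | h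
  · exact hF u h
  · have h1 := hF _ h
    have h2 : s * u = u * s := mul_left_cancel (a := s) (by rw [c _ h, mul_assoc])
    rwa [mul_assoc, ← mul_assoc u, ← h2, mul_assoc, ← mul_assoc, hs, one_mul] at h1

end Rho

open Rho


theorem exists_rho (hτ : D.τ ≠ 1) : ∃ ρ, ρ * D.t = D.t * ρ ∧ ρ * (D.τ * D.y) = D.τ * D.y * ρ ∧
    ρ * D.y * ρ⁻¹ = D.i ∧ ρ * D.i * ρ⁻¹ = D.y * D.i := by
  obtain ⟨θ, hL, (h1 : θ * D.y * θ⁻¹ = D.i), (h2 : θ * D.i * θ⁻¹ = D.y * D.i)⟩ := D.ρ0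
  have h0 : θ * D.t = D.t * θ := mem_centralizer_singleton_iff.1 (D.LH hL)
  obtain ⟨n, hn, hA⟩ := (D.sylCQ hτ).frattini (g := θ) (norm_cent fun c hc => by
    have a1 := hc D.y (by simp)
    have a2 := hc D.i (by simp)
    rintro _ (rfl | rfl | rfl)
    · rw [fix h0]; exact hc _ (by simp)
    · rwa [h1]
    · rw [h2]; exact com_mul a1 a2)
  have ny := (hn D.y (by simp)).symm
  have ni := (hn D.i (by simp)).symm
  have g0 : n * θ * D.t = D.t * (n * θ) := com_mul (hn D.t (by simp)).symm h0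
  have g1 : n * θ * D.y * (n * θ)⁻¹ = D.i := by rw [cj2, h1, fix ni]
  have g2 : n * θ * D.i * (n * θ)⁻¹ = D.y * D.i := by rw [cj2, h2, cjm, fix ny, fix ni]
  generalize n * θ = φ at hA g0 g1 g2
  have g3 : φ * (D.y * D.i) * φ⁻¹ = D.y := by rw [cjm, g1, g2, iyi]
  have g4 : φ * φ * (D.τ * D.y) = D.τ * D.y * (φ * φ) := by
    obtain ⟨a, k, e⟩ := (D.mem_CQ hτ).1 (conj_mem_of_mem_normalizer hA (subset_closure (k := {D.t, D.τ * D.y}) (by simp) :
      D.τ * D.y ∈ _))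
    have c : Commute D.t (D.τ * D.y) := Commute.mul_right D.c_tτ D.c_ty
    have e2 := gg D
    have e3 : φ * D.z * φ⁻¹ = D.z := by rw [← D.yy, cjm, g1, D.ii, D.yy]
    generalize D.τ * D.y = g at e c e2
    have t2 : D.t ^ 2 = 1 := by rw [pow_two, D.tt]
    have g4 : g ^ 4 = 1 := by rw [show 4 = 2 * 2 from rfl, pow_mul, pow_two g, e2, pow_two, D.zz]
    have e4 : g ^ (k.val * 2) = D.z := by
      rw [← e3, ← e2, cjm, e, ← pow_two, (c.pow_pow _ _).mul_pow, ← pow_mul, ← pow_mul, mul_comm a.val, pow_mul D.t, t2,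
        one_pow, one_mul]
    have hk : k.val = 1 ∨ k.val = 3 := by
      have h5 : k.val < 4 := ZMod.val_lt k
      have h6 : k.val ≠ 0 := fun h => D.z1 (by rw [← e4, h, zero_mul, pow_zero])
      have h7 : k.val ≠ 2 := fun h => D.z1 (by rw [← e4, h, g4])
      omega
    refine com ?_
    rw [cj2, e, cjm, ← conj_pow, ← conj_pow, fix g0, e, (c.pow_pow _ _).mul_pow, ← mul_assoc, ← pow_mul, ← pow_mul,
      ← pow_add]
    rcases hk with h | h <;> rw [h]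
    · rw [mul_one, ← two_mul, pow_mul, t2, one_pow, one_mul, pow_one]
    · rw [show a.val + a.val * 3 = 2 * (2 * a.val) by ring, pow_mul, t2, one_pow, one_mul,
        show 3 * 3 = 4 * 2 + 1 from rfl, pow_succ, pow_mul, g4, one_pow, one_mul]
  exact ⟨φ * φ * (φ * φ), com_mul (com_mul g0 g0) (com_mul g0 g0), com_mul g4 g4,
    by rw [cj2, cj2, cj2 φ φ D.y, g1, g2, g3, g1], by rw [cj2, cj2, cj2 φ φ D.i, g2, g3, g1, g2]⟩

/-- the involutions of `τ D` are conjugate in `C(t)` -/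
theorem Th0.fus_τ {D : Fr G} {θ : G} (hθ : D.Th0 θ) (hτ : D.τ ≠ 1) {d : G} (h : d ∈ D.Dg)
    (h2 : D.τ * d * (D.τ * d) = 1) : ∃ h, h * D.t = D.t * h ∧ h * D.τ * h⁻¹ = D.τ * d := by
  have hx : ∀ {v w : G}, (∃ h, h * D.t = D.t * h ∧ h * D.τ * h⁻¹ = D.τ * v) → D.z * (D.x * v * D.x⁻¹) = w →
      ∃ h, h * D.t = D.t * h ∧ h * D.τ * h⁻¹ = D.τ * w := fun ⟨h, h1, h2⟩ e =>
    ⟨D.x * h, com_mul D.c_tx.symm h1, by rw [cj2, h2, cjm, D.xτ hτ, mul_assoc, e]⟩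
  rcases D.inv_τDg hτ h h2 with h | rfl | rfl | ⟨k, rfl⟩
  · exact hθ.conj_τ hτ h
  · exact hx (hθ.conj_τ hτ (mul_mem (e_E D) (z_E D))) (by
      rw [cjm, D.xe, fix D.c_zx.symm, ← D.c_zf, ← mul_assoc, D.zz, one_mul])
  · exact hx (hθ.conj_τ hτ (e_E D)) (by rw [D.xe, D.c_zf])
  · have step : ∀ k, (∃ h, h * D.t = D.t * h ∧ h * D.τ * h⁻¹ = D.τ * (D.i * D.y ^ k)) →
        ∃ h, h * D.t = D.t * h ∧ h * D.τ * h⁻¹ = D.τ * (D.i * D.y ^ (k + 3)) := fun k h => hx h (by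
      rw [cjm, xi, ← conj_pow, fix D.c_xy, ← mul_assoc, ← mul_assoc, D.c_zi, ← D.yy, add_comm, pow_add]
      simp only [pow_succ, pow_zero, one_mul, mul_assoc])
    clear h h2
    induction k with
    | zero =>
      obtain ⟨ρ, h1, h2, h3, h4⟩ := D.exists_rho hτ
      have h5 := step 1 ⟨ρ, h1, by
        have e : ρ * D.τ * ρ⁻¹ * D.i = D.τ * D.y := by rw [← h3, ← cjm, fix h2]
        rw [eq_mul_inv_of_mul_eq e, pow_one, mul_assoc, mul_right_inj, mul_inv_eq_iff_eq_mul, mul_assoc, iyi]⟩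
      rwa [y4, ← pow_zero D.y] at h5
    | succ k ih =>
      have h5 := step _ (step _ (step k ih))
      rwa [show k + 3 + 3 + 3 = 4 * 2 + (k + 1) by ring, pow_add, pow_mul, y4, one_pow, one_mul] at h5

theorem Th0.mem_tD {D : Fr G} {θ : G} (hθ : D.Th0 θ) (hm : D.Sm) {s : G} (h : s ∈ D.S) (hs : IsConj D.t s) :
    D.t * s ∈ D.Dg := by
  have c := S_t D h
  rcases D.coset_Dg h with h1 | h1 | h1 | h1
  · exact absurd hs (D.not_conj_Dg h1)
  · exact h1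
  · by_cases hτ : D.τ = 1
    · exact absurd hs (D.not_conj_Dg (by simpa [hτ] using h1))
    have e : D.τ * (D.τ * s) = s := by rw [← mul_assoc, D.ττ, one_mul]
    obtain ⟨g, -, h2⟩ := hθ.fus_τ hτ h1 (by rw [e]; exact D.conj_sq hs)
    exact absurd (hs.trans (isConj_iff.2 ⟨g, h2.trans e⟩).symm) hm.1
  · by_cases hτ : D.τ = 1
    · simpa [hτ] using h1
    have e : D.τ * (D.t * D.τ * s) = D.t * s := by rw [D.c_tτ, ← mul_assoc, ← mul_assoc, D.ττ, one_mul]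
    obtain ⟨g, h3, h2⟩ := hθ.fus_τ hτ h1 (by
      rw [e, mul_assoc, ← mul_assoc s, c, mul_assoc, D.conj_sq hs, mul_one, D.tt])
    refine absurd (hs.trans (isConj_iff.2 ⟨g, ?_⟩).symm) (hm.2 hτ)
    rw [cjm, fix h3, h2, e, ← mul_assoc, D.tt, one_mul]

/-- principle Q₀ -/
theorem Th0.q0 {D : Fr G} {θ : G} (hθ : D.Th0 θ) (hm : D.Sm) {s : G} (hs : IsConj D.t s) {F X : Subgroup G}
    (hF : ∀ v ∈ F, v * v = 1) (h4 : 4 ≤ Nat.card F) (hsF : ∀ v ∈ F, IsConj D.t (v * s)) (hX : IsPGroup 2 X)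
    (FX : F ≤ X) (cs : ∀ g ∈ X, g * s = s * g) (cF : ∀ g ∈ X, ∀ v ∈ F, g * v = v * g) :
    Nat.card F = 4 ∧ Nat.card X ≤ Nat.card D.A ∧ ∀ g ∈ X, g * g = 1 := by
  obtain ⟨g, h1, h2⟩ := D.exists_conj_S hs hX cs
  have h3 : cj g F ≤ D.Dg := cj_le_iff.2 fun v hv => by
    have h5 := h2 v (FX hv)
    have h6 := hθ.mem_tD hm (mul_mem h5 (t_S D)) ((hsF v hv).trans (isConj_iff.2 ⟨g, by rw [cjm, h1]⟩))
    rwa [S_t D h5, ← mul_assoc, D.tt, one_mul] at h6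
  have h5 := D.four_Dg h3 (fun v hv => by
    have h6 := hF _ (mem_cj.1 hv)
    calc v * v = g * (g⁻¹ * v * g * (g⁻¹ * v * g)) * g⁻¹ := by group
      _ = 1 := by rw [h6]; group) (by rwa [card_cj])
  refine ⟨?_, cj_le_A h2 cF (h5.imp (fun e => e.ge (e_E D)) fun e => by rw [e, ← D.xe]; exact conj_mem_cj.2 (e_E D))⟩
  rcases h5 with e | e
  · rw [← card_cj g, e, D.card_E]
  · rw [← card_cj g, e, card_cj, D.card_E]

/-- principle Q -/
theorem Th0.qq {D : Fr G} {θ : G} (hθ : D.Th0 θ) {s : G} (hs : IsConj D.t s) {F Y : Subgroup G}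
    (hF : ∀ v ∈ F, v * v = 1) (h4 : 4 ≤ Nat.card F) (sF : s ∉ F) (hY : IsPGroup 2 Y) (FY : F ≤ Y) (sY : s ∈ Y)
    (cF : ∀ g ∈ Y, ∀ v ∈ F, g * v = v * g) (cs : ∀ g ∈ Y, g * s * g⁻¹ * s⁻¹ ∈ F) :
    Nat.card Y ≤ 128 ∧ (D.Sm → Nat.card Y ≤ 4 * Nat.card D.A) := by
  obtain ⟨F₁, h1, h2, h3⟩ := exists_image cF cs
  have s2 := D.conj_sq hs
  have hC : IsPGroup 2 ↥(Y ⊓ centralizer {s}) := hY.to_inf_left
  have cC : ∀ g ∈ Y ⊓ centralizer {s}, g * s = s * g := fun g hg => mem_centralizer_singleton_iff.1 hg.2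
  have FC : F ≤ Y ⊓ centralizer {s} := fun v hv =>
    mem_inf.2 ⟨FY hv, mem_centralizer_singleton_iff.2 (cF s sY v hv).symm⟩
  have hZ : F ⊔ zpowers s ≤ Y ⊓ centralizer {s} :=
    sup_le FC (zpowers_le.2 (mem_inf.2 ⟨sY, mem_centralizer_singleton_iff.2 rfl⟩))
  have cZ : ∀ g ∈ Y ⊓ centralizer {s}, ∀ v ∈ F ⊔ zpowers s, g * v = v * g := fun g hg v hv =>
    (mem_centralizer_singleton_iff.1 ((sup_le (fun v hv => mem_centralizer_singleton_iff.2 (cF g hg.1 v hv).symm)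
      (zpowers_le.2 (mem_centralizer_singleton_iff.2 (cC g hg).symm)) : _ ≤ centralizer {g}) hv)).symm
  have k1 : ∀ K ≤ F, Nat.card ↥(K ⊔ zpowers s) = 2 * Nat.card K := fun K hK =>
    card_sup_two (fun k hk => by rwa [fix (cF s sY k (hK hk))]) (s2 ▸ one_mem _) fun h => sF (hK h)
  have h5 := D.card_le_half hs hC cC hZ cZ (Or.inl (by rw [k1 F le_rfl]; omega))
  have el := elab_sup (fun v hv => hF v (h1 hv)) s2 fun v hv => cF s sY v (h1 hv)
  have h6 := D.elab_le_conj hs el (mem_sup_right (mem_zpowers s))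
  rw [k1 F₁ h1] at h6
  obtain ⟨k, hk⟩ := IsPGroup.iff_card.1 (hY.to_le (h1.trans FY))
  have h7 : Nat.card D.A ≤ 16 := by rcases D.card_A with h | h <;> omega
  have h8 : k < 4 := (Nat.pow_lt_pow_iff_right (a := 2) (by norm_num)).1 (by omega)
  rw [h3]
  refine ⟨?_, fun hm => ?_⟩
  · by_cases h9 : k = 3
    · obtain ⟨g, -, a2⟩ := D.exists_conj_S hs hC cC
      have hZ' : F₁ ⊔ zpowers s ≤ F ⊔ zpowers s := sup_le_sup_right h1 _
      have a3 := D.elab_eq (X := cj g (F₁ ⊔ zpowers s)) (cj_le_iff.2 fun v hv => a2 v (hZ (hZ' hv))) (fun v hv => by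
        have h6 := el _ (mem_cj.1 hv)
        calc v * v = g * (g⁻¹ * v * g * (g⁻¹ * v * g)) * g⁻¹ := by group
          _ = 1 := by rw [h6]; group) (by rw [card_cj, k1 F₁ h1, hk, h9]; omega)
      have a4 := (cj_le_A a2 (fun u hu v hv => cZ u hu v (hZ' hv))
        (a3.imp (fun e => e.ge (e_A D)) fun e => by rw [e, ← D.xe]; exact conj_mem_cj.2 (e_A D))).1
      rw [hk, h9]
      omega
    · rw [hk]
      interval_cases k <;> omega
  · by_cases h9 : 4 ≤ Nat.card F₁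
    · obtain ⟨a1, a2, -⟩ := hθ.q0 hm hs (fun v hv => hF v (h1 hv)) h9 (fun v hv =>
        let ⟨u, _, e⟩ := h2 v hv; hs.trans (isConj_iff.2 ⟨u, e⟩)) hC (h1.trans FC) cC fun g hg v hv => cF g hg.1 v (h1 hv)
      rw [a1]
      omega
    · rw [hk] at h9 ⊢
      interval_cases k <;> omega

end Fr

end CfsgLib.L33
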