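import Mathlib
import Cfsg.Agent.Lib.L33.Rho

/-! Involution centralizers with a 2-component of type `L₃(3)` (plans/L33.md, package TRB). -/

set_option autoImplicit false
set_option maxHeartbeats 400000
set_option linter.unusedSectionVars false

namespace CfsgLib.L33

open Subgroup CfsgLib.Tech

variable {G : Type*} [Group G] [Finite G]

namespace Fr

variable {D : Fr G} {a p θ : G}

open Nrm

namespace Trb

theorem cjc (θ a v : G) : θ * a * θ⁻¹ * (θ * v * θ⁻¹) * (θ * a * θ⁻¹)⁻¹ = θ * (a * v * a⁻¹) * θ⁻¹ := by group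

theorem cjcom (θ : G) {a v w : G} (h : a * v = v * a) (e : θ * v * θ⁻¹ = w) : θ * a * θ⁻¹ * w = w * (θ * a * θ⁻¹) := by
  rw [← e, ← cjm, ← cjm, h]

theorem cent_A0 {g : G} (h2 : g * D.τ = D.τ * g) (h3 : g * D.z = D.z * g) (h4 : g * D.e = D.e * g) :
    ∀ v ∈ D.A0, g * v = v * g := fun v hv => by
  have h : D.A0 ≤ centralizer {g} := (closure_le _).2 (by
    rintro _ (rfl | rfl | rfl)
    exacts [mem_centralizer_singleton_iff.2 h2.symm, mem_centralizer_singleton_iff.2 h3.symm,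
      mem_centralizer_singleton_iff.2 h4.symm])
  exact (mem_centralizer_singleton_iff.1 (h hv)).symm

/-- the translation by `s` is induced by an element of `G` -/
def Tl (D : Fr G) (s : G) : Prop :=
  ∃ w, w * D.τ = D.τ * w ∧ w * D.z = D.z * w ∧ w * D.e = D.e * w ∧ w * D.t * w⁻¹ = D.t * s

theorem tl_closure {X : Set G} (hX : closure X ≤ D.A0) (h : ∀ x ∈ X, Tl D x) {s : G} (hs : s ∈ closure X) : Tl D s := by
  induction hs using closure_induction with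
  | mem x hx => exact h x hx
  | one => exact ⟨1, by simp, by simp, by simp, by simp⟩
  | mul x y _ hy h1 h2 =>
    obtain ⟨w, a1, a2, a3, a4⟩ := h1
    obtain ⟨w', b1, b2, b3, b4⟩ := h2
    exact ⟨w * w', com_mul a1 b1, com_mul a2 b2, com_mul a3 b3, by
      rw [cj2, b4, cjm, a4, fix (cent_A0 a1 a2 a3 y (hX hy)), mul_assoc]⟩
  | inv x hx h1 => rwa [inv_eq_of_mul_eq_one_right (D.A_sq (D.A0_le_A (hX hx)))]

theorem norm_A {w s : G} (hs : s ∈ D.A) (a1 : w * D.τ = D.τ * w) (a2 : w * D.z = D.z * w) (a3 : w * D.e = D.e * w)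
    (a4 : w * D.t * w⁻¹ = s) : w ∈ normalizer (D.A : Set G) :=
  norm_of rfl (by
    rintro _ (rfl | rfl | rfl | rfl)
    exacts [a4 ▸ hs, (fix a1).symm ▸ τ_A D, (fix a2).symm ▸ z_A D, (fix a3).symm ▸ e_A D])

/-- elements of `A₀` are not conjugate to `t` -/
theorem not_conj_A0 (hθ : D.Th0 θ) (h : ¬ IsConj D.t D.τ) {s : G} (hs : s ∈ D.A0) : ¬ IsConj D.t s := fun hc => by
  obtain ⟨b, c, d, rfl⟩ := D.mem_A0.1 hs
  by_cases hτ : D.τ = 1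
  · exact D.not_conj_Dg (D.E_le_Dg (u_E D c d)) (u_τ1 hτ 0 b c d ▸ hc)
  rcases z2 b with rfl | rfl
  · exact D.not_conj_Dg (D.E_le_Dg (u_E D c d)) hc
  · obtain ⟨g, -, e⟩ := hθ.conj_τ hτ (u_E D c d)
    refine h (hc.trans (isConj_iff.2 ⟨g, ?_⟩).symm)
    rw [e, ← D.u_τ, D.u_mul]
    simp

end Trb

open Trb


/-! `b = θ a θ⁻¹`, `c = θ² a θ⁻²` -/

theorem Tr.bt (h : D.Tr a p θ) : θ * a * θ⁻¹ * D.t * (θ * a * θ⁻¹)⁻¹ = D.t * D.e := by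
  rw [← fix h.th.θt, cjc, h.at', cjm, h.th.θz]
theorem Tr.bz (h : D.Tr a p θ) : θ * a * θ⁻¹ * D.z = D.z * (θ * a * θ⁻¹) := by
  exact cjcom θ (com_mul h.ae.symm h.az.symm).symm (θ_ez h.th.θz h.th.θe)
theorem Tr.be (h : D.Tr a p θ) : θ * a * θ⁻¹ * D.e = D.e * (θ * a * θ⁻¹) := by
  exact cjcom θ h.az h.th.θz
theorem Tr.bτ (h : D.Tr a p θ) : θ * a * θ⁻¹ * D.τ = D.τ * (θ * a * θ⁻¹) := by
  exact cjcom θ h.aτ (fix h.th.θτ)
theorem Tr.bp (h : D.Tr a p θ) : θ * a * θ⁻¹ * p = p * (θ * a * θ⁻¹) := by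
  exact cjcom θ h.pa.symm (fix h.pθ.symm)
theorem Tr.θb (h : D.Tr a p θ) : θ * (θ * a * θ⁻¹) * θ⁻¹ = (a * (θ * a * θ⁻¹))⁻¹ := by
  rw [← cj2, ← pow_two]
  exact eq_inv_of_mul_eq_one_right h.abc
theorem Tr.fb (h : D.Tr a p θ) : D.f * (θ * a * θ⁻¹) * D.f = (a * (θ * a * θ⁻¹))⁻¹ := by
  have h2 : θ * (a * (θ * a * θ⁻¹))⁻¹ * θ⁻¹ = a := by
    rw [← conj_inv, cjm θ a, h.θb]; group
  have h3 : D.f * (θ * a * θ⁻¹) * D.f = θ⁻¹ * a * θ := by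
    have h4 : D.f * θ * D.f⁻¹ = θ⁻¹ := by rw [f_inv, h.th.fθ]
    calc _ = D.f * θ * D.f⁻¹ * (D.f * a * D.f⁻¹) * (D.f * θ * D.f⁻¹)⁻¹ * (D.f * D.f) := by group
      _ = _ := by rw [h4, fix h.af.symm, D.ff, inv_inv, mul_one]
  rw [h3]
  calc θ⁻¹ * a * θ = θ⁻¹ * (θ * (a * (θ * a * θ⁻¹))⁻¹ * θ⁻¹) * θ := by rw [h2]
    _ = _ := by group
theorem Tr.bb (h : D.Tr a p θ) : (a * a = 1 ∧ θ * a * θ⁻¹ * (θ * a * θ⁻¹) = 1) ∨
    (a * a = D.z ∧ θ * a * θ⁻¹ * (θ * a * θ⁻¹) = D.e) := by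
  exact h.aa.imp (fun e => ⟨e, by rw [← cjm, e]; group⟩) fun e => ⟨e, by rw [← cjm, e, h.th.θz]⟩

/-- `t ^ G ∩ A` -/
theorem Tr.mem_A0 (h : D.Tr a p θ) {s : G} (hA : s ∈ D.A) (hs : IsConj D.t s) : D.t * s ∈ D.A0 := by
  exact (D.mem_A_iff.1 hA).resolve_left fun h1 => not_conj_A0 h.th.toTh0 h.ntτ h1 hs

theorem Th0.mem_E (hθ : D.Th0 θ) (hm : D.Sm) {s : G} (hA : s ∈ D.A) (hs : IsConj D.t s) : D.t * s ∈ D.E := by
  exact mem_E_of_L (mul_mem (t_A D) hA) (D.Dg_le_L (hθ.mem_tD hm (D.Ss_le_S (D.A_le_Ss hA)) hs))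

/-- `N(A)` fixes `τ` and `E` -/
theorem Tr.na (h : D.Tr a p θ) {g : G} (hg : g ∈ normalizer (D.A : Set G)) :
    g * D.τ = D.τ * g ∧ g ∈ normalizer (D.E : Set G) := by
  have hA := conj_mem_of_mem_normalizer hg (t_A D)
  have hc : IsConj D.t (g * D.t * g⁻¹) := isConj_iff.2 ⟨g, rfl⟩
  have tz : Tl D D.z := ⟨a, h.aτ, h.az, h.ae, h.at'⟩
  have te : Tl D D.e := ⟨_, h.bτ, h.bz, h.be, h.bt⟩
  obtain ⟨w, a1, a2, a3, a4⟩ : Tl D (D.t * (g * D.t * g⁻¹)) := by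
    rcases h.hp with ⟨-, hm⟩ | ⟨-, hp, -⟩
    · exact tl_closure D.E_le_A0 (by rintro _ (rfl | rfl); exacts [tz, te]) (h.th.toTh0.mem_E hm hA hc)
    · exact tl_closure le_rfl (by rintro _ (rfl | rfl | rfl); exacts [⟨p, h.pτ, h.pz, h.pe, hp⟩, tz, te])
        (h.mem_A0 hA hc)
  rw [← mul_assoc D.t, D.tt, one_mul] at a4
  obtain ⟨h1, h2⟩ := h.th.toTh0.nh_τ (mul_mem (inv_mem (norm_A hA a1 a2 a3 a4)) hg) (com_of_eq a4)
  refine ⟨by simpa using com_mul a1 h1, ?_⟩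
  have h3 := mul_mem (mem_normalizer_of_forall fun v hv => by rwa [fix (Nrm.cent_E a2 a3 v hv)]) h2
  rwa [mul_inv_cancel_left] at h3

theorem Tr.cases (h : D.Tr a p θ) :
    a * a = 1 ∨ (p = 1 ∧ D.Two a (θ * a * θ⁻¹) θ) ∨ D.Four a (θ * a * θ⁻¹) p θ := by
  rcases h.aa with e | e
  · exact Or.inl e
  rcases h.hp with ⟨rfl, hm⟩ | ⟨h1, h2, h3, h4 | h4⟩
  exacts [Or.inr (Or.inl ⟨rfl, h, rfl, e, hm⟩), Or.inl h4.1, Or.inr (Or.inr ⟨h, rfl, e, h1, h2, h3, h4.2⟩)]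

end Fr

end CfsgLib.L33
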