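import Mathlib
import Cfsg.Agent.Lib.L33.Trb

/-! Involution centralizers with a 2-component of type `L₃(3)` (plans/L33.md, package AL1). -/

set_option autoImplicit false
set_option maxHeartbeats 400000
set_option linter.unusedSectionVars false

namespace CfsgLib.L33

open Subgroup CfsgLib.Tech

variable {G : Type*} [Group G] [Finite G]

namespace Fr

open Nrm

namespace Al1

/-- the elements of `A` -/
def U (D : Fr G) (v : V4) : G := D.u v.1 v.2.1 v.2.2.1 v.2.2.2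

/-- the linear map with the given columns -/
def lin (p q r s v : V4) : V4 :=
  (v.1 * p.1 + v.2.1 * q.1 + v.2.2.1 * r.1 + v.2.2.2 * s.1,
    v.1 * p.2.1 + v.2.1 * q.2.1 + v.2.2.1 * r.2.1 + v.2.2.2 * s.2.1,
    v.1 * p.2.2.1 + v.2.1 * q.2.2.1 + v.2.2.1 * r.2.2.1 + v.2.2.2 * s.2.2.1,
    v.1 * p.2.2.2 + v.2.1 * q.2.2.2 + v.2.2.1 * r.2.2.2 + v.2.2.2 * s.2.2.2)

/-- `g` acts on `A` as `φ` -/
def Ac (D : Fr G) (g : G) (φ : V4 → V4) : Prop := ∀ v, g * U D v * g⁻¹ = U D (φ v)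

/-- the action of `θ` -/
def θV (v : V4) : V4 := (v.1, v.2.1, v.2.2.2, v.2.2.1 + v.2.2.2)

/-- the action of `f` -/
def fV (v : V4) : V4 := (v.1, v.2.1, v.2.2.1 + v.2.2.2, v.2.2.2)

/-- the action of `⟨θ, f⟩` -/
def sV (i : Fin 6) (v : V4) : V4 :=
  [v, θV v, θV (θV v), fV v, θV (fV v), θV (θV (fV v))].getD i v

variable {D : Fr G} {θ g h : G} {φ ψ : V4 → V4}

theorem ac_of {p q r s : V4} (h1 : g * D.t * g⁻¹ = U D p) (h2 : g * D.τ * g⁻¹ = U D q) (h3 : g * D.z * g⁻¹ = U D r)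
    (h4 : g * D.e * g⁻¹ = U D s) : Ac D g (lin p q r s) := fun _ => conj_u h1 h2 h3 h4 _ _ _ _

theorem Ac.mul (a : Ac D g φ) (b : Ac D h ψ) : Ac D (g * h) fun v => φ (ψ v) := fun v => by rw [cj2, b, a]

theorem Ac.congr (a : Ac D g φ) (e : ∀ v, φ v = ψ v) : Ac D g ψ := fun v => e v ▸ a v

theorem ac_one : Ac D 1 fun v => v := fun v => by simp

theorem ac_θ (hθ : D.Th0 θ) : Ac D θ θV := fun _ => hθ.conj_u _ _ _ _

theorem ac_f : Ac D D.f fV := fun _ => Nrm.f_u D _ _ _ _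

theorem U_inj (hτ : D.τ ≠ 1) {v w : V4} (e : U D v = U D w) : v = w :=
  let ⟨h1, h2, h3, h4⟩ := u_inj' hτ e; Prod.ext h1 (Prod.ext h2 (Prod.ext h3 h4))

theorem Ac.inj (hτ : D.τ ≠ 1) (a : Ac D g φ) (v : V4) (e : φ v = 0) : v = 0 := by
  have h1 := a v
  rw [e, show U D 0 = 1 from D.u_one, conj_eq_one_iff] at h1
  exact U_inj hτ (h1.trans D.u_one.symm)

theorem ex_sV (hθ : D.Th0 θ) (i : Fin 6) : ∃ k ∈ closure {θ, D.f}, Ac D k (sV i) := by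
  have h1 : θ ∈ closure {θ, D.f} := subset_closure (by simp)
  have h2 : D.f ∈ closure {θ, D.f} := subset_closure (by simp)
  have a := ac_θ hθ
  fin_cases i
  exacts [⟨1, one_mem _, ac_one⟩, ⟨_, h1, a⟩, ⟨_, mul_mem h1 h1, a.mul a⟩, ⟨_, h2, ac_f⟩, ⟨_, mul_mem h1 h2, a.mul ac_f⟩,
    ⟨_, mul_mem h1 (mul_mem h1 h2), a.mul (a.mul ac_f)⟩]

theorem pow_sV (hθ : D.Th0 θ) {k : G} {i : Fin 6} (a : Ac D k (sV i)) (j : ℕ) : ∃ i, Ac D (θ ^ j * k) (sV i) := by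
  induction j with
  | zero => exact ⟨i, by rwa [pow_zero, one_mul]⟩
  | succ j ih =>
    obtain ⟨l, b⟩ := ih
    obtain ⟨l', e⟩ : ∃ l', ∀ v, θV (sV l v) = sV l' v := by clear b; revert l; decide +kernel
    exact ⟨l', by rw [pow_succ', mul_assoc]; exact ((ac_θ hθ).mul b).congr e⟩

/-- the stabiliser of `t` is `⟨θ, f⟩` -/
theorem stab (hθ : D.Th0 θ) (hτ : D.τ ≠ 1) (hg : g ∈ normalizer (D.A : Set G)) (hh : h ∈ normalizer (D.A : Set G))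
    (a : Ac D g φ) (b : Ac D h ψ) (e : φ (1, 0, 0, 0) = ψ (1, 0, 0, 0)) : ∃ i, ∀ v, ψ v = φ (sV i v) := by
  obtain ⟨j, k, hk, h1⟩ := hθ.nh' (mul_mem (inv_mem hg) hh) (com_of_eq (by
    rw [← D.u_t]; exact (a (1, 0, 0, 0)).trans (e ▸ (b (1, 0, 0, 0)).symm)))
  obtain ⟨i, c⟩ : ∃ i, Ac D k (sV i) := by
    rcases hk with rfl | rfl
    exacts [mul_one (θ ^ j) ▸ pow_sV hθ (i := 0) ac_one j, pow_sV hθ (i := 3) ac_f j]
  refine ⟨i, fun v => U_inj hτ ?_⟩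
  rw [← b, ← a, ← c, ← h1 (U D v) (u_A D _ _ _ _)]
  group

theorem u_tz : D.u 1 0 1 0 = D.t * D.z := by rw [← D.u_t, ← D.u_z, D.u_mul]; rfl
theorem u_tτ : D.u 1 1 0 0 = D.t * D.τ := by rw [← D.u_t, ← D.u_τ, D.u_mul]; rfl
theorem u_τz : D.u 0 1 1 0 = D.τ * D.z := by rw [← D.u_τ, ← D.u_z, D.u_mul]; rfl
theorem u_eτ : D.u 0 1 0 1 = D.e * D.τ := by rw [← D.u_τ, ← D.u_e, D.u_mul]; rfl

theorem star (hθ : D.Th0 θ) (hτ : D.τ ≠ 1) {n : G} (hn : n ∈ normalizer (D.A : Set G)) (nt : n * D.t * n⁻¹ = D.t * D.z)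
    (nz : n * D.z = D.z * n) (ne : n * D.e = D.e * n) :
    n * D.τ = D.τ * n ∨ n * (D.t * D.τ) = D.t * D.τ * n := by
  obtain ⟨a, b, c, d, e⟩ := D.mem_A.1 (conj_mem_of_mem_normalizer hn (τ_A D))
  have h1 := ac_of (p := (1, 0, 1, 0)) (q := (a, b, c, d)) (r := (0, 0, 1, 0)) (s := (0, 0, 0, 1)) (nt.trans u_tz.symm) e
    ((fix nz).trans D.u_z.symm) ((fix ne).trans D.u_e.symm)
  have h2 := stab hθ hτ hn (mul_mem (f_norm D) hn) h1 (ac_f.mul h1) (by clear h1 e; revert a b c d; decide +kernel)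
  have h3 := stab hθ hτ (one_mem _) (mul_mem hn hn) ac_one (h1.mul h1) (by clear h1 e h2; revert a b c d; decide +kernel)
  have h4 : a = 0 ∧ b = 1 ∧ d = 0 := by clear h1 e; revert a b c d; decide +kernel
  obtain ⟨rfl, rfl, rfl⟩ := h4
  rcases z2 c with rfl | rfl
  · exact Or.inl (com (e.trans D.u_τ))
  · refine Or.inr (com ?_)
    rw [cjm, nt, e, ← u_tz, ← u_tτ, D.u_mul]
    rfl

theorem exists_n (hθ : D.Th0 θ) (hE : ∀ g ∈ normalizer (D.A : Set G), g ∈ normalizer (D.E : Set G)) :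
    ∃ n ∈ normalizer (D.A : Set G), n * D.t * n⁻¹ = D.t * D.z ∧ n * D.z = D.z * n ∧ n * D.e = D.e * n := by
  obtain ⟨g, hg, e⟩ := D.fusA (mul_mem (t_A D) (z_A D)) D.tz
  obtain ⟨k, hk, h1, h2⟩ := hθ.adj (hE g hg)
  obtain ⟨k1, -, -, k2⟩ := hθ.clo hk
  exact ⟨g * k, mul_mem hg k2, by rw [cj2, fix k1, e], h1, h2⟩

theorem ch_t (hθ : D.Th0 θ) (hτ : D.τ ≠ 1) : ∃ D' : Fr G, D'.t = D.t ∧ D'.z = D.z ∧ D'.e = D.e ∧ D'.τ = D.t * D.τ ∧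
    D'.t * D'.τ = D.τ ∧ D'.τ ≠ 1 ∧ D'.Th0 θ := by
  obtain ⟨D', a1, a2, a3, a4, -⟩ := D.exists_ch hτ (k := D.t) (D.mem_V.2 (by simp))
  have a5 : D'.z = D.z := by rw [Fr.z, a2]; rfl
  refine ⟨D', a1, a5, a3, a4, by rw [a1, a4, ← mul_assoc, D.tt, one_mul],
    fun e => (D.τL hτ).2 (by rw [← a4, e]; exact one_mem _), by rw [a1, hθ.θt], ?_, by rw [a5, a3, hθ.θz],
    by rw [a5, a3, hθ.θe]⟩
  rw [a4]
  exact (com_mul hθ.θt.symm hθ.θτ.symm).symm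

theorem conj_t (c d : ZMod 2) : IsConj D.t (D.u 1 0 c d) := by
  have h1 := D.conj_t_mul (D.E_le_Dg (u_E D c d)) (D.A_sq (u_A D _ _ _ _))
  rwa [← D.u_t, D.u_mul, add_zero, add_zero, zero_add, zero_add, D.u_t] at h1

theorem conj_τ (hθ : D.Th0 θ) (hτ : D.τ ≠ 1) (a c d : ZMod 2) : IsConj (D.u a 1 0 0) (D.u a 1 c d) := by
  obtain ⟨g, h1, h2⟩ := hθ.conj_τ hτ (u_E D c d)
  refine isConj_iff.2 ⟨g, ?_⟩
  have h3 : D.u a 1 0 0 = D.t ^ a.val * D.τ := by simp [Fr.u, ZMod.val_one]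
  rw [h3, cjm, ← conj_pow, fix h1, h2, ← mul_assoc, ← h3, D.u_mul]
  simp

theorem not_conj {s : G} (g : G) (h : ¬ IsConj D.t s) : ¬ IsConj D.t (g * s * g⁻¹) := fun e =>
  h (e.trans (isConj_iff.2 ⟨g, rfl⟩).symm)

theorem caseSm (hθ : D.Th0 θ) (hm : D.Sm) : ∃ D' : Fr G, ∃ θ n p, D'.Act θ n p := by
  obtain ⟨n, hn, nt, nz, ne⟩ := exists_n hθ fun g hg => mem_normalizer_of_forall fun v hv => by
    have h1 := hθ.mem_E hm (conj_mem_of_mem_normalizer hg (t_A D)) (isConj_iff.2 ⟨g, rfl⟩)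
    have h2 := hθ.mem_E hm (conj_mem_of_mem_normalizer hg (mul_mem (t_A D) (E_le_A D hv)))
      ((D.conj_t_mul (D.E_le_Dg hv) (D.A_sq (E_le_A D hv))).trans (isConj_iff.2 ⟨g, rfl⟩))
    convert mul_mem (inv_mem h1) h2 using 1
    group
  have key : n * D.τ = D.τ * n → ∃ D' : Fr G, ∃ θ n p, D'.Act θ n p := fun h =>
    ⟨D, θ, n, 1, hθ, hm.1, nt, nz, h, by simp, by simp, by simp, Or.inl ⟨rfl, hm, fix ne⟩⟩
  by_cases hτ : D.τ = 1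
  · exact key (by simp [hτ])
  refine (star hθ hτ hn nt nz ne).elim key fun h => ?_
  obtain ⟨D', a1, a2, a3, a4, a5, -, a6⟩ := ch_t hθ hτ
  have hm' : D'.Sm := ⟨by rw [a1, a4]; exact hm.2 hτ, fun _ => by rw [a5, a1]; exact hm.1⟩
  exact ⟨D', θ, n, 1, a6, hm'.1, by rwa [a1, a2], by rwa [a2], by rwa [a4], by simp, by simp, by simp,
    Or.inl ⟨rfl, hm', by rw [a3, fix ne]⟩⟩

theorem caseBoth (hθ : D.Th0 θ) (hτ : D.τ ≠ 1) (h1 : IsConj D.t D.τ) (h2 : IsConj D.t (D.t * D.τ)) : False := by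
  have hE : ∀ g ∈ normalizer (D.A : Set G), g ∈ normalizer (D.E : Set G) := fun g hg =>
    mem_normalizer_of_forall fun v hv => by
      have h3 := not_conj g (D.not_conj_Dg (D.E_le_Dg hv))
      obtain ⟨a, b, c, d, e⟩ := D.mem_A.1 (conj_mem_of_mem_normalizer hg (E_le_A D hv))
      rw [e] at h3 ⊢
      rcases z2 a with rfl | rfl <;> rcases z2 b with rfl | rfl
      exacts [u_E D c d, absurd (h1.trans (D.u_τ ▸ conj_τ hθ hτ 0 c d)) h3, absurd (conj_t c d) h3,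
        absurd (h2.trans (u_tτ (D := D) ▸ conj_τ hθ hτ 1 c d)) h3]
  obtain ⟨n, hn, nt, nz, ne⟩ := exists_n hθ hE
  obtain ⟨m, hm, e⟩ : ∃ m ∈ normalizer (D.A : Set G), n * (m * D.t * m⁻¹) = m * D.t * m⁻¹ * n := by
    rcases star hθ hτ hn nt nz ne with h | h
    · obtain ⟨m, hm, e⟩ := D.fusA (τ_A D) h1
      exact ⟨m, hm, by rwa [e]⟩
    · obtain ⟨m, hm, e⟩ := D.fusA (mul_mem (t_A D) (τ_A D)) h2
      exact ⟨m, hm, by rwa [e]⟩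
  have k : ∀ {v}, n * (m * v * m⁻¹) = m * v * m⁻¹ * n → m⁻¹ * n * m * v = v * (m⁻¹ * n * m) := fun {v} h => by
    calc _ = m⁻¹ * (n * (m * v * m⁻¹)) * m := by group
      _ = _ := by rw [h]; group
  have a1 := k e
  have a2 := k (Nrm.cent_E nz ne _ (conj_mem_of_mem_normalizer (hE m hm) (z_E D)))
  have a3 := k (Nrm.cent_E nz ne _ (conj_mem_of_mem_normalizer (hE m hm) (e_E D)))
  have a4 := cent_all a1 (D.cent_of_norm (mul_mem (mul_mem (inv_mem hm) hn) hm) a1 a2 a3) a2 a3 _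
    (conj_mem_of_mem_normalizer' hm (t_A D))
  have a5 : n * D.t = D.t * n := by
    calc _ = m * (m⁻¹ * n * m * (m⁻¹ * D.t * m)) * m⁻¹ := by group
      _ = _ := by rw [a4]; group
  exact D.z1 (by rwa [fix a5, left_eq_mul] at nt)

set_option synthInstance.maxSize 2000 in
set_option synthInstance.maxHeartbeats 400000 in
theorem decP : ∀ b₁ c₁ d₁ b₂ c₂ d₂ b₃ c₃ d₃ : ZMod 2,
    (∃ i, ∀ v, θV (lin (1, 1, 0, 0) (0, b₁, c₁, d₁) (0, b₂, c₂, d₂) (0, b₃, c₃, d₃) v) =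
      lin (1, 1, 0, 0) (0, b₁, c₁, d₁) (0, b₂, c₂, d₂) (0, b₃, c₃, d₃) (sV i v)) →
    (∀ v, lin (1, 1, 0, 0) (0, b₁, c₁, d₁) (0, b₂, c₂, d₂) (0, b₃, c₃, d₃) v = 0 → v = 0) →
    b₁ = 1 ∧ c₁ = 0 ∧ d₁ = 0 ∧ b₂ = 0 ∧ b₃ = 0 := by decide +kernel

/-- the action of `p` -/
def πV : V4 → V4 := lin (1, 1, 0, 0) (0, 1, 0, 0) (0, 0, 1, 0) (0, 0, 0, 1)

set_option synthInstance.maxSize 2000 in
set_option synthInstance.maxHeartbeats 400000 in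
theorem decN : ∀ b₁ c₁ d₁ b₂ c₂ d₂ b₃ c₃ d₃ : ZMod 2,
    (∃ i, ∀ v, fV (lin (1, 0, 1, 0) (0, b₁, c₁, d₁) (0, b₂, c₂, d₂) (0, b₃, c₃, d₃) v) =
      lin (1, 0, 1, 0) (0, b₁, c₁, d₁) (0, b₂, c₂, d₂) (0, b₃, c₃, d₃) (sV i v)) →
    (∀ v, lin (1, 0, 1, 0) (0, b₁, c₁, d₁) (0, b₂, c₂, d₂) (0, b₃, c₃, d₃) v = 0 → v = 0) →
    ((1, 0, 0, 0) = πV (lin (1, 0, 1, 0) (0, b₁, c₁, d₁) (0, b₂, c₂, d₂) (0, b₃, c₃, d₃) (πV (1, 0, 0, 0))) →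
      ∃ i, ∀ v, πV (lin (1, 0, 1, 0) (0, b₁, c₁, d₁) (0, b₂, c₂, d₂) (0, b₃, c₃, d₃) (πV v)) = sV i v) →
    ∃ i, lin (1, 0, 1, 0) (0, b₁, c₁, d₁) (0, b₂, c₂, d₂) (0, b₃, c₃, d₃) (sV i (0, 0, 1, 0)) = (0, 0, 1, 0) ∧
      lin (1, 0, 1, 0) (0, b₁, c₁, d₁) (0, b₂, c₂, d₂) (0, b₃, c₃, d₃) (sV i (0, 1, 0, 0)) = (0, 1, 0, 0) ∧
      (lin (1, 0, 1, 0) (0, b₁, c₁, d₁) (0, b₂, c₂, d₂) (0, b₃, c₃, d₃) (sV i (0, 0, 0, 1)) = (0, 0, 0, 1) ∨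
      lin (1, 0, 1, 0) (0, b₁, c₁, d₁) (0, b₂, c₂, d₂) (0, b₃, c₃, d₃) (sV i (0, 0, 0, 1)) = (0, 1, 0, 1)) := by
  decide +kernel

theorem caseOne (hθ : D.Th0 θ) (hτ : D.τ ≠ 1) (h1 : ¬ IsConj D.t D.τ) (h2 : IsConj D.t (D.t * D.τ)) :
    ∃ n p, D.Act θ n p := by
  have hA : ∀ g ∈ normalizer (D.A : Set G), ∀ v ∈ D.A0, ∃ b c d, g * v * g⁻¹ = D.u 0 b c d := fun g hg v hv => by
    have h3 := not_conj g (Trb.not_conj_A0 hθ h1 hv)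
    obtain ⟨a, b, c, d, e⟩ := D.mem_A.1 (conj_mem_of_mem_normalizer hg (D.A0_le_A hv))
    rw [e] at h3 ⊢
    rcases z2 a with rfl | rfl
    · exact ⟨b, c, d, rfl⟩
    rcases z2 b with rfl | rfl
    exacts [absurd (conj_t c d) h3, absurd (h2.trans (u_tτ (D := D) ▸ conj_τ hθ hτ 1 c d)) h3]
  have hM : ∀ g ∈ normalizer (D.A : Set G), ∀ p, g * D.t * g⁻¹ = U D p → ∃ b₁ c₁ d₁ b₂ c₂ d₂ b₃ c₃ d₃,
      Ac D g (lin p (0, b₁, c₁, d₁) (0, b₂, c₂, d₂) (0, b₃, c₃, d₃)) := fun g hg p e => by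
    obtain ⟨b₁, c₁, d₁, e1⟩ := hA g hg _ (τ_A0 D)
    obtain ⟨b₂, c₂, d₂, e2⟩ := hA g hg _ (z_A0 D)
    obtain ⟨b₃, c₃, d₃, e3⟩ := hA g hg _ (e_A0 D)
    exact ⟨b₁, c₁, d₁, b₂, c₂, d₂, b₃, c₃, d₃, ac_of e e1 e2 e3⟩
  obtain ⟨p, hp, pt, pτ, pz, pe⟩ : ∃ p ∈ normalizer (D.A : Set G), p * D.t * p⁻¹ = D.t * D.τ ∧ p * D.τ = D.τ * p ∧
      p * D.z = D.z * p ∧ p * D.e = D.e * p := by
    obtain ⟨g, hg, e⟩ := D.fusA (mul_mem (t_A D) (τ_A D)) h2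
    obtain ⟨b₁, c₁, d₁, b₂, c₂, d₂, b₃, c₃, d₃, a⟩ := hM g hg (1, 1, 0, 0) (e.trans u_tτ.symm)
    obtain ⟨rfl, rfl, rfl, rfl, rfl⟩ := decP _ _ _ _ _ _ _ _ _ (stab hθ hτ hg (mul_mem hθ.norm hg) a ((ac_θ hθ).mul a)
      (by simp [θV, lin])) (a.inj hτ)
    obtain ⟨k, hk, k3, k4⟩ := hθ.adj (g := g) (mem_normalizer_of_forall fun v hv => by
      obtain ⟨c, d, rfl⟩ := D.mem_E'.1 hv
      have h3 := a (0, 0, c, d)
      simp only [U, lin, zero_mul, mul_zero, add_zero, zero_add] at h3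
      exact h3 ▸ u_E D _ _)
    obtain ⟨k1, k2, -, k5⟩ := hθ.clo hk
    refine ⟨g * k, mul_mem hg k5, by rw [cj2, fix k1, e], com_mul (com ?_) k2, k3, k4⟩
    have h3 := a (0, 1, 0, 0)
    simp only [U, lin, zero_mul, mul_zero, add_zero, zero_add, mul_one] at h3
    rwa [D.u_τ] at h3
  have ap : Ac D p πV := ac_of (pt.trans u_tτ.symm) ((fix pτ).trans D.u_τ.symm) ((fix pz).trans D.u_z.symm)
    ((fix pe).trans D.u_e.symm)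
  obtain ⟨g, hg, e⟩ := D.fusA (mul_mem (t_A D) (z_A D)) D.tz
  obtain ⟨b₁, c₁, d₁, b₂, c₂, d₂, b₃, c₃, d₃, a⟩ := hM g hg (1, 0, 1, 0) (e.trans u_tz.symm)
  obtain ⟨i, i1, i2, i3⟩ := decN _ _ _ _ _ _ _ _ _ (stab hθ hτ hg (mul_mem (f_norm D) hg) a (ac_f.mul a)
    (by simp [fV, lin])) (a.inj hτ) (stab hθ hτ (one_mem _) (mul_mem hp (mul_mem hg hp)) ac_one (ap.mul (a.mul ap)))
  obtain ⟨k, hk, b⟩ := ex_sV hθ i
  have c := a.mul b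
  refine ⟨g * k, p, hθ, h1, by rw [cj2, fix (hθ.clo hk).1, e], com ?_, com ?_, pz, pe, pτ, Or.inr ⟨hτ, pt, ?_⟩⟩
  · rw [← D.u_z]; exact (c (0, 0, 1, 0)).trans (congrArg (U D) i1)
  · rw [← D.u_τ]; exact (c (0, 1, 0, 0)).trans (congrArg (U D) i2)
  · rw [← u_eτ, ← D.u_e]
    exact i3.imp (fun i3 => (c (0, 0, 0, 1)).trans (congrArg (U D) i3)) fun i3 =>
      (c (0, 0, 0, 1)).trans (congrArg (U D) i3)

end Al1


theorem exists_act (D : Fr G) : ∃ D' : Fr G, ∃ θ n p, D'.Act θ n p := by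
  obtain ⟨D, θ, hθ⟩ := D.exists_th0
  by_cases hm : D.Sm
  · exact Al1.caseSm hθ hm
  have hτ : D.τ ≠ 1 := fun e => hm ⟨fun h => D.conj_ne h e, fun h => absurd e h⟩
  by_cases h1 : IsConj D.t D.τ
  · obtain ⟨D', a1, -, -, a4, a5, a6, a7⟩ := Al1.ch_t hθ hτ
    exact ⟨D', θ, Al1.caseOne a7 a6 (by rw [a1, a4]; exact Al1.caseBoth hθ hτ h1) (by rwa [a5, a1])⟩
  · exact ⟨D, θ, Al1.caseOne hθ hτ h1 (by by_contra h; exact hm ⟨h1, fun _ => h⟩)⟩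

end Fr

end CfsgLib.L33
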