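import Mathlib
import Cfsg.Agent.Lib.L33.Trb

/-! Involution centralizers with a 2-component of type `L₃(3)` (plans/L33.md, package BB). -/

set_option autoImplicit false
set_option maxHeartbeats 400000
set_option linter.unusedSectionVars false

namespace CfsgLib.L33

open Subgroup CfsgLib.Tech

variable {G : Type*} [Group G] [Finite G]

namespace Fr

variable {D : Fr G}

open Nrm

theorem Star.mod {g : G} (h : D.Star g) {v : G} (hv : v ∈ D.A0) : g * v * g⁻¹ = v ∨ g * v * g⁻¹ = v * D.τ := by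
  induction hv using closure_induction with
  | mem x hx =>
    rcases hx with rfl | rfl | rfl
    exacts [Or.inl (fix h.gτ), h.gz, h.ge]
  | one => simp
  | mul x y _ hy h1 h2 =>
    have c := D.A_comm (τ_A D) (D.A0_le_A hy)
    rw [cjm]
    rcases h1 with h1 | h1 <;> rcases h2 with h2 | h2 <;> rw [h1, h2]
    exacts [Or.inl rfl, Or.inr (mul_assoc _ _ _).symm, Or.inr (by rw [mul_assoc, c, mul_assoc]),
      Or.inl (by rw [mul_assoc, ← mul_assoc D.τ, c, mul_assoc, D.ττ, mul_one])]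
  | inv x hx h1 => rwa [inv_eq_of_mul_eq_one_right (D.A_sq (D.A0_le_A hx))]

theorem Star.norm0 {g : G} (h : D.Star g) : g ∈ normalizer (D.A0 : Set G) :=
  mem_normalizer_of_forall fun v hv => by
    rcases h.mod hv with e | e <;> rw [e]
    exacts [hv, mul_mem hv (τ_A0 D)]

theorem Star.of_cent {g : G} (h : ∀ v ∈ D.A, g * v = v * g) : D.Star g :=
  ⟨by rw [fix (h _ (t_A D)), D.tt]; exact one_mem _, h _ (τ_A D), Or.inl (fix (h _ (z_A D))), Or.inl (fix (h _ (e_A D)))⟩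

theorem Star.mul {g h : G} (a : D.Star g) (b : D.Star h) : D.Star (g * h) := by
  have k : ∀ v ∈ D.A0, g * h * v * (g * h)⁻¹ = v ∨ g * h * v * (g * h)⁻¹ = v * D.τ := fun v hv => by
    rw [cj2]
    rcases b.mod hv with e | e <;> rw [e]
    · exact a.mod hv
    · rw [cjm, fix a.gτ]
      rcases a.mod hv with e | e <;> rw [e]
      exacts [Or.inr rfl, Or.inl (by rw [mul_assoc, D.ττ, mul_one])]
  refine ⟨?_, com_mul a.gτ b.gτ, k _ (z_A0 D), k _ (e_A0 D)⟩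
  have h1 := mul_mem (conj_mem_of_mem_normalizer a.norm0 b.gt) a.gt
  rwa [cjm, mul_assoc (g * _ * g⁻¹), ← mul_assoc (g * D.t * g⁻¹), ← cjm, D.tt, mul_one, mul_inv_cancel, one_mul,
    ← cj2] at h1

theorem Star.pow {g : G} (a : D.Star g) (n : ℕ) : D.Star (g ^ n) := by
  induction n with
  | zero => exact Star.of_cent (by simp)
  | succ n ih => rw [pow_succ]; exact ih.mul a

/-- the group of the `Star` elements -/
def StG (D : Fr G) : Subgroup G where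
  carrier := {g | D.Star g}
  one_mem' := Star.of_cent (by simp)
  mul_mem' := Star.mul
  inv_mem' {g} h := by
    have e : g⁻¹ = g ^ (orderOf g - 1) := by
      rw [inv_eq_iff_mul_eq_one, ← pow_succ', Nat.sub_add_cancel (orderOf_pos g), pow_orderOf_eq_one]
    exact e ▸ h.pow _

theorem Star.conj {g h : G} (a : D.Star g) (ht : h * D.t = D.t * h) (hτ : h * D.τ = D.τ * h)
    (hE : h ∈ normalizer (D.E : Set G)) : D.Star (h * g * h⁻¹) := by
  have k : ∀ v ∈ D.E, h * g * h⁻¹ * v * (h * g * h⁻¹)⁻¹ = v ∨ h * g * h⁻¹ * v * (h * g * h⁻¹)⁻¹ = v * D.τ := fun v hv => by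
    obtain ⟨w, hw, rfl⟩ : ∃ w ∈ D.E, v = h * w * h⁻¹ := ⟨_, conj_mem_of_mem_normalizer' hE hv, by group⟩
    rw [Trb.cjc]
    exact (a.mod (D.E_le_A0 hw)).imp (fun e => by rw [e]) fun e => by rw [e, cjm, fix hτ]
  refine ⟨?_, com_mul (com_mul hτ a.gτ) (com_inv hτ), k _ (z_E D), k _ (e_E D)⟩
  have h1 : h ∈ normalizer (D.A0 : Set G) := norm_of rfl (by
    rintro _ (rfl | rfl | rfl)
    exacts [(fix hτ).symm ▸ τ_A0 D, D.E_le_A0 (conj_mem_of_mem_normalizer hE (z_E D)),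
      D.E_le_A0 (conj_mem_of_mem_normalizer hE (e_E D))])
  have h2 := conj_mem_of_mem_normalizer h1 a.gt
  rwa [cjm, ← Trb.cjc, fix ht] at h2


theorem Star.norm {g : G} (h : D.Star g) : g ∈ normalizer (D.A : Set G) := by
  refine norm_of rfl ?_
  have k : ∀ v ∈ D.A0, g * v * g⁻¹ ∈ D.A := fun v hv => D.A0_le_A (conj_mem_of_mem_normalizer h.norm0 hv)
  rintro _ (rfl | rfl | rfl | rfl)
  exacts [(mul_mem_cancel_right (t_A D)).1 (D.A0_le_A h.gt), k _ (τ_A0 D), k _ (z_A0 D), k _ (e_A0 D)]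

/-- a `Star` element centralizing `t` centralizes `A` -/
theorem Star.cent {θ g : G} (hθ : D.Th0 θ) (h : D.Star g) (ht : g * D.t = D.t * g) : ∀ v ∈ D.A, g * v = v * g := by
  have hE := (hθ.nh_τ h.norm ht).2
  have k : ∀ v ∈ D.E, g * v = v * g := fun v hv => by
    refine com ((h.mod (D.E_le_A0 hv)).elim id fun e => ?_)
    have h1 : D.τ ∈ D.L := E_le_L D (by
      have h2 := mul_mem (inv_mem hv) (conj_mem_of_mem_normalizer hE hv)
      rwa [e, inv_mul_cancel_left] at h2)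
    rw [e, by_contra fun h2 => (D.τL h2).1 h1, mul_one]
  exact cent_all ht h.gτ (k _ (z_E D)) (k _ (e_E D))

/-- the `Star` elements are transitive on `t ^ G ∩ A` -/
theorem Act.trans {θ n p : G} (h : D.Act θ n p) {s : G} (hA : s ∈ D.A) (hs : IsConj D.t s) :
    ∃ g, D.Star g ∧ g * D.t * g⁻¹ = s := by
  have hθ := h.th
  have hE := (hθ.nh_τ hθ.norm hθ.θt).2
  have s1 : D.Star n := ⟨by rw [h.nt, D.c_tz, mul_assoc, D.tt, mul_one]; exact z_A0 D, h.nτ, Or.inl (fix h.nz),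
    h.hp.elim (fun e => Or.inl e.2.2) fun e => e.2.2⟩
  have e2 : θ * n * θ⁻¹ * D.t * (θ * n * θ⁻¹)⁻¹ = D.t * D.e := by rw [← fix hθ.θt, Trb.cjc, h.nt, cjm, hθ.θz]
  have s2 := s1.conj hθ.θt hθ.θτ hE
  have h1 : ∀ v ∈ D.E, ∃ g, D.Star g ∧ g * D.t * g⁻¹ = D.t * v := fun v hv => by
    rcases D.mem_E.1 hv with rfl | rfl | rfl | rfl
    exacts [⟨1, (StG D).one_mem, by simp⟩, ⟨n, s1, h.nt⟩, ⟨_, s2, e2⟩,
      ⟨_, s2.conj hθ.θt hθ.θτ hE, by rw [← fix hθ.θt, Trb.cjc, e2, cjm, hθ.θe]⟩]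
  have e : s = D.t * (D.t * s) := by rw [← mul_assoc, D.tt, one_mul]
  rcases h.hp with ⟨-, hm, -⟩ | ⟨-, hp, -⟩
  · rw [e]
    exact h1 _ (hθ.mem_E hm hA hs)
  · obtain ⟨b, c, d, e1⟩ := D.mem_A0.1 ((D.mem_A_iff.1 hA).resolve_left fun h1 => Trb.not_conj_A0 hθ h.ntτ h1 hs)
    rw [e, e1]
    rcases z2 b with rfl | rfl
    · exact h1 _ (u_E D c d)
    · obtain ⟨g, g1, g2⟩ := h1 _ (u_E D c d)
      have s3 : D.Star p := ⟨by rw [hp, D.c_tτ, mul_assoc, D.tt, mul_one]; exact τ_A0 D, h.pτ, Or.inl (fix h.pz),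
        Or.inl (fix h.pe)⟩
      refine ⟨p * g, s3.mul g1, ?_⟩
      rw [cj2, g2, cjm, hp, fix (Nrm.cent_E h.pz h.pe _ (u_E D c d)), mul_assoc, ← D.u_τ, D.u_mul]
      simp

namespace Bb

theorem norm_StG {θ n p : G} (h : D.Act θ n p) : normalizer (D.A : Set G) ≤ normalizer (StG D : Set G) := fun g hg => by
  obtain ⟨u, hu, e⟩ := h.trans (conj_mem_of_mem_normalizer hg (t_A D)) (isConj_iff.2 ⟨g, rfl⟩)
  have h1 := com_of_eq e
  obtain ⟨h2, h3⟩ := h.th.nh_τ (mul_mem (inv_mem hu.norm) hg) h1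
  have h4 := mul_mem (le_normalizer (H := StG D) hu) (mem_normalizer_of_forall fun x hx => Star.conj hx h1 h2 h3)
  rwa [mul_inv_cancel_left] at h4

theorem pow4 {g : G} (hg : D.Star g) : g ^ 4 * D.t * (g ^ 4)⁻¹ = D.t := by
  have e1 : g * D.t * g⁻¹ = g * D.t * g⁻¹ * D.t * D.t := by rw [mul_assoc (g * D.t * g⁻¹), D.tt, mul_one]
  have hs := hg.gt
  generalize g * D.t * g⁻¹ * D.t = s at e1 hs
  have e2 : g * g * D.t * (g * g)⁻¹ = D.t ∨ g * g * D.t * (g * g)⁻¹ = D.τ * D.t := by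
    rw [cj2, e1, cjm, e1, ← mul_assoc]
    have h2 := D.A_sq (D.A0_le_A hs)
    exact (hg.mod hs).imp (fun e => by rw [e, h2, one_mul]) fun e => by
      rw [e, D.A_comm (D.A0_le_A hs) (τ_A D), mul_assoc D.τ, h2, mul_one]
  rw [show g ^ 4 = g * g * (g * g) by simp only [pow_succ, pow_zero, one_mul, mul_assoc], cj2]
  rcases e2 with e | e
  · rw [e, e]
  · rw [e, cjm, e, fix (com_mul hg.gτ hg.gτ), ← mul_assoc, D.ττ, one_mul]

theorem cover {θ : G} (hθ : D.Th0 θ) {B : Subgroup G} (hB : IsSylowIn 2 B (StG D)) {g : G} (hg : D.Star g) :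
    ∃ u ∈ B, ∀ v ∈ D.A, u⁻¹ * g * v = v * (u⁻¹ * g) := by
  obtain ⟨u, hu, h⟩ := syl_cover (C := centralizer (D.A : Set G)) hB (fun c hc => Star.of_cent fun v hv => (hc v hv).symm)
    (fun g hg c hc v hv => by
      have h1 := hc _ (conj_mem_of_mem_normalizer' (Star.norm hg) hv)
      calc v * (g * c * g⁻¹) = g * (g⁻¹ * v * g * c) * g⁻¹ := by group
        _ = _ := by rw [h1]; group)
    (fun g (hg : D.Star g) v hv => (Star.cent hθ (hg.pow 4) (com (pow4 hg)) v hv).symm) hg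
  exact ⟨u, hu, fun v hv => (h v hv).symm⟩

theorem cj_A {k : G} (hk : k ∈ normalizer (D.Ss : Set G)) : cj k D.A = D.A ∨ cj k D.A = cj D.x D.A :=
  D.elab_eq (cj_le_iff.2 fun v hv => D.Ss_le_S (conj_mem_of_mem_normalizer hk (D.A_le_Ss hv))) (fun v hv => by
    have h6 := D.A_sq (mem_cj.1 hv)
    calc v * v = k * (k⁻¹ * v * k * (k⁻¹ * v * k)) * k⁻¹ := by group
      _ = 1 := by rw [h6]; group) (card_cj _ _).ge

theorem norm_M : normalizer (D.Ss : Set G) ≤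
    normalizer ((normalizer (D.Ss : Set G) ⊓ normalizer (D.A : Set G) : Subgroup G) : Set G) := fun k hk =>
  mem_normalizer_of_forall fun m hm => by
    have h1 := mul_mem (mul_mem hk hm.1) (inv_mem hk)
    have h2 : k * m * k⁻¹ ∈ normalizer ((cj k D.A : Subgroup G) : Set G) := by
      rw [← cj_normalizer]; exact conj_mem_cj.2 hm.2
    refine mem_inf.2 ⟨h1, ?_⟩
    rcases cj_A hk with e | e <;> rw [e] at h2
    · exact h2
    · exact mem_normalizer_iff_cj.2 ((cj_A h1).resolve_right fun e' =>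
        D.cj_x_ne (cj_injective _ (e'.trans (mem_normalizer_iff_cj.1 h2).symm)).symm)

theorem cent_Z1 {v w : G} (hv : v ∈ D.Z1) (hw : w ∈ D.Ss) : w * v = v * w := by
  have h1 : D.f * v = v * D.f := by
    rcases D.mem_Z1.1 hv with rfl | rfl | rfl | rfl
    exacts [by simp, D.c_zf.symm, D.c_τf.symm, (com_mul D.c_τf D.c_zf).symm]
  have h2 := D.A0_le_A (D.Z1_le_A0 hv)
  rcases D.mem_Ss.1 hw with h | h
  · exact D.A_comm h h2
  · simpa using com_mul (com_inv h1) (D.A_comm h h2)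

end Bb

open Bb in
theorem Act.exists_bs {θ n p : G} (h : D.Act θ n p) : ∃ B θ', D.Bs B θ' := by
  have hθ := h.th
  obtain ⟨S₂, hS, hS'⟩ := exists_isSylowIn_ge D.two_S D.Ss_norm
  have hX := hS.inf_of_le_normalizer (norm_M (D := D))
  rw [inf_eq_right.2 inf_le_left] at hX
  obtain ⟨P, hP, hP'⟩ := exists_isSylowIn_ge hX.pgroup (hX.le.trans inf_le_right)
  have hB := hP.inf_of_le_normalizer (norm_StG h)
  rw [inf_eq_right.2 (show StG D ≤ normalizer (D.A : Set G) from fun g hg => Star.norm hg)] at hB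
  have SP : D.Ss ≤ P := (le_inf (D.Ss_le_S.trans hS') (le_inf le_normalizer D.Ss_norm_A)).trans hP'
  have fS : D.f ∈ D.Ss := subset_closure (by simp)
  have PH : ∀ g ∈ P, g * D.t = D.t * g → g ∈ D.Ss := fun g hg ht =>
    (D.sylSs.eq_of_le (Q := P ⊓ centralizer {D.t}) hP.pgroup.to_inf_left (le_inf SP (D.sylSs.le.trans inf_le_left))
      (le_inf inf_le_right (inf_le_left.trans hP.le))).le (mem_inf.2 ⟨hg, mem_centralizer_singleton_iff.2 ht⟩)
  have AB : D.A ≤ P ⊓ StG D := fun v hv => mem_inf.2 ⟨SP (D.A_le_Ss hv), Star.of_cent fun w hw => D.A_comm hv hw⟩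
  have tr : ∀ n, D.Star n → ∃ g ∈ P ⊓ StG D, g * D.t * g⁻¹ = n * D.t * n⁻¹ := fun n hn =>
    let ⟨u, hu, e⟩ := cover hθ hB hn; ⟨u, hu, (eq_of_com (e _ (t_A D))).symm⟩
  have eP : P ⊓ StG D ⊔ zpowers D.f = P := by
    refine le_antisymm (sup_le inf_le_left (zpowers_le.2 (SP fS))) fun g hg => ?_
    obtain ⟨u, hu, e⟩ := h.trans (conj_mem_of_mem_normalizer (hP.le hg) (t_A D)) (isConj_iff.2 ⟨g, rfl⟩)
    obtain ⟨b, hb, e'⟩ := tr u hu
    have hf : D.f ∈ P ⊓ StG D ⊔ zpowers D.f := mem_sup_right (mem_zpowers _)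
    have h1 : b⁻¹ * g ∈ P ⊓ StG D ⊔ zpowers D.f := by
      rcases D.mem_Ss.1 (PH _ (mul_mem (inv_mem hb.1) hg) (com_of_eq (e'.trans e))) with h1 | h1
      · exact mem_sup_left (AB h1)
      · exact (mul_mem_cancel_left hf).1 (mem_sup_left (AB h1))
    exact (mul_mem_cancel_left (inv_mem (mem_sup_left hb))).1 h1
  have cB : ∀ g ∈ P ⊓ StG D, g * D.t = D.t * g → g ∈ D.A := fun g hg ht =>
    D.mem_A_of hP.pgroup (AB.trans inf_le_left) hg.1 ht (Star.cent hθ hg.2 ht _ (z_A D)) (Star.cent hθ hg.2 ht _ (e_A D))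
  have fB : D.f ∈ normalizer ((P ⊓ StG D : Subgroup G) : Set G) := mem_normalizer_of_forall fun g hg =>
    mem_inf.2 ⟨mul_mem (mul_mem (SP fS) hg.1) (inv_mem (SP fS)),
      conj_mem_of_mem_normalizer (norm_StG h (f_norm D)) hg.2⟩
  obtain ⟨φ, hφ, φB⟩ : ∃ φ, D.Th0 φ ∧ φ ∈ normalizer ((P ⊓ StG D : Subgroup G) : Set G) := by
    obtain ⟨m, hm, e⟩ := hB.frattini (norm_StG h hθ.norm)
    obtain ⟨u, hu, c⟩ := cover hθ hB hm
    exact ⟨u⁻¹ * m * θ, ⟨com_mul (c _ (t_A D)) hθ.θt, com_mul (c _ (τ_A D)) hθ.θτ,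
      by rw [cj2, hθ.θz, fix (c _ (e_A D))], by rw [cj2, hθ.θe, fix (c _ (mul_mem (e_A D) (z_A D)))]⟩,
      by rw [mul_assoc]; exact mul_mem (inv_mem (le_normalizer hu)) e⟩
  obtain ⟨w, wB, wf, wt, wτ, wz, we⟩ : ∃ w ∈ normalizer ((P ⊓ StG D : Subgroup G) : Set G), D.f * w * D.f⁻¹ = w⁻¹ ∧
      w * D.t = D.t * w ∧ w * D.τ = D.τ * w ∧ w * D.z * w⁻¹ = D.e * D.z ∧ w * D.e * w⁻¹ = D.z := by
    have a1 := θ_ez hφ.θz hφ.θe
    have a2 : φ⁻¹ * D.z * φ⁻¹⁻¹ = D.e * D.z := by rw [← a1]; conv_rhs => rw [a1]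
                                                  group
    have a3 : φ⁻¹ * (D.e * D.z) * φ⁻¹⁻¹ = D.e := by rw [← hφ.θe]; group
    refine ⟨φ * D.f * φ⁻¹ * D.f, mul_mem (mul_mem (mul_mem φB fB) (inv_mem φB)) fB, ?_,
      com_mul (com_mul (com_mul hφ.θt D.c_tf.symm) (com_inv hφ.θt)) D.c_tf.symm,
      com_mul (com_mul (com_mul hφ.θτ D.c_τf.symm) (com_inv hφ.θτ)) D.c_τf.symm,
      by rw [cj2, cj2, cj2, f_z, a2, f_ez, hφ.θe], by rw [cj2, cj2, cj2, f_e, a3, f_e, a1]⟩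
    simp only [mul_inv_rev, inv_inv, f_inv, mul_assoc, D.ff, mul_one]
  have wez : w * (D.e * D.z) * w⁻¹ = D.e := by rw [cjm, we, wz, D.c_ze.symm, ← mul_assoc, D.zz, one_mul]
  have w3 : ∀ v ∈ D.A, w ^ 3 * v = v * w ^ 3 := cent_all (com_pow wt 3) (com_pow wτ 3)
    (com (by rw [pow_three, cj2, cj2, wz, wez, we])) (com (by rw [pow_three, cj2, cj2, we, wz, wez]))
  refine ⟨P ⊓ StG D, w * w, ⟨⟨com_mul wt wt, com_mul wτ wτ, by rw [cj2, wz, wez], by rw [cj2, we, wz]⟩, ?_⟩,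
    eP.symm ▸ hP.pgroup, AB, fun g hg => by simpa [f_inv] using conj_mem_of_mem_normalizer fB hg,
    fun g hg => conj_mem_of_mem_normalizer (mul_mem wB wB) hg, fun g hg => com ?_, fun g hg => hg.2, tr, cB, ?_⟩
  · have h1 := cjm D.f w w
    rwa [wf, f_inv, ← mul_inv_rev] at h1
  · have h1 : g⁻¹ * (w ^ 3 * g * (w ^ 3)⁻¹) ∈ D.A := cB _ (mul_mem (inv_mem hg) (conj_mem_of_mem_normalizer (pow_mem wB 3) hg))
      (com_of_eq (by
        rw [← fix (w3 _ (conj_mem_of_mem_normalizer (Star.norm hg.2) (t_A D))), ← Trb.cjc, fix (w3 _ (t_A D))]))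
    obtain ⟨α, hα, e⟩ : ∃ α ∈ D.A, w ^ 3 * g * (w ^ 3)⁻¹ = g * α := ⟨_, h1, by group⟩
    rw [← pow_two, ← pow_mul, show 2 * 3 = 3 + 3 from rfl, pow_add, cj2, e, cjm, e, fix (w3 α hα), mul_assoc, D.A_sq hα,
      mul_one]
  · rw [eP]
    intro g hg hz
    have h1 : g ∈ normalizer (D.Ss : Set G) := by
      rw [← inv_mem_iff]
      refine mem_normalizer_of_forall fun v hv => PH _ (mul_mem (mul_mem (inv_mem hg) (SP hv)) (inv_mem (inv_mem hg))) ?_
      have h2 := com_mul (cent_Z1 hz hv).symm (Rho.S_t D (D.Ss_le_S hv)).symm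
      rw [mul_assoc (g * D.t * g⁻¹) D.t D.t, D.tt, mul_one] at h2
      calc _ = g⁻¹ * (v * (g * D.t * g⁻¹)) * g := by group
        _ = _ := by rw [← h2]; group
    have h2 := (hX.eq_of_le (Q := P ⊓ normalizer (D.Ss : Set G)) hP.pgroup.to_inf_left
      (le_inf hP' (hX.le.trans inf_le_left)) (le_inf inf_le_right (inf_le_left.trans hP.le))).le (mem_inf.2 ⟨hg, h1⟩)
    have hx : D.x ∈ D.S := subset_closure (by simp)
    exact hP' (mem_inf.2 ⟨mul_mem (mul_mem (hS' hx) h2.1) (inv_mem (hS' hx)),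
      conj_mem_of_mem_normalizer (norm_M (D.Ss_norm hx)) h2.2⟩)

end Fr

end CfsgLib.L33
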