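import Mathlib
import Cfsg.Agent.Lib.L33.Bb
import Cfsg.Agent.Lib.L33.Trb

/-! Involution centralizers with a 2-component of type `L₃(3)` (plans/L33.md): tools for AL2 and AL3. -/

set_option autoImplicit false
set_option linter.unusedSectionVars false

namespace CfsgLib.L33

open Subgroup CfsgLib.Tech

variable {G : Type*} [Group G] [Finite G]

namespace Fr

variable {D : Fr G}

theorem alt_z2 (k : ZMod 2) : k = 0 ∨ k = 1 := by revert k; decide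

theorem alt_u_pow (a b c d k : ZMod 2) : D.u a b c d ^ k.val = D.u (k * a) (k * b) (k * c) (k * d) := by
  rcases alt_z2 k with rfl | rfl
  · simp [D.u_one]
  · simp [ZMod.val_one]

theorem alt_u_A (a b c d : ZMod 2) : D.u a b c d ∈ D.A := D.mem_A.2 ⟨a, b, c, d, rfl⟩
theorem alt_u_A0 (b c d : ZMod 2) : D.u 0 b c d ∈ D.A0 := D.mem_A0.2 ⟨b, c, d, rfl⟩
theorem alt_tA : D.t ∈ D.A := D.u_t ▸ alt_u_A 1 0 0 0
theorem alt_τA0 : D.τ ∈ D.A0 := D.u_τ ▸ alt_u_A0 1 0 0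
theorem alt_zA0 : D.z ∈ D.A0 := D.u_z ▸ alt_u_A0 0 1 0
theorem alt_eA0 : D.e ∈ D.A0 := D.u_e ▸ alt_u_A0 0 0 1
theorem alt_fSs : D.f ∈ D.Ss := D.mem_Ss.2 (.inr (D.ff ▸ one_mem _))
theorem alt_zZ : D.z ∈ D.Z1 := D.mem_Z1.2 (.inr (.inl rfl))
theorem alt_τZ : D.τ ∈ D.Z1 := D.mem_Z1.2 (.inr (.inr (.inl rfl)))
theorem alt_ti : D.t⁻¹ = D.t := inv_eq_of_mul_eq_one_right D.tt
theorem alt_fi : D.f⁻¹ = D.f := inv_eq_of_mul_eq_one_right D.ff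
theorem alt_ei : D.e⁻¹ = D.e := inv_eq_of_mul_eq_one_right D.ee
theorem alt_zi : D.z⁻¹ = D.z := inv_eq_of_mul_eq_one_right D.zz
theorem alt_τi : D.τ⁻¹ = D.τ := inv_eq_of_mul_eq_one_right D.ττ

theorem alt_u_τ1 (h : D.τ = 1) (a b b' c d : ZMod 2) : D.u a b c d = D.u a b' c d := by
  simp [u, h]

theorem alt_u_z (b : ZMod 2) : D.u 0 b 1 0 = D.z ∨ D.u 0 b 1 0 = D.z * D.τ := by
  rcases alt_z2 b with rfl | rfl
  · exact .inl D.u_z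
  · refine .inr ?_
    rw [← D.u_z, ← D.u_τ, u_mul]; rfl

theorem alt_u_e (b : ZMod 2) : D.u 0 b 0 1 = D.e ∨ D.u 0 b 0 1 = D.e * D.τ := by
  rcases alt_z2 b with rfl | rfl
  · exact .inl D.u_e
  · refine .inr ?_
    rw [← D.u_e, ← D.u_τ, u_mul]; rfl

theorem alt_u_Z1 (b c : ZMod 2) : D.u 0 b c 0 ∈ D.Z1 := by
  simp only [u, ZMod.val_zero, pow_zero, one_mul, mul_one]
  exact mul_mem (pow_mem alt_τZ _) (pow_mem alt_zZ _)

theorem alt_Z1_comm {g w : G} (hw : w ∈ D.Z1) (h1 : g * D.τ = D.τ * g) (h2 : g * D.z = D.z * g) :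
    g * w = w * g := by
  rcases D.mem_Z1.1 hw with rfl | rfl | rfl | rfl
  · simp
  · exact h2
  · exact h1
  · exact (Commute.mul_right h1 h2 : Commute g _)

theorem alt_x_Z1 {w : G} (hw : w ∈ D.Z1) : D.x * w * D.x⁻¹ ∈ D.Z1 := by
  have h1 : D.x * D.z * D.x⁻¹ = D.z := by rw [← D.c_zx, mul_inv_cancel_right]
  have h2 : D.x * D.τ * D.x⁻¹ ∈ D.Z1 := by
    by_cases h : D.τ = 1
    · rw [h, mul_one, mul_inv_cancel]; exact one_mem _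
    · rw [D.xτ h]; exact mul_mem alt_τZ alt_zZ
  rcases D.mem_Z1.1 hw with rfl | rfl | rfl | rfl
  · rw [mul_one, mul_inv_cancel]; exact one_mem _
  · rw [h1]; exact alt_zZ
  · exact h2
  · rw [← conj_mul, h1]; exact mul_mem h2 alt_zZ

theorem alt_ez : D.e ≠ D.z := fun e => by
  have := D.u_inj (D.u_e.trans (e.trans D.u_z.symm))
  exact absurd this.2.2.1 (by decide)

/-- a `θ`-fixed element of `A₀` -/
theorem Th0.alt_fix {θ v : G} (h : D.Th0 θ) (hv : v ∈ D.A0) (e : θ * v * θ⁻¹ = v) : v = 1 ∨ v = D.τ := by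
  obtain ⟨b, c, d, rfl⟩ := D.mem_A0.1 hv
  rw [h.conj_u] at e
  obtain ⟨-, -, h1, h2⟩ := D.u_inj e
  obtain ⟨rfl, rfl⟩ : c = 0 ∧ d = 0 := by grind
  rcases alt_z2 b with rfl | rfl
  · exact .inl D.u_one
  · exact .inr D.u_τ

/-- an `f`-fixed element of `A₀` -/
theorem alt_fixf {v : G} (hv : v ∈ D.A0) (e : D.f * v * D.f = v) : ∃ b c, v = D.u 0 b c 0 := by
  obtain ⟨b, c, d, rfl⟩ := D.mem_A0.1 hv
  rw [f_u] at e
  obtain ⟨-, -, h1, -⟩ := D.u_inj e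
  obtain rfl : d = 0 := by grind
  exact ⟨b, c, rfl⟩

/-- an `f`-fixed element of `A₀` with trivial `θ`-norm -/
theorem Th0.alt_norm {θ v : G} (h : D.Th0 θ) (hv : v ∈ D.A0) (e : D.f * v * D.f = v)
    (e' : v * (θ * v * θ⁻¹) * (θ * (θ * v * θ⁻¹) * θ⁻¹) = 1) : v = 1 ∨ v = D.z := by
  obtain ⟨b, c, rfl⟩ := alt_fixf hv e
  rw [h.conj_u, h.conj_u, u_mul, u_mul, ← D.u_one] at e'
  have : D.u 0 b c 0 = D.u 0 0 c 0 := by
    rcases (D.u_inj e').2.1 with h1 | h1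
    · rw [show b = 0 by grind]
    · exact alt_u_τ1 h1 _ _ _ _ _
  rw [this]
  rcases alt_z2 c with rfl | rfl
  · exact .inl D.u_one
  · exact .inr D.u_z

theorem alt_xf {g s F : G} (hs : s ∈ D.Ss) (hz : g * D.z = D.z * g) (e : g * s * D.f * (g * s)⁻¹ = F) :
    g * D.f * g⁻¹ = F ∨ g * D.f * g⁻¹ = F * D.z := by
  have e1 : g * (s * D.f * s⁻¹) * g⁻¹ = F := by rw [← e]; group
  rcases D.comm_Ss hs alt_fSs with h | h <;> rw [h] at e1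
  · exact .inl e1
  · refine .inr ?_
    rw [← e1, ← conj_mul, hz, mul_inv_cancel_right, mul_assoc _ D.z, D.zz, mul_one]

theorem alt_xe (g : G) : D.x * g * D.x⁻¹ * D.f * (D.x * g * D.x⁻¹)⁻¹ = D.x * (g * D.e * g⁻¹) * D.x⁻¹ := by
  rw [← D.xe]; group

theorem alt_xff (g : G) :
    D.x * g * D.x⁻¹ * (D.e * D.z) * (D.x * g * D.x⁻¹)⁻¹ = D.x * (g * D.f * g⁻¹) * D.x⁻¹ := by
  rw [← D.xf]; group

theorem alt_xz : D.x * D.z * D.x⁻¹ = D.z := by rw [← D.c_zx, mul_inv_cancel_right]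

theorem alt_xt : D.x * D.t * D.x⁻¹ = D.t := by rw [← D.c_tx, mul_inv_cancel_right]

theorem alt_tz : D.u 1 0 1 0 = D.t * D.z := by rw [← D.u_t, ← D.u_z, u_mul]; rfl

theorem alt_tτ : D.u 1 1 0 0 = D.t * D.τ := by rw [← D.u_t, ← D.u_τ, u_mul]; rfl

theorem alt_tτz : D.u 1 1 1 0 = D.t * (D.τ * D.z) := by rw [← D.u_t, ← D.u_τ, ← D.u_z, u_mul, u_mul]; rfl

theorem alt_Ss_z {s : G} (hs : s ∈ D.Ss) : s * D.z = D.z * s := by
  rcases D.mem_Ss.1 hs with h | h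
  · exact D.A_comm h (D.A0_le_A alt_zA0)
  · have h1 : Commute (D.f * s) D.z := D.A_comm h (D.A0_le_A alt_zA0)
    have h2 : Commute D.f D.z := D.c_zf.symm
    have := h2.mul_left h1
    rwa [← mul_assoc, D.ff, one_mul] at this

/-- an element commuting with `e` and `f` commutes with `f` and `e z` after conjugation by `x` -/
theorem alt_x_comm {g : G} (he : g * D.e = D.e * g) (hf : g * D.f = D.f * g) (hz : g * D.z = D.z * g) :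
    Commute (D.x * g * D.x⁻¹) D.e ∧ Commute (D.x * g * D.x⁻¹) D.f := by
  have h1 : Commute (D.x * g * D.x⁻¹) D.f := D.xe ▸ (show Commute g D.e from he).map (MulAut.conj D.x)
  have h2 : Commute (D.x * g * D.x⁻¹) (D.e * D.z) := D.xf ▸ (show Commute g D.f from hf).map (MulAut.conj D.x)
  have h3 : Commute (D.x * g * D.x⁻¹) D.z := alt_xz (D := D) ▸ (show Commute g D.z from hz).map (MulAut.conj D.x)
  have := h2.mul_right h3
  rw [mul_assoc D.e, D.zz, mul_one] at this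
  exact ⟨this, h1⟩

/-- the action of `g` on `A` -/
def Ac (D : Fr G) (l : ZMod 2) (g : G) (b c d : ZMod 2) : Prop := ∀ a' b' c' d', g * D.u a' b' c' d' * g⁻¹ =
  D.u a' (a' * b + b' + l * (c' * d + d' * c)) (a' * c + c') (a' * d + d')

variable {l b c d b' c' d' : ZMod 2} {g g' θ : G} {B : Subgroup G}

theorem Ac.of (ht : g * D.t * g⁻¹ = D.u 1 b c d) (hτ : g * D.τ = D.τ * g)
    (hz : g * D.z * g⁻¹ = D.u 0 (l * d) 1 0) (he : g * D.e * g⁻¹ = D.u 0 (l * c) 0 1) : D.Ac l g b c d := by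
  intro a' b' c' d'
  have hτ' : g * D.τ * g⁻¹ = D.u 0 1 0 0 := by rw [hτ, mul_inv_cancel_right, D.u_τ]
  conv_lhs => rw [u, ← conj_mul, ← conj_mul, ← conj_mul, ← conj_pow, ← conj_pow, ← conj_pow, ← conj_pow, ht, hτ', hz, he]
  simp only [alt_u_pow, u_mul]
  congr 1 <;> ring

theorem Ac.t (h : D.Ac l g b c d) : g * D.t * g⁻¹ = D.u 1 b c d := by
  rw [← D.u_t, h]; congr 1 <;> ring

theorem Ac.τ (h : D.Ac l g b c d) : g * D.τ = D.τ * g := by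
  rw [← mul_inv_eq_iff_eq_mul, ← D.u_τ, h]; congr 1 <;> ring

theorem Ac.z (h : D.Ac l g b c d) : g * D.z * g⁻¹ = D.u 0 (l * d) 1 0 := by
  rw [← D.u_z, h]; congr 1 <;> ring

theorem Ac.e (h : D.Ac l g b c d) : g * D.e * g⁻¹ = D.u 0 (l * c) 0 1 := by
  rw [← D.u_e, h]; congr 1 <;> ring

theorem Ac.cz (h : D.Ac l g b c 0) : g * D.z = D.z * g := by
  rw [← mul_inv_eq_iff_eq_mul, h.z, mul_zero, D.u_z]

theorem Ac.ce (h : D.Ac l g b 0 d) : g * D.e = D.e * g := by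
  rw [← mul_inv_eq_iff_eq_mul, h.e, mul_zero, D.u_e]

theorem Ac.mul (h : D.Ac l g b c d) (h' : D.Ac l g' b' c' d') :
    D.Ac l (g * g') (b + b' + l * (c' * d + d' * c)) (c + c') (d + d') := by
  intro a₁ b₁ c₁ d₁
  rw [show g * g' * D.u a₁ b₁ c₁ d₁ * (g * g')⁻¹ = g * (g' * D.u a₁ b₁ c₁ d₁ * g'⁻¹) * g⁻¹ by group, h', h]
  congr 1 <;> ring

theorem Ac.inv (h : D.Ac l g b c d) : D.Ac l g⁻¹ b c d := by
  intro a₁ b₁ c₁ d₁
  have := h a₁ (a₁ * b + b₁ + l * (c₁ * d + d₁ * c)) (a₁ * c + c₁) (a₁ * d + d₁)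
  have e : D.u a₁ b₁ c₁ d₁ = g * D.u a₁ (a₁ * b + b₁ + l * (c₁ * d + d₁ * c)) (a₁ * c + c₁) (a₁ * d + d₁) * g⁻¹ := by
    rw [this]
    congr 1 <;> grind
  rw [e]; group

theorem Ac.eq (h : D.Ac l g b c d) (e1 : b = b') (e2 : c = c') (e3 : d = d') : D.Ac l g b' c' d' :=
  e1 ▸ e2 ▸ e3 ▸ h

theorem Ac.conjθ (h : D.Ac l g b c d) (hθ : D.Th0 θ) : D.Ac l (θ * g * θ⁻¹) b d (c + d) := by
  intro a₁ b₁ c₁ d₁
  have e : D.u a₁ b₁ c₁ d₁ = θ * D.u a₁ b₁ (c₁ + d₁) c₁ * θ⁻¹ := by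
    rw [hθ.conj_u]
    congr 1; grind
  rw [e, show ∀ v : G, θ * g * θ⁻¹ * (θ * v * θ⁻¹) * (θ * g * θ⁻¹)⁻¹ = θ * (g * v * g⁻¹) * θ⁻¹ from
    fun v => by group, h, hθ.conj_u]
  congr 1 <;> grind

theorem Ac.ofA (h : g ∈ D.A) : D.Ac l g 0 0 0 := by
  intro a₁ b₁ c₁ d₁
  rw [D.A_comm h (alt_u_A _ _ _ _), mul_inv_cancel_right]
  congr 1 <;> ring

theorem Ac.congr (h : D.Ac l g b c d) (e : g * D.t * g⁻¹ = D.u 1 b' c' d') : D.Ac l g b' c' d' := by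
  obtain ⟨-, h1, rfl, rfl⟩ := D.u_inj (h.t.symm.trans e)
  rcases h1 with rfl | h1
  · exact h
  · intro a₁ b₁ c₁ d₁
    rw [h]
    exact alt_u_τ1 h1 _ _ _ _ _

theorem Ac.star (h : D.Ac l g b c d) : D.Star g :=
  ⟨by rw [h.t, ← D.u_t, u_mul, show (1 + 1 : ZMod 2) = 0 from rfl]; exact alt_u_A0 _ _ _, h.τ,
    by rw [h.z]; exact alt_u_z _, by rw [h.e]; exact alt_u_e _⟩

theorem Ac.A0 (h : D.Ac l g b c d) {v : G} (hv : v ∈ D.A0) :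
    g * v * g⁻¹ = v ∨ g * v * g⁻¹ = v * D.τ := by
  obtain ⟨b₁, c₁, d₁, rfl⟩ := D.mem_A0.1 hv
  rw [h, ← D.u_τ, u_mul]
  rcases alt_z2 (l * (c₁ * d + d₁ * c)) with e | e <;> rw [e]
  · left; congr 1 <;> ring
  · right; congr 1 <;> ring

theorem Ac.cA0 (h : D.Ac l g b c d) (e : l = 0 ∨ (c = 0 ∧ d = 0)) {v : G} (hv : v ∈ D.A0) : g * v = v * g := by
  obtain ⟨b₁, c₁, d₁, rfl⟩ := D.mem_A0.1 hv
  rw [← mul_inv_eq_iff_eq_mul, h]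
  rcases e with rfl | ⟨rfl, rfl⟩ <;> congr 1 <;> ring

theorem Ac.exists {n p : G} (hθ : D.Th0 θ) (hn : D.Ac l n 0 1 0) (hp : D.Sm ∨ D.Ac l p 1 0 0)
    (h : D.Star g) : ∃ b c d, D.Ac l g b c d := by
  have h0 : ∀ c d, ∃ k, D.Ac l k 0 c d := fun c d => by
    rcases alt_z2 c with rfl | rfl <;> rcases alt_z2 d with rfl | rfl
    · exact ⟨1, .ofA (one_mem _)⟩
    · exact ⟨_, hn.conjθ hθ⟩
    · exact ⟨n, hn⟩
    · exact ⟨_, (hn.conjθ hθ).conjθ hθ⟩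
  obtain ⟨k, b, c, d, hk, e⟩ : ∃ k b c d, D.Ac l k b c d ∧ g * D.t * g⁻¹ = D.u 1 b c d := by
    obtain ⟨b, c, d, e⟩ := D.mem_A0.1 h.gt
    have e1 : g * D.t * g⁻¹ = D.u 1 b c d := by
      rw [eq_mul_inv_of_mul_eq e, alt_ti, ← D.u_t, u_mul]; congr 1 <;> ring
    obtain ⟨k, hk⟩ := h0 c d
    rcases alt_z2 b with rfl | rfl
    · exact ⟨k, 0, c, d, hk, e1⟩
    rcases hp with hp | hp
    · obtain ⟨c', d', e2⟩ := D.mem_E'.1 (hθ.mem_E hp (e1 ▸ alt_u_A _ _ _ _) (isConj_iff.2 ⟨g, rfl⟩))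
      obtain ⟨k', hk'⟩ := h0 c' d'
      refine ⟨k', 0, c', d', hk', ?_⟩
      rw [eq_inv_mul_of_mul_eq e2, alt_ti, ← D.u_t, u_mul]; congr 1 <;> ring
    · exact ⟨p * k, 1, c, d, (hp.mul hk).eq (by ring) (by ring) (by ring), e1⟩
  have ht : k⁻¹ * g * D.t = D.t * (k⁻¹ * g) := by
    have := e.trans hk.t.symm
    calc k⁻¹ * g * D.t = k⁻¹ * (g * D.t * g⁻¹) * g := by group
      _ = D.t * (k⁻¹ * g) := by rw [this]; group
  have cj : ∀ v, k⁻¹ * g * v * (k⁻¹ * g)⁻¹ = k⁻¹ * (g * v * g⁻¹) * k⁻¹⁻¹ := fun v => by group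
  have hs : D.Star (k⁻¹ * g) := by
    refine ⟨by rw [ht, mul_inv_cancel_right, D.tt]; exact one_mem _,
      (Commute.mul_left (Commute.inv_left hk.τ) h.gτ : Commute _ _), ?_, ?_⟩
    · obtain ⟨β, e⟩ : ∃ β, g * D.z * g⁻¹ = D.u 0 β 1 0 := by
        rcases h.gz with e | e
        · exact ⟨0, e.trans D.u_z.symm⟩
        · exact ⟨1, by rw [e, ← D.u_z, ← D.u_τ, u_mul]; rfl⟩
      rw [cj, e, hk.inv]
      simpa using alt_u_z (D := D) _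
    · obtain ⟨β, e⟩ : ∃ β, g * D.e * g⁻¹ = D.u 0 β 0 1 := by
        rcases h.ge with e | e
        · exact ⟨0, e.trans D.u_e.symm⟩
        · exact ⟨1, by rw [e, ← D.u_e, ← D.u_τ, u_mul]; rfl⟩
      rw [cj, e, hk.inv]
      simpa using alt_u_e (D := D) _
  refine ⟨b, c, d, fun a₁ b₁ c₁ d₁ => ?_⟩
  rw [← hk]
  have := hs.cent hθ ht _ (alt_u_A a₁ b₁ c₁ d₁)
  calc g * D.u a₁ b₁ c₁ d₁ * g⁻¹ = k * (k⁻¹ * g * D.u a₁ b₁ c₁ d₁) * g⁻¹ := by group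
    _ = _ := by rw [this]; group

/-- the subgroup `B` together with its action on `A` -/
structure Sx (D : Fr G) (l : ZMod 2) (B : Subgroup G) (θ : G) : Prop extends D.Bs B θ where
  ac : ∀ g ∈ B, ∃ b c d, D.Ac l g b c d

theorem Act.exists_sx {θ n p : G} (h : D.Act θ n p) (hn : n * D.e * n⁻¹ = D.u 0 l 0 1) :
    ∃ B θ', D.Sx l B θ' ∧ D.Ac l n 0 1 0 ∧ (D.τ ≠ 1 → p * D.t * p⁻¹ = D.t * D.τ → D.Ac l p 1 0 0) := by
  obtain ⟨B, θ', hB⟩ := h.exists_bs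
  have h1 : D.Ac l n 0 1 0 := .of (by rw [h.nt, ← D.u_t, ← D.u_z, u_mul]; rfl) h.nτ
    (by rw [h.nz, mul_inv_cancel_right, mul_zero, D.u_z]) (by rw [hn, mul_one])
  have h2 : p * D.t * p⁻¹ = D.t * D.τ → D.Ac l p 1 0 0 := fun e =>
    .of (by rw [e, ← D.u_t, ← D.u_τ, u_mul]; rfl) h.pτ
      (by rw [h.pz, mul_inv_cancel_right, mul_zero, D.u_z]) (by rw [h.pe, mul_inv_cancel_right, mul_zero, D.u_e])
  exact ⟨B, θ', ⟨hB, fun g hg => Ac.exists h.th h1 (h.hp.imp (fun e => e.2.1) fun e => h2 e.2.1) (hB.st g hg)⟩,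
    h1, fun _ => h2⟩

namespace Sx

variable (h : D.Sx l B θ)
include h

theorem th0 : D.Th0 θ := h.th.toTh0

theorem ex {n : G} (hn : D.Ac l n b c d) : ∃ g ∈ B, D.Ac l g b c d := by
  obtain ⟨g, hg, e⟩ := h.tr n hn.star
  obtain ⟨b', c', d', h1⟩ := h.ac g hg
  exact ⟨g, hg, h1.congr (e.trans hn.t)⟩

theorem memA (hg : g ∈ B) (h1 : D.Ac l g 0 0 0) : g ∈ D.A :=
  h.cB g hg (by rw [← mul_inv_eq_iff_eq_mul, h1.t, D.u_t])

theorem tB : D.t ∈ B := h.AB alt_tA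

theorem A0B {v : G} (hv : v ∈ D.A0) : v ∈ B := h.AB (D.A0_le_A hv)

theorem sq (hg : g ∈ B) : g * g ∈ D.A0 := by
  obtain ⟨b, c, d, h1⟩ := h.ac g hg
  obtain ⟨a₁, b₁, c₁, d₁, e⟩ := D.mem_A.1 (h.memA (mul_mem hg hg) ((h1.mul h1).eq
    (by grind) (by grind) (by grind)))
  rcases alt_z2 a₁ with rfl | rfl
  · exact e ▸ alt_u_A0 _ _ _
  have e1 := h1 1 b₁ c₁ d₁
  rw [← e, ← mul_assoc, mul_inv_cancel_right, e] at e1
  obtain ⟨-, h2, h3, h4⟩ := D.u_inj e1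
  obtain rfl : c = 0 := by grind
  obtain rfl : d = 0 := by grind
  have h5 : D.Ac l g 0 0 0 := by
    refine h1.congr ?_
    rw [h1.t]
    rcases h2 with h2 | h2
    · rw [show b = 0 by grind]
    · exact alt_u_τ1 h2 _ _ _ _ _
  rw [D.A_sq (h.memA hg h5)]
  exact one_mem _

theorem nA0 (hg : g ∈ B) {v : G} (hv : v ∈ D.A0) : g * v * g⁻¹ ∈ D.A0 := by
  obtain ⟨b, c, d, h1⟩ := h.ac g hg
  rcases h1.A0 hv with e | e <;> rw [e]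
  · exact hv
  · exact mul_mem hv alt_τA0

theorem comm (hg : g ∈ B) (hg' : g' ∈ B) : g * g' * g⁻¹ * g'⁻¹ ∈ D.A0 := by
  have : g * g' * g⁻¹ * g'⁻¹ = g * g' * (g * g') * (g'⁻¹ * (g * g)⁻¹ * g'⁻¹⁻¹) * (g' * g')⁻¹ := by group
  rw [this]
  exact mul_mem (mul_mem (h.sq (mul_mem hg hg')) (h.nA0 (inv_mem hg') (inv_mem (h.sq hg)))) (inv_mem (h.sq hg'))

theorem ss (hg : g ∈ B ⊔ zpowers D.f) (ht : g * D.t = D.t * g) : g ∈ D.Ss := by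
  rcases (mem_sup_two (fun k hk => by rw [alt_fi]; exact h.fB k hk) (D.ff ▸ one_mem B)).1 hg with e | e
  · exact D.mem_Ss.2 (.inl (h.cB g e ht))
  · exact D.mem_Ss.2 (.inr (h.cB _ e (Commute.mul_left D.c_tf.symm ht : Commute _ _)))

/-- comparison of `x g x⁻¹` with an element of `B` -/
theorem xs (hg : g ∈ B) (h1 : D.Ac l g b c 0) (hg' : g' ∈ B)
    (e : g' * D.t * g'⁻¹ = D.x * (g * D.t * g⁻¹) * D.x⁻¹) : ∃ s ∈ D.Ss, D.x * g * D.x⁻¹ = g' * s := by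
  refine ⟨g'⁻¹ * (D.x * g * D.x⁻¹), h.ss (mul_mem (mem_sup_left (inv_mem hg')) (h.xX g (mem_sup_left hg) ?_)) ?_,
    by group⟩
  · rw [h1.t, ← D.u_t, u_mul, show (1 + 1 : ZMod 2) = 0 from rfl, add_zero (0 : ZMod 2)]
    exact alt_u_Z1 _ _
  · have e1 : D.x⁻¹ * D.t = D.t * D.x⁻¹ := (Commute.inv_left D.c_tx.symm : Commute _ _)
    calc g'⁻¹ * (D.x * g * D.x⁻¹) * D.t = g'⁻¹ * (D.x * g * (D.x⁻¹ * D.t)) := by group
      _ = g'⁻¹ * (D.x * (g * D.t * g⁻¹) * D.x⁻¹) * (D.x * g * D.x⁻¹) := by rw [e1]; group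
      _ = _ := by rw [← e]; group

theorem θ3 (hg : g ∈ B) : θ * (θ * (θ * g * θ⁻¹) * θ⁻¹) * θ⁻¹ = g := by
  calc _ = θ ^ 3 * g * (θ ^ 3)⁻¹ := by simp only [pow_succ, pow_zero]; group
    _ = g := by rw [h.cube g hg, mul_inv_cancel_right]

theorem fθ (g : G) : D.f * (θ * g * θ⁻¹) * D.f = θ⁻¹ * (D.f * g * D.f) * θ := by
  have e1 := h.th.fθ
  have e2 : D.f * θ⁻¹ * D.f = θ := by
    rw [← e1, ← mul_assoc, ← mul_assoc, D.ff, one_mul, mul_assoc, D.ff, mul_one]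
  calc D.f * (θ * g * θ⁻¹) * D.f = D.f * θ * (D.f * D.f) * g * (D.f * D.f) * θ⁻¹ * D.f := by rw [D.ff]; group
    _ = (D.f * θ * D.f) * (D.f * g * D.f) * (D.f * θ⁻¹ * D.f) := by group
    _ = _ := by rw [e1, e2]

/-- `f g f` is fixed by `θ` if `g` is -/
theorem fθ_fix (hg : θ * g * θ⁻¹ = g) : θ * (D.f * g * D.f) * θ⁻¹ = D.f * g * D.f := by
  have := h.fθ g
  rw [hg] at this
  nth_rw 1 [this]
  group

theorem exists_p (hτ : D.τ ≠ 1) {p : G} (hp : D.Ac l p 1 0 0) :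
    ∃ q ∈ B, D.Ac l q 1 0 0 ∧ θ * q * θ⁻¹ = q := by
  obtain ⟨q, hq, h1⟩ := h.ex hp
  obtain ⟨a, b, c, d, e⟩ := D.mem_A.1 (h.memA (mul_mem (inv_mem hq) (h.θB q hq))
    ((h1.inv.mul (h1.conjθ h.th0)).eq (by grind) rfl rfl))
  have e1 : θ * q * θ⁻¹ = q * D.u a b c d := by rw [← e]; group
  have e2 := h.θ3 hq
  have cj : ∀ v w : G, θ * (v * w) * θ⁻¹ = θ * v * θ⁻¹ * (θ * w * θ⁻¹) := fun v w => by group
  rw [e1, cj q, e1, h.th0.conj_u, cj (q * _), cj q, e1, h.th0.conj_u, h.th0.conj_u, mul_assoc, mul_assoc, u_mul,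
    u_mul, mul_eq_left, ← D.u_one] at e2
  obtain ⟨h2, h3, -, -⟩ := D.u_inj e2
  obtain rfl : a = 0 := by grind
  obtain rfl : b = 0 := by have := h3.resolve_right hτ; grind
  refine ⟨q * D.u 0 0 d (c + d), mul_mem hq (h.AB (alt_u_A _ _ _ _)),
    (h1.mul (.ofA (alt_u_A _ _ _ _))).eq (by ring) (by ring) (by ring), ?_⟩
  rw [cj q, e1, h.th0.conj_u, mul_assoc, u_mul]
  congr 2 <;> grind

/-- correction of the norm by `t` -/
theorem norm_t (hg : g ∈ B) (hk : g * (θ * g * θ⁻¹) * (θ * (θ * g * θ⁻¹) * θ⁻¹) ∈ D.A) :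
    ∃ k, (k = 1 ∨ k = D.t) ∧
      g * k * (θ * (g * k) * θ⁻¹) * (θ * (θ * (g * k) * θ⁻¹) * θ⁻¹) ∈ D.A0 := by
  rcases D.mem_A_iff.1 hk with e | e
  · exact ⟨1, .inl rfl, by simpa using e⟩
  refine ⟨D.t, .inr rfl, ?_⟩
  have e1 : θ * D.t * θ⁻¹ = D.t := by rw [h.th0.θt, mul_inv_cancel_right]
  rw [← conj_mul, e1, ← conj_mul, e1]
  have h1 := h.θB g hg
  generalize θ * (θ * g * θ⁻¹) * θ⁻¹ = g₂ at *
  generalize θ * g * θ⁻¹ = g₁ at *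
  have : g * D.t * (g₁ * D.t) * (g₂ * D.t) = g * (D.t * g₁ * D.t⁻¹ * g₁⁻¹) * g⁻¹ * (g * g₁ * g₂ * D.t) := by
    rw [alt_ti]; group
  rw [this, D.A_comm hk alt_tA]
  exact mul_mem (h.nA0 hg (h.comm h.tB h1)) e

end Sx

end Fr

end CfsgLib.L33
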