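import Mathlib
import Cfsg.Agent.Lib.L33.Bb
import Cfsg.Agent.Lib.L33.AlT

/-! Involution centralizers with a 2-component of type `L₃(3)` (plans/L33.md, package AL2). -/

set_option autoImplicit false
set_option linter.unusedSectionVars false

namespace CfsgLib.L33

open Subgroup CfsgLib.Tech

variable {G : Type*} [Group G] [Finite G]

namespace Fr

variable {D : Fr G}

namespace Sx

variable {B : Subgroup G} {θ : G} (h : D.Sx 0 B θ)
include h

theorem al2_cen {g v : G} (hg : g ∈ B) (hv : v ∈ D.A0) : Commute g v := by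
  obtain ⟨b, c, d, h1⟩ := h.ac g hg
  exact h1.cA0 (.inl rfl) hv

theorem al2_xs {a : G} (ha : a ∈ B) (h1 : D.Ac 0 a 0 1 0) : ∃ s ∈ D.Ss, D.x * a * D.x⁻¹ = a * s :=
  h.xs ha h1 ha (by rw [h1.t, alt_tz, ← conj_mul, alt_xt, alt_xz])

theorem al2_f {a : G} (ha : a ∈ B) (h1 : D.Ac 0 a 0 1 0) :
    a * D.f * a⁻¹ = D.f ∨ a * D.f * a⁻¹ = D.f * D.z := by
  obtain ⟨s, hs, e⟩ := h.al2_xs ha h1
  refine alt_xf hs h1.cz ?_
  rw [← e, alt_xe, (h.al2_cen ha alt_eA0).eq, mul_inv_cancel_right, D.xe]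

theorem al2_a1 {n : G} (hn : D.Ac 0 n 0 1 0) : ∃ a ∈ B, D.Ac 0 a 0 1 0 ∧ a * D.f = D.f * a ∧
    a * (θ * a * θ⁻¹) * (θ * (θ * a * θ⁻¹) * θ⁻¹) ∈ D.A0 := by
  obtain ⟨a, ha, h1, h2⟩ : ∃ a ∈ B, D.Ac 0 a 0 1 0 ∧ a * D.f = D.f * a := by
    obtain ⟨a, ha, h1⟩ := h.ex hn
    rcases h.al2_f ha h1 with e | e
    · exact ⟨a, ha, h1, mul_inv_eq_iff_eq_mul.1 e⟩
    · refine ⟨a * D.e, mul_mem ha (h.A0B alt_eA0),
        (h1.mul (.ofA (D.A0_le_A alt_eA0))).eq (by ring) (by ring) (by ring), mul_inv_eq_iff_eq_mul.1 ?_⟩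
      calc a * D.e * D.f * (a * D.e)⁻¹ = a * (D.e * D.f * D.e⁻¹) * a⁻¹ := by group
        _ = D.f := by
          rw [alt_ei, D.efe, ← conj_mul, e, h1.cz, mul_inv_cancel_right, mul_assoc, D.zz, mul_one]
  have h3 := h.θB a ha
  obtain ⟨k, hk, h4⟩ := h.norm_t ha (h.memA (mul_mem (mul_mem ha h3) (h.θB _ h3))
    (((h1.mul (h1.conjθ h.th0)).mul ((h1.conjθ h.th0).conjθ h.th0)).eq (by grind) (by grind) (by grind)))
  have hA : k ∈ D.A := by rcases hk with rfl | rfl; exacts [one_mem _, alt_tA]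
  refine ⟨a * k, mul_mem ha (h.AB hA), (h1.mul (.ofA hA)).eq (by ring) (by ring) (by ring), ?_, h4⟩
  refine (Commute.mul_left h2 ?_ : Commute _ _)
  rcases hk with rfl | rfl
  exacts [Commute.one_left _, D.c_tf]

theorem al2_a2 {n : G} (hn : D.Ac 0 n 0 1 0) : ∃ a ∈ B, D.Ac 0 a 0 1 0 ∧ a * D.f = D.f * a ∧
    Commute a (θ * a * θ⁻¹) ∧ a * (θ * a * θ⁻¹) * (θ * (θ * a * θ⁻¹) * θ⁻¹) = 1 := by
  obtain ⟨a, ha, h1, h2, hk⟩ := h.al2_a1 hn
  have hb := h.θB a ha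
  have hc := h.θB _ hb
  have e3 := h.θ3 ha
  have fa : D.f * a * D.f = a := by rw [← h2, mul_assoc, D.ff, mul_one]
  have fb := h.fθ a
  have fc := h.fθ (θ * a * θ⁻¹)
  obtain ⟨b, eb⟩ : ∃ b, θ * a * θ⁻¹ = b := ⟨_, rfl⟩
  rw [eb] at hb hc e3 fb fc hk
  obtain ⟨c, ec⟩ : ∃ c, θ * b * θ⁻¹ = c := ⟨_, rfl⟩
  rw [ec] at hc e3 fc hk
  have fb' : D.f * b * D.f = c := by rw [fb, fa, ← e3]; group
  have fc' : D.f * c * D.f = b := by rw [fc, fb', ← ec]; group
  have hγ := h.comm hb hc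
  have cj : ∀ v w : G, θ * (v * w) * θ⁻¹ = θ * v * θ⁻¹ * (θ * w * θ⁻¹) := fun v w => by group
  have bc : Commute b c := by
    have e1 : θ * (b * c * b⁻¹ * c⁻¹) * θ⁻¹ = b * c * b⁻¹ * c⁻¹ := by
      rw [cj, cj, cj, ← conj_inv, ← conj_inv, ec, e3]
      have k1 := (h.al2_cen hc hk).eq
      have k2 := (h.al2_cen (mul_mem hc hb) hγ).eq
      have k3 := (h.al2_cen (mul_mem (mul_mem (mul_mem (inv_mem hb) (inv_mem hc)) hb) hc) hk).eq
      calc c * a * c⁻¹ * a⁻¹ = c * (a * b * c) * c⁻¹ * (b⁻¹ * c⁻¹ * b * c) * (a * b * c)⁻¹ := by group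
        _ = a * b * c * (b⁻¹ * c⁻¹ * b * c) * (a * b * c)⁻¹ := by rw [k1, mul_inv_cancel_right]
        _ = (c * b)⁻¹ * ((b * c * b⁻¹ * c⁻¹) * (c * b)) := by rw [← k3]; group
        _ = _ := by rw [← k2]; group
    have e2 : b * c * b⁻¹ * c⁻¹ = a * b * c * (D.f * (a * b * c) * D.f)⁻¹ := by
      have k1 : D.f * (a * b * c) * D.f = a * c * b := by
        calc _ = D.f * a * (D.f * D.f) * b * (D.f * D.f) * c * D.f := by rw [D.ff]; group
          _ = D.f * a * D.f * (D.f * b * D.f) * (D.f * c * D.f) := by group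
          _ = _ := by rw [fa, fb', fc']
      have k2 := (h.al2_cen ha hγ).eq
      rw [k1]
      calc _ = b * c * b⁻¹ * c⁻¹ * a * a⁻¹ := by group
        _ = _ := by rw [← k2]; group
    have e4 : b * c * b⁻¹ * c⁻¹ = 1 := by
      refine (h.th0.alt_fix hγ e1).elim id fun e => ?_
      obtain ⟨β, γ, δ, e5⟩ := D.mem_A0.1 hk
      rw [e, e5, f_u, inv_eq_of_mul_eq_one_right (D.A_sq (alt_u_A _ _ _ _)), u_mul, ← D.u_τ] at e2
      rw [e]
      exact (D.u_inj e2).2.1.resolve_left (by grind)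
    exact mul_inv_eq_one.1 ((by group : b * c * (c * b)⁻¹ = b * c * b⁻¹ * c⁻¹).trans e4)
  have ca : Commute c a := ec ▸ e3 ▸ bc.map (MulAut.conj θ)
  have ab : Commute a b := e3 ▸ eb ▸ ca.map (MulAut.conj θ)
  have hτ : a * b * c = 1 ∨ a * b * c = D.τ := h.th0.alt_fix hk (by
    rw [cj, cj, eb, ec, e3, mul_assoc, ca.eq, ← mul_assoc, ← ab.eq])
  have kθ : θ * (a * b * c) * θ⁻¹ = a * b * c := by
    rcases hτ with e | e <;> rw [e]
    · group
    · rw [h.th0.θτ, mul_inv_cancel_right]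
  have kf : Commute (a * b * c) D.f := by
    rcases hτ with e | e <;> rw [e]
    exacts [Commute.one_left _, D.c_τf]
  have kk := D.A_sq (D.A0_le_A hk)
  generalize hκ : a * b * c = k at hk kθ kf kk
  have ka := h.al2_cen ha hk
  have kb := h.al2_cen hb hk
  have kc := h.al2_cen hc hk
  refine ⟨a * k, mul_mem ha (h.A0B hk), (h1.mul (.ofA (D.A0_le_A hk))).eq (by ring) (by ring) (by ring),
    (Commute.mul_left h2 kf : Commute _ _), ?_, ?_⟩
  · rw [cj, eb, kθ]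
    exact (ab.mul_right ka).mul_left (kb.symm.mul_right (Commute.refl k))
  · rw [cj, eb, kθ, cj, ec, kθ]
    calc a * k * (b * k) * (c * k) = a * (k * b) * (k * c) * k := by group
      _ = a * b * (k * (c * k) * k) := by rw [← kb.eq, ← kc.eq]; simp only [mul_assoc]
      _ = 1 := by
        rw [kc.eq, ← mul_assoc k k, kk, one_mul, ← mul_assoc, hκ, kk]

/-- an element of `Ss` commuting with `e`, `f` and `a` -/
theorem al2_Z1 {a s : G} (ha : a ∈ B) (h1 : D.Ac 0 a 0 1 0) (hs : s ∈ D.Ss) (he : Commute s D.e)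
    (hf : Commute s D.f) (hc : D.t * s ∈ D.Z1 → Commute a s) : s ∈ D.Z1 := by
  refine (D.cent_Ss (D.Ss_le_S hs) he hf).resolve_right fun e => D.z1 ?_
  have k1 : Commute a (D.t * s) := h.al2_cen ha (D.Z1_le_A0 e)
  have k2 := k1.mul_right (hc e).inv_right
  rw [mul_inv_cancel_right] at k2
  have := h1.t
  rwa [k2.eq, mul_inv_cancel_right, alt_tz, left_eq_mul] at this

end Sx

theorem Act.exists_tr {θ n p : G} (h : D.Act θ n p) (hn : n * D.e * n⁻¹ = D.e) : ∃ a p' θ', D.Tr a p' θ' := by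
  obtain ⟨B, θ', hB, an, ap⟩ := h.exists_sx (l := 0) (hn.trans D.u_e.symm)
  obtain ⟨a, ha, h1, af, ab, abc⟩ := hB.al2_a2 an
  have hb := hB.θB a ha
  have hc := hB.θB _ hb
  have fa : D.f * a * D.f = a := by rw [← af, mul_assoc, D.ff, mul_one]
  have az : Commute a D.z := hB.al2_cen ha alt_zA0
  have ae : Commute a D.e := hB.al2_cen ha alt_eA0
  have aτ : Commute a D.τ := hB.al2_cen ha alt_τA0
  have at' : a * D.t * a⁻¹ = D.t * D.z := h1.t.trans alt_tz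
  have cj : ∀ k v w : G, k * (v * w) * k⁻¹ = k * v * k⁻¹ * (k * w * k⁻¹) := fun k v w => by group
  have ff : ∀ v w : G, D.f * (v * w) * D.f = D.f * v * D.f * (D.f * w * D.f) := fun v w => by
    calc D.f * (v * w) * D.f = D.f * v * (D.f * D.f) * w * D.f := by rw [D.ff]; group
      _ = _ := by group
  have aa : a * a = 1 ∨ a * a = D.z := by
    refine hB.th0.alt_norm (hB.sq ha) (by rw [ff, fa]) ?_
    rw [cj, cj]
    have bc : Commute (θ' * a * θ'⁻¹) (θ' * (θ' * a * θ'⁻¹) * θ'⁻¹) := ab.map (MulAut.conj θ')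
    have ca := bc.map (MulAut.conj θ')
    simp only [MulAut.conj_apply] at ca
    rw [hB.θ3 ha] at ca
    generalize θ' * (θ' * a * θ'⁻¹) * θ'⁻¹ = c at *
    generalize θ' * a * θ'⁻¹ = b at *
    rw [← pow_two, ← pow_two, ← pow_two, ← ab.mul_pow, ← (ca.symm.mul_left bc).mul_pow, abc, one_pow]
  have xaa : D.x * (a * a) * D.x⁻¹ = a * a := by
    rcases aa with e | e <;> rw [e]
    · group
    · exact alt_xz
  have xa : D.x * a * D.x⁻¹ = a ∨ D.x * a * D.x⁻¹ = a * D.z := by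
    obtain ⟨s, hs, e⟩ := hB.al2_xs ha h1
    obtain ⟨k1, k2⟩ := alt_x_comm ae af az
    have es : s = a⁻¹ * (D.x * a * D.x⁻¹) := by rw [e]; group
    have hZ : s ∈ D.Z1 := by
      refine hB.al2_Z1 ha h1 hs (es ▸ ae.inv_left.mul_left k1)
        (es ▸ (show Commute a D.f from af).inv_left.mul_left k2) fun hz => ?_
      have k3 : s * s = 1 := D.A_sq (D.mem_A_iff.2 (.inr (D.Z1_le_A0 hz)))
      rw [cj, e] at xaa
      have : s * a * s = a := mul_left_cancel (a := a) (by rw [← xaa]; group)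
      change a * s = s * a
      nth_rw 1 [← this]
      rw [mul_assoc, k3, mul_one]
    have k4 : s * (D.x * s * D.x⁻¹) = 1 := by
      have k5 : Commute a D.y := D.ef ▸ ae.mul_right af
      have : D.x * (D.x * a * D.x⁻¹) * D.x⁻¹ = a := by
        calc _ = D.x * D.x * a * (D.x * D.x)⁻¹ := by group
          _ = a := by rw [D.xx, ← k5.eq, mul_inv_cancel_right]
      rw [e, cj, e, mul_assoc, mul_eq_left] at this
      exact this
    by_cases hτ : D.τ = 1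
    · rcases D.mem_Z1.1 hZ with rfl | rfl | rfl | rfl
      · exact .inl (by rw [e, mul_one])
      · exact .inr e
      · exact .inl (by rw [e, hτ, mul_one])
      · exact .inr (by rw [e, hτ, one_mul])
    · rcases D.mem_Z1.1 hZ with rfl | rfl | rfl | rfl
      · exact .inl (by rw [e, mul_one])
      · exact .inr e
      · rw [D.xτ hτ, ← mul_assoc, D.ττ, one_mul] at k4
        exact absurd k4 D.z1
      · rw [cj, D.xτ hτ, alt_xz, mul_assoc D.τ D.z D.z, D.zz, mul_one, mul_assoc, ← D.c_τz, ← mul_assoc, D.ττ,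
          one_mul] at k4
        exact absurd k4 D.z1
  have abc' : a * (θ' * a * θ'⁻¹) * (θ' ^ 2 * a * (θ' ^ 2)⁻¹) = 1 := by rw [← abc, pow_two]; group
  rcases h.hp with ⟨-, hm, -⟩ | ⟨hτ, pt, -⟩
  · exact ⟨a, 1, θ', hB.th, h.ntτ, at', az, ae, aτ, af, ab, abc', aa, xa, by simp, by simp, by simp, by simp,
      by simp, by simp, .inl ⟨rfl, hm⟩⟩
  obtain ⟨q, hq, q1, qθ⟩ := hB.exists_p hτ (ap hτ pt)
  have qa1 : ∀ q ∈ B, D.Ac 0 q 1 0 0 → ∃ s ∈ D.Ss, D.x * q * D.x⁻¹ = q * a * s := fun q hq q1 =>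
    hB.xs hq q1 (mul_mem hq ha) (by
      rw [((q1.mul h1).eq (b' := 1) (c' := 1) (d' := 0) (by ring) (by ring) (by ring)).t, q1.t, alt_tτ, alt_tτz,
        cj, alt_xt, D.xτ hτ])
  have qf : q * D.f = D.f * q := by
    obtain ⟨s, hs, e⟩ := qa1 q hq q1
    have k1 := alt_xf hs (hB.al2_cen (mul_mem hq ha) alt_zA0) (F := D.f) (by
      rw [← e, alt_xe, q1.ce, mul_inv_cancel_right, D.xe])
    rw [show q * a * D.f * (q * a)⁻¹ = q * (a * D.f * a⁻¹) * q⁻¹ by group, af, mul_inv_cancel_right] at k1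
    refine mul_inv_eq_iff_eq_mul.1 (k1.resolve_right fun k2 => alt_ez (D := D) ?_)
    have k3 : D.f * q * D.f = D.z * q := by
      rw [mul_assoc, mul_inv_eq_iff_eq_mul.1 k2, ← mul_assoc, ← mul_assoc, D.ff, one_mul]
    have k4 := hB.fθ_fix qθ
    rw [k3, cj, qθ, hB.th0.θz] at k4
    exact mul_right_cancel k4
  obtain ⟨k, hk, qa⟩ : ∃ k, (k = 1 ∨ k = D.t) ∧ q * k * a = a * (q * k) := by
    have hγ := hB.comm hq ha
    have k1 : q * a * q⁻¹ = q * a * q⁻¹ * a⁻¹ * a := by group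
    have k2 : D.f * (q * a * q⁻¹ * a⁻¹) * D.f = q * a * q⁻¹ * a⁻¹ := by
      have : Commute (q * a * q⁻¹ * a⁻¹) D.f := (((show Commute q D.f from qf).mul_left af).mul_left
        (show Commute q D.f from qf).inv_left).mul_left (show Commute a D.f from af).inv_left
      rw [← this.eq, mul_assoc, D.ff, mul_one]
    generalize q * a * q⁻¹ * a⁻¹ = γ at hγ k1 k2
    have qc : ∀ v, q * (θ' * v * θ'⁻¹) * q⁻¹ = θ' * (q * v * q⁻¹) * θ'⁻¹ := fun v => by
      nth_rw 1 2 [← qθ]; group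
    have hγ1 : θ' * γ * θ'⁻¹ ∈ D.A0 := by
      obtain ⟨b, c, d, rfl⟩ := D.mem_A0.1 hγ
      rw [hB.th0.conj_u]; exact alt_u_A0 _ _ _
    have hγ2 : θ' * (θ' * γ * θ'⁻¹) * θ'⁻¹ ∈ D.A0 := by
      obtain ⟨b, c, d, e⟩ := D.mem_A0.1 hγ1
      rw [e, hB.th0.conj_u]; exact alt_u_A0 _ _ _
    have k3 : γ * (θ' * γ * θ'⁻¹) * (θ' * (θ' * γ * θ'⁻¹) * θ'⁻¹) = 1 := by
      have k4 := congrArg (fun v => q * v * q⁻¹) abc
      simp only [mul_one, mul_inv_cancel] at k4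
      rw [cj, cj q a, qc, qc (θ' * a * θ'⁻¹), qc, k1, cj θ' γ, cj θ' (θ' * γ * θ'⁻¹)] at k4
      have c1 := (hB.al2_cen ha hγ1).eq
      have c2 := (hB.al2_cen (mul_mem ha hb) hγ2).eq
      generalize θ' * (θ' * γ * θ'⁻¹) * θ'⁻¹ = γ₂ at *
      generalize θ' * γ * θ'⁻¹ = γ₁ at *
      generalize θ' * (θ' * a * θ'⁻¹) * θ'⁻¹ = c at *
      generalize θ' * a * θ'⁻¹ = b at *
      calc γ * γ₁ * γ₂ = γ * γ₁ * γ₂ * (a * b * c) := by rw [abc, mul_one]
        _ = γ * γ₁ * (γ₂ * (a * b)) * c := by group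
        _ = γ * (γ₁ * a) * b * (γ₂ * c) := by rw [← c2]; group
        _ = 1 := by rw [← c1, ← k4]; group
    rcases hB.th0.alt_norm hγ k2 k3 with rfl | rfl
    · exact ⟨1, .inl rfl, by rw [mul_one, ← mul_inv_eq_iff_eq_mul, k1, one_mul]⟩
    · refine ⟨D.t, .inr rfl, ?_⟩
      have k5 : D.t * a = D.z * a * D.t := by
        rw [mul_assoc, mul_inv_eq_iff_eq_mul.1 at', D.c_tz, ← mul_assoc, ← mul_assoc, D.zz, one_mul]
      rw [mul_assoc, k5, ← mul_assoc, ← mul_assoc, q1.cz, mul_assoc D.z, mul_inv_eq_iff_eq_mul.1 k1,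
        ← mul_assoc, ← mul_assoc, D.zz, one_mul, mul_assoc]
  have hA : k ∈ D.A := by rcases hk with rfl | rfl; exacts [one_mem _, alt_tA]
  have p1 : D.Ac 0 (q * k) 1 0 0 := (q1.mul (.ofA hA)).eq (by ring) (by ring) (by ring)
  have hp := mul_mem hq (hB.AB hA)
  have pf : Commute (q * k) D.f := by
    refine Commute.mul_left qf ?_
    rcases hk with rfl | rfl
    exacts [Commute.one_left _, D.c_tf]
  have pθ : θ' * (q * k) * θ'⁻¹ = q * k := by
    rw [cj, qθ]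
    rcases hk with rfl | rfl
    · group
    · rw [hB.th0.θt, mul_inv_cancel_right]
  generalize q * k = r at qa p1 hp pf pθ
  obtain ⟨s, hs, e⟩ := qa1 r hp p1
  have ra : Commute r a := qa
  have hZ : s ∈ D.Z1 := by
    obtain ⟨k1, k2⟩ := alt_x_comm p1.ce pf p1.cz
    have es : s = (r * a)⁻¹ * (D.x * r * D.x⁻¹) := by rw [e]; group
    refine hB.al2_Z1 ha h1 hs (es ▸ (Commute.mul_left p1.ce ae).inv_left.mul_left k1)
      (es ▸ (pf.mul_left af).inv_left.mul_left k2) fun _ => es ▸ ?_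
    refine ((ra.symm.mul_right (Commute.refl a)).inv_right).mul_right ?_
    have k3 : Commute (D.x * a * D.x⁻¹) (D.x * r * D.x⁻¹) := ra.symm.map (MulAut.conj D.x)
    rcases xa with e1 | e1 <;> rw [e1] at k3
    · exact k3
    · have k4 : Commute D.z (D.x * r * D.x⁻¹) :=
        alt_xz (D := D) ▸ (show Commute r D.z from p1.cz).symm.map (MulAut.conj D.x)
      have := k3.mul_left k4
      rwa [mul_assoc a, D.zz, mul_one] at this
  have cs := hB.al2_cen (mul_mem hp ha) (D.Z1_le_A0 hZ)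
  have sq : D.x * (r * r) * D.x⁻¹ = r * r * (a * a) := by
    rw [cj, e, ← pow_two, cs.mul_pow, ra.mul_pow, pow_two, pow_two, pow_two,
      D.A_sq (D.A0_le_A (D.Z1_le_A0 hZ)), mul_one]
  refine ⟨a, r, θ', hB.th, h.ntτ, at', az, ae, aτ, af, ab, abc', aa, xa, p1.cz, p1.ce, p1.τ, pf, qa,
    (mul_inv_eq_iff_eq_mul.1 pθ).symm, .inr ⟨hτ, p1.t.trans alt_tτ, by rwa [e, cs.eq, mul_inv_cancel_right], ?_⟩⟩
  rcases hB.th0.alt_fix (hB.sq hp) (by rw [cj, pθ]) with e1 | e1 <;> rw [e1] at sq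
  · exact .inl ⟨by rw [← one_mul (a * a), ← sq]; group, e1⟩
  · exact .inr ⟨mul_left_cancel ((D.xτ hτ).symm.trans sq).symm, e1⟩

end Fr

end CfsgLib.L33
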