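import Mathlib
import Cfsg.Agent.Lib.L33.Bb
import Cfsg.Agent.Lib.L33.AlT

/-! Involution centralizers with a 2-component of type `L₃(3)` (plans/L33.md, package AL3). -/

set_option autoImplicit false
set_option linter.unusedSectionVars false

namespace CfsgLib.L33

open Subgroup CfsgLib.Tech

variable {G : Type*} [Group G] [Finite G]

namespace Fr

variable {D : Fr G}

theorem al3_eτ : D.u 0 1 0 1 = D.e * D.τ := by rw [← D.u_e, ← D.u_τ, u_mul]; rfl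

theorem al3_cj (k v w : G) : k * (v * w) * k⁻¹ = k * v * k⁻¹ * (k * w * k⁻¹) := by group

theorem al3_cj2 (g k v : G) : g * k * v * (g * k)⁻¹ = g * (k * v * k⁻¹) * g⁻¹ := by group

theorem al3_fix {g v : G} (h : g * v = v * g) : g * v * g⁻¹ = v := by rw [h, mul_inv_cancel_right]

theorem al3_τ {v : G} (h : v = 1 ∨ v = D.τ) : v * v = 1 := by
  rcases h with rfl | rfl
  exacts [mul_one _, D.ττ]

theorem al3_τc {v g : G} (h : v = 1 ∨ v = D.τ) (hg : g * D.τ = D.τ * g) : Commute g v := by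
  rcases h with rfl | rfl
  exacts [Commute.one_right _, hg]

theorem al3_u (b : ZMod 2) : D.u 0 b 0 0 = 1 ∨ D.u 0 b 0 0 = D.τ := by
  rcases alt_z2 b with rfl | rfl
  exacts [.inl D.u_one, .inr D.u_τ]

theorem al3_ff {g w : G} (e : g * D.f * g⁻¹ = D.f * w) : D.f * g * D.f = w * g := by
  rw [mul_assoc, mul_inv_eq_iff_eq_mul.1 e, ← mul_assoc, ← mul_assoc, D.ff, one_mul]

namespace Sx

variable {B : Subgroup G} {θ : G} (h : D.Sx 1 B θ)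
include h

theorem al3_r0 (hτ : D.τ ≠ 1) {r : G} (hr : r ∈ B) (r1 : D.Ac 1 r 0 1 0) :
    r * D.f * r⁻¹ = D.f * D.τ ∨ r * D.f * r⁻¹ = D.f * D.τ * D.z := by
  obtain ⟨s, hs, e⟩ := h.xs hr r1 hr (by rw [r1.t, alt_tz, al3_cj, alt_xt, alt_xz])
  have := alt_xf hs r1.cz (F := D.f * D.τ * D.z) (by
    rw [← e, alt_xe, r1.e, mul_one, al3_eτ, al3_cj, D.xe, D.xτ hτ, mul_assoc])
  rw [mul_assoc _ D.z, D.zz, mul_one] at this
  exact this.symm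

theorem al3_xs (hτ : D.τ ≠ 1) {r q : G} (hr : r ∈ B) (r1 : D.Ac 1 r 0 1 0) (hq : q ∈ B) (q1 : D.Ac 1 q 1 0 0) :
    ∃ s ∈ D.Ss, D.x * q * D.x⁻¹ = r * q * s :=
  h.xs hq q1 (mul_mem hr hq) (by
    rw [((r1.mul q1).eq (b' := 1) (c' := 1) (d' := 0) (by ring) (by ring) (by ring)).t, q1.t, alt_tτ, alt_tτz,
      al3_cj, alt_xt, D.xτ hτ])

theorem al3_pf (hτ : D.τ ≠ 1) {r q : G} (hr : r ∈ B) (r1 : D.Ac 1 r 0 1 0) (hq : q ∈ B) (q1 : D.Ac 1 q 1 0 0)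
    (qθ : θ * q * θ⁻¹ = q) : q * D.f * q⁻¹ = D.f * D.τ := by
  obtain ⟨s, hs, e⟩ := h.al3_xs hτ hr r1 hq q1
  have k1 := alt_xf hs (Commute.mul_left r1.cz q1.cz : Commute _ _) (F := D.f) (by
    rw [← e, alt_xe, q1.ce, mul_inv_cancel_right, D.xe])
  rw [al3_cj2] at k1
  have inj : ∀ v w : G, r * v * r⁻¹ = r * w * r⁻¹ → v = w := fun v w e => mul_left_cancel (mul_right_cancel e)
  have k2 : q * D.f * q⁻¹ = D.f * D.τ ∨ q * D.f * q⁻¹ = D.f * (D.τ * D.z) := by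
    have c1 : ∀ v, r * (v * D.τ) * r⁻¹ = r * v * r⁻¹ * D.τ := fun v => by rw [al3_cj, al3_fix r1.τ]
    have c2 : ∀ v, r * (v * D.z) * r⁻¹ = r * v * r⁻¹ * D.z := fun v => by rw [al3_cj, al3_fix r1.cz]
    have c3 : D.f * D.τ * D.z * D.τ = D.f * D.z := by
      rw [mul_assoc _ D.z, ← D.c_τz, ← mul_assoc, mul_assoc D.f, D.ττ, mul_one]
    rcases h.al3_r0 hτ hr r1 with e1 | e1 <;> rcases k1 with e2 | e2
    · exact .inl (inj _ _ (by rw [e2, c1, e1, mul_assoc, D.ττ, mul_one]))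
    · exact .inr (inj _ _ (by rw [e2, ← mul_assoc D.f, c2, c1, e1, mul_assoc D.f, D.ττ, mul_one]))
    · exact .inr (inj _ _ (by rw [e2, ← mul_assoc D.f, c2, c1, e1, c3, mul_assoc, D.zz, mul_one]))
    · exact .inl (inj _ _ (by rw [e2, c1, e1, c3]))
  refine k2.resolve_right fun k3 => alt_ez (D := D) ?_
  have k4 := h.fθ_fix qθ
  rw [al3_ff k3, al3_cj, qθ, al3_cj, h.th0.θz, al3_fix h.th0.θτ] at k4
  exact mul_left_cancel (mul_right_cancel k4)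

/-- the element `r` -/
theorem al3_r (hτ : D.τ ≠ 1) {r q : G} (hr : r ∈ B) (r1 : D.Ac 1 r 0 1 0) (hq : q ∈ B) (q1 : D.Ac 1 q 1 0 0)
    (qθ : θ * q * θ⁻¹ = q) : ∃ r ∈ B, D.Ac 1 r 1 1 0 ∧ (r * D.f * r⁻¹ = D.f ∨ r * D.f * r⁻¹ = D.f * D.z) ∧
      r * (θ * r * θ⁻¹) * (θ * (θ * r * θ⁻¹) * θ⁻¹) ∈ D.A0 := by
  have h1 : D.Ac 1 (r * q) 1 1 0 := (r1.mul q1).eq (by ring) (by ring) (by ring)
  have h2 := mul_mem hr hq
  have h3 := h.θB _ h2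
  obtain ⟨k, hk, h4⟩ := h.norm_t h2 (h.memA (mul_mem (mul_mem h2 h3) (h.θB _ h3))
    (((h1.mul (h1.conjθ h.th0)).mul ((h1.conjθ h.th0).conjθ h.th0)).eq (by grind) (by grind) (by grind)))
  have hA : k ∈ D.A := by rcases hk with rfl | rfl; exacts [one_mem _, alt_tA]
  refine ⟨r * q * k, mul_mem h2 (h.AB hA), (h1.mul (.ofA hA)).eq (by ring) (by ring) (by ring), ?_, h4⟩
  have k1 : k * D.f * k⁻¹ = D.f := by
    rcases hk with rfl | rfl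
    · group
    · exact al3_fix D.c_tf
  rw [al3_cj2, k1, al3_cj2, h.al3_pf hτ hr r1 hq q1 qθ, al3_cj, al3_fix r1.τ]
  rcases h.al3_r0 hτ hr r1 with e | e <;> rw [e]
  · exact .inl (by rw [mul_assoc, D.ττ, mul_one])
  · exact .inr (by rw [mul_assoc _ D.z, ← D.c_τz, ← mul_assoc, mul_assoc D.f, D.ττ, mul_one])

/-- `p` is corrected so that it commutes with `r` -/
theorem al3_p {r q : G} (hr : r ∈ B) (r1 : D.Ac 1 r 1 1 0)
    (rf : r * D.f * r⁻¹ = D.f ∨ r * D.f * r⁻¹ = D.f * D.z)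
    (hk : r * (θ * r * θ⁻¹) * (θ * (θ * r * θ⁻¹) * θ⁻¹) ∈ D.A0) (hq : q ∈ B) (q1 : D.Ac 1 q 1 0 0)
    (qθ : θ * q * θ⁻¹ = q) (qf : q * D.f * q⁻¹ = D.f * D.τ) :
    ∃ p ∈ B, D.Ac 1 p 1 0 0 ∧ θ * p * θ⁻¹ = p ∧ p * D.f * p⁻¹ = D.f * D.τ ∧ Commute p r := by
  obtain ⟨p, hp, p1, pθ, pf, w, hw, e⟩ : ∃ p ∈ B, D.Ac 1 p 1 0 0 ∧ θ * p * θ⁻¹ = p ∧ p * D.f * p⁻¹ = D.f * D.τ ∧
      ∃ w, (w = 1 ∨ w = D.τ) ∧ p * r * p⁻¹ = w * r := by
    obtain ⟨w, cw, cw', cw'', e⟩ : ∃ w, Commute q w ∧ Commute r w ∧ Commute D.τ w ∧ D.f * r * D.f = w * r := by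
      rcases rf with e | e
      · exact ⟨1, Commute.one_right _, Commute.one_right _, Commute.one_right _, al3_ff (e.trans (mul_one _).symm)⟩
      · exact ⟨D.z, q1.cz, r1.cz, D.c_τz, al3_ff e⟩
    obtain ⟨b, c, e1⟩ := alt_fixf (h.comm hq hr) (by
      have k1 : D.f * (q * r * q⁻¹ * r⁻¹) * D.f⁻¹ =
          D.f * q * D.f⁻¹ * (D.f * r * D.f⁻¹) * (D.f * q * D.f⁻¹)⁻¹ * (D.f * r * D.f⁻¹)⁻¹ := by group
      rw [alt_fi, al3_ff qf, e] at k1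
      have c1 : Commute D.τ (q * (w * r) * q⁻¹) :=
        ((show Commute q D.τ from q1.τ).symm.mul_right (cw''.mul_right (show Commute r D.τ from r1.τ).symm)).mul_right
          (show Commute q D.τ from q1.τ).symm.inv_right
      have c2 : Commute w (q * r * q⁻¹ * r⁻¹) :=
        ((cw.symm.mul_right cw'.symm).mul_right cw.symm.inv_right).mul_right cw'.symm.inv_right
      rw [k1, al3_cj2, al3_fix c1.eq, al3_cj q w, al3_fix cw.eq]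
      calc _ = w * (q * r * q⁻¹ * r⁻¹) * w⁻¹ := by group
        _ = _ := al3_fix c2.eq)
    have e2 : q * r * q⁻¹ = D.u 0 b c 0 * r := by rw [← e1]; group
    rcases alt_z2 c with rfl | rfl
    · exact ⟨q, hq, q1, qθ, qf, _, al3_u b, e2⟩
    refine ⟨q * D.t, mul_mem hq h.tB, (q1.mul (.ofA alt_tA)).eq (by ring) (by ring) (by ring),
      by rw [al3_cj, qθ, al3_fix h.th0.θt], by rw [al3_cj2, al3_fix D.c_tf, qf], _, al3_u (b + 1), ?_⟩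
    have k1 : D.t * r * D.t⁻¹ = D.u 0 1 1 0 * r := by
      rw [alt_ti, mul_assoc, mul_inv_eq_iff_eq_mul.1 r1.t, ← mul_assoc, ← D.u_t, u_mul]; rfl
    rw [al3_cj2, k1, al3_cj, e2, al3_fix (q1.cA0 (.inr ⟨rfl, rfl⟩) (alt_u_A0 _ _ _)), ← mul_assoc, u_mul]
    congr 2 <;> grind
  refine ⟨p, hp, p1, pθ, pf, ?_⟩
  have wθ : θ * w * θ⁻¹ = w := al3_fix (al3_τc hw h.th0.θτ)
  have pc : ∀ v, p * v * p⁻¹ = w * v → p * (θ * v * θ⁻¹) * p⁻¹ = w * (θ * v * θ⁻¹) := fun v hv => by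
    nth_rw 1 2 [← pθ]
    rw [← wθ, ← al3_cj θ w, ← hv]; group
  have k1 := al3_fix (p1.cA0 (.inr ⟨rfl, rfl⟩) hk)
  rw [al3_cj, al3_cj, e, pc _ e, pc _ (pc _ e)] at k1
  have c1 := (al3_τc hw r1.τ).eq
  have c2 := (al3_τc hw (r1.conjθ h.th0).τ).eq
  have ww := al3_τ hw
  generalize θ * (θ * r * θ⁻¹) * θ⁻¹ = r₃ at k1
  generalize θ * r * θ⁻¹ = r₂ at k1 c2
  have : w = 1 := by
    have k2 : w * r * (w * r₂) * (w * r₃) = w * (r * r₂ * r₃) := by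
      calc _ = w * r * (w * (r₂ * w)) * r₃ := by group
        _ = _ := by rw [c2, ← mul_assoc w w, ww]; group
    rwa [k2, mul_eq_right] at k1
  rw [this, one_mul] at e
  exact mul_inv_eq_iff_eq_mul.1 e

theorem al3_rr (hτ : D.τ ≠ 1) {r : G} (hr : r ∈ B) (r1 : D.Ac 1 r 1 1 0)
    (hk : r * (θ * r * θ⁻¹) * (θ * (θ * r * θ⁻¹) * θ⁻¹) ∈ D.A0) : r * r = 1 ∨ r * r = D.τ := by
  have h2 := h.θB r hr
  have r2 := r1.conjθ h.th0
  obtain ⟨r₂, e2⟩ : ∃ b, θ * r * θ⁻¹ = b := ⟨_, rfl⟩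
  rw [e2] at h2 r2 hk
  obtain ⟨r₃, e3⟩ : ∃ c, θ * r₂ * θ⁻¹ = c := ⟨_, rfl⟩
  rw [e3] at hk
  obtain ⟨b, c, d, e⟩ := D.mem_A0.1 (h.comm hr h2)
  obtain ⟨b₁, c₁, d₁, e1⟩ := D.mem_A0.1 hk
  have k1 : θ * (r * r₂ * r⁻¹ * r₂⁻¹) * θ⁻¹ = (r₂ * r)⁻¹ * (r * r₂ * r⁻¹ * r₂⁻¹) * (r₂ * r)⁻¹⁻¹ *
      ((r * r₂)⁻¹ * ((r₂ * (r * r₂ * r₃) * r₂⁻¹ * (r * r₂ * r₃)⁻¹)) * (r * r₂)⁻¹⁻¹) := by
    rw [al3_cj, al3_cj, al3_cj, ← conj_inv, ← conj_inv, e2, e3]; group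
  rw [e, e1, h.th0.conj_u, (r2.mul r1).inv, r2, inv_eq_of_mul_eq_one_right (D.A_sq (alt_u_A _ _ _ _)), u_mul,
    show (0 + 0 : ZMod 2) = 0 from rfl, (r1.mul r2).inv, u_mul] at k1
  obtain ⟨-, -, k2, k3⟩ := D.u_inj k1
  obtain ⟨rfl, rfl⟩ : c = 0 ∧ d = 0 := by grind
  have hw := al3_u (D := D) b
  generalize D.u 0 b 0 0 = w at e hw
  have k4 : r * r₂ * r⁻¹ = w * r₂ := by rw [← e]; group
  have k5 : r₂ * (r * r) * r₂⁻¹ = r * r := by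
    refine al3_fix (Eq.symm (mul_inv_eq_iff_eq_mul.1 ?_))
    rw [al3_cj2, k4, al3_cj, k4, al3_fix (al3_τc hw r1.τ).eq, ← mul_assoc, al3_τ hw, one_mul]
  obtain ⟨b₂, c₂, d₂, e4⟩ := D.mem_A0.1 (h.sq hr)
  have k6 : r * (r * r) * r⁻¹ = r * r := by group
  rw [e4, r1] at k6
  rw [e4, r2] at k5
  have k7 := (D.u_inj k5).2.1.resolve_right hτ
  have k8 := (D.u_inj k6).2.1.resolve_right hτ
  obtain ⟨rfl, rfl⟩ : c₂ = 0 ∧ d₂ = 0 := by grind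
  rw [e4]
  exact al3_u _

theorem al3_two {a p : G} (ha : a ∈ B) (a1 : D.Ac 1 a 0 1 0) (hp : p ∈ B) (p1 : D.Ac 1 p 1 0 0) :
    IsPGroup 2 ↥(closure {D.t, D.τ, D.x, D.e, a, p}) := by
  let X : Subgroup G :=
    { carrier := {g | g ∈ B ⊔ zpowers D.f ∧ g * D.τ = D.τ * g ∧ g * D.z = D.z * g ∧ g * D.t * g⁻¹ * D.t ∈ D.Z1}
      one_mem' := ⟨one_mem _, by simp, by simp, by simp [D.tt]⟩
      mul_mem' := fun {g g'} hg hg' => ⟨mul_mem hg.1 hg'.1, (Commute.mul_left hg.2.1 hg'.2.1 : Commute _ _),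
        (Commute.mul_left hg.2.2.1 hg'.2.2.1 : Commute _ _), by
          have k1 := al3_fix (alt_Z1_comm hg'.2.2.2 hg.2.1 hg.2.2.1)
          have : g * g' * D.t * (g * g')⁻¹ * D.t =
              g * (g' * D.t * g'⁻¹ * D.t) * g⁻¹ * (g * D.t⁻¹ * g⁻¹ * D.t) := by group
          rw [this, k1, alt_ti]
          exact mul_mem hg'.2.2.2 hg.2.2.2⟩
      inv_mem' := fun {g} hg => ⟨inv_mem hg.1, (Commute.inv_left hg.2.1 : Commute _ _),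
        (Commute.inv_left hg.2.2.1 : Commute _ _), by
          have k1 := alt_Z1_comm (inv_mem hg.2.2.2) hg.2.1 hg.2.2.1
          have : g⁻¹ * D.t * g⁻¹⁻¹ * D.t = g⁻¹ * ((g * D.t⁻¹ * g⁻¹ * D.t⁻¹)⁻¹ * g) := by group
          rw [this, alt_ti, ← k1, inv_mul_cancel_left]
          exact inv_mem hg.2.2.2⟩ }
  have hX : IsPGroup 2 X := h.two.to_le fun g hg => hg.1
  have mA : ∀ g ∈ B, ∀ b c, D.Ac 1 g b c 0 → g ∈ X := fun g hg b c h1 =>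
    ⟨mem_sup_left hg, h1.τ, h1.cz, by
      rw [h1.t, ← D.u_t, u_mul, show (1 + 1 : ZMod 2) = 0 from rfl, add_zero (0 : ZMod 2)]
      exact alt_u_Z1 _ _⟩
  have mA' : ∀ g ∈ D.A, g ∈ X := fun g hg => mA g (h.AB hg) 0 0 (.ofA hg)
  have hf : D.f ∈ X := ⟨mem_sup_right (mem_zpowers _), D.c_τf.symm, D.c_zf.symm, by
    rw [al3_fix D.c_tf.symm, D.tt]; exact one_mem _⟩
  refine (two_sup_two hX (g := D.x) (fun g hg => ⟨h.xX g hg.1 hg.2.2.2, ?_, ?_, ?_⟩) ?_).to_le ?_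
  · have k1 : D.x⁻¹ * D.τ * D.x ∈ D.Z1 := by
      by_cases hτ : D.τ = 1
      · rw [hτ, mul_one, inv_mul_cancel]; exact one_mem _
      · have : D.x * (D.τ * D.z) * D.x⁻¹ = D.τ := by
          rw [al3_cj, D.xτ hτ, alt_xz, mul_assoc, D.zz, mul_one]
        nth_rw 1 [← this]
        simpa [mul_assoc] using mul_mem alt_τZ alt_zZ
    have := (show Commute g _ from alt_Z1_comm k1 hg.2.1 hg.2.2.1).map (MulAut.conj D.x)
    simpa [mul_assoc] using this.eq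
  · exact alt_xz (D := D) ▸ ((show Commute g D.z from hg.2.2.1).map (MulAut.conj D.x)).eq
  · have := alt_x_Z1 hg.2.2.2
    rw [al3_cj, alt_xt] at this
    convert this using 2
    nth_rw 1 [← alt_xt]
    group
  · rw [D.xx, ← D.ef]
    exact mul_mem (mA' _ (D.A0_le_A alt_eA0)) hf
  · refine (closure_le _).2 ?_
    rintro g (rfl | rfl | rfl | rfl | rfl | rfl)
    · exact mem_sup_left (mA' _ alt_tA)
    · exact mem_sup_left (mA' _ (D.A0_le_A alt_τA0))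
    · exact mem_sup_right (mem_zpowers _)
    · exact mem_sup_left (mA' _ (D.A0_le_A alt_eA0))
    · exact mem_sup_left (mA _ ha _ _ a1)
    · exact mem_sup_left (mA _ hp _ _ p1)

end Sx

theorem Act.exists_gc {θ n p : G} (h : D.Act θ n p) (hτ : D.τ ≠ 1) (hp : p * D.t * p⁻¹ = D.t * D.τ)
    (hn : n * D.e * n⁻¹ = D.e * D.τ) : ∃ a p', D.Gc a p' := by
  obtain ⟨B, θ', hB, an, ap⟩ := h.exists_sx (l := 1) (hn.trans al3_eτ.symm)
  obtain ⟨q, hq, q1, qθ⟩ := hB.exists_p hτ (ap hτ hp)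
  obtain ⟨r₀, hr₀, r0⟩ := hB.ex an
  obtain ⟨r, hr, r1, rf, hk⟩ := hB.al3_r hτ hr₀ r0 hq q1 qθ
  obtain ⟨p, hp, p1, pθ, pf, pr⟩ := hB.al3_p hr r1 rf hk hq q1 qθ (hB.al3_pf hτ hr₀ r0 hq q1 qθ)
  have rr := hB.al3_rr hτ hr r1 hk
  have pp := hB.th0.alt_fix (hB.sq hp) (by rw [al3_cj, pθ])
  have mulτ : ∀ v w : G, (v = 1 ∨ v = D.τ) → (w = 1 ∨ w = D.τ) → v * w = 1 ∨ v * w = D.τ := by
    rintro v w (rfl | rfl) (rfl | rfl) <;> simp [D.ττ]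
  obtain ⟨a, ha, a1, af, aa, pa⟩ : ∃ a ∈ B, D.Ac 1 a 0 1 0 ∧ a * D.f * a⁻¹ = D.f * D.τ ∧
      (a * a = 1 ∨ a * a = D.τ) ∧ Commute p a := by
    have k1 : D.Ac 1 (r * p) 0 1 0 := (r1.mul p1).eq (by grind) (by grind) (by grind)
    have k2 : r * p * (r * p) = 1 ∨ r * p * (r * p) = D.τ := by
      rw [← pow_two, pr.symm.mul_pow, pow_two, pow_two]
      exact mulτ _ _ rr pp
    have k3 : Commute p (r * p) := pr.mul_right (Commute.refl p)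
    have k4 : r * p * D.f * (r * p)⁻¹ = r * D.f * r⁻¹ * D.τ := by rw [al3_cj2, pf, al3_cj, al3_fix r1.τ]
    rcases rf with e | e <;> rw [e] at k4
    · exact ⟨r * p, mul_mem hr hp, k1, k4, k2, k3⟩
    have k5 := mul_mem hr hp
    generalize r * p = a at k1 k2 k3 k4 k5
    refine ⟨a * D.e, mul_mem k5 (hB.A0B alt_eA0),
      (k1.mul (.ofA (D.A0_le_A alt_eA0))).eq (by ring) (by ring) (by ring), ?_, ?_, k3.mul_right p1.ce⟩
    · rw [al3_cj2, alt_ei, D.efe, al3_cj, k4, al3_fix k1.cz, mul_assoc _ D.τ, D.c_τz, ← mul_assoc, mul_assoc D.f,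
        D.zz, mul_one]
    · have k6 : a * D.e * (a * D.e) = a * D.e * a⁻¹ * (a * a) * D.e := by group
      rw [k6, k1.e, mul_one, al3_eτ, mul_assoc D.e, mul_assoc D.e, ← (al3_τc (mulτ _ _ (.inr rfl) k2)
        D.c_τe.symm).eq, ← mul_assoc, D.ee, one_mul]
      exact mulτ _ _ (.inr rfl) k2
  obtain ⟨s, hs, e⟩ := hB.al3_xs hτ ha a1 hp p1
  have ap1 : D.Ac 1 (a * p) 1 1 0 := (a1.mul p1).eq (by ring) (by ring) (by ring)
  have apf : a * p * D.f * (a * p)⁻¹ = D.f := by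
    rw [al3_cj2, pf, al3_cj, af, al3_fix a1.τ, mul_assoc, D.ττ, mul_one]
  have inj : ∀ v w : G, a * p * v * (a * p)⁻¹ = a * p * w * (a * p)⁻¹ → v = w := fun v w e =>
    mul_left_cancel (mul_right_cancel e)
  have sf : s * D.f * s⁻¹ = D.f := inj _ _ (by
    rw [← al3_cj2, ← e, alt_xe, al3_fix p1.ce, D.xe, apf])
  have hA : D.f * s ∈ D.A := (D.mem_Ss.1 hs).resolve_left fun hA => D.z1 (by
    have k1 := alt_xff (D := D) p
    rw [e, al3_cj2, al3_fix (D.A_comm hA (D.A0_le_A (mul_mem alt_eA0 alt_zA0))), al3_cj, ap1.e, al3_fix ap1.cz,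
      mul_one, al3_eτ, pf, al3_cj, D.xf, D.xτ hτ, mul_assoc, mul_assoc, mul_right_inj] at k1
    exact mul_eq_right.1 k1.symm)
  obtain ⟨a₁, b, c, d, e1⟩ := D.mem_A.1 hA
  have es : s = D.f * D.u a₁ b c d := by rw [← e1, ← mul_assoc, D.ff, one_mul]
  obtain rfl : d = 0 := by
    have k1 : D.f * (D.f * s) * D.f = D.f * s := by
      rw [← mul_assoc, D.ff, one_mul, mul_inv_eq_iff_eq_mul.1 sf]
    rw [e1, f_u] at k1
    have := (D.u_inj k1).2.2.1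
    grind
  have hZ := alt_u_Z1 (D := D) b c
  have c1 : Commute p (D.u 0 b c 0) := alt_Z1_comm hZ p1.τ p1.cz
  have c2 : Commute D.f (D.u 0 b c 0) := alt_Z1_comm hZ D.c_τf.symm D.c_zf.symm
  have c3 : Commute a (D.u 0 b c 0) := alt_Z1_comm hZ a1.τ a1.cz
  have c4 : Commute D.τ (D.u 0 b c 0) := alt_Z1_comm hZ rfl D.c_τz
  rcases alt_z2 a₁ with rfl | rfl
  · refine absurd ?_ D.z1
    have k1 : p * (D.x * p * D.x⁻¹) * p⁻¹ = D.x * p * D.x⁻¹ * D.τ := by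
      rw [e, es, al3_cj, al3_cj p D.f, pf, al3_fix c1.eq, al3_fix (pa.mul_right (Commute.refl p)).eq,
        mul_assoc D.f, c4.eq]
      group
    have k2 : D.x * (D.x * p * D.x⁻¹) * D.x⁻¹ = D.τ * p := by
      calc _ = D.x * D.x * p * (D.x * D.x)⁻¹ := by group
        _ = D.e * (D.f * p * D.f⁻¹) * D.e⁻¹ := by rw [D.xx, ← D.ef]; group
        _ = _ := by rw [alt_fi, al3_ff pf, al3_cj, al3_fix D.c_τe.symm, al3_fix p1.ce.symm]
    have k3 : Commute (D.x * p * D.x⁻¹) D.τ := by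
      have : D.x * (D.τ * D.z) * D.x⁻¹ = D.τ := by
        rw [al3_cj, D.xτ hτ, alt_xz, mul_assoc, D.zz, mul_one]
      exact this ▸ (Commute.mul_right p1.τ p1.cz : Commute p _).map (MulAut.conj D.x)
    have k4 := congrArg (fun v => D.x * v * D.x⁻¹) k1
    beta_reduce at k4
    rw [al3_cj, al3_cj, ← conj_inv, k2, al3_cj D.x _ D.τ, k2, D.xτ hτ] at k4
    generalize D.x * p * D.x⁻¹ = p' at k1 k3 k4
    have k5 : p' * p * p'⁻¹ = D.τ * p := by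
      have : p * p' = D.τ * (p' * p) := by rw [mul_inv_eq_iff_eq_mul.1 k1, k3.eq, mul_assoc]
      rw [mul_inv_eq_iff_eq_mul, mul_assoc, this, ← mul_assoc, D.ττ, one_mul]
    rw [al3_cj, al3_fix k3.eq, k5, ← mul_assoc, D.ττ, one_mul, ← p1.τ, mul_assoc, ← mul_assoc D.τ, D.ττ,
      one_mul] at k4
    exact (left_eq_mul.1 k4)
  have e2 : D.u 1 b c 0 = D.u 0 b c 0 * D.t := by rw [← D.u_t, u_mul]; congr 1 <;> ring
  have hA' := D.A0_le_A (D.Z1_le_A0 hZ)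
  have a2 : D.Ac 1 (a * D.u 0 b c 0) 0 1 0 := (a1.mul (.ofA hA')).eq (by ring) (by ring) (by ring)
  refine ⟨a * D.u 0 b c 0, p, hτ, hB.al3_two (mul_mem ha (hB.AB hA')) a2 hp p1, a2.t.trans alt_tz, a2.cz, a2.τ,
    by rw [a2.e, mul_one, al3_eτ], by rw [al3_cj2, al3_fix c2.symm.eq, af], ?_, p1.t.trans alt_tτ, p1.cz, p1.ce,
    p1.τ, pf, pa.mul_right c1, pp, ?_⟩
  · rwa [← pow_two, c3.mul_pow, pow_two, pow_two, D.A_sq hA', mul_one]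
  · rw [e, es, e2, ← mul_assoc D.f, c2.eq, mul_assoc _ D.f, ← D.c_tf, mul_assoc a p, ← mul_assoc p, c1.eq]
    group

end Fr

end CfsgLib.L33
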