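import Mathlib
import Cfsg.Agent.Lib.L33.Trb

/-! Involution centralizers with a 2-component of type `L₃(3)` (plans/L33.md, package F1). -/

set_option autoImplicit false
set_option linter.unusedSectionVars false

namespace CfsgLib.L33

open Subgroup CfsgLib.Tech

variable {G : Type*} [Group G] [Finite G]

namespace Fr

variable {D : Fr G} {a b p θ : G}

namespace F1

open Nrm

theorem pow_add4 {g : G} (h : g ^ 4 = 1) (i j : ZMod 4) : g ^ (i + j).val = g ^ i.val * g ^ j.val := by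
  rw [← pow_add, ZMod.val_add, ← pow_eq_pow_mod _ h]

/-- doubling -/
def dbl (c : ZMod 2) : ZMod 4 := if c = 0 then 0 else 2
/-- reduction -/
def red (i : ZMod 4) : ZMod 2 := if i = 0 ∨ i = 2 then 0 else 1
/-- halving -/
def half (i : ZMod 4) : ZMod 2 := if i = 0 then 0 else 1

theorem pow_dbl (g : G) (c : ZMod 2) : g ^ (dbl c).val = (g * g) ^ c.val := by
  rcases z2 c with rfl | rfl
  · exact (pow_zero _).trans (pow_zero _).symm
  · rw [← sq]; exact (pow_one _).symm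

theorem inv_of {t g c : G} (tt : t * t = 1) (h : g * t * g⁻¹ = t * c) (g2 : g * g = c) (c2 : c * c = 1) :
    t * g * t = g⁻¹ := by
  rw [mul_assoc, mul_inv_eq_iff_eq_mul.1 h, ← mul_assoc, ← mul_assoc, tt, one_mul, eq_inv_iff_mul_eq_one, mul_assoc,
    g2, c2]

/-- normal form in `B̂` -/
def v (a b p : G) (i j k : ZMod 4) : G := a ^ i.val * b ^ j.val * p ^ k.val

section
variable (h : D.Four a b p θ)
include h

theorem b2 : b * b = D.e := by
  rw [h.hb]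
  exact (h.toTr.bb.resolve_left fun k => D.z1 (h.a2.symm.trans k.1)).2

theorem ab : Commute a b := by rw [h.hb]; exact h.ab
theorem bp : Commute b p := by rw [h.hb]; exact h.toTr.bp
theorem ap : Commute a p := h.pa.symm
theorem bt : b * D.t * b⁻¹ = D.t * D.e := by rw [h.hb]; exact h.toTr.bt
theorem a4 : a ^ 4 = 1 := by rw [show a ^ 4 = a * a * (a * a) by simp only [pow_succ, pow_zero, one_mul, mul_assoc], h.a2, D.zz]
theorem b4 : b ^ 4 = 1 := by rw [show b ^ 4 = b * b * (b * b) by simp only [pow_succ, pow_zero, one_mul, mul_assoc], b2 h, D.ee]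
theorem p4 : p ^ 4 = 1 := by rw [show p ^ 4 = p * p * (p * p) by simp only [pow_succ, pow_zero, one_mul, mul_assoc], h.p2, D.ττ]

theorem v_mul (i j k i' j' k' : ZMod 4) :
    v a b p i j k * v a b p i' j' k' = v a b p (i + i') (j + j') (k + k') := by
  simp only [v, pow_add4 (a4 h), pow_add4 (b4 h), pow_add4 (p4 h), mul_assoc]
  rw [← ((ap h).pow_pow _ _).left_comm, ← ((ab h).pow_pow _ _).left_comm, ← ((bp h).pow_pow _ _).left_comm]

theorem v_dbl (c d k : ZMod 2) : v a b p (dbl c) (dbl d) (dbl k) = D.u 0 k c d := by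
  simp only [v, u, pow_dbl, h.a2, b2 h, h.p2, ZMod.val_zero, pow_zero, one_mul]
  have h1 : Commute D.τ D.z := D.c_τz
  have h2 : Commute D.τ D.e := D.c_τe
  rw [mul_assoc (D.τ ^ _), ((h1.pow_pow _ _).mul_right (h2.pow_pow _ _)).eq]

theorem v_sq (i j k : ZMod 4) : v a b p i j k * v a b p i j k = D.u 0 (red k) (red i) (red j) := by
  have : ∀ i : ZMod 4, i + i = dbl (red i) := by decide
  rw [v_mul h, this, this, this, v_dbl h]

theorem v_inv {i j k : ZMod 4} (e : v a b p i j k * v a b p i j k = 1) :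
    v a b p i j k = D.u 0 (half k) (half i) (half j) ∧ i = dbl (half i) ∧ j = dbl (half j) ∧ k = dbl (half k) := by
  have : ∀ i : ZMod 4, red i = 0 → i = dbl (half i) := by decide
  rw [v_sq h, ← D.u_one] at e
  obtain ⟨-, e1, e2, e3⟩ := u_inj' h.τ1 e
  exact ⟨by rw [← v_dbl h, ← this _ e1, ← this _ e2, ← this _ e3], this _ e2, this _ e3, this _ e1⟩

theorem v_inj {i j k i' j' k' : ZMod 4} (e : v a b p i j k = v a b p i' j' k') : i = i' ∧ j = j' ∧ k = k' := by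
  have e0 : v a b p (i - i') (j - j') (k - k') = 1 := by
    rw [← mul_right_inj (v a b p i' j' k'), v_mul h, mul_one, ← e]; simp only [add_sub_cancel]
  obtain ⟨e1, e2, e3, e4⟩ := v_inv h (by rw [e0, mul_one])
  rw [e0, ← D.u_one] at e1
  obtain ⟨-, f1, f2, f3⟩ := u_inj' h.τ1 e1
  rw [← f1] at e4; rw [← f2] at e2; rw [← f3] at e3
  exact ⟨sub_eq_zero.1 e2, sub_eq_zero.1 e3, sub_eq_zero.1 e4⟩

theorem mem_v {u : G} : u ∈ D.Bh a b p ↔ ∃ i j k, u = v a b p i j k := by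
  refine ⟨fun hu => ?_, ?_⟩
  · induction hu using closure_induction with
    | mem x hx =>
      simp only [Set.mem_insert_iff, Set.mem_singleton_iff] at hx
      rcases hx with rfl | rfl | rfl | rfl | rfl | rfl
      · exact ⟨_, _, _, by rw [v_dbl h, D.u_τ]⟩
      · exact ⟨_, _, _, by rw [v_dbl h, D.u_z]⟩
      · exact ⟨_, _, _, by rw [v_dbl h, D.u_e]⟩
      · exact ⟨1, 0, 0, by simp [v, show (1 : ZMod 4).val = 1 from rfl]⟩
      · exact ⟨0, 1, 0, by simp [v, show (1 : ZMod 4).val = 1 from rfl]⟩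
      · exact ⟨0, 0, 1, by simp [v, show (1 : ZMod 4).val = 1 from rfl]⟩
    | one => exact ⟨0, 0, 0, by simp [v]⟩
    | mul _ _ _ _ h1 h2 =>
      obtain ⟨i, j, k, rfl⟩ := h1
      obtain ⟨i', j', k', rfl⟩ := h2
      exact ⟨_, _, _, v_mul h ..⟩
    | inv _ _ h1 =>
      obtain ⟨i, j, k, rfl⟩ := h1
      exact ⟨-i, -j, -k, inv_eq_of_mul_eq_one_right (by rw [v_mul h]; simp [v])⟩
  · rintro ⟨i, j, k, rfl⟩
    exact mul_mem (mul_mem (pow_mem (subset_closure (by simp)) _) (pow_mem (subset_closure (by simp)) _))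
      (pow_mem (subset_closure (by simp)) _)

end

theorem a_Bh : a ∈ D.Bh a b p := subset_closure (by simp)
theorem b_Bh : b ∈ D.Bh a b p := subset_closure (by simp)
theorem p_Bh : p ∈ D.Bh a b p := subset_closure (by simp)
theorem t_B : D.t ∈ D.B a b p := subset_closure (by simp)
theorem Bh_le : D.Bh a b p ≤ D.B a b p := closure_mono fun _ h => .inr h
theorem t_inv : D.t⁻¹ = D.t := inv_eq_of_mul_eq_one_right D.tt

theorem B_eq : D.B a b p = D.Bh a b p ⊔ zpowers D.t := by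
  rw [B, Bh, Set.insert_eq, Subgroup.closure_union, sup_comm, zpowers_eq_closure]

/-- the elements that centralize `A₀` and `s A₀` -/
def KK (D : Fr G) (s : G) : Subgroup G where
  carrier := {g | g ∈ centralizer (D.A0 : Set G) ∧ g * s * g⁻¹ * s⁻¹ ∈ D.A0}
  one_mem' := ⟨one_mem _, by simp⟩
  mul_mem' := fun {g k} hg hk => ⟨mul_mem hg.1 hk.1, by
    rw [show g * k * s * (g * k)⁻¹ * s⁻¹ = g * (k * s * k⁻¹ * s⁻¹) * g⁻¹ * (g * s * g⁻¹ * s⁻¹) by group,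
      fix (hg.1 _ hk.2).symm]
    exact mul_mem hk.2 hg.2⟩
  inv_mem' := fun {g} hg => ⟨inv_mem hg.1, by
    rw [show g⁻¹ * s * g⁻¹⁻¹ * s⁻¹ = g⁻¹ * (g * s * g⁻¹ * s⁻¹)⁻¹ * g⁻¹⁻¹ by group,
      fix ((inv_mem hg.1) _ (inv_mem hg.2)).symm]
    exact inv_mem hg.2⟩

theorem mem_KK {s g : G} : g ∈ KK D s ↔ g ∈ centralizer (D.A0 : Set G) ∧ g * s * g⁻¹ * s⁻¹ ∈ D.A0 := Iff.rfl

end F1

open F1 Nrm

theorem Four.mem_Bh (h : D.Four a b p θ) {u : G} :
    u ∈ D.Bh a b p ↔ ∃ i j k : ZMod 4, u = a ^ i.val * b ^ j.val * p ^ k.val := mem_v h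
theorem Four.comm (h : D.Four a b p θ) {u u' : G} (hu : u ∈ D.Bh a b p) (hu' : u' ∈ D.Bh a b p) :
    u * u' = u' * u := by
  obtain ⟨i, j, k, rfl⟩ := (mem_v h).1 hu
  obtain ⟨i', j', k', rfl⟩ := (mem_v h).1 hu'
  rw [v_mul h, v_mul h, add_comm i, add_comm j, add_comm k]
theorem Four.A0_le (h : D.Four a b p θ) : D.A0 ≤ D.Bh a b p := fun s hs => by
  obtain ⟨k, c, d, rfl⟩ := D.mem_A0.1 hs
  exact (mem_v h).2 ⟨_, _, _, (v_dbl h ..).symm⟩
theorem Four.sq_mem (h : D.Four a b p θ) {u : G} (hu : u ∈ D.Bh a b p) : u * u ∈ D.A0 := by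
  obtain ⟨i, j, k, rfl⟩ := (mem_v h).1 hu
  exact v_sq h i j k ▸ u_A0 D _ _ _
theorem Four.mem_A0 (h : D.Four a b p θ) {u : G} (hu : u ∈ D.Bh a b p) (h2 : u * u = 1) : u ∈ D.A0 := by
  obtain ⟨i, j, k, rfl⟩ := (mem_v h).1 hu
  exact (v_inv h h2).1 ▸ u_A0 D _ _ _
theorem Four.root (h : D.Four a b p θ) {v : G} (hv : v ∈ D.A0) : ∃ u ∈ D.Bh a b p, u * u = v := by
  obtain ⟨k, c, d, rfl⟩ := D.mem_A0.1 hv
  have : ∀ c : ZMod 2, ∃ i, red i = c := by decide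
  obtain ⟨k, rfl⟩ := this k
  obtain ⟨c, rfl⟩ := this c
  obtain ⟨d, rfl⟩ := this d
  exact ⟨_, (mem_v h).2 ⟨_, _, _, rfl⟩, v_sq h ..⟩
theorem Four.card_A0 (h : D.Four a b p θ) : Nat.card D.A0 = 8 := by
  have h1 := D.card_A0
  rw [(D.card_A.resolve_left fun k => h.τ1 k.1).2] at h1
  omega
theorem Four.card_Bh (h : D.Four a b p θ) : Nat.card (D.Bh a b p) = 64 := by
  refine (Nat.card_eq_of_bijective (fun c : ZMod 4 × ZMod 4 × ZMod 4 =>
    (⟨_, (mem_v h).2 ⟨c.1, c.2.1, c.2.2, rfl⟩⟩ : D.Bh a b p)) ⟨fun c d e => ?_, fun u => ?_⟩).symm.trans (by simp)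
  · obtain ⟨e1, e2, e3⟩ := v_inj h (congrArg Subtype.val e)
    exact Prod.ext e1 (Prod.ext e2 e3)
  · obtain ⟨i, j, k, e⟩ := (mem_v h).1 u.2
    exact ⟨(i, j, k), Subtype.ext e.symm⟩
theorem Four.t_Bh (h : D.Four a b p θ) {u : G} (hu : u ∈ D.Bh a b p) : D.t * u * D.t = u⁻¹ := by
  have c : ∀ {s : G}, D.t * s = s * D.t → s * s = 1 → D.t * s * D.t = s⁻¹ := fun e e' => by
    rw [e, mul_assoc, D.tt, mul_one, inv_eq_of_mul_eq_one_right e']
  induction hu using closure_induction with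
  | mem x hx =>
    simp only [Set.mem_insert_iff, Set.mem_singleton_iff] at hx
    rcases hx with rfl | rfl | rfl | rfl | rfl | rfl
    exacts [c D.c_tτ D.ττ, c D.c_tz D.zz, c D.c_te D.ee, inv_of D.tt h.at' h.a2 D.zz,
      inv_of D.tt (bt h) (b2 h) D.ee, inv_of D.tt h.pt h.p2 D.ττ]
  | one => simp [D.tt]
  | mul x y hx hy h1 h2 =>
    rw [h.comm hx hy, mul_inv_rev, ← h1, ← h2, ← h.comm hx hy]
    simp only [mul_assoc, ← mul_assoc D.t D.t, D.tt, one_mul]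
  | inv x _ h1 => rw [← mul_left_inj (D.t * x * D.t)]; nth_rw 2 [h1]; simp [mul_assoc, ← mul_assoc D.t D.t, D.tt]
theorem Four.t_not (h : D.Four a b p θ) : D.t ∉ D.Bh a b p := fun k => D.t_not_A0 (h.mem_A0 k D.tt)
theorem Four.t_norm (h : D.Four a b p θ) : ∀ u ∈ D.Bh a b p, D.t * u * D.t⁻¹ ∈ D.Bh a b p := fun u hu => by
  rw [t_inv, h.t_Bh hu]; exact inv_mem hu
theorem Four.mem_B (h : D.Four a b p θ) {g : G} : g ∈ D.B a b p ↔ g ∈ D.Bh a b p ∨ D.t * g ∈ D.Bh a b p := by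
  rw [B_eq, mem_sup_two h.t_norm (D.tt ▸ one_mem _)]
theorem Four.card_B (h : D.Four a b p θ) : Nat.card (D.B a b p) = 128 := by
  rw [B_eq, card_sup_two h.t_norm (D.tt ▸ one_mem _) h.t_not, h.card_Bh]
theorem Four.two_B (h : D.Four a b p θ) : IsPGroup 2 (D.B a b p) := IsPGroup.of_card (n := 7) h.card_B
theorem Four.B_cent (h : D.Four a b p θ) : D.B a b p ≤ centralizer (D.A0 : Set G) := by
  rw [B_eq]
  exact sup_le (fun u hu s hs => h.comm (h.A0_le hs) hu)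
    (zpowers_le.2 fun s hs => D.A_comm (D.A0_le_A hs) (t_A D))
theorem Four.θ_norm (h : D.Four a b p θ) : θ ∈ normalizer (D.B a b p : Set G) := by
  refine norm_of rfl fun x hx => ?_
  simp only [Set.mem_insert_iff, Set.mem_singleton_iff] at hx
  have l : D.A0 ≤ D.B a b p := h.A0_le.trans Bh_le
  rcases hx with rfl | rfl | rfl | rfl | rfl | rfl | rfl
  · rw [fix h.th.θt]; exact t_B
  · rw [fix h.th.θτ]; exact l (τ_A0 D)
  · rw [h.th.θz]; exact l (e_A0 D)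
  · rw [h.th.θe]; exact l (mul_mem (e_A0 D) (z_A0 D))
  · rw [← h.hb]; exact Bh_le b_Bh
  · rw [h.hb, h.toTr.θb, ← h.hb]; exact Bh_le (inv_mem (mul_mem a_Bh b_Bh))
  · rw [fix h.pθ.symm]; exact Bh_le p_Bh

/-- the elements of `B` outside `B̂` are involutions -/
theorem Four.mem_Bh_of (h : D.Four a b p θ) {g : G} (hg : g ∈ D.B a b p) (h2 : g * g ≠ 1) : g ∈ D.Bh a b p :=
  (h.mem_B.1 hg).resolve_right fun k => h2 (by
    have := h.t_Bh k
    rw [← mul_assoc, D.tt, one_mul, eq_inv_iff_mul_eq_one] at this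
    simpa only [mul_assoc, ← mul_assoc D.t D.t, D.tt, one_mul] using this)

theorem Four.norm_Bh0 (h : D.Four a b p θ) {g : G} (hg : g ∈ normalizer (D.B a b p : Set G)) :
    ∀ u ∈ D.Bh a b p, g * u * g⁻¹ ∈ D.Bh a b p := fun u hu => by
  have k : ∀ s ∈ D.Bh a b p, s * s ≠ 1 → ∀ n : ℕ, g * s ^ n * g⁻¹ ∈ D.Bh a b p := fun s hs s2 n => by
    rw [← conj_pow]
    exact pow_mem (h.mem_Bh_of (conj_mem_of_mem_normalizer hg (Bh_le hs)) (by rw [conj_mul]; exact conj_ne_one s2)) n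
  obtain ⟨i, j, l, rfl⟩ := h.mem_Bh.1 hu
  rw [cjm, cjm]
  exact mul_mem (mul_mem (k a a_Bh (h.a2 ▸ D.z1) _) (k b b_Bh (b2 h ▸ e1 D) _)) (k p p_Bh (h.p2 ▸ h.τ1) _)

theorem Four.norm_Bh (h : D.Four a b p θ) {g : G} (hg : g ∈ normalizer (D.B a b p : Set G)) :
    (∀ u ∈ D.Bh a b p, g * u * g⁻¹ ∈ D.Bh a b p) ∧ (∀ v ∈ D.A0, g * v * g⁻¹ ∈ D.A0) ∧
      D.t * (g * D.t * g⁻¹) ∈ D.Bh a b p :=
  ⟨h.norm_Bh0 hg, fun v hv => h.mem_A0 (h.norm_Bh0 hg v (h.A0_le hv)) (syl_sq_conj (D.A_sq (D.A0_le_A hv))),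
    (h.mem_B.1 (conj_mem_of_mem_normalizer hg t_B)).resolve_left fun k => h.t_not (by
      simpa [mul_assoc] using h.norm_Bh0 (inv_mem hg) _ k)⟩

theorem Four.B_le_KK (h : D.Four a b p θ) {w : G} (hw : w ∈ D.Bh a b p) : D.B a b p ≤ KK D (D.t * w) := by
  have k : D.Bh a b p ≤ KK D (D.t * w) := fun u hu => ⟨h.B_cent (Bh_le hu), by
    rw [show u * (D.t * w) * u⁻¹ * (D.t * w)⁻¹ = u * (D.t * (w * u⁻¹ * w⁻¹) * D.t⁻¹) by group,
      fix (h.comm hw (inv_mem hu)), t_inv, h.t_Bh (inv_mem hu), inv_inv]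
    exact h.sq_mem hu⟩
  rw [B_eq]
  refine sup_le k (zpowers_le.2 ⟨h.B_cent t_B, ?_⟩)
  rw [show D.t * (D.t * w) * D.t⁻¹ * (D.t * w)⁻¹ = D.t * (D.t * w * D.t⁻¹ * w⁻¹) * D.t⁻¹ by group, t_inv, h.t_Bh hw,
    h.t_Bh (mul_mem (inv_mem hw) (inv_mem hw))]
  exact inv_mem (h.sq_mem (inv_mem hw))

theorem Four.syl_KK (h : D.Four a b p θ) {w : G} (hw : w ∈ D.Bh a b p) (hs : IsConj D.t (D.t * w)) :
    IsSylowIn 2 (D.B a b p) (KK D (D.t * w)) := by
  refine isSylowIn_of_maximal h.two_B (h.B_le_KK hw) fun R hR l l' => (eq_of_le_of_card_ge l ?_).ge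
  rw [h.card_B]
  exact (h.th.toTh0.qq hs (fun v hv => D.A_sq (D.A0_le_A hv)) (by rw [h.card_A0]; norm_num)
    (fun k => h.t_not ((mul_mem_cancel_right hw).1 (h.A0_le k))) hR ((h.A0_le.trans Bh_le).trans l)
    (l (mul_mem t_B (Bh_le hw))) (fun g hg v hv => ((l' hg).1 v hv).symm) fun g hg => (l' hg).2).1

theorem Four.exists_c0 (h : D.Four a b p θ) : ∃ c, c * D.z * c⁻¹ = D.z ∧ c * D.τ * c⁻¹ = D.τ * D.z ∧
    c * D.e * c⁻¹ ∈ D.A0 ∧ c * D.t * c⁻¹ = D.t * a := by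
  have az : Commute a D.z := h.az
  have ae : Commute a D.e := h.ae
  have af : Commute a D.f := h.af
  have zf : Commute D.z D.f := D.c_zf
  have ze : Commute D.z D.e := D.c_ze
  have bz : b * D.z * b⁻¹ = D.z := fix (h.comm b_Bh (h.A0_le (z_A0 D)))
  have bτ : b * D.τ * b⁻¹ = D.τ := fix (h.comm b_Bh (h.A0_le (τ_A0 D)))
  have be : b * D.e * b⁻¹ = D.e := fix (h.comm b_Bh (h.A0_le (e_A0 D)))
  have xz : D.x * D.z * D.x⁻¹ = D.z := fix D.c_zx.symm
  have xt : D.x * D.t * D.x⁻¹ = D.t := fix D.c_tx.symm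
  have bf : b * D.f * b⁻¹ = D.f * a⁻¹ * D.e := by
    have e1 : D.f * b * D.f = (a * b)⁻¹ := by rw [h.hb]; exact h.toTr.fb
    have e2 : D.e = b⁻¹ * b⁻¹ := by rw [← mul_inv_rev, b2 h, inv_eq_of_mul_eq_one_right D.ee]
    rw [e2, ← mul_assoc, mul_assoc D.f, ← mul_inv_rev, ← (ab h).eq, ← e1, ← mul_assoc, ← mul_assoc, D.ff, one_mul]
  set a' := D.x * a * D.x⁻¹ with ha'
  obtain ⟨c1, c2, c3, c4, c5, c6⟩ : Commute a' D.z ∧ Commute a' D.e ∧ Commute a' D.f ∧ Commute a' b ∧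
      D.x * a' * D.x⁻¹ = a ∧ (a * a' = D.z ∨ a * a' = 1) := by
    have zb : Commute D.z b := (com bz).symm
    rcases h.xa with e | e
    · have e' : a' = a := e
      rw [e']; exact ⟨az, ae, af, ab h, e, .inl h.a2⟩
    · have e' : a' = a * D.z := e
      rw [e']
      exact ⟨az.mul_left rfl, ae.mul_left ze, af.mul_left zf, (ab h).mul_left zb,
        by rw [cjm, e, xz, mul_assoc, D.zz, mul_one], .inr (by rw [← mul_assoc, h.a2, D.zz])⟩
  set b' := D.x * b * D.x⁻¹ with hb'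
  have k : ∀ s, b' * (D.x * s * D.x⁻¹) * b'⁻¹ = D.x * (b * s * b⁻¹) * D.x⁻¹ := fun s => by rw [hb']; group
  have k1 : b' * D.z * b'⁻¹ = D.z := by simpa only [bz, xz] using k D.z
  have k2 : b' * D.τ * b'⁻¹ = D.τ := by
    have := k D.τ
    rw [bτ, D.xτ h.τ1, cjm, k1] at this
    exact mul_right_cancel this
  have k3 : b' * D.t * b'⁻¹ = D.t * D.f := by simpa only [bt h, xt, cjm D.x, D.xe] using k D.t
  have k4 : b' * D.e * b'⁻¹ = D.e * a'⁻¹ * D.f := by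
    have := k D.f
    rw [bf, D.xf, cjm, k1, cjm, cjm, D.xf, D.xe, ← conj_inv, ← ha', mul_assoc D.e, ← c1.inv_left.eq,
      ← mul_assoc D.e, mul_assoc _ D.z, zf.eq, ← mul_assoc] at this
    exact mul_right_cancel this
  have ba : b * a'⁻¹ * b⁻¹ = a'⁻¹ := fix c4.inv_left.eq.symm
  refine ⟨D.x * b * b' * b, by rw [cj2, cj2, cj2, bz, k1, bz, xz], by rw [cj2, cj2, cj2, bτ, k2, bτ, D.xτ h.τ1],
    ?_, ?_⟩
  · have e : D.e * a'⁻¹ * (D.f * a⁻¹ * D.e) = (a * a')⁻¹ * (D.f * D.z) := by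
      rw [← D.efe, mul_inv_rev a a', ← c2.inv_left.eq, ← af.inv_left.eq]
      simp only [mul_assoc]
      rw [ae.inv_left.left_comm]
    rw [cj2, cj2, cj2, be, k4, cjm b, cjm b, be, ba, bf, e, cjm, cjm, D.xf, xz]
    refine mul_mem ?_ (mul_mem (mul_mem (e_A0 D) (z_A0 D)) (z_A0 D))
    rcases c6 with e | e <;> rw [e]
    · rw [← conj_inv, xz]; exact inv_mem (z_A0 D)
    · simp
  · have e : D.t * D.f * (D.e * a'⁻¹ * D.f) = D.t * D.e * D.z * a'⁻¹ := by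
      rw [mul_assoc D.e, c3.inv_left.eq, mul_assoc D.t D.e, ← D.fef]; simp only [mul_assoc]
    rw [cj2, cj2, cj2, bt h, cjm b', k3, k4, e, cjm b, cjm b, cjm b, bt h, be, bz, ba, mul_assoc D.t, D.ee, mul_one,
      cjm, cjm, xt, xz, ← conj_inv, c5, ← h.a2, mul_assoc, mul_inv_cancel_right]

/-- an element of `N(B)` moving `τ` -/
theorem Four.exists_c (h : D.Four a b p θ) : ∃ c ∈ normalizer (D.B a b p : Set G),
    c * D.τ * c⁻¹ = D.τ * D.z ∧ D.t * (c * D.t * c⁻¹) * a⁻¹ ∈ D.A0 := by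
  obtain ⟨c, c1, c2, c3, c4⟩ := h.exists_c0
  have n : c ∈ normalizer (D.A0 : Set G) := norm_of rfl fun x hx => by
    simp only [Set.mem_insert_iff, Set.mem_singleton_iff] at hx
    rcases hx with rfl | rfl | rfl
    exacts [c2 ▸ mul_mem (τ_A0 D) (z_A0 D), c1.symm ▸ z_A0 D, c3]
  obtain ⟨m, hm, l⟩ := (h.syl_KK a_Bh (isConj_iff.2 ⟨c, c4⟩)).exists_cj_le (isPGroup_cj c h.two_B)
    (cj_le_iff.2 fun g hg => by
      have k := h.B_le_KK (one_mem _) hg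
      refine ⟨fun s hs => ?_, ?_⟩
      · simpa [mul_assoc] using congrArg (fun y => c * y * c⁻¹) (k.1 _ (conj_mem_of_mem_normalizer' n hs))
      · rw [← c4]
        convert conj_mem_of_mem_normalizer n k.2 using 1
        group)
  refine ⟨m * c, mem_normalizer_of_cj_le (by rwa [cj_mul]), ?_, ?_⟩
  · rw [cj2, c2, fix (hm.1 _ (mul_mem (τ_A0 D) (z_A0 D))).symm]
  · rw [cj2, c4, show D.t * (m * (D.t * a) * m⁻¹) * a⁻¹ = D.t * (m * (D.t * a) * m⁻¹ * (D.t * a)⁻¹) * D.t by group,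
      D.A_comm (t_A D) (D.A0_le_A hm.2), mul_assoc, D.tt, mul_one]
    exact hm.2

end Fr

end CfsgLib.L33
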