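import Mathlib
import Cfsg.Agent.Lib.L33.F1

/-! Involution centralizers with a 2-component of type `L₃(3)` (plans/L33.md, package F2). -/

set_option autoImplicit false
set_option linter.unusedSectionVars false

namespace CfsgLib.L33

open Subgroup CfsgLib.Tech

variable {G : Type*} [Group G] [Finite G]

namespace Fr

variable {D : Fr G} {a b p θ : G}

namespace F2

open F1 Nrm

/-- the square of `[t, g]` -/
def lam (D : Fr G) (g : G) : G := D.t * (g * D.t * g⁻¹) * (D.t * (g * D.t * g⁻¹))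

variable (h : D.Four a b p θ)
include h

theorem lam_mem {g : G} (hg : g ∈ normalizer (D.B a b p : Set G)) : lam D g ∈ D.A0 := h.sq_mem (h.norm_Bh hg).2.2

theorem lam_mul {g k : G} (hg : g ∈ normalizer (D.B a b p : Set G)) (hk : k ∈ normalizer (D.B a b p : Set G)) :
    lam D (g * k) = lam D g * (g * lam D k * g⁻¹) := by
  have e : D.t * (g * k * D.t * (g * k)⁻¹) = D.t * (g * D.t * g⁻¹) * (g * (D.t * (k * D.t * k⁻¹)) * g⁻¹) := by
    simp only [mul_assoc, mul_inv_rev, inv_mul_cancel_left, ← mul_assoc D.t D.t, D.tt, one_mul]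
  have c : Commute _ _ := h.comm (h.norm_Bh hg).2.2 ((h.norm_Bh hg).1 _ (h.norm_Bh hk).2.2)
  rw [lam, e, c.symm.mul_mul_mul_comm, lam, lam, cjm g (D.t * _)]

theorem lam_conj {g k : G} (hg : g ∈ normalizer (D.B a b p : Set G)) (hc : g ∈ centralizer (D.A0 : Set G))
    (hk : k ∈ normalizer (D.B a b p : Set G)) : lam D (k * g * k⁻¹) = k * lam D g * k⁻¹ := by
  have e := lam_mul h hk (inv_mem hk)
  rw [mul_inv_cancel, show lam D 1 = 1 by simp [lam, D.tt]] at e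
  rw [mul_assoc k g, lam_mul h hk (mul_mem hg (inv_mem hk)), lam_mul h hg (inv_mem hk),
    fix (hc _ (lam_mem h (inv_mem hk))).symm, cjm k, ← mul_assoc, D.A_comm (D.A0_le_A (lam_mem h hk))
    (D.A0_le_A ((h.norm_Bh hk).2.1 _ (lam_mem h hg))), mul_assoc, ← e, mul_one]

theorem lam_eq_one {g : G} (hg : g ∈ normalizer (D.B a b p : Set G)) (hc : g ∈ centralizer (D.A0 : Set G)) :
    lam D g = 1 := by
  obtain ⟨c, hc', c1, c2⟩ := h.exists_c
  let Λ : G → Prop := fun v => ∃ n ∈ normalizer (D.B a b p : Set G), n ∈ centralizer (D.A0 : Set G) ∧ lam D n = v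
  have m : ∀ v w, Λ v → Λ w → Λ (v * w) := by
    rintro _ _ ⟨n, n1, n2, rfl⟩ ⟨k, k1, k2, rfl⟩
    exact ⟨n * k, mul_mem n1 k1, mul_mem n2 k2, by rw [lam_mul h n1 k1, fix (n2 _ (lam_mem h k1)).symm]⟩
  have j : ∀ k ∈ normalizer (D.B a b p : Set G), ∀ v, Λ v → Λ (k * v * k⁻¹) := by
    rintro k hk _ ⟨n, n1, n2, rfl⟩
    exact ⟨_, mul_mem (mul_mem hk n1) (inv_mem hk), fun s hs => by
      simpa [mul_assoc] using congrArg (fun y => k * y * k⁻¹) (n2 _ ((h.norm_Bh (inv_mem hk)).2.1 s hs)),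
      lam_conj h n1 n2 hk⟩
  have nz : ¬ Λ D.z := by
    rintro ⟨n, n1, n2, e⟩
    have l : lam D c = D.z := by
      have k := h.comm (h.A0_le c2) a_Bh
      rw [lam, ← inv_mul_cancel_right (D.t * _) a, (show Commute _ _ from k).symm.mul_mul_mul_comm,
        D.A_sq (D.A0_le_A c2), one_mul, h.a2]
    have k := mul_mem n1 hc'
    have l' := h.mem_A0 (h.norm_Bh k).2.2 (show lam D _ = 1 by
      rw [lam_mul h n1 hc', e, l, fix (n2 _ (z_A0 D)).symm, D.zz])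
    have := (h.toTr.na (g := n * c) (norm_of rfl fun x hx => ?_)).1
    · rw [← mul_inv_eq_iff_eq_mul, cj2, c1, fix (n2 _ (mul_mem (τ_A0 D) (z_A0 D))).symm] at this
      exact D.z1 (by simpa using this)
    rcases hx with rfl | hx
    · exact D.mem_A_iff.2 (.inr l')
    · exact D.A0_le_A ((h.norm_Bh k).2.1 x (subset_closure hx))
  have jθ : ∀ k c d, Λ (D.u 0 k c d) → Λ (D.u 0 k d (c + d)) := fun k c d e =>
    h.th.toTh0.conj_u 0 k c d ▸ j θ h.θ_norm _ e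
  have e0 : ∀ c d, Λ (D.u 0 0 c d) → c = 0 ∧ d = 0 := fun c d e => by
    rcases z2 c with rfl | rfl <;> rcases z2 d with rfl | rfl
    exacts [⟨rfl, rfl⟩, (nz (D.u_z ▸ jθ _ _ _ (jθ _ _ _ e))).elim, (nz (D.u_z ▸ e)).elim,
      (nz (D.u_z ▸ jθ _ _ _ e)).elim]
  obtain ⟨k, c, d, e⟩ := D.mem_A0.1 (lam_mem h hg)
  have e1 : Λ (D.u 0 k c d) := ⟨g, hg, hc, e⟩
  have e2 := m _ _ e1 (jθ _ _ _ e1)
  rw [D.u_mul, add_zero, CharTwo.add_self_eq_zero] at e2
  obtain ⟨rfl, rfl⟩ := (by decide : ∀ c d : ZMod 2, c + d = 0 ∧ d + (c + d) = 0 → c = 0 ∧ d = 0) c d (e0 _ _ e2)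
  rcases z2 k with rfl | rfl
  · rw [e, D.u_one]
  · rw [D.u_τ] at e1
    have := m _ _ e1 (j _ hc' _ e1)
    rw [c1, ← mul_assoc, D.ττ, one_mul] at this
    exact (nz this).elim

theorem idx {I : Subgroup G} (l : I ≤ D.A0) (h3 : 3 ≤ Nat.card I) {v w : G} (hv : v ∈ D.A0) (hw : w ∈ D.A0)
    (v1 : v ∉ I) (w1 : w ∉ I) : v * w ∈ I := by
  by_contra k
  have n : ∀ s ∈ I, v * s * v⁻¹ ∈ I := fun s hs => by rwa [fix (D.A_comm (D.A0_le_A hv) (D.A0_le_A (l hs)))]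
  have n2 : v * v ∈ I := D.A_sq (D.A0_le_A hv) ▸ one_mem _
  have := two_mul_card_le (sup_le l (zpowers_le.2 hv)) hw fun e => ((mem_sup_two n n2).1 e).elim w1 k
  rw [card_sup_two n n2 v1, h.card_A0] at this
  omega

/-- an element that normalizes `A₀` and centralizes a subgroup of index 2 -/
theorem cm_mem {I : Subgroup G} (l : I ≤ D.A0) (h3 : 3 ≤ Nat.card I) {u : G} (hu : u ∈ normalizer (D.A0 : Set G))
    (hc : ∀ s ∈ I, u * s = s * u) {v : G} (hv : v ∈ D.A0) : v * (u * v * u⁻¹) ∈ I := by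
  by_cases e : v ∈ I
  · rw [fix (hc v e)]; exact mul_mem e e
  refine idx h l h3 hv (conj_mem_of_mem_normalizer hu hv) e fun k => e ?_
  have := fix (com_inv (hc _ k))
  rw [show u⁻¹ * (u * v * u⁻¹) * u⁻¹⁻¹ = v by group] at this
  rwa [this]

theorem norm_le (hB : IsSylowIn 2 (D.B a b p) (centralizer (D.A0 : Set G))) {P : Subgroup G}
    (hP : IsSylowIn 2 P (normalizer (D.A0 : Set G))) (l : D.B a b p ≤ P) {g : G} (hg : g ∈ normalizer (P : Set G)) :
    g ∈ normalizer (D.A0 : Set G) := by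
  have eB : P ⊓ centralizer (D.A0 : Set G) = D.B a b p :=
    hB.eq_of_le hP.pgroup.to_inf_left (le_inf l hB.le) inf_le_right
  have nB : P ≤ normalizer (D.B a b p : Set G) := fun u hu => eB ▸ mem_normalizer_of_forall fun y hy =>
    ⟨P.mul_mem (P.mul_mem hu hy.1) (P.inv_mem hu), fun s hs => by
      simpa [mul_assoc] using congrArg (fun y => u * y * u⁻¹) (hy.2 _ (conj_mem_of_mem_normalizer' (hP.le hu) hs))⟩
  set U := cj g (D.Bh a b p) with hU
  have UP : U ≤ P := (cj_mono g (Bh_le.trans l)).trans (mem_normalizer_iff_cj.1 hg).le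
  have Uc : ∀ u ∈ U, ∀ w ∈ U, u * w = w * u := by
    rintro _ ⟨u, hu, rfl⟩ _ ⟨w, hw, rfl⟩
    exact syl_comm_conj (h.comm hu hw)
  have c8 := card_le_eight_mul (hP.pgroup.to_le UP) (fun v hv => D.A_sq (D.A0_le_A hv)) h.card_A0 (UP.trans hP.le)
  rw [card_cj, h.card_Bh] at c8
  set J := U ⊓ centralizer (D.A0 : Set G)
  have JB : J ≤ D.B a b p := eB ▸ inf_le_inf_right _ UP
  by_cases k : J ≤ D.Bh a b p
  · have c1 := card_le_mul (Y := J) (F := J ⊓ D.A0) (s := D.t) fun u hu => by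
      rw [mul_assoc, mul_assoc, ← mul_assoc D.t, t_inv, h.t_Bh (inv_mem (k hu)), inv_inv]
      exact ⟨mul_mem hu hu, h.sq_mem (k hu)⟩
    have c2 := card_le_of_le (show J ⊓ centralizer {D.t} ≤ J ⊓ D.A0 from fun u hu => ⟨hu.1, h.mem_A0 (k hu.1) (by
      rw [← eq_inv_iff_mul_eq_one, ← h.t_Bh (k hu.1), ← mem_centralizer_singleton_iff.1 hu.2, mul_assoc, D.tt,
        mul_one])⟩)
    have c3 : 3 ≤ Nat.card (J ⊓ D.A0 : Subgroup G) := by nlinarith
    refine mem_normalizer_of_forall fun v hv => ?_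
    obtain ⟨u, hu, rfl⟩ := h.root hv
    have hu' : g * u * g⁻¹ ∈ U := conj_mem_cj.2 hu
    refine h.mem_A0 (k ⟨conj_mem_cj.2 (mul_mem hu hu), fun s hs => ?_⟩) (syl_sq_conj (D.A_sq (D.A0_le_A hv)))
    have m := cm_mem h inf_le_right c3 (hP.le (UP hu')) (fun s hs => Uc _ hu' s hs.1.1) hs
    have := fix (Uc _ hu' _ m.1.1)
    rw [cjm, D.A_comm (D.A0_le_A hs) (D.A0_le_A (conj_mem_of_mem_normalizer (hP.le (UP hu')) hs)),
      mul_right_inj, ← cj2] at this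
    rw [cjm]; exact (com this).symm
  exfalso
  obtain ⟨u0, h0, h1⟩ := SetLike.not_le_iff_exists.1 k
  have h2 := (h.mem_B.1 (JB h0)).resolve_left h1
  have iv : ∀ w ∈ D.Bh a b p, u0 * w * u0⁻¹ = w⁻¹ := fun w hw => by
    rw [← h.t_Bh hw]
    nth_rw 2 [← fix (h.comm h2 hw)]
    simp only [mul_inv_rev, t_inv, mul_assoc, ← mul_assoc D.t D.t, D.tt, one_mul, mul_one]
  have h3 : u0 * u0 = 1 := by_contra fun e => h1 (h.mem_Bh_of (JB h0) e)
  obtain ⟨u, hu, e⟩ := h.root (h.mem_A0 (mem_cj.1 h0.1) (by simpa using syl_sq_conj (g := g⁻¹) h3))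
  have hu' : g * u * g⁻¹ ∈ U := conj_mem_cj.2 hu
  have e' : g * u * g⁻¹ * (g * u * g⁻¹) = u0 := by rw [conj_mul, e]; group
  generalize g * u * g⁻¹ = u at hu' e'
  have c1 := card_le_two_mul (K := D.Bh a b p) (Y := J) fun x hx y hy x1 y1 => by
    have := mul_mem (inv_mem ((h.mem_B.1 (JB hx)).resolve_left x1)) ((h.mem_B.1 (JB hy)).resolve_left y1)
    simpa [mul_assoc] using this
  set I := J ⊓ D.Bh a b p
  have IA : I ≤ D.A0 := fun w hw => h.mem_A0 hw.2 (by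
    rw [← eq_inv_iff_mul_eq_one, ← iv w hw.2, fix (Uc _ h0.1 _ hw.1.1)])
  have hc : ∀ s ∈ I, u * s = s * u := fun s hs => Uc _ hu' s hs.1.1
  have rep : ∀ s ∈ I, s ≠ 1 → ∃ v ∈ D.A0, v ∉ I ∧ s = v * (u * v * u⁻¹) := fun s hs s1 => by
    obtain ⟨r, hr, rfl⟩ := h.root (IA hs)
    have hr' := (h.norm_Bh (nB (UP hu'))).1 r hr
    have hv : r⁻¹ * (u * r * u⁻¹) ∈ D.A0 := h.mem_A0 (mul_mem (inv_mem hr) hr') (by
      rw [(show Commute _ _ from h.comm (inv_mem hr) hr').symm.mul_mul_mul_comm, conj_mul, fix (hc _ hs)]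
      group)
    have e : r * r = r⁻¹ * (u * r * u⁻¹) * (u * (r⁻¹ * (u * r * u⁻¹)) * u⁻¹) := by
      rw [show r⁻¹ * (u * r * u⁻¹) * (u * (r⁻¹ * (u * r * u⁻¹)) * u⁻¹) = r⁻¹ * (u * u * r * (u * u)⁻¹) by group, e',
        iv r hr, ← mul_inv_rev, inv_eq_of_mul_eq_one_right (D.A_sq (D.A0_le_A (IA hs)))]
    exact ⟨_, hv, fun k => s1 (by rw [e, fix (hc _ k), D.A_sq (D.A0_le_A hv)]), e⟩
  obtain ⟨s, hs, s1⟩ : ∃ s ∈ I, s ≠ 1 := by
    by_contra! k
    rw [show I = ⊥ from eq_bot_iff.2 fun s hs => mem_bot.2 (k s hs), card_bot] at c1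
    omega
  have c2 := card_le_of_le (show I ≤ zpowers s from fun w hw => by
    by_cases w1 : w = 1
    · exact w1 ▸ one_mem _
    obtain ⟨v, hv, v1, rfl⟩ := rep s hs s1
    obtain ⟨v', hv', v2, rfl⟩ := rep w hw w1
    have m := idx h IA (by omega) hv hv' v1 v2
    have n := conj_mem_of_mem_normalizer (hP.le (UP hu')) hv
    rw [eq_inv_of_mul_eq_one_right (show v * (u * v * u⁻¹) * (v' * (u * v' * u⁻¹)) = 1 by
      rw [(show Commute _ _ from D.A_comm (D.A0_le_A n) (D.A0_le_A hv')).mul_mul_mul_comm, conj_mul, fix (hc _ m),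
        D.A_sq (D.A0_le_A (IA m))])]
    exact inv_mem (mem_zpowers _))
  rw [Nat.card_zpowers] at c2
  have := orderOf_le_of_pow_eq_one two_pos (show s ^ 2 = 1 by rw [sq, D.A_sq (D.A0_le_A (IA hs))])
  omega

end F2

open F1 F2 Nrm

theorem Four.sylB (h : D.Four a b p θ) : IsSylowIn 2 (D.B a b p) (centralizer (D.A0 : Set G)) := by
  by_contra k
  obtain ⟨R, hR, lt, l1, l2⟩ := exists_lt_pgroup_normalizer h.two_B h.B_cent k
  refine lt.ne' ((h.syl_KK (one_mem _) (by rw [mul_one])).eq_of_le hR lt.le fun u hu => ⟨l1 hu, ?_⟩)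
  have m := h.mem_A0 (h.norm_Bh (l2 hu)).2.2 (lam_eq_one h (l2 hu) (l1 hu))
  have := D.A_comm (t_A D) (D.A0_le_A m)
  rw [← mul_assoc, D.tt, one_mul] at this
  rwa [mul_one, this, mul_inv_cancel_right]

theorem Four.bd (h : D.Four a b p θ) : Bd G := by
  obtain ⟨P, hP, l⟩ := exists_isSylowIn_ge h.two_B (h.B_cent.trans (centralizer_le_normalizer _))
  have c := card_le_eight_mul hP.pgroup (fun v hv => D.A_sq (D.A0_le_A hv)) h.card_A0 hP.le
  rw [h.sylB.eq_of_le hP.pgroup.to_inf_left (le_inf l h.B_cent) inf_le_right, h.card_B] at c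
  exact .inl (not_dvd_of_syl (k := 10) (syl_top_of_norm hP fun g => norm_le h h.sylB hP l) c)

end Fr

end CfsgLib.L33
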