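import Mathlib
import Cfsg.Agent.Lib.L33.Rho

/-! Involution centralizers with a 2-component of type `L₃(3)` (plans/L33.md, package GCK). -/

set_option autoImplicit false
set_option linter.unusedSectionVars false
set_option linter.unusedSimpArgs false
set_option linter.unusedVariables false

namespace CfsgLib.L33

open Subgroup CfsgLib.Tech

variable {G : Type*} [Group G] [Finite G]

namespace Fr

variable {D : Fr G}

namespace GckP

open Nrm

theorem eq_of_r {u v : G} (h : ∀ r, u * r = v * r) : u = v := by simpa using h 1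

theorem sw {u v w : G} (h : u * v = w) (r : G) : u * (v * r) = w * r := by rw [← mul_assoc, h]

/-- elements centralizing `z` and mapping `s` into `{s, s z}` -/
def Wz (s z : G) (hz : z * z = 1) : Subgroup G where
  carrier := {g | g * z = z * g ∧ (g * s * g⁻¹ = s ∨ g * s * g⁻¹ = s * z)}
  one_mem' := ⟨by simp, Or.inl (by simp)⟩
  mul_mem' := by
    rintro g k ⟨gz, hg⟩ ⟨kz, hk⟩
    refine ⟨com_mul gz kz, ?_⟩
    rw [cj2]
    rcases hk with hk | hk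
    · rwa [hk]
    · rw [hk, cjm, fix gz]
      rcases hg with hg | hg
      · exact Or.inr (by rw [hg])
      · exact Or.inl (by rw [hg, mul_assoc, hz, mul_one])
  inv_mem' := by
    rintro g ⟨gz, hg⟩
    refine ⟨com_inv gz, ?_⟩
    rcases hg with hg | hg
    · left
      conv_lhs => rw [← hg]
      group
    · right
      have h1 : g⁻¹ * (s * z) * g⁻¹⁻¹ = s := by rw [← hg]; group
      rw [cjm, fix (com_inv gz)] at h1
      calc g⁻¹ * s * g⁻¹⁻¹ = g⁻¹ * s * g⁻¹⁻¹ * z * z := by rw [mul_assoc _ z, hz, mul_one]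
        _ = s * z := by rw [h1]

theorem mem_Wz {s z : G} {hz : z * z = 1} {g : G} :
    g ∈ Wz s z hz ↔ g * z = z * g ∧ (g * s * g⁻¹ = s ∨ g * s * g⁻¹ = s * z) := Iff.rfl

variable {a p : G}

theorem xa0 (h : D.Gc a p) : D.x * a * D.x⁻¹ * a * D.z = D.y := by
  have xp : D.x * p = a * p * D.t * D.f * D.x := by rw [← h.xp]; group
  have fx : D.f * D.x = D.i := by
    have := D.xe
    rw [← this]; unfold i; group
  have h1 : D.t * D.f * D.x * (D.t * D.f * D.x) = D.z := by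
    rw [mul_assoc D.t, fx, mul_assoc, ← mul_assoc D.i, ← D.c_ti, mul_assoc, D.ii, ← mul_assoc, D.tt, one_mul]
  have h2 : D.y * p = D.x * a * D.x⁻¹ * a * D.z * p := by
    calc D.y * p = D.x * (D.x * p) := by rw [← D.xx, mul_assoc]
      _ = D.x * a * D.x⁻¹ * (D.x * p) * (D.t * D.f * D.x) := by
          conv_lhs => rw [xp]
          group
      _ = D.x * a * D.x⁻¹ * a * (p * (D.t * D.f * D.x * (D.t * D.f * D.x))) := by rw [xp]; group
      _ = _ := by rw [h1, h.pz]; group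
  exact (mul_right_cancel h2).symm

theorem ay (h : D.Gc a p) : a * D.y = D.y * a := by
  apply com
  rw [← D.ef, cjm, h.ae, h.af, mul_assoc, ← mul_assoc D.τ, D.c_τf, mul_assoc D.f, D.ττ, mul_one]

theorem aa (h : D.Gc a p) : a * a = D.τ := by
  refine h.aa.resolve_left fun h1 => D.z1 ?_
  have h2 : D.x * a * D.x⁻¹ = D.y * D.z * a := by
    rw [← xa0 h, mul_assoc _ D.z D.z, D.zz, mul_one, mul_assoc _ a a, h1, mul_one]
  have h3 : D.x * a * D.x⁻¹ * (D.x * a * D.x⁻¹) = 1 := by rw [← cjm, h1]; simp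
  rw [h2] at h3
  have h4 : a * (D.y * D.z) = D.y * D.z * a := by
    rw [← mul_assoc, ay h, mul_assoc, h.az, mul_assoc]
  have h5 : D.y * D.z * (D.y * D.z) = D.z := by
    rw [mul_assoc, ← mul_assoc D.z, D.c_zy, mul_assoc, D.zz, mul_one, D.yy]
  calc D.z = D.y * D.z * (D.y * D.z) * (a * a) := by rw [h5, h1, mul_one]
    _ = D.y * D.z * (D.y * D.z * a) * a := by group
    _ = 1 := by rw [← h4, ← h3]; group

theorem uz : D.z = D.x * (D.x * (D.x * D.x)) := by unfold z; simp only [pow_succ, pow_zero, one_mul, mul_assoc]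
theorem uy : D.y = D.x * D.x := by unfold y; rw [sq]
theorem uf : D.f = D.e * (D.x * D.x) := by unfold f; rw [sq]
theorem ui : D.i = D.x * D.e := rfl

theorem r_x8 (r : G) : D.x * (D.x * (D.x * (D.x * (D.x * (D.x * (D.x * (D.x * r))))))) = r := by
  have := D.rel.x8
  calc _ = D.x ^ 8 * r := by simp only [pow_succ, pow_zero, one_mul, mul_assoc]
    _ = r := by rw [this, one_mul]
theorem r_tt (r : G) : D.t * (D.t * r) = r := by rw [sw D.tt, one_mul]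
theorem r_ττ (r : G) : D.τ * (D.τ * r) = r := by rw [sw D.ττ, one_mul]
theorem r_ee (r : G) : D.e * (D.e * r) = r := by rw [sw D.ee, one_mul]
theorem r_τt (r : G) : D.τ * (D.t * r) = D.t * (D.τ * r) := by rw [sw D.c_tτ.symm, mul_assoc]
theorem r_et (r : G) : D.e * (D.t * r) = D.t * (D.e * r) := by rw [sw D.c_te.symm, mul_assoc]
theorem r_xt (r : G) : D.x * (D.t * r) = D.t * (D.x * r) := by rw [sw D.c_tx.symm, mul_assoc]
theorem r_eτ (r : G) : D.e * (D.τ * r) = D.τ * (D.e * r) := by rw [sw D.c_τe.symm, mul_assoc]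
theorem r_xe (r : G) : D.x * (D.e * r) = D.e * (D.x * (D.x * (D.x * r))) := by
  have h : D.e * D.x * D.e = D.x ^ 3 := D.rel.ex
  calc _ = D.e * (D.e * D.x * D.e) * r := by simp only [mul_assoc, r_ee]
    _ = _ := by rw [h]; simp only [pow_succ, pow_zero, one_mul, mul_assoc]
theorem r_xτ (h : D.τ ≠ 1) (r : G) : D.x * (D.τ * r) = D.τ * (D.x * (D.x * (D.x * (D.x * (D.x * r))))) := by
  calc _ = D.x * D.τ * D.x⁻¹ * (D.x * r) := by group
    _ = _ := by rw [D.xτ h, uz]; simp only [mul_assoc]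
theorem r_aa (h : D.Gc a p) (r : G) : a * (a * r) = D.τ * r := sw (aa h) r
theorem r_τa (h : D.Gc a p) (r : G) : D.τ * (a * r) = a * (D.τ * r) := by rw [sw h.aτ.symm, mul_assoc]
theorem ainv (h : D.Gc a p) : a⁻¹ = a * D.τ := by
  rw [inv_eq_iff_mul_eq_one, r_aa h, D.ττ]
theorem r_ta (h : D.Gc a p) (r : G) : D.t * (a * r) = a * (D.t * (D.x * (D.x * (D.x * (D.x * r))))) := by
  have h1 : a * D.t = D.t * D.z * a := by rw [← h.at']; group
  have h2 : D.t * a = a * D.t * D.z := by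
    rw [h1, mul_assoc, ← mul_assoc, mul_assoc _ a, h.az, ← mul_assoc, mul_assoc D.t, D.zz, mul_one]
  rw [sw h2, uz]; simp only [mul_assoc]
theorem r_ea (h : D.Gc a p) (r : G) : D.e * (a * r) = a * (D.τ * (D.e * r)) := by
  have h1 : a * D.e = D.e * D.τ * a := by rw [← h.ae]; group
  rw [← r_τa h, sw h1]; simp only [mul_assoc]
  rw [← r_eτ, r_ττ]
theorem r_xa (h : D.Gc a p) (r : G) :
    D.x * (a * r) = a * (D.τ * (D.x * (D.x * (D.x * (D.x * (D.x * (D.x * (D.x * r)))))))) := by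
  have h1 : D.x * a = D.y * D.z * a⁻¹ * D.x := by
    rw [← xa0 h, mul_assoc _ D.z D.z, D.zz]; group
  have h2 : D.y * D.z * a⁻¹ = a⁻¹ * (D.y * D.z) := by
    rw [mul_assoc, ← com_inv h.az, ← mul_assoc, ← com_inv (ay h), mul_assoc]
  rw [sw h1, h2, ainv h, uy, uz]; simp only [mul_assoc]
theorem r_ap (h : D.Gc a p) (r : G) : a * (p * r) = p * (a * r) := by rw [sw h.pa.symm, mul_assoc]
theorem r_τp (h : D.Gc a p) (r : G) : D.τ * (p * r) = p * (D.τ * r) := by rw [sw h.pτ.symm, mul_assoc]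
theorem r_ep (h : D.Gc a p) (r : G) : D.e * (p * r) = p * (D.e * r) := by rw [sw h.pe.symm, mul_assoc]
theorem r_tp (h : D.Gc a p) (r : G) : D.t * (p * r) = p * (D.t * (D.τ * r)) := by
  have h1 : p * D.t = D.t * D.τ * p := by rw [← h.pt]; group
  rw [sw h1]; simp only [mul_assoc]
  rw [← r_τp h, r_ττ]
theorem r_xp (h : D.Gc a p) (r : G) : D.x * (p * r) = p * (a * (D.t * (D.e * (D.x * (D.x * (D.x * r)))))) := by
  have xp : D.x * p = a * p * D.t * D.f * D.x := by rw [← h.xp]; group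
  rw [sw xp, uf]; simp only [mul_assoc, r_ap h]

/-- `j = t τ y` -/
def jj (D : Fr G) : G := D.t * D.τ * D.y
/-- `a₁ = a⁻¹ x` -/
def a1 (D : Fr G) (a : G) : G := a⁻¹ * D.x
/-- `s = y i a₁` -/
def ss (D : Fr G) (a : G) : G := D.y * D.i * a1 D a

theorem j2 (h : D.Gc a p) : jj D * jj D = D.z := by
  refine eq_of_r fun r => ?_
  simp only [jj, a1, ss, ainv h, uz, uy, ui, mul_assoc, r_x8, r_tt, r_ττ, r_ee, r_τt, r_et, r_xt, r_eτ, r_xe,
    r_xτ h.τ1, r_aa h, r_τa h, r_ta h, r_ea h, r_xa h, r_ap h, r_τp h, r_ep h, r_tp h, r_xp h]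

theorem tj (h : D.Gc a p) : D.t * jj D = D.τ * D.y := by
  refine eq_of_r fun r => ?_
  simp only [jj, a1, ss, ainv h, uz, uy, ui, mul_assoc, r_x8, r_tt, r_ττ, r_ee, r_τt, r_et, r_xt, r_eτ, r_xe,
    r_xτ h.τ1, r_aa h, r_τa h, r_ta h, r_ea h, r_xa h, r_ap h, r_τp h, r_ep h, r_tp h, r_xp h]

theorem jy (h : D.Gc a p) : jj D * D.y = D.t * D.τ * D.z := by
  refine eq_of_r fun r => ?_
  simp only [jj, a1, ss, ainv h, uz, uy, ui, mul_assoc, r_x8, r_tt, r_ττ, r_ee, r_τt, r_et, r_xt, r_eτ, r_xe,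
    r_xτ h.τ1, r_aa h, r_τa h, r_ta h, r_ea h, r_xa h, r_ap h, r_τp h, r_ep h, r_tp h, r_xp h]

theorem j_t (h : D.Gc a p) : D.t * jj D = jj D * D.t := by
  refine eq_of_r fun r => ?_
  simp only [jj, a1, ss, ainv h, uz, uy, ui, mul_assoc, r_x8, r_tt, r_ττ, r_ee, r_τt, r_et, r_xt, r_eτ, r_xe,
    r_xτ h.τ1, r_aa h, r_τa h, r_ta h, r_ea h, r_xa h, r_ap h, r_τp h, r_ep h, r_tp h, r_xp h]

theorem j_y (h : D.Gc a p) : D.y * jj D = jj D * D.y := by
  refine eq_of_r fun r => ?_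
  simp only [jj, a1, ss, ainv h, uz, uy, ui, mul_assoc, r_x8, r_tt, r_ττ, r_ee, r_τt, r_et, r_xt, r_eτ, r_xe,
    r_xτ h.τ1, r_aa h, r_τa h, r_ta h, r_ea h, r_xa h, r_ap h, r_τp h, r_ep h, r_tp h, r_xp h]

theorem j_i (h : D.Gc a p) : D.i * jj D = jj D * D.i := by
  refine eq_of_r fun r => ?_
  simp only [jj, a1, ss, ainv h, uz, uy, ui, mul_assoc, r_x8, r_tt, r_ττ, r_ee, r_τt, r_et, r_xt, r_eτ, r_xe,
    r_xτ h.τ1, r_aa h, r_τa h, r_ta h, r_ea h, r_xa h, r_ap h, r_τp h, r_ep h, r_tp h, r_xp h]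

theorem j_a (h : D.Gc a p) : a1 D a * jj D = jj D * a1 D a := by
  refine eq_of_r fun r => ?_
  simp only [jj, a1, ss, ainv h, uz, uy, ui, mul_assoc, r_x8, r_tt, r_ττ, r_ee, r_τt, r_et, r_xt, r_eτ, r_xe,
    r_xτ h.τ1, r_aa h, r_τa h, r_ta h, r_ea h, r_xa h, r_ap h, r_τp h, r_ep h, r_tp h, r_xp h]

theorem j_p (h : D.Gc a p) : p * jj D = jj D * p := by
  refine eq_of_r fun r => ?_
  simp only [jj, a1, ss, ainv h, uz, uy, ui, mul_assoc, r_x8, r_tt, r_ττ, r_ee, r_τt, r_et, r_xt, r_eτ, r_xe,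
    r_xτ h.τ1, r_aa h, r_τa h, r_ta h, r_ea h, r_xa h, r_ap h, r_τp h, r_ep h, r_tp h, r_xp h]

theorem j_e (h : D.Gc a p) : D.e * jj D = jj D * D.z * D.e := by
  refine eq_of_r fun r => ?_
  simp only [jj, a1, ss, ainv h, uz, uy, ui, mul_assoc, r_x8, r_tt, r_ττ, r_ee, r_τt, r_et, r_xt, r_eτ, r_xe,
    r_xτ h.τ1, r_aa h, r_τa h, r_ta h, r_ea h, r_xa h, r_ap h, r_τp h, r_ep h, r_tp h, r_xp h]

theorem a_y (h : D.Gc a p) : a1 D a * D.y = D.y * a1 D a := by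
  refine eq_of_r fun r => ?_
  simp only [jj, a1, ss, ainv h, uz, uy, ui, mul_assoc, r_x8, r_tt, r_ττ, r_ee, r_τt, r_et, r_xt, r_eτ, r_xe,
    r_xτ h.τ1, r_aa h, r_τa h, r_ta h, r_ea h, r_xa h, r_ap h, r_τp h, r_ep h, r_tp h, r_xp h]

theorem a_i (h : D.Gc a p) : a1 D a * D.i = D.i * a1 D a := by
  refine eq_of_r fun r => ?_
  simp only [jj, a1, ss, ainv h, uz, uy, ui, mul_assoc, r_x8, r_tt, r_ττ, r_ee, r_τt, r_et, r_xt, r_eτ, r_xe,
    r_xτ h.τ1, r_aa h, r_τa h, r_ta h, r_ea h, r_xa h, r_ap h, r_τp h, r_ep h, r_tp h, r_xp h]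

theorem a_z (h : D.Gc a p) : a1 D a * D.z = D.z * a1 D a := by
  refine eq_of_r fun r => ?_
  simp only [jj, a1, ss, ainv h, uz, uy, ui, mul_assoc, r_x8, r_tt, r_ττ, r_ee, r_τt, r_et, r_xt, r_eτ, r_xe,
    r_xτ h.τ1, r_aa h, r_τa h, r_ta h, r_ea h, r_xa h, r_ap h, r_τp h, r_ep h, r_tp h, r_xp h]

theorem a_t (h : D.Gc a p) : a1 D a * D.t = D.t * D.z * a1 D a := by
  refine eq_of_r fun r => ?_
  simp only [jj, a1, ss, ainv h, uz, uy, ui, mul_assoc, r_x8, r_tt, r_ττ, r_ee, r_τt, r_et, r_xt, r_eτ, r_xe,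
    r_xτ h.τ1, r_aa h, r_τa h, r_ta h, r_ea h, r_xa h, r_ap h, r_τp h, r_ep h, r_tp h, r_xp h]

theorem p_ji (h : D.Gc a p) : p * (jj D * D.i) = D.y * a1 D a * p := by
  refine eq_of_r fun r => ?_
  simp only [jj, a1, ss, ainv h, uz, uy, ui, mul_assoc, r_x8, r_tt, r_ττ, r_ee, r_τt, r_et, r_xt, r_eτ, r_xe,
    r_xτ h.τ1, r_aa h, r_τa h, r_ta h, r_ea h, r_xa h, r_ap h, r_τp h, r_ep h, r_tp h, r_xp h]

theorem s_t (h : D.Gc a p) : D.t * ss D a = ss D a * D.z * D.t := by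
  refine eq_of_r fun r => ?_
  simp only [jj, a1, ss, ainv h, uz, uy, ui, mul_assoc, r_x8, r_tt, r_ττ, r_ee, r_τt, r_et, r_xt, r_eτ, r_xe,
    r_xτ h.τ1, r_aa h, r_τa h, r_ta h, r_ea h, r_xa h, r_ap h, r_τp h, r_ep h, r_tp h, r_xp h]

theorem s_j (h : D.Gc a p) : jj D * ss D a = ss D a * jj D := by
  refine eq_of_r fun r => ?_
  simp only [jj, a1, ss, ainv h, uz, uy, ui, mul_assoc, r_x8, r_tt, r_ττ, r_ee, r_τt, r_et, r_xt, r_eτ, r_xe,
    r_xτ h.τ1, r_aa h, r_τa h, r_ta h, r_ea h, r_xa h, r_ap h, r_τp h, r_ep h, r_tp h, r_xp h]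

theorem s_a (h : D.Gc a p) : a1 D a * ss D a = ss D a * a1 D a := by
  refine eq_of_r fun r => ?_
  simp only [jj, a1, ss, ainv h, uz, uy, ui, mul_assoc, r_x8, r_tt, r_ττ, r_ee, r_τt, r_et, r_xt, r_eτ, r_xe,
    r_xτ h.τ1, r_aa h, r_τa h, r_ta h, r_ea h, r_xa h, r_ap h, r_τp h, r_ep h, r_tp h, r_xp h]

theorem s_y (h : D.Gc a p) : D.y * ss D a = ss D a * D.z * D.y := by
  refine eq_of_r fun r => ?_
  simp only [jj, a1, ss, ainv h, uz, uy, ui, mul_assoc, r_x8, r_tt, r_ττ, r_ee, r_τt, r_et, r_xt, r_eτ, r_xe,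
    r_xτ h.τ1, r_aa h, r_τa h, r_ta h, r_ea h, r_xa h, r_ap h, r_τp h, r_ep h, r_tp h, r_xp h]

theorem s_i (h : D.Gc a p) : D.i * ss D a = ss D a * D.z * D.i := by
  refine eq_of_r fun r => ?_
  simp only [jj, a1, ss, ainv h, uz, uy, ui, mul_assoc, r_x8, r_tt, r_ττ, r_ee, r_τt, r_et, r_xt, r_eτ, r_xe,
    r_xτ h.τ1, r_aa h, r_τa h, r_ta h, r_ea h, r_xa h, r_ap h, r_τp h, r_ep h, r_tp h, r_xp h]

theorem s_p (h : D.Gc a p) : p * ss D a = ss D a * p := by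
  refine eq_of_r fun r => ?_
  simp only [jj, a1, ss, ainv h, uz, uy, ui, mul_assoc, r_x8, r_tt, r_ττ, r_ee, r_τt, r_et, r_xt, r_eτ, r_xe,
    r_xτ h.τ1, r_aa h, r_τa h, r_ta h, r_ea h, r_xa h, r_ap h, r_τp h, r_ep h, r_tp h, r_xp h]

theorem e_y (h : D.Gc a p) : D.e * D.y = D.y * D.z * D.e := by
  refine eq_of_r fun r => ?_
  simp only [jj, a1, ss, ainv h, uz, uy, ui, mul_assoc, r_x8, r_tt, r_ττ, r_ee, r_τt, r_et, r_xt, r_eτ, r_xe,
    r_xτ h.τ1, r_aa h, r_τa h, r_ta h, r_ea h, r_xa h, r_ap h, r_τp h, r_ep h, r_tp h, r_xp h]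

theorem e_i (h : D.Gc a p) : D.e * D.i = D.y * D.i * D.e := by
  refine eq_of_r fun r => ?_
  simp only [jj, a1, ss, ainv h, uz, uy, ui, mul_assoc, r_x8, r_tt, r_ττ, r_ee, r_τt, r_et, r_xt, r_eτ, r_xe,
    r_xτ h.τ1, r_aa h, r_τa h, r_ta h, r_ea h, r_xa h, r_ap h, r_τp h, r_ep h, r_tp h, r_xp h]

theorem x_tτ (h : D.Gc a p) : D.x * (D.t * D.τ) = jj D * D.y * D.x := by
  refine eq_of_r fun r => ?_
  simp only [jj, a1, ss, ainv h, uz, uy, ui, mul_assoc, r_x8, r_tt, r_ττ, r_ee, r_τt, r_et, r_xt, r_eτ, r_xe,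
    r_xτ h.τ1, r_aa h, r_τa h, r_ta h, r_ea h, r_xa h, r_ap h, r_τp h, r_ep h, r_tp h, r_xp h]

theorem τ_eq (h : D.Gc a p) : D.τ = D.t * jj D * D.y * D.z := by
  refine eq_of_r fun r => ?_
  simp only [jj, a1, ss, ainv h, uz, uy, ui, mul_assoc, r_x8, r_tt, r_ττ, r_ee, r_τt, r_et, r_xt, r_eτ, r_xe,
    r_xτ h.τ1, r_aa h, r_τa h, r_ta h, r_ea h, r_xa h, r_ap h, r_τp h, r_ep h, r_tp h, r_xp h]

theorem x_eq (h : D.Gc a p) : D.x = D.i * D.e := by
  refine eq_of_r fun r => ?_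
  simp only [jj, a1, ss, ainv h, uz, uy, ui, mul_assoc, r_x8, r_tt, r_ττ, r_ee, r_τt, r_et, r_xt, r_eτ, r_xe,
    r_xτ h.τ1, r_aa h, r_τa h, r_ta h, r_ea h, r_xa h, r_ap h, r_τp h, r_ep h, r_tp h, r_xp h]

theorem cjr {g u v : G} (h : g * u = v * g) : g * u * g⁻¹ = v := by rw [h]; group

theorem j_z (h : D.Gc a p) {g : G} (hg : g * jj D = jj D * g) : g * D.z = D.z * g := by
  rw [← j2 h, ← mul_assoc, hg, mul_assoc, hg, mul_assoc]

theorem tz_ne : D.t * D.z ≠ D.t := fun h => D.z1 (by simpa using h)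

/-- the 2-group -/
def PP (D : Fr G) (a p : G) : Subgroup G := closure {D.t, D.τ, D.x, D.e, a, p}

theorem tP : D.t ∈ PP D a p := subset_closure (by simp)
theorem τP : D.τ ∈ PP D a p := subset_closure (by simp)
theorem xP : D.x ∈ PP D a p := subset_closure (by simp)
theorem eP : D.e ∈ PP D a p := subset_closure (by simp)
theorem aP : a ∈ PP D a p := subset_closure (by simp)
theorem pP : p ∈ PP D a p := subset_closure (by simp)
theorem yP : D.y ∈ PP D a p := pow_mem xP 2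
theorem iP : D.i ∈ PP D a p := mul_mem xP eP
theorem jP : jj D ∈ PP D a p := mul_mem (mul_mem tP τP) yP
theorem a1P : a1 D a ∈ PP D a p := mul_mem (inv_mem aP) xP

/-- `K = C(y, i, j) ⊓ N(V)` -/
def KK (D : Fr G) : Subgroup G := centralizer {D.y, D.i, jj D} ⊓ Wz D.t D.z D.zz

/-- `C₁ = ⟨t, j, a₁⟩` -/
def C1 (D : Fr G) (a : G) : Subgroup G := closure {D.t, jj D, a1 D a}

theorem mem_KK {g : G} : g ∈ KK D ↔ (g * D.y = D.y * g ∧ g * D.i = D.i * g ∧ g * jj D = jj D * g) ∧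
    g * D.z = D.z * g ∧ (g * D.t * g⁻¹ = D.t ∨ g * D.t * g⁻¹ = D.t * D.z) := by
  simp only [KK, mem_inf, mem_centralizer_iff, Set.mem_insert_iff, Set.mem_singleton_iff, forall_eq_or_imp,
    forall_eq, mem_Wz, eq_comm (a := g * _) (b := _ * g)]

theorem a1K (h : D.Gc a p) : a1 D a ∈ KK D :=
  mem_KK.2 ⟨⟨a_y h, a_i h, j_a h⟩, a_z h, Or.inr (cjr (a_t h))⟩

theorem C1K (h : D.Gc a p) : C1 D a ≤ KK D := by
  rw [C1, closure_le]
  rintro g (rfl | rfl | rfl)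
  · exact mem_KK.2 ⟨⟨D.c_ty, D.c_ti, j_t h⟩, D.c_tz, Or.inl (by simp)⟩
  · exact mem_KK.2 ⟨⟨(j_y h).symm, (j_i h).symm, rfl⟩, j_z h rfl, Or.inl (cjr (j_t h).symm)⟩
  · exact a1K h

theorem C1P : C1 D a ≤ PP D a p := by
  rw [C1, closure_le]
  rintro g (rfl | rfl | rfl)
  exacts [tP, jP, a1P]

theorem CQ_le (h : D.Gc a p) : closure {D.t, D.τ * D.y} ≤ C1 D a := by
  rw [closure_le]
  have ht : D.t ∈ C1 D a := subset_closure (by simp)
  rintro g (rfl | rfl)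
  · exact ht
  · rw [← tj h]; exact mul_mem ht (subset_closure (by simp))

theorem mem_CQ_of (h : D.Gc a p) {R : Subgroup G} (hR : IsPGroup 2 R) (h1 : C1 D a ≤ R) (h2 : R ≤ KK D) {u : G}
    (hu : u ∈ R) (ht : u * D.t = D.t * u) : u ∈ closure {D.t, D.τ * D.y} := by
  have hs := D.sylCQ h.τ1
  rw [← hs.eq_of_le (Q := R ⊓ centralizer {D.t, D.y, D.i}) (hR.to_le inf_le_left)
    (le_inf ((CQ_le h).trans h1) hs.le) inf_le_right]
  refine ⟨hu, ?_⟩
  obtain ⟨⟨hy, hi, -⟩, -⟩ := mem_KK.1 (h2 hu)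
  rintro v (rfl | rfl | rfl)
  exacts [ht.symm, hy.symm, hi.symm]

theorem fix_t (h : D.Gc a p) {u : G} (hu : u * D.t * u⁻¹ = D.t * D.z) : a1 D a * u * D.t = D.t * (a1 D a * u) := by
  apply com
  rw [cj2, hu, cjm, cjr (a_t h), fix (a_z h), mul_assoc, D.zz, mul_one]

theorem sylC1 (h : D.Gc a p) : IsSylowIn 2 (C1 D a) (KK D) := by
  refine isSylowIn_of_maximal (IsPGroup.to_le h.two C1P) (C1K h) fun R hR h1 h2 u hu => ?_
  have ha : a1 D a ∈ C1 D a := subset_closure (by simp)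
  rcases (mem_KK.1 (h2 hu)).2.2 with ht | ht
  · exact CQ_le h (mem_CQ_of h hR h1 h2 hu (com ht))
  · have := CQ_le h (mem_CQ_of h hR h1 h2 (R.mul_mem (h1 ha) hu) (fix_t h ht))
    exact ((C1 D a).mul_mem_cancel_left ha).1 this

theorem exists_rho1 (h : D.Gc a p) : ∃ ρ ∈ normalizer (C1 D a : Set G), ρ * D.t = D.t * ρ ∧
    ρ * jj D = jj D * ρ ∧ ρ * D.y * ρ⁻¹ = D.i ∧ ρ * D.i * ρ⁻¹ = D.y * D.i := by
  obtain ⟨ρ, ρt, ρg, ρy, ρi⟩ := D.exists_rho h.τ1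
  have ρj : ρ * jj D = jj D * ρ := by
    rw [jj, mul_assoc D.t]; exact (com_mul ρt.symm ρg.symm).symm
  have hn : ρ ∈ normalizer (KK D : Set G) := by
    have h1 : ρ ∈ normalizer ((centralizer {D.y, D.i, jj D} : Subgroup G) : Set G) := by
      refine norm_cent fun c hc => ?_
      have hy := hc D.y (by simp)
      have hi := hc D.i (by simp)
      rintro v (rfl | rfl | rfl)
      · rw [ρy]; exact hi
      · rw [ρi]; exact com_mul hy hi
      · rw [fix ρj]; exact hc _ (by simp)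
    have hW : ρ ∈ Wz D.t D.z D.zz := ⟨j_z h ρj, Or.inl (fix ρt)⟩
    exact mem_normalizer_of_forall fun k hk => ⟨conj_mem_of_mem_normalizer h1 hk.1,
      (Wz D.t D.z D.zz).mul_mem ((Wz D.t D.z D.zz).mul_mem hW hk.2) ((Wz D.t D.z D.zz).inv_mem hW)⟩
  obtain ⟨n, hnK, hn1⟩ := (sylC1 h).frattini hn
  have key : ∀ m ∈ KK D, m * D.t = D.t * m → m * ρ ∈ normalizer (C1 D a : Set G) →
      ∃ ρ ∈ normalizer (C1 D a : Set G), ρ * D.t = D.t * ρ ∧
      ρ * jj D = jj D * ρ ∧ ρ * D.y * ρ⁻¹ = D.i ∧ ρ * D.i * ρ⁻¹ = D.y * D.i := by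
    intro m hm mt h1
    obtain ⟨⟨hy, hi, hj⟩, -⟩ := mem_KK.1 hm
    refine ⟨m * ρ, h1, com_mul mt ρt, com_mul hj ρj, ?_, ?_⟩
    · rw [cj2, ρy, fix hi]
    · rw [cj2, ρi, cjm, fix hy, fix hi]
  rcases (mem_KK.1 hnK).2.2 with ht | ht
  · exact key n hnK (com ht) hn1
  · refine key (a1 D a * n) ((KK D).mul_mem (a1K h) hnK) (fix_t h ht) ?_
    rw [mul_assoc]
    exact mul_mem (le_normalizer (subset_closure (by simp))) hn1

theorem conj_s (h : D.Gc a p) : IsConj D.t (ss D a) := by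
  obtain ⟨ρ, hn, ρt, ρj, ρy, ρi⟩ := exists_rho1 h
  have ha : a1 D a ∈ C1 D a := subset_closure (by simp)
  obtain ⟨c, hc⟩ : ∃ c, c = (a1 D a)⁻¹ * (ρ * a1 D a * ρ⁻¹) := ⟨_, rfl⟩
  have hc1 : c ∈ C1 D a := hc ▸ (C1 D a).mul_mem ((C1 D a).inv_mem ha) (conj_mem_of_mem_normalizer hn ha)
  have hct : c * D.t = D.t * c := by
    rw [hc]
    apply com_of_eq
    rw [cjr (a_t h), cj2, cj2, fix (com_inv ρt), cjr (a_t h), cjm, fix ρt, fix (j_z h ρj)]
  have hcQ := mem_CQ_of h (IsPGroup.to_le h.two C1P) le_rfl (C1K h) hc1 hct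
  obtain ⟨α, k, hk⟩ := (D.mem_CQ h.τ1).1 hcQ
  have ρg : ρ * (D.τ * D.y) = D.τ * D.y * ρ := by rw [← tj h]; exact (com_mul ρt.symm ρj.symm).symm
  have ρc : ρ * c = c * ρ := by
    rw [hk]; exact (com_mul (com_pow ρt.symm _) (com_pow ρg.symm _)).symm
  have c4 : c ^ 4 = 1 := by
    have tg : Commute D.t (D.τ * D.y) := (com_mul D.c_tτ.symm D.c_ty.symm).symm
    have t4 : D.t ^ 4 = 1 := by
      calc D.t ^ 4 = D.t * D.t * (D.t * D.t) := by simp only [pow_succ, pow_zero, one_mul, mul_assoc]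
        _ = 1 := by rw [D.tt, one_mul]
    have g4 : (D.τ * D.y) ^ 4 = 1 := by
      calc (D.τ * D.y) ^ 4 = D.τ * D.y * (D.τ * D.y) * (D.τ * D.y * (D.τ * D.y)) := by
            simp only [pow_succ, pow_zero, one_mul, mul_assoc]
        _ = 1 := by rw [Rho.gg, D.zz]
    rw [hk, (tg.pow_pow _ _).mul_pow, ← pow_mul, ← pow_mul, mul_comm _ 4, mul_comm _ 4, pow_mul, pow_mul, t4, g4]
    simp
  have ρa : ρ * a1 D a * ρ⁻¹ = a1 D a * c := by rw [hc]; group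
  have ρyi : ρ * (D.y * D.i) * ρ⁻¹ = D.y := by rw [cjm, ρy, ρi, Rho.iyi]
  have h4 : ρ * (ρ * (ρ * (ρ * ss D a * ρ⁻¹) * ρ⁻¹) * ρ⁻¹) * ρ⁻¹ = D.y * a1 D a := by
    have st : ∀ {u v : G} (n : ℕ), ρ * u * ρ⁻¹ = v →
        ρ * (u * (a1 D a * c ^ n)) * ρ⁻¹ = v * (a1 D a * c ^ (n + 1)) := by
      intro u v n huv
      rw [cjm, cjm, huv, ρa, fix (com_pow ρc.symm n).symm, pow_succ', mul_assoc]
    have h0 : ss D a = D.y * D.i * (a1 D a * c ^ 0) := by rw [pow_zero, mul_one, ss]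
    rw [h0, st _ ρyi, st _ ρy, st _ ρi, st _ ρyi]
    exact congrArg _ (by rw [c4, mul_one])
  have e1 : IsConj D.t (D.t * D.τ) := isConj_iff.2 ⟨p, h.pt⟩
  have e2 : IsConj (D.t * D.τ) (jj D * D.y) := isConj_iff.2 ⟨D.x, cjr (x_tτ h)⟩
  have e3 : IsConj (jj D * D.y) (jj D * D.i) := isConj_iff.2 ⟨ρ, by rw [cjm, fix ρj, ρy]⟩
  have e4 : IsConj (jj D * D.i) (D.y * a1 D a) := isConj_iff.2 ⟨p, cjr (p_ji h)⟩
  have e5 : IsConj (ss D a) (D.y * a1 D a) := isConj_iff.2 ⟨ρ * (ρ * (ρ * ρ)), by rw [cj2, cj2, cj2, h4]⟩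
  exact e1.trans (e2.trans (e3.trans (e4.trans e5.symm)))

/-- `Y ⊇ ⟨t, j, a₁, y, i, p⟩` -/
def YY (D : Fr G) (a p : G) : Subgroup G := PP D a p ⊓ (centralizer {jj D} ⊓ Wz (ss D a) D.z D.zz)

theorem mem_YY (h : D.Gc a p) {g : G} (h1 : g ∈ PP D a p) (h2 : g * jj D = jj D * g)
    (h3 : g * ss D a = ss D a * g ∨ g * ss D a = ss D a * D.z * g) : g ∈ YY D a p :=
  ⟨h1, mem_centralizer_singleton_iff.2 h2, j_z h h2, h3.imp cjr cjr⟩

theorem card_YY (h : D.Gc a p) : 128 ≤ Nat.card (YY D a p) := by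
  obtain ⟨R, hR⟩ : ∃ R : Subgroup G, R = closure {D.t, jj D, D.y, D.i} := ⟨_, rfl⟩
  have tR : D.t ∈ R := hR ▸ subset_closure (by simp)
  have jR : jj D ∈ R := hR ▸ subset_closure (by simp)
  have yR : D.y ∈ R := hR ▸ subset_closure (by simp)
  have iR : D.i ∈ R := hR ▸ subset_closure (by simp)
  have zR : D.z ∈ R := D.yy ▸ R.mul_mem yR yR
  have h64 : Nat.card D.S = 64 := by
    rw [D.card_S]; rcases D.card_A with h1 | h1
    · exact absurd h1.1 h.τ1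
    · rw [h1.2]
  have hn : D.e ∈ normalizer (R : Set G) := by
    refine norm_of hR ?_
    rintro v (rfl | rfl | rfl | rfl)
    · rw [fix D.c_te.symm]; exact tR
    · rw [cjr (j_e h)]; exact R.mul_mem jR zR
    · rw [cjr (e_y h)]; exact R.mul_mem yR zR
    · rw [cjr (e_i h)]; exact R.mul_mem yR iR
  have hS : D.S ≤ R ⊔ zpowers D.e := by
    rw [S, closure_le]
    have eR : D.e ∈ R ⊔ zpowers D.e := mem_sup_right (mem_zpowers _)
    rintro v (rfl | rfl | rfl | rfl)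
    · exact mem_sup_left tR
    · rw [τ_eq h]; exact mem_sup_left (R.mul_mem (R.mul_mem (R.mul_mem tR jR) yR) zR)
    · rw [x_eq h]; exact mul_mem (mem_sup_left iR) eR
    · exact eR
  have h32 : 32 ≤ Nat.card R := by
    have h1 := card_le_of_le hS
    by_cases he : D.e ∈ R
    · rw [sup_eq_left.2 (zpowers_le.2 he)] at h1; omega
    · rw [card_sup_two (fun k hk => conj_mem_of_mem_normalizer hn hk) (D.ee ▸ R.one_mem) he] at h1; omega
  have hR0 : R ≤ YY D a p ⊓ centralizer {D.t} := by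
    rw [hR, closure_le]
    rintro v (rfl | rfl | rfl | rfl)
    · exact ⟨mem_YY h tP (j_t h) (Or.inr (s_t h)), mem_centralizer_singleton_iff.2 rfl⟩
    · exact ⟨mem_YY h jP rfl (Or.inl (s_j h)), mem_centralizer_singleton_iff.2 (j_t h).symm⟩
    · exact ⟨mem_YY h yP (j_y h) (Or.inr (s_y h)), mem_centralizer_singleton_iff.2 D.c_ty.symm⟩
    · exact ⟨mem_YY h iP (j_i h) (Or.inr (s_i h)), mem_centralizer_singleton_iff.2 D.c_ti.symm⟩
  have h1 : YY D a p ⊓ centralizer {D.t} ≤ YY D a p ⊓ Wz D.t D.z D.zz := fun g hg =>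
    ⟨hg.1, hg.1.2.2.1, Or.inl (fix (mem_centralizer_singleton_iff.1 hg.2))⟩
  have h2 := two_mul_card_le h1 (g := a1 D a)
    ⟨mem_YY h a1P (j_a h) (Or.inl (s_a h)), a_z h, Or.inr (cjr (a_t h))⟩
    fun hg => tz_ne (D := D) (by rw [← cjr (a_t h), fix (mem_centralizer_singleton_iff.1 hg.2)])
  have h3 := two_mul_card_le (inf_le_left : YY D a p ⊓ Wz D.t D.z D.zz ≤ _) (g := p)
    (mem_YY h pP (j_p h) (Or.inl (s_p h))) fun hg => by
      have h5 := hg.2.2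
      rw [h.pt] at h5
      rcases h5 with h5 | h5
      · exact h.τ1 (by simpa using h5)
      · exact (D.τL h.τ1).1 (by rw [mul_left_cancel h5]; exact pow_mem D.xL 4)
  have h4 := card_le_of_le hR0
  omega

end GckP

open GckP Nrm

theorem Gc.false {a p : G} (h : D.Gc a p) : False := by
  have h1 := card_YY h
  have h2 := card_le_mul (Y := YY D a p) (F := zpowers D.z) (s := ss D a) fun u hu => by
    rcases hu.2.2.2 with h3 | h3
    · rw [h3, mul_inv_cancel]; exact one_mem _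
    · have hz : ss D a * D.z = D.z * ss D a := com_mul (com_mul D.c_zy.symm D.c_zi.symm) (a_z h)
      rw [h3, hz, mul_inv_cancel_right]; exact mem_zpowers _
  have h3 : Nat.card (zpowers D.z) = 2 := by
    rw [Nat.card_zpowers]; exact orderOf_eq_prime (by rw [sq, D.zz]) D.z1
  have jX : jj D ∈ YY D a p ⊓ centralizer {ss D a} :=
    ⟨mem_YY h jP rfl (Or.inl (s_j h)), mem_centralizer_singleton_iff.2 (s_j h)⟩
  have h4 := D.card_le_half (conj_s h) (X := YY D a p ⊓ centralizer {ss D a})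
    (IsPGroup.to_le h.two (inf_le_left.trans inf_le_left))
    (fun v hv => mem_centralizer_singleton_iff.1 hv.2) (Z := zpowers (jj D)) (zpowers_le.2 jX)
    (fun v hv c hc => (com_zp (mem_centralizer_singleton_iff.1 hv.1.2.1).symm hc).symm)
    (Or.inr ⟨jj D, mem_zpowers _, by rw [j2 h]; exact D.z1⟩)
  rcases D.card_A with h5 | h5
  · exact h.τ1 h5.1
  · rw [h5.2] at h4; rw [h3] at h2; omega

end Fr

end CfsgLib.L33
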