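import Mathlib
import Cfsg.Agent.Lib.L33.Trb

/-! Involution centralizers with a 2-component of type `L₃(3)` (plans/L33.md, package I1). -/

set_option autoImplicit false
set_option linter.unusedSectionVars false

namespace CfsgLib.L33

open Subgroup CfsgLib.Tech

variable {G : Type*} [Group G] [Finite G]

namespace Fr

variable {D : Fr G} {a p θ : G}

namespace I1

open Nrm

theorem cc {k g u : G} (h : k * u = u * k) : k * g * k⁻¹ * u * (k * g * k⁻¹)⁻¹ = k * (g * u * g⁻¹) * k⁻¹ := by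
  rw [cj2, fix (com_inv h), cj2]

theorem cm {k g u : G} (h : k * u = u * k) (h' : g * u = u * g) : k * g * k⁻¹ * u = u * (k * g * k⁻¹) :=
  com_mul (com_mul h h') (com_inv h)

/-- conjugating `θ` by an element centralizing everything else -/
theorem tr_conj (h : D.Tr a p θ) {k : G} (kt : k * D.t = D.t * k) (kτ : k * D.τ = D.τ * k) (kz : k * D.z = D.z * k)
    (ke : k * D.e = D.e * k) (kf : k * D.f = D.f * k) (ka : k * a = a * k) (kp : k * p = p * k) :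
    D.Tr a p (k * θ * k⁻¹) := by
  refine { h with
    th := ⟨⟨cm kt h.th.θt, cm kτ h.th.θτ, ?_, ?_⟩, ?_⟩
    ab := ?_
    abc := ?_
    pθ := (cm kp h.pθ.symm).symm }
  · rw [cc kz, h.th.θz, fix ke]
  · rw [cc ke, h.th.θe, cjm, fix ke, fix kz]
  · calc D.f * (k * θ * k⁻¹) * D.f = D.f * k * θ * (k⁻¹ * D.f) := by group
      _ = k * (D.f * θ * D.f) * k⁻¹ := by rw [← kf, com_inv kf]; group
      _ = _ := by rw [h.th.fθ]; group
  · rw [cc ka]
    exact (cm ka h.ab.symm).symm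
  · rw [conj_pow, cc ka, cc ka]
    rw [← mul_assoc]
    calc a * (k * (θ * a * θ⁻¹) * k⁻¹) * (k * (θ ^ 2 * a * (θ ^ 2)⁻¹)) * k⁻¹
        = a * k * (θ * a * θ⁻¹) * (θ ^ 2 * a * (θ ^ 2)⁻¹) * k⁻¹ := by group
      _ = k * (a * (θ * a * θ⁻¹) * (θ ^ 2 * a * (θ ^ 2)⁻¹)) * k⁻¹ := by rw [← ka]; group
      _ = 1 := by rw [h.abc]; group

theorem inv_zp {g c o : G} (h : g * c * g⁻¹ = c⁻¹) (ho : o ∈ zpowers c) : g * o * g⁻¹ = o⁻¹ := by
  obtain ⟨n, rfl⟩ := mem_zpowers_iff.1 ho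
  rw [← conj_zpow, h, inv_zpow]

theorem com_x {b u v : G} (h : b * u = u * b) (hx : D.x * u * D.x⁻¹ = v) :
    D.x * b * D.x⁻¹ * v = v * (D.x * b * D.x⁻¹) := by
  rw [← hx, ← cjm, ← cjm, h]

theorem com_left {g u v : G} (h : g * (u * v) = u * v * g) (h' : g * v = v * g) : g * u = u * g := by
  have := (Commute.mul_right (show Commute g (u * v) from h) (show Commute g v from h').inv_right).eq
  simpa using this

/-- an element of `A` centralizing `f`, `a`, `x` lies in `⟨z⟩` -/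
theorem mem_z (h : D.Tr a p θ) {s : G} (hs : s ∈ D.A) (hf : s * D.f = D.f * s) (ha : s * a = a * s)
    (hx : D.x * s * D.x⁻¹ = s) : ∃ β : ZMod 2, s = D.z ^ β.val := by
  obtain ⟨i, j, k, l, rfl⟩ := D.mem_A.1 hs
  have h1 := Nrm.f_u D i j k l
  rw [fix hf.symm] at h1
  have hl : l = 0 := by simpa using (D.u_inj h1).2.2.1
  have h2 := conj_u (g := a) (a₁ := 1) (b₁ := 0) (c₁ := 1) (d₁ := 0) (by rw [h.at', ← D.u_t, ← D.u_z, D.u_mul]; rfl)
    ((fix h.aτ).trans D.u_τ.symm) ((fix h.az).trans D.u_z.symm) ((fix h.ae).trans D.u_e.symm) i j k l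
  rw [fix ha.symm] at h2
  have hi : i = 0 := by simpa using (D.u_inj h2).2.2.1
  subst hl hi
  refine ⟨k, ?_⟩
  by_cases hτ : D.τ = 1
  · simp [Fr.u, hτ]
  rcases z2 j with rfl | rfl
  · simp [Fr.u]
  · exfalso
    simp only [Fr.u, ZMod.val_zero, ZMod.val_one, pow_zero, pow_one, one_mul, mul_one] at hx
    rw [cjm, D.xτ hτ, ← conj_pow, fix D.c_zx.symm, mul_left_inj, mul_eq_left] at hx
    exact D.z1 hx

end I1

open Nrm I1 in
theorem Tr.exists_jf (h : D.Tr a p θ) (ha : a * a = 1) : ∃ b θ' ε β, D.Jf a b p θ' ε β := by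
  obtain ⟨ε, hε⟩ : ∃ ε : ZMod 2, D.x * a * D.x⁻¹ = a * D.z ^ ε.val := by
    rcases h.xa with h1 | h1
    · exact ⟨0, by simpa using h1⟩
    · exact ⟨1, by simpa [ZMod.val_one] using h1⟩
  have bb : θ * a * θ⁻¹ * (θ * a * θ⁻¹) = 1 := by rw [← cjm, ha]; group
  have bt := h.bt
  have bz := h.bz
  have be := h.be
  have bτ := h.bτ
  have bp := h.bp
  have ba := h.ab.symm
  have fb := h.fb
  obtain ⟨b, hb⟩ : ∃ b, b = θ * a * θ⁻¹ := ⟨_, rfl⟩
  rw [← hb] at bb bt bz be bτ bp ba fb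
  have ai : a⁻¹ = a := inv_eq_of_mul_eq_one_right ha
  have bi : b⁻¹ = b := inv_eq_of_mul_eq_one_right bb
  have zi : D.z⁻¹ = D.z := inv_eq_of_mul_eq_one_right D.zz
  have ei : D.e⁻¹ = D.e := inv_eq_of_mul_eq_one_right D.ee
  have fi := f_inv D
  rw [mul_inv_rev, ai, bi] at fb
  have xz : D.x * D.z * D.x⁻¹ = D.z := fix D.c_zx.symm
  -- the element `b' = x b x⁻¹`
  have cz := com_x bz xz
  have cf := com_x be D.xe
  have cτ : D.x * b * D.x⁻¹ * D.τ = D.τ * (D.x * b * D.x⁻¹) := by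
    by_cases hτ : D.τ = 1
    · simp [hτ]
    · exact com_left (com_x bτ (D.xτ hτ)) cz
  have ca : D.x * b * D.x⁻¹ * a = a * (D.x * b * D.x⁻¹) := com_left (com_x ba hε) (com_pow cz.symm _).symm
  have cp : D.x * b * D.x⁻¹ * p = p * (D.x * b * D.x⁻¹) := by
    rcases h.hp with ⟨h1, -⟩ | ⟨-, -, h1, -⟩
    · simp [h1]
    · have h2 : D.x * b * D.x⁻¹ * (D.x * p * D.x⁻¹ * (p * a)⁻¹) = D.x * p * D.x⁻¹ * (p * a)⁻¹ * (D.x * b * D.x⁻¹) := by
        rcases D.mem_Z1.1 h1 with h3 | h3 | h3 | h3 <;> rw [h3]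
        exacts [by simp, cz, cτ, (com_mul cτ.symm cz.symm).symm]
      have h3 : Commute (D.x * b * D.x⁻¹) (D.x * p * D.x⁻¹) := com_x bp rfl
      have h4 := (h3.inv_right.mul_right (show Commute _ _ from h2)).inv_right
      rw [inv_mul_cancel_left, inv_inv] at h4
      exact com_left h4.eq ca
  have bf : b * D.f * b⁻¹ = D.f * a := by
    calc b * D.f * b⁻¹ = D.f⁻¹ * (D.f * b * D.f) * b⁻¹ := by group
      _ = _ := by rw [fb, fi, ba]; group
  have ct : D.x * b * D.x⁻¹ * D.t * (D.x * b * D.x⁻¹)⁻¹ = D.t * D.f := by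
    rw [cc D.c_tx.symm, bt, cjm, fix D.c_tx.symm, D.xe]
  have ce : D.x * b * D.x⁻¹ * D.e * (D.x * b * D.x⁻¹)⁻¹ = D.e * (a * D.z ^ ε.val) := by
    have h1 : D.x * (b * D.f * b⁻¹) * D.x⁻¹ = D.x * b * D.x⁻¹ * (D.x * D.f * D.x⁻¹) * (D.x * b * D.x⁻¹)⁻¹ := by group
    rw [bf, cjm, D.xf, hε, cjm, fix cz] at h1
    have h2 : D.z * (a * D.z ^ ε.val) = a * D.z ^ ε.val * D.z := (com_mul h.az (com_pow rfl _)).symm
    rw [mul_assoc D.e, h2, ← mul_assoc D.e, mul_left_inj] at h1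
    exact h1.symm
  have cc' : D.x * b * D.x⁻¹ * (D.x * b * D.x⁻¹) = 1 := by rw [← cjm, bb]; group
  have xc : D.x * (D.x * b * D.x⁻¹) * D.x⁻¹ = b * a := by
    rw [← cj2, D.xx, ← D.ef, cj2, fi, fb, cjm, fix be.symm, fix h.ae.symm]
  obtain ⟨c, hc⟩ : ∃ c, c = D.x * b * D.x⁻¹ := ⟨_, rfl⟩
  rw [← hc] at cz cf cτ ca cp ct ce cc' xc
  have ci : c⁻¹ = c := inv_eq_of_mul_eq_one_right cc'
  -- `w = b c`
  have wa : b * c * a = a * (b * c) := com_mul ba ca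
  have wz : b * c * D.z = D.z * (b * c) := com_mul bz cz
  have wa' : b * c * (a * D.z ^ ε.val) * (b * c)⁻¹ = a * D.z ^ ε.val := by
    rw [cjm, fix wa, ← conj_pow, fix wz]
  have aa' : a * D.z ^ ε.val * (a * D.z ^ ε.val) = 1 := by rw [← hε, ← cjm, ha]; group
  have we : b * c * D.e * (b * c)⁻¹ = D.e * (a * D.z ^ ε.val) := by
    rw [cj2, ce, cjm, cjm, fix be, fix ba, ← conj_pow, fix bz]
  have wf : b * c * D.f * (b * c)⁻¹ = D.f * a := by rw [cj2, fix cf, bf]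
  have wt : b * c * D.t * (b * c)⁻¹ = D.t * D.e * (D.f * a) := by rw [cj2, ct, cjm, bt, bf]
  have βe : (b * c) ^ 2 * D.e = D.e * (b * c) ^ 2 := com (by
    rw [pow_two, cj2, we, cjm, we, wa', mul_assoc, aa', mul_one])
  have βf : (b * c) ^ 2 * D.f = D.f * (b * c) ^ 2 := com (by
    rw [pow_two, cj2, wf, cjm, wf, fix wa, mul_assoc, ha, mul_one])
  have βt : (b * c) ^ 2 * D.t * ((b * c) ^ 2)⁻¹ = D.t * (D.z * D.z ^ ε.val) := by
    rw [pow_two, cj2, wt, cjm, cjm, cjm, wt, we, wf, fix wa, mul_assoc D.f a a, ha, mul_one]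
    have h1 : D.z ^ ε.val * D.f = D.f * D.z ^ ε.val := com_pow D.c_zf _
    calc D.t * D.e * (D.f * a) * (D.e * (a * D.z ^ ε.val)) * D.f
        = D.t * D.e * D.f * (a * D.e) * a * (D.z ^ ε.val * D.f) := by group
      _ = D.t * (D.e * D.f) * D.e * (a * a) * D.f * D.z ^ ε.val := by rw [h.ae, h1]; group
      _ = D.t * (D.e * D.f * (D.e * D.f) * D.z ^ ε.val) := by rw [ha]; group
      _ = _ := by rw [D.ef, D.yy]
  obtain ⟨α, hα⟩ : ∃ α, α = a ^ (1 + ε).val := ⟨_, rfl⟩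
  have αt : α * D.t * α⁻¹ = D.t * (D.z * D.z ^ ε.val) ∧ α * α = 1 ∧ D.x * α * D.x⁻¹ = α := by
    rw [hα]
    rcases z2 ε with rfl | rfl
    · simp only [add_zero, ZMod.val_one, ZMod.val_zero, pow_one, pow_zero, mul_one] at hε ⊢
      exact ⟨h.at', ha, hε⟩
    · rw [show ((1 : ZMod 2) + 1).val = 0 from rfl, ZMod.val_one]
      simp [D.zz]
  have αc : ∀ {u : G}, a * u = u * a → α * u = u * α := fun hu => hα ▸ com_pow hu _
  have αi : α⁻¹ = α := inv_eq_of_mul_eq_one_right αt.2.1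
  have wα : (b * c) ^ 2 * α = α * (b * c) ^ 2 := com_pow (αc wa.symm).symm 2
  have γt : (b * c) ^ 2 * α * D.t = D.t * ((b * c) ^ 2 * α) := com (by
    rw [cj2, αt.1, cjm, βt, cjm, ← conj_pow, fix (com_pow wz 2), mul_assoc]
    have : D.z * D.z ^ ε.val * (D.z * D.z ^ ε.val) = 1 := by
      rw [← pow_succ', ← (Commute.refl D.z).mul_pow, D.zz, one_pow]
    rw [this, mul_one])
  have γτ : (b * c) ^ 2 * α * D.τ = D.τ * ((b * c) ^ 2 * α) := com_mul (com_pow (com_mul bτ cτ) 2) (αc h.aτ)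
  have γz : (b * c) ^ 2 * α * D.z = D.z * ((b * c) ^ 2 * α) := com_mul (com_pow wz 2) (αc h.az)
  have γe : (b * c) ^ 2 * α * D.e = D.e * ((b * c) ^ 2 * α) := com_mul βe (αc h.ae)
  have γf : (b * c) ^ 2 * α * D.f = D.f * ((b * c) ^ 2 * α) := com_mul βf (αc h.af)
  have γa : (b * c) ^ 2 * α * a = a * ((b * c) ^ 2 * α) := com_mul (com_pow wa 2) (αc rfl)
  have γp : (b * c) ^ 2 * α * p = p * ((b * c) ^ 2 * α) := com_mul (com_pow (com_mul bp cp) 2) (αc h.pa.symm)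
  have γi : ((b * c) ^ 2 * α)⁻¹ = (b * c)⁻¹ ^ 2 * α := by rw [wα, mul_inv_rev, αi, inv_pow]
  have bγ : b * ((b * c) ^ 2 * α) * b⁻¹ = ((b * c) ^ 2 * α)⁻¹ := by
    rw [cjm, fix (αc ba.symm).symm, ← conj_pow, γi, mul_inv_rev, ci, bi, ← mul_assoc, bb, one_mul]
  have cγ : c * ((b * c) ^ 2 * α) * c⁻¹ = ((b * c) ^ 2 * α)⁻¹ := by
    rw [cjm, fix (αc ca.symm).symm, ← conj_pow, γi, mul_inv_rev, ci, bi, ← mul_assoc, mul_assoc (c * b), cc', mul_one]
  have xγ : D.x * ((b * c) ^ 2 * α) * D.x⁻¹ = ((b * c) ^ 2 * α)⁻¹ := by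
    rw [cjm, αt.2.2, ← conj_pow, γi, cjm, ← hc, xc, mul_inv_rev, ci, bi, ← mul_assoc,
      (show Commute (c * b) a from com_mul ca ba).mul_pow, pow_two a, ha, mul_one]
  obtain ⟨s, hs, o, hs', ho, hodd, hso⟩ := D.cent_A (cent_all γt γτ γz γe)
  obtain ⟨β, hβ⟩ := mem_z h hs (com_zp γf hs') (com_zp γa hs') (by
    rw [inv_zp xγ hs']; exact inv_eq_of_mul_eq_one_right (D.A_sq hs))
  obtain ⟨n, hn⟩ : ∃ n, orderOf o * orderOf o = 8 * n + 1 := by
    obtain ⟨m, hm⟩ := hodd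
    obtain ⟨r, hr⟩ := Nat.even_mul_succ_self m
    exact ⟨r, by rw [hm]; nlinarith⟩
  have hk : o ^ n ∈ zpowers ((b * c) ^ 2 * α) := pow_mem ho n
  have h8 : (o ^ n) ^ 8 * o = 1 := by
    rw [← pow_mul, ← pow_succ, mul_comm, ← hn, pow_mul, pow_orderOf_eq_one, one_pow]
  have oα : o * α = α * o := com_zp (αc γa.symm).symm ho
  generalize o ^ n = k at hk h8
  have bk := inv_zp bγ hk
  have ck := inv_zp cγ hk
  have xk := inv_zp xγ hk
  have ka := com_zp γa hk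
  refine ⟨k * b * k⁻¹, k * θ * k⁻¹, ε, β, tr_conj h (com_zp γt hk) (com_zp γτ hk) (com_zp γz hk) (com_zp γe hk)
    (com_zp γf hk) ka (com_zp γp hk), by rw [cc ka, hb], ha, hε, ?_⟩
  have wk : b * c * k = k * (b * c) := com (by
    rw [cj2, ck, show b * k⁻¹ * b⁻¹ = (b * k * b⁻¹)⁻¹ by group, bk, inv_inv])
  have h1 : k * b * k⁻¹ * (D.x * (k * b * k⁻¹) * D.x⁻¹) = k ^ 4 * (b * c) := by
    rw [cjm, cjm, xk, ← hc, ← inv_inv (D.x * k⁻¹ * D.x⁻¹), show (D.x * k⁻¹ * D.x⁻¹)⁻¹ = D.x * k * D.x⁻¹ by group, xk,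
      inv_inv]
    have h2 : b * k⁻¹ = k * b := by rw [← bk, bi]; simp [← mul_assoc, bb]
    calc k * b * k⁻¹ * (k⁻¹ * c * k) = k * (b * k⁻¹ * k⁻¹) * c * k := by group
      _ = k * k * k * (b * c * k) := by rw [h2, mul_assoc k b, h2]; group
      _ = _ := by rw [wk]; simp only [pow_succ, pow_zero, one_mul, mul_assoc]
  rw [h1, (show Commute (k ^ 4) (b * c) from com_pow wk.symm 4).mul_pow, ← pow_mul, ← hβ, ← hα]
  have h3 : (b * c) ^ 2 = s * o * α := by rw [← hso, mul_assoc, αt.2.1, mul_one]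
  have h4 : s * o = o * s := by
    obtain ⟨i, rfl⟩ := mem_zpowers_iff.1 hs'
    obtain ⟨j, rfl⟩ := mem_zpowers_iff.1 ho
    exact zpow_mul_comm _ _ _
  rw [h3, h4, ← mul_assoc, ← mul_assoc, h8, one_mul]

end Fr

end CfsgLib.L33
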