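import Mathlib
import Cfsg.Agent.Lib.L33.Trb

/-! Involution centralizers with a 2-component of type `L₃(3)` (plans/L33.md, package I2). -/

set_option autoImplicit false
set_option linter.unusedSectionVars false

namespace CfsgLib.L33

open Subgroup CfsgLib.Tech

variable {G : Type*} [Group G] [Finite G]

namespace I2

theorem z2 (i : ZMod 2) : i = 0 ∨ i = 1 := by revert i; decide

theorem vv (v : V4) : v + v = 0 := by revert v; decide

theorem vv' (v v' : V4) (h : v + v' = 0) : v = v' := by rw [← add_zero v, ← vv v', ← add_assoc, h, zero_add]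

theorem pw {g : G} (h : g * g = 1) (i j : ZMod 2) : g ^ (i + j).val = g ^ i.val * g ^ j.val := by
  have : (1 + 1 : ZMod 2) = 0 := rfl
  rcases z2 i with rfl | rfl <;> rcases z2 j with rfl | rfl <;> simp [ZMod.val_one, this, h]

theorem cmp {u v c : G} (h : u * v = v * u * c) (i j : ZMod 2) :
    u ^ i.val * v ^ j.val = v ^ j.val * u ^ i.val * c ^ (j * i).val := by
  rcases z2 i with rfl | rfl <;> rcases z2 j with rfl | rfl <;> simp [ZMod.val_one, h]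

theorem qp {e b f g z a c d : G} (hfe : f * e = e * f * z) (hfb : f * b = b * f * a) (hge : g * e = e * g * c)
    (hgb : g * b = b * g * d) (zb : b * z = z * b) (zg : g * z = z * g) (ag : g * a = a * g) (cb : b * c = c * b)
    (za : z * a = a * z) (dc : c * d = d * c) :
    f * g * (e * b) = e * b * f * g * (z * a * (c * d)) :=
  calc _ = f * (g * e) * b := by simp only [mul_assoc]
    _ = f * e * (g * b) * c := by rw [hge]; simp only [mul_assoc, cb]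
    _ = e * (f * (z * b)) * g * (d * c) := by rw [hfe, hgb]; simp only [mul_assoc]
    _ = e * b * f * (a * z * g) * (c * d) := by rw [← zb, ← mul_assoc f, hfb, dc]; simp only [mul_assoc]
    _ = _ := by rw [mul_assoc a, ← zg, ← mul_assoc a, ← ag, mul_assoc g, ← za]; simp only [mul_assoc]

theorem swp {u v c : G} (hu : u * u = 1) (hv : v * v = 1) (h : (u * v) ^ 2 = c) (hc : c * c = 1) :
    v * u = u * v * c := by
  have : (u * v)⁻¹ = v * u := by rw [mul_inv_rev, inv_eq_of_mul_eq_one_right hu, inv_eq_of_mul_eq_one_right hv]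
  rw [← this, eq_comm, ← mul_eq_one_iff_eq_inv', ← mul_assoc, ← pow_two, h, hc]

end I2

open I2

namespace Fr

variable {D : Fr G} {a b p θ : G} {ε β : ZMod 2}

/-- normal form in `⟨z, a⟩` -/
def za (D : Fr G) (a : G) (i j : ZMod 2) : G := D.z ^ i.val * a ^ j.val

namespace Jf

variable (h : D.Jf a b p θ ε β)
include h

theorem b1 : b * b = 1 := by
  rcases h.toTr.bb with e | e
  · rw [h.hb]; exact e.2
  · exact (D.z1 (e.1.symm.trans h.a1)).elim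

theorem p1 : p * p = 1 := by
  rcases h.hp with ⟨e, -⟩ | ⟨-, -, -, e | e⟩
  · rw [e, one_mul]
  · exact e.2
  · exact (D.z1 (e.1.symm.trans h.a1)).elim

theorem ba : b * a = a * b := by rw [h.hb]; exact h.ab.symm
theorem tat : D.t * a * D.t = a * D.z := by
  have := h.at'
  rw [mul_inv_eq_iff_eq_mul] at this
  rw [mul_assoc, this, ← mul_assoc, ← mul_assoc, D.tt, one_mul, h.az]
theorem tbt : D.t * b * D.t = b * D.e := by
  have := h.toTr.bt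
  rw [← h.hb, mul_inv_eq_iff_eq_mul] at this
  rw [mul_assoc, this, ← mul_assoc, ← mul_assoc, D.tt, one_mul, h.hb, h.toTr.be]
theorem tpt : p = 1 ∨ (D.τ ≠ 1 ∧ D.t * p * D.t = p * D.τ) := h.hp.imp (·.1) fun ⟨h1, h2, _⟩ => ⟨h1, by
  rw [mul_inv_eq_iff_eq_mul] at h2
  rw [mul_assoc, h2, ← mul_assoc, ← mul_assoc, D.tt, one_mul, h.pτ]⟩
theorem fbf : D.f * b * D.f = a * b := by
  have := h.toTr.fb
  rw [← h.hb] at this
  rw [this, mul_inv_rev, inv_eq_of_mul_eq_one_right h.a1, inv_eq_of_mul_eq_one_right h.b1, h.ba]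

theorem τZ : D.τ ∈ D.Z0 a p := subset_closure (by simp)
theorem zZ : D.z ∈ D.Z0 a p := subset_closure (by simp)
theorem aZ : a ∈ D.Z0 a p := subset_closure (by simp)
theorem pZ : p ∈ D.Z0 a p := subset_closure (by simp)
theorem Z1_le : D.Z1 ≤ D.Z0 a p := closure_mono (by intro; simp; tauto)
theorem za_le : closure {D.z, a} ≤ D.Z0 a p := closure_mono (by intro; simp; tauto)

omit h in
theorem cz {u : G} (h1 : u * D.τ = D.τ * u) (h2 : u * D.z = D.z * u) (h3 : u * a = a * u) (h4 : u * p = p * u) {g : G}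
    (hg : g ∈ D.Z0 a p) : u * g = g * u := by
  have : D.Z0 a p ≤ centralizer {u} := (closure_le _).2 <| by
    rintro _ (rfl | rfl | rfl | rfl) <;> exact mem_centralizer_singleton_iff.2 (by symm; assumption)
  exact (mem_centralizer_singleton_iff.1 (this hg)).symm

theorem cτ {g : G} (hg : g ∈ D.Z0 a p) : D.τ * g = g * D.τ := cz rfl D.c_τz h.aτ.symm h.pτ.symm hg
theorem czz {g : G} (hg : g ∈ D.Z0 a p) : D.z * g = g * D.z := cz D.c_τz.symm rfl h.az.symm h.pz.symm hg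
theorem ca {g : G} (hg : g ∈ D.Z0 a p) : a * g = g * a := cz h.aτ h.az rfl h.pa.symm hg
theorem cp {g : G} (hg : g ∈ D.Z0 a p) : p * g = g * p := cz h.pτ h.pz h.pa rfl hg
theorem ce {g : G} (hg : g ∈ D.Z0 a p) : D.e * g = g * D.e := cz D.c_τe.symm D.c_ze.symm h.ae.symm h.pe.symm hg
theorem cf {g : G} (hg : g ∈ D.Z0 a p) : D.f * g = g * D.f := cz D.c_τf.symm D.c_zf.symm h.af.symm h.pf.symm hg
theorem cb {g : G} (hg : g ∈ D.Z0 a p) : b * g = g * b :=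
  cz (h.hb ▸ h.toTr.bτ) (h.hb ▸ h.toTr.bz) h.ba (h.hb ▸ h.toTr.bp) hg
theorem cc {g g' : G} (hg : g ∈ D.Z0 a p) (hg' : g' ∈ D.Z0 a p) : g * g' = g' * g :=
  cz (h.cτ hg).symm (h.czz hg).symm (h.ca hg).symm (h.cp hg).symm hg'

theorem xZ {g : G} (hg : g ∈ D.Z0 a p) : D.x * g * D.x⁻¹ ∈ D.Z0 a p := by
  have : D.Z0 a p ≤ (D.Z0 a p).comap (MulAut.conj D.x).toMonoidHom := (closure_le _).2 <| by
    rintro _ (rfl | rfl | rfl | rfl) <;> change D.x * _ * D.x⁻¹ ∈ D.Z0 _ _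
    · by_cases h1 : D.τ = 1
      · simp [h1]
      · rw [D.xτ h1]; exact mul_mem h.τZ h.zZ
    · rw [← D.c_zx, mul_inv_cancel_right]; exact h.zZ
    · rw [h.xε]; exact mul_mem h.aZ (pow_mem h.zZ _)
    · rcases h.hp with ⟨e, -⟩ | ⟨-, -, e, -⟩
      · simp [e]
      · have := mul_mem (h.Z1_le e) (mul_mem h.pZ h.aZ)
        rwa [inv_mul_cancel_right] at this
  exact this hg

theorem cy {g : G} (hg : g ∈ D.Z0 a p) : D.y * g = g * D.y := by
  rw [← D.ef, mul_assoc, h.cf hg, ← mul_assoc, h.ce hg, mul_assoc]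

theorem cb' {g : G} (hg : g ∈ D.Z0 a p) : D.x * b * D.x⁻¹ * g = g * (D.x * b * D.x⁻¹) := by
  have h1 : g = D.x * (D.x * g * D.x⁻¹) * D.x⁻¹ := by
    rw [show D.x * (D.x * g * D.x⁻¹) * D.x⁻¹ = (D.x * D.x) * g * (D.x * D.x)⁻¹ by group, D.xx, h.cy hg,
      mul_inv_cancel_right]
  rw [h1, conj_mul, conj_mul, h.cb (h.xZ hg)]

theorem b'1 : D.x * b * D.x⁻¹ * (D.x * b * D.x⁻¹) = 1 := by rw [conj_mul, h.b1]; group
theorem be : b * D.e = D.e * b := h.hb ▸ h.toTr.be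
theorem b'f : D.x * b * D.x⁻¹ * D.f = D.f * (D.x * b * D.x⁻¹) := by rw [← D.xe, conj_mul, conj_mul, h.be]

theorem zaZ (i j : ZMod 2) : D.za a i j ∈ closure {D.z, a} :=
  mul_mem (pow_mem (subset_closure (by simp)) _) (pow_mem (subset_closure (by simp)) _)

theorem za_mul (i j i' j' : ZMod 2) : D.za a i j * D.za a i' j' = D.za a (i + i') (j + j') := by
  have : Commute a D.z := h.az
  simp only [za, pw D.zz, pw h.a1, mul_assoc]
  rw [← mul_assoc (a ^ _), (this.pow_pow _ _).eq, mul_assoc]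

omit h in
theorem za_pow (i j k : ZMod 2) : D.za a i j ^ k.val = D.za a (k * i) (k * j) := by
  rcases z2 k with rfl | rfl <;> simp [za, ZMod.val_one]

omit h in
theorem za10 : D.za a 1 0 = D.z := by simp [za, ZMod.val_one]
omit h in
theorem za01 : D.za a 0 1 = a := by simp [za, ZMod.val_one]
omit h in
theorem za00 : D.za a 0 0 = 1 := by simp [za]

theorem mem_za {g : G} : g ∈ closure {D.z, a} ↔ ∃ i j, g = D.za a i j := by
  refine ⟨fun hg => ?_, fun ⟨i, j, e⟩ => e ▸ h.zaZ i j⟩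
  induction hg using closure_induction with
  | mem x hx => rcases hx with rfl | rfl; exacts [⟨1, 0, za10.symm⟩, ⟨0, 1, za01.symm⟩]
  | one => exact ⟨0, 0, za00.symm⟩
  | mul x y _ _ hx hy => obtain ⟨i, j, rfl⟩ := hx; obtain ⟨i', j', rfl⟩ := hy; exact ⟨_, _, h.za_mul ..⟩
  | inv x _ hx =>
    obtain ⟨i, j, rfl⟩ := hx
    exact ⟨i, j, inv_eq_of_mul_eq_one_right (by rw [h.za_mul, CharTwo.add_self_eq_zero, CharTwo.add_self_eq_zero, za00])⟩

theorem t_za (i j : ZMod 2) : D.t * D.za a i j * D.t = D.za a (i + j) j := by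
  have ti : D.t = D.t⁻¹ := (inv_eq_of_mul_eq_one_right D.tt).symm
  have h1 : D.t * D.z * D.t⁻¹ = D.za a 1 0 := by rw [D.c_tz, mul_inv_cancel_right, za10]
  have h2 : D.t * a * D.t⁻¹ = D.za a 1 1 := by rw [← ti, h.tat, h.az]; simp [za, ZMod.val_one]
  nth_rw 2 [ti]
  rw [za, ← conj_mul, ← conj_pow, ← conj_pow, h1, h2, za_pow, za_pow, h.za_mul]; simp

theorem za_one {i j : ZMod 2} (e : D.za a i j = 1) : i = 0 ∧ j = 0 := by
  have h1 := h.t_za i j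
  rw [e, mul_one, D.tt] at h1
  have h2 := h.za_mul i j (i + j) j
  rw [e, ← h1, one_mul] at h2
  rcases z2 j with rfl | rfl
  · rcases z2 i with rfl | rfl
    · exact ⟨rfl, rfl⟩
    · exact (D.z1 (za10.symm.trans e)).elim
  · rw [show i + (i + 1) = 1 by rw [← add_assoc, CharTwo.add_self_eq_zero, zero_add], CharTwo.add_self_eq_zero,
      za10] at h2
    exact (D.z1 h2.symm).elim

theorem za_eq {i j i' j' : ZMod 2} (e : D.za a i j = D.za a i' j') : i = i' ∧ j = j' := by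
  have := h.za_mul i j i' j'
  rw [e, h.za_mul, CharTwo.add_self_eq_zero, CharTwo.add_self_eq_zero, za00] at this
  obtain ⟨h1, h2⟩ := h.za_one this.symm
  exact ⟨CharTwo.add_eq_zero.1 h1, CharTwo.add_eq_zero.1 h2⟩

theorem fb' : D.f * b = b * D.f * a := by
  rw [← mul_left_inj D.f, h.fbf, mul_assoc, h.af, ← mul_assoc, mul_assoc b, D.ff, mul_one, h.ba]

theorem b'e : D.x * b * D.x⁻¹ * D.e = D.e * (D.x * b * D.x⁻¹) * D.za a ε 1 := by
  have h1 : D.x * (D.f * D.z) * D.x⁻¹ = D.e := by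
    rw [← conj_mul, D.xf, ← D.c_zx, mul_inv_cancel_right, mul_assoc, D.zz, mul_one]
  have h2 : D.x * a * D.x⁻¹ = D.za a ε 1 := by
    rw [h.xε, h.ca (pow_mem h.zZ _)]; simp [za, ZMod.val_one]
  rw [← h1, ← h2, conj_mul, conj_mul, conj_mul, mul_assoc D.f, ← h.cb h.zZ, ← mul_assoc D.f, h.fb', mul_assoc (b * D.f),
    mul_assoc (b * D.f), ← h.czz h.aZ, mul_assoc D.z, h.a1, mul_one, mul_assoc b]

theorem b'b : D.x * b * D.x⁻¹ * b = b * (D.x * b * D.x⁻¹) * D.za a β (1 + ε) :=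
  swp h.b1 h.b'1 h.bb (by
    rw [h.za_mul, CharTwo.add_self_eq_zero, CharTwo.add_self_eq_zero, za00])

theorem cw (v : V4) {g : G} (hg : g ∈ D.Z0 a p) : D.wJ b v * g = g * D.wJ b v :=
  ((((show Commute _ g from h.ce hg).pow_left _).mul_left ((show Commute _ g from h.cb hg).pow_left _)).mul_left
    ((show Commute _ g from h.cf hg).pow_left _)).mul_left ((show Commute _ g from h.cb' hg).pow_left _) |>.eq

theorem qp' (i j k l : ZMod 2) : D.f ^ k.val * (D.x * b * D.x⁻¹) ^ l.val * (D.e ^ i.val * b ^ j.val) =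
    D.wJ b (i, j, k, l) * D.za a (i * k + ε * i * l + β * j * l) (j * k + i * l + (1 + ε) * j * l) := by
  have z := fun i j => h.za_le (h.zaZ i j)
  have c := fun {u g : G} (e : u * g = g * u) (n m : ℕ) => ((show Commute u g from e).pow_pow n m).eq
  rw [qp (cmp (D.fe.trans (by rw [D.ef])) k i) (cmp h.fb' k j) (cmp h.b'e l i) (cmp h.b'b l j) (c (h.cb h.zZ) _ _)
    (c (h.cb' h.zZ) _ _) (c (h.cb' h.aZ) _ _) (c (h.cb (z _ _)) _ _) (c h.az.symm _ _) (c (h.cc (z _ _) (z _ _)) _ _),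
    za_pow, za_pow, h.za_mul]
  change _ * (D.za a _ _ * _) = _
  rw [h.za_mul, wJ]
  congr 2 <;> ring

theorem wJ_mul (v v' : V4) : D.wJ b v * D.wJ b v' = D.wJ b (v + v') *
    D.za a (v'.1 * v.2.2.1 + ε * v'.1 * v.2.2.2 + β * v'.2.1 * v.2.2.2)
      (v'.2.1 * v.2.2.1 + v'.1 * v.2.2.2 + (1 + ε) * v'.2.1 * v.2.2.2) := by
  obtain ⟨i, j, k, l⟩ := v
  obtain ⟨i', j', k', l'⟩ := v'
  have c1 : Commute b D.e := h.be
  have c2 : Commute (D.x * b * D.x⁻¹) D.f := h.b'f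
  have e1 := h.qp' i' j' k l
  set c := D.za a (i' * k + ε * i' * l + β * j' * l) (j' * k + i' * l + (1 + ε) * j' * l)
  have hc : c ∈ D.Z0 a p := h.za_le (h.zaZ _ _)
  have e2 := h.cw (0, 0, k', l') hc
  simp only [wJ, Prod.mk_add_mk, pw D.ee, pw h.b1, pw D.ff, pw h.b'1, ZMod.val_zero, pow_zero, one_mul] at e1 e2 ⊢
  generalize D.x * b * D.x⁻¹ = g at *
  calc _ = D.e ^ i.val * b ^ j.val * (D.f ^ k.val * g ^ l.val * (D.e ^ i'.val * b ^ j'.val)) *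
        (D.f ^ k'.val * g ^ l'.val) := by simp only [mul_assoc]
    _ = D.e ^ i.val * (b ^ j.val * D.e ^ i'.val) * b ^ j'.val * D.f ^ k.val * (g ^ l.val * D.f ^ k'.val) * g ^ l'.val * c := by
      rw [e1, mul_assoc _ (_ * c), mul_assoc _ c, ← e2]; simp only [mul_assoc]
    _ = _ := by rw [(c1.pow_pow _ _).eq, (c2.pow_pow _ _).eq]; simp only [mul_assoc]

theorem w0 : D.wJ b 0 = 1 := by simp [wJ]

theorem w_zero {v : V4} (hv : D.wJ b v ∈ D.Z0 a p) : v = 0 := by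
  have key : ∀ v', D.wJ b v * D.wJ b v' = D.wJ b v' * D.wJ b v := fun v' => (h.cw v' hv).symm
  have h1 := key (0, 0, 1, 0)
  have h2 := key (1, 0, 0, 0)
  rw [h.wJ_mul, h.wJ_mul, add_comm v, mul_right_inj] at h1 h2
  obtain ⟨i, j, k, l⟩ := v
  obtain ⟨h3, h4⟩ := h.za_eq h1
  obtain ⟨h5, h6⟩ := h.za_eq h2
  simp only [mul_zero, zero_mul, add_zero, mul_one, one_mul, zero_add] at h3 h4 h5 h6
  subst h3 h4 h6
  simp only [mul_zero, add_zero] at h5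
  rw [h5]; rfl

end Jf

/-! the group `Z₀` -/

theorem Jf.mem_Z0 (h : D.Jf a b p θ ε β) {g : G} :
    g ∈ D.Z0 a p ↔ ∃ i j k l : ZMod 2, g = D.τ ^ i.val * D.z ^ j.val * a ^ k.val * p ^ l.val := by
  have mem := fun i j k l : ZMod 2 => mul_mem (mul_mem (mul_mem (pow_mem h.τZ i.val) (pow_mem h.zZ j.val))
    (pow_mem h.aZ k.val)) (pow_mem h.pZ l.val)
  have mul : ∀ i j k l i' j' k' l' : ZMod 2, D.τ ^ i.val * D.z ^ j.val * a ^ k.val * p ^ l.val *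
      (D.τ ^ i'.val * D.z ^ j'.val * a ^ k'.val * p ^ l'.val) =
      D.τ ^ (i + i').val * D.z ^ (j + j').val * a ^ (k + k').val * p ^ (l + l').val := fun i j k l i' j' k' l' => by
    have c := fun {g g'} (hg : g ∈ D.Z0 a p) (hg' : g' ∈ D.Z0 a p) => (show Commute g g' from h.cc hg hg')
    rw [pw D.ττ, pw D.zz, pw h.a1, pw h.p1, (c (pow_mem h.pZ _) (mul_mem (mul_mem (pow_mem h.τZ _) (pow_mem h.zZ _))
      (pow_mem h.aZ _))).mul_mul_mul_comm, (c (pow_mem h.aZ _) (mul_mem (pow_mem h.τZ _) (pow_mem h.zZ _))).mul_mul_mul_comm,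
      (c (pow_mem h.zZ _) (pow_mem h.τZ _)).mul_mul_mul_comm]
  refine ⟨fun hg => ?_, fun ⟨i, j, k, l, e⟩ => e ▸ mem i j k l⟩
  induction hg using closure_induction with
  | mem x hx =>
    rcases hx with rfl | rfl | rfl | rfl
    exacts [⟨1, 0, 0, 0, by simp [ZMod.val_one]⟩, ⟨0, 1, 0, 0, by simp [ZMod.val_one]⟩,
      ⟨0, 0, 1, 0, by simp [ZMod.val_one]⟩, ⟨0, 0, 0, 1, by simp [ZMod.val_one]⟩]
  | one => exact ⟨0, 0, 0, 0, by simp⟩
  | mul x y _ _ hx hy => obtain ⟨i, j, k, l, rfl⟩ := hx; obtain ⟨i', j', k', l', rfl⟩ := hy; exact ⟨_, _, _, _, mul ..⟩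
  | inv x _ hx =>
    obtain ⟨i, j, k, l, rfl⟩ := hx
    exact ⟨i, j, k, l, inv_eq_of_mul_eq_one_right (by rw [mul]; simp [CharTwo.add_self_eq_zero])⟩

theorem Jf.Z0_sq (h : D.Jf a b p θ ε β) {g : G} (hg : g ∈ D.Z0 a p) : g * g = 1 := by
  induction hg using closure_induction with
  | mem x hx => rcases hx with rfl | rfl | rfl | rfl; exacts [D.ττ, D.zz, h.a1, h.p1]
  | one => exact one_mul 1
  | mul x y h1 h2 hx hy => rw [(show Commute y x from h.cc h2 h1).mul_mul_mul_comm, hx, hy, one_mul]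
  | inv x _ hx => rw [← mul_inv_rev, hx, inv_one]

theorem Jf.dec (h : D.Jf a b p θ ε β) {g : G} (hg : g ∈ D.Z0 a p) :
    ∃ c ∈ D.Z1, g = c ∨ g = c * a ∨ (p ≠ 1 ∧ (g = c * p ∨ g = c * (p * a))) := by
  obtain ⟨i, j, k, l, rfl⟩ := h.mem_Z0.1 hg
  refine ⟨D.τ ^ i.val * D.z ^ j.val, mul_mem (pow_mem (subset_closure (by simp)) _) (pow_mem (subset_closure (by simp)) _), ?_⟩
  by_cases hp : p = 1 <;> rcases z2 k with rfl | rfl <;> rcases z2 l with rfl | rfl <;>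
    simp [ZMod.val_one, hp, mul_assoc, h.pa]

theorem Jf.Z1t {c : G} (hc : c ∈ D.Z1) : D.t * c * D.t = c := by
  rw [D.A_comm (subset_closure (by simp)) (D.A0_le_A (D.Z1_le_A0 hc)), mul_assoc, D.tt, mul_one]

theorem Jf.tconj (u v : G) : D.t * (u * v) * D.t = D.t * u * D.t * (D.t * v * D.t) := by
  rw [show D.t * u * D.t * (D.t * v * D.t) = D.t * u * (D.t * D.t) * v * D.t by simp only [mul_assoc], D.tt]
  simp only [mul_assoc, mul_one]

theorem Jf.τz1 (h : D.τ ≠ 1) : D.τ * D.z ≠ 1 := fun e => by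
  have := D.u_mul 0 1 0 0 0 0 1 0
  rw [D.u_τ, D.u_z, e, ← D.u_one] at this
  exact absurd (D.u_inj this).2.2.1 (by decide)

theorem Jf.cent_t (h : D.Jf a b p θ ε β) {g : G} (hg : g ∈ D.Z0 a p) (ht : g * D.t = D.t * g) : g ∈ D.Z1 := by
  have ht' : D.t * g * D.t = g := by rw [← ht, mul_assoc, D.tt, mul_one]
  obtain ⟨c, hc, rfl | rfl | ⟨hp, rfl | rfl⟩⟩ := h.dec hg
  · exact hc
  · rw [Jf.tconj, Jf.Z1t hc, h.tat, mul_right_inj, mul_eq_left] at ht'; exact (D.z1 ht').elim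
  · obtain ⟨h1, h2⟩ := h.tpt.resolve_left hp
    rw [Jf.tconj, Jf.Z1t hc, h2, mul_right_inj, mul_eq_left] at ht'; exact (h1 ht').elim
  · obtain ⟨h1, h2⟩ := h.tpt.resolve_left hp
    rw [Jf.tconj, Jf.tconj, Jf.Z1t hc, h2, h.tat, mul_right_inj, mul_assoc, mul_right_inj, ← mul_assoc, ← h.aτ, mul_assoc,
      mul_eq_left] at ht'
    exact (Jf.τz1 h1 ht').elim

theorem Jf.card_Z0 (h : D.Jf a b p θ ε β) :
    (D.Sm ∧ Nat.card D.A = 2 * Nat.card (D.Z0 a p)) ∨ Nat.card (D.Z0 a p) = 16 := by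
  have nrm : ∀ {K : Subgroup G} {g : G}, K ≤ D.Z0 a p → g ∈ D.Z0 a p → ∀ k ∈ K, g * k * g⁻¹ ∈ K := fun hK hg k hk => by
    rw [h.cc hg (hK hk), mul_inv_cancel_right]; exact hk
  have e1 : D.A0 = D.Z1 ⊔ zpowers D.e := by
    rw [A0, Z1, zpowers_eq_closure, ← Subgroup.closure_union]; congr 1; ext; simp; tauto
  have e2 : D.Z0 a p = D.Z1 ⊔ zpowers a ⊔ zpowers p := by
    rw [Z0, Z1, zpowers_eq_closure, zpowers_eq_closure, ← Subgroup.closure_union, ← Subgroup.closure_union]; congr 1; ext; simp; tauto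
  have h1 : Nat.card D.A0 = 2 * Nat.card D.Z1 := by
    rw [e1]
    refine card_sup_two (fun k hk => by rw [h.ce (h.Z1_le hk), mul_inv_cancel_right]; exact hk) (D.ee ▸ one_mem _) fun he => ?_
    have := h.cf (h.Z1_le he)
    rw [D.fe, D.ef, mul_eq_left] at this
    exact D.z1 this
  have aZ : a ∉ D.Z1 := fun ha => by
    have := Jf.Z1t ha
    rw [h.tat, mul_eq_left] at this; exact D.z1 this
  have h2 := card_sup_two (nrm h.Z1_le h.aZ) (h.a1 ▸ one_mem _) aZ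
  have h3 := D.card_A0
  rcases h.hp with ⟨rfl, hm⟩ | ⟨hτ, h4, -⟩
  · refine Or.inl ⟨hm, ?_⟩
    rw [e2, zpowers_one_eq_bot, sup_bot_eq]; omega
  · right
    have h5 : D.t * p * D.t = p * D.τ := (h.tpt.resolve_left fun e => hτ (by simpa [e] using h4.symm)).2
    rw [e2, card_sup_two (nrm (sup_le h.Z1_le (zpowers_le.2 h.aZ)) h.pZ) (h.p1 ▸ one_mem _) fun hp => ?_]
    · rcases D.card_A with ⟨e, -⟩ | ⟨-, e⟩
      · exact (hτ e).elim
      · omega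
    rcases (mem_sup_two (nrm h.Z1_le h.aZ) (h.a1 ▸ one_mem _)).1 hp with hp | hp
    · have := Jf.Z1t hp
      rw [h5, mul_eq_left] at this; exact hτ this
    · have := Jf.Z1t hp
      rw [Jf.tconj, h5, h.tat, mul_assoc, mul_right_inj, ← mul_assoc, ← h.pz, mul_assoc, mul_eq_left, ← D.c_τz] at this
      exact Jf.τz1 hτ this

theorem Jf.Z0_le (h : D.Jf a b p θ ε β) : D.Z0 a p ≤ D.J a b p := closure_mono (by intro; simp; tauto)

theorem Jf.Z0_cent (h : D.Jf a b p θ ε β) {g u : G} (hg : g ∈ D.Z0 a p) (hu : u ∈ D.J a b p) : u * g = g * u := by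
  have : D.J a b p ≤ centralizer {g} := (closure_le _).2 <| by
    rintro _ (rfl | rfl | rfl | rfl | rfl | rfl | rfl | rfl) <;> refine mem_centralizer_singleton_iff.2 ?_
    exacts [h.cτ hg, h.czz hg, h.ca hg, h.cp hg, h.ce hg, h.cb hg, h.cf hg, h.cb' hg]
  exact mem_centralizer_singleton_iff.1 (this hu)

theorem Jf.t_Z0 (h : D.Jf a b p θ ε β) {g : G} (hg : g ∈ D.Z0 a p) : D.t * g * D.t ∈ D.Z0 a p := by
  have ha : D.t * a * D.t ∈ D.Z0 a p := h.tat ▸ mul_mem h.aZ h.zZ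
  have hp : p ≠ 1 → D.t * p * D.t ∈ D.Z0 a p := fun hp => (h.tpt.resolve_left hp).2 ▸ mul_mem h.pZ h.τZ
  obtain ⟨c, hc, rfl | rfl | ⟨h1, rfl | rfl⟩⟩ := h.dec hg <;> simp only [Jf.tconj, Jf.Z1t hc]
  exacts [hg, mul_mem (h.Z1_le hc) ha, mul_mem (h.Z1_le hc) (hp h1), mul_mem (h.Z1_le hc) (mul_mem (hp h1) ha)]

theorem Jf.x_Z0 (h : D.Jf a b p θ ε β) {g : G} (hg : g ∈ D.Z0 a p) : D.x * g * D.x⁻¹ ∈ D.Z0 a p := h.xZ hg

theorem Jf.ζ_conj (g : G) : D.ζ ε * g * (D.ζ ε)⁻¹ = if ε = 0 then D.x * g * D.x⁻¹ else D.t * (D.x * g * D.x⁻¹) * D.t := by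
  rcases z2 ε with rfl | rfl
  · simp [ζ]
  · simp [ζ, ZMod.val_one, inv_eq_of_mul_eq_one_right D.tt, mul_assoc]

theorem Jf.ζa (h : D.Jf a b p θ ε β) : D.ζ ε * a = a * D.ζ ε := by
  rw [← mul_inv_eq_iff_eq_mul, Jf.ζ_conj, h.xε]
  rcases z2 ε with rfl | rfl
  · simp
  · rw [if_neg one_ne_zero, ZMod.val_one, pow_one, Jf.tconj, h.tat, Jf.Z1t (subset_closure (by simp)), mul_assoc, D.zz,
      mul_one]

theorem Jf.cent_ζ (h : D.Jf a b p θ ε β) {g : G} (hg : g ∈ D.Z0 a p) (hζ : D.ζ ε * g = g * D.ζ ε) :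
    g ∈ closure {D.z, a} := by
  have xc : ∀ c ∈ D.Z1, D.x * c * D.x⁻¹ ∈ D.Z1 := fun c hc => by
    have hz : D.x * D.z * D.x⁻¹ = D.z := by rw [← D.c_zx, mul_inv_cancel_right]
    by_cases h1 : D.τ = 1 <;> rcases D.mem_Z1.1 hc with rfl | rfl | rfl | rfl <;>
      simp only [← conj_mul, hz, D.mem_Z1, h1, D.xτ, ne_eq, not_false_eq_true] <;> simp [mul_assoc, D.zz]
  have ζc : ∀ c ∈ D.Z1, D.ζ ε * c * (D.ζ ε)⁻¹ = D.x * c * D.x⁻¹ := fun c hc => by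
    rw [Jf.ζ_conj, Jf.Z1t (xc c hc), ite_self]
  have ζa : D.ζ ε * a * (D.ζ ε)⁻¹ = a := by rw [h.ζa, mul_inv_cancel_right]
  have k1 : ∀ c ∈ D.Z1, D.ζ ε * c * (D.ζ ε)⁻¹ = c → c ∈ closure {D.z, a} := fun c hc e => by
    have hz : D.z ∈ closure {D.z, a} := subset_closure (by simp)
    rw [ζc c hc] at e
    by_cases h1 : D.τ = 1
    · rcases D.mem_Z1.1 hc with rfl | rfl | rfl | rfl <;> simp [h1, hz]
    rcases D.mem_Z1.1 hc with rfl | rfl | rfl | rfl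
    · exact one_mem _
    · exact hz
    · rw [D.xτ h1, mul_eq_left] at e; exact (D.z1 e).elim
    · rw [← conj_mul, D.xτ h1, ← D.c_zx, mul_inv_cancel_right, mul_eq_left] at e; exact (D.z1 e).elim
  have k2 : p ≠ 1 → ∀ c ∈ D.Z1, D.ζ ε * (c * p) * (D.ζ ε)⁻¹ ≠ c * p := fun hp c hc e => by
    obtain ⟨h1, h2⟩ := h.tpt.resolve_left hp
    obtain ⟨-, -, h3, -⟩ := h.hp.resolve_left fun e => hp e.1
    have h4 : D.ζ ε * p * (D.ζ ε)⁻¹ * (p * a)⁻¹ ∈ D.Z1 := by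
      rw [Jf.ζ_conj]; split_ifs
      · exact h3
      · have h5 : D.x * p * D.x⁻¹ = D.x * p * D.x⁻¹ * (p * a)⁻¹ * (p * a) := by group
        rw [h5, Jf.tconj, Jf.Z1t h3, Jf.tconj, h2, h.tat, mul_assoc]
        refine mul_mem h3 ?_
        rw [h.pτ, h.az, show D.τ * p * (D.z * a) = D.τ * (p * D.z) * a by group, h.pz]
        simp [D.mem_Z1, mul_assoc]
    rw [← conj_mul, ζc c hc, ← eq_inv_mul_iff_mul_eq] at e
    have h6 : a ∈ D.Z1 := by
      rw [e, h.pa, mul_inv_rev a, mul_assoc, mul_assoc c, mul_inv_cancel_left] at h4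
      exact inv_mem_iff.1 ((mul_mem_cancel_left hc).1 ((mul_mem_cancel_left (inv_mem (xc c hc))).1 h4))
    have := Jf.Z1t h6
    rw [h.tat, mul_eq_left] at this; exact D.z1 this
  rw [← mul_inv_eq_iff_eq_mul] at hζ
  obtain ⟨c, hc, rfl | rfl | ⟨hp, rfl | rfl⟩⟩ := h.dec hg
  · exact k1 _ hc hζ
  · rw [← conj_mul, ζa, mul_left_inj] at hζ
    exact mul_mem (k1 c hc hζ) (subset_closure (by simp))
  · exact (k2 hp c hc hζ).elim
  · rw [← mul_assoc c, ← conj_mul, ζa, mul_left_inj] at hζ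
    exact (k2 hp c hc hζ).elim

theorem Jf.card_za (h : D.Jf a b p θ ε β) : Nat.card ↥(closure {D.z, a}) = 4 := by
  have : Function.Bijective fun v : ZMod 2 × ZMod 2 => (⟨_, h.zaZ v.1 v.2⟩ : ↥(closure {D.z, a})) :=
    ⟨fun v v' e => Prod.ext_iff.2 (h.za_eq (Subtype.ext_iff.1 e)), fun ⟨g, hg⟩ =>
      let ⟨i, j, e⟩ := h.mem_za.1 hg; ⟨(i, j), Subtype.ext e.symm⟩⟩
  rw [← Nat.card_eq_of_bijective _ this]; simp

theorem Jf.za_inj (h : D.Jf a b p θ ε β) {i j i' j' : ZMod 2}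
    (e : D.z ^ i.val * a ^ j.val = D.z ^ i'.val * a ^ j'.val) : i = i' ∧ j = j' := h.za_eq e

/-! the group `J` -/

theorem Jf.wJ_zero (h : D.Jf a b p θ ε β) : D.wJ b 0 = 1 := h.w0

theorem Jf.wJ_add (h : D.Jf a b p θ ε β) (v v' : V4) :
    ∃ g ∈ closure {D.z, a}, D.wJ b v * D.wJ b v' = D.wJ b (v + v') * g := ⟨_, h.zaZ _ _, h.wJ_mul v v'⟩

theorem Jf.wJ_sq (h : D.Jf a b p θ ε β) (v : V4) :
    D.wJ b v * D.wJ b v = D.z ^ (qJ ε β v).1.val * a ^ (qJ ε β v).2.val := by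
  rw [h.wJ_mul, vv, h.w0, one_mul]; rfl

theorem Jf.wmul (h : D.Jf a b p θ ε β) (v v' : V4) {g g' : G} (hg : g ∈ D.Z0 a p) (hg' : g' ∈ D.Z0 a p) :
    ∃ k ∈ D.Z0 a p, D.wJ b v * g * (D.wJ b v' * g') = D.wJ b (v + v') * k := by
  obtain ⟨c, hc, e⟩ := h.wJ_add v v'
  exact ⟨c * g * g', mul_mem (mul_mem (h.za_le hc) hg) hg', by
    rw [← mul_assoc, mul_assoc _ g, ← h.cw v' hg, ← mul_assoc, e]; simp only [mul_assoc]⟩

theorem Jf.w_mem (v : V4) : D.wJ b v ∈ D.J a b p := by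
  refine mul_mem (mul_mem (mul_mem ?_ ?_) ?_) ?_ <;> exact pow_mem (subset_closure (by simp)) _

theorem Jf.mem_J (h : D.Jf a b p θ ε β) {u : G} : u ∈ D.J a b p ↔ ∃ v, ∃ g ∈ D.Z0 a p, u = D.wJ b v * g := by
  refine ⟨fun hu => ?_, fun ⟨v, g, hg, e⟩ => e ▸ mul_mem (Jf.w_mem v) (h.Z0_le hg)⟩
  induction hu using closure_induction with
  | mem x hx =>
    rcases hx with rfl | rfl | rfl | rfl | rfl | rfl | rfl | rfl
    exacts [⟨0, _, h.τZ, by simp [wJ]⟩, ⟨0, _, h.zZ, by simp [wJ]⟩, ⟨0, _, h.aZ, by simp [wJ]⟩, ⟨0, _, h.pZ, by simp [wJ]⟩,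
      ⟨(1, 0, 0, 0), 1, one_mem _, by simp [wJ, ZMod.val_one]⟩, ⟨(0, 1, 0, 0), 1, one_mem _, by simp [wJ, ZMod.val_one]⟩,
      ⟨(0, 0, 1, 0), 1, one_mem _, by simp [wJ, ZMod.val_one]⟩, ⟨(0, 0, 0, 1), 1, one_mem _, by simp [wJ, ZMod.val_one]⟩]
  | one => exact ⟨0, 1, one_mem _, by simp [wJ]⟩
  | mul x y _ _ hx hy =>
    obtain ⟨v, g, hg, rfl⟩ := hx; obtain ⟨v', g', hg', rfl⟩ := hy
    exact ⟨_, h.wmul v v' hg hg'⟩
  | inv x _ hx =>
    obtain ⟨v, g, hg, rfl⟩ := hx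
    obtain ⟨k, hk, e⟩ := h.wmul v v hg hg
    rw [vv, h.w0, one_mul] at e
    exact ⟨v, g * k⁻¹, mul_mem hg (inv_mem hk), by rw [← e]; group⟩

theorem Jf.wJ_inj (h : D.Jf a b p θ ε β) {v v' : V4} {g g' : G} (hg : g ∈ D.Z0 a p) (hg' : g' ∈ D.Z0 a p)
    (e : D.wJ b v * g = D.wJ b v' * g') : v = v' := by
  obtain ⟨k, hk, e1⟩ := h.wmul v v' hg hg'
  obtain ⟨k', hk', e2⟩ := h.wmul v' v' hg' hg'
  rw [vv, h.w0, one_mul, ← e, e, ← e, e] at e2
  rw [e, e2] at e1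
  exact vv' _ _ (h.w_zero (by rw [eq_mul_inv_of_mul_eq e1.symm]; exact mul_mem hk' (inv_mem hk)))

theorem Jf.t_wJ (h : D.Jf a b p θ ε β) (v : V4) :
    ∃ g ∈ closure {D.z, a}, D.t * D.wJ b v * D.t = D.wJ b (tJ v) * g := by
  have ti : D.t⁻¹ = D.t := inv_eq_of_mul_eq_one_right D.tt
  have h1 : D.t * D.e * D.t⁻¹ = D.e := by rw [D.c_te, mul_inv_cancel_right]
  have h2 : D.t * D.f * D.t⁻¹ = D.f := by rw [D.c_tf, mul_inv_cancel_right]
  have h3 : D.t * b * D.t⁻¹ = D.e * b := by rw [ti, h.tbt, h.be]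
  have h4 : D.t * (D.x * b * D.x⁻¹) * D.t⁻¹ = D.f * (D.x * b * D.x⁻¹) := by
    rw [← D.xe, conj_mul, ← h3, show D.x * (D.t * b * D.t⁻¹) * D.x⁻¹ = (D.x * D.t) * b * (D.x * D.t)⁻¹ by group, ← D.c_tx]
    group
  refine ⟨1, one_mem _, ?_⟩
  nth_rw 2 [← ti]
  rw [wJ, ← conj_mul, ← conj_mul, ← conj_mul, ← conj_pow, ← conj_pow, ← conj_pow, ← conj_pow, h1, h2, h3, h4,
    (show Commute _ _ from h.be.symm).mul_pow, (show Commute _ _ from h.b'f.symm).mul_pow]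
  simp only [wJ, tJ, pw D.ee, pw D.ff, mul_assoc, mul_one]

theorem Jf.x_wJ (h : D.Jf a b p θ ε β) (v : V4) :
    ∃ g ∈ closure {D.z, a}, D.x * D.wJ b v * D.x⁻¹ = D.wJ b (xJ v) * g := by
  obtain ⟨i, j, k, l⟩ := v
  have h4 : D.x * (D.x * b * D.x⁻¹) * D.x⁻¹ = b * a := by
    rw [show D.x * (D.x * b * D.x⁻¹) * D.x⁻¹ = (D.x * D.x) * b * (D.x * D.x)⁻¹ by group, D.xx, ← D.ef, mul_inv_eq_iff_eq_mul,
      mul_assoc, h.fb', mul_assoc b, ← h.af, ← mul_assoc, ← h.be, mul_assoc b, mul_assoc b, ← mul_assoc D.e, ← h.ae]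
    simp only [mul_assoc]
  refine ⟨_, mul_mem (h.zaZ (k * i + ε * k * j + β * l * j) (l * i + k * j + (1 + ε) * l * j)) (h.zaZ k l), ?_⟩
  rw [← mul_assoc, xJ, ← h.qp', wJ, ← conj_mul, ← conj_mul, ← conj_mul, ← conj_pow, ← conj_pow, ← conj_pow, ← conj_pow, D.xe,
    D.xf, h4, (show Commute _ _ from D.c_ze.symm).mul_pow, (show Commute _ _ from h.ba).mul_pow, za, mul_assoc, mul_assoc,
    (show Commute _ _ from (h.cb h.zZ).symm).pow_pow _ _ |>.mul_mul_mul_comm]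
  simp only [mul_assoc]

theorem Jf.ζ_wJ (h : D.Jf a b p θ ε β) (v : V4) :
    ∃ g ∈ closure {D.z, a}, D.ζ ε * D.wJ b v * (D.ζ ε)⁻¹ = D.wJ b (ζJ ε v) * g := by
  rw [Jf.ζ_conj, ζJ]
  obtain ⟨g, hg, e⟩ := h.x_wJ v
  split_ifs
  · exact ⟨g, hg, e⟩
  obtain ⟨g', hg', e'⟩ := h.t_wJ (xJ v)
  obtain ⟨i, j, rfl⟩ := h.mem_za.1 hg
  exact ⟨_, mul_mem hg' (h.zaZ _ _), by rw [e, Jf.tconj, e', h.t_za, mul_assoc]⟩

theorem Jf.comm_J (h : D.Jf a b p θ ε β) {u u' : G} (hu : u ∈ D.J a b p) (hu' : u' ∈ D.J a b p) :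
    u * u' * u⁻¹ * u'⁻¹ ∈ closure {D.z, a} := by
  obtain ⟨v, g, hg, rfl⟩ := h.mem_J.1 hu
  obtain ⟨v', g', hg', rfl⟩ := h.mem_J.1 hu'
  obtain ⟨c, hc, e⟩ := h.wJ_add v v'
  obtain ⟨c', hc', e'⟩ := h.wJ_add v' v
  have e1 : D.wJ b v * g * (D.wJ b v' * g') = c * (D.wJ b (v + v') * (g * g')) := by
    rw [← mul_assoc, mul_assoc _ g, ← h.cw v' hg, ← mul_assoc, e, h.cw _ (h.za_le hc)]; simp only [mul_assoc]
  have e2 : D.wJ b v' * g' * (D.wJ b v * g) = c' * (D.wJ b (v + v') * (g * g')) := by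
    rw [← mul_assoc, mul_assoc _ g', ← h.cw v hg', ← mul_assoc, e', h.cw _ (h.za_le hc'), add_comm v', h.cc hg hg']
    simp only [mul_assoc]
  rw [mul_assoc, ← mul_inv_rev, e1, e2, mul_inv_rev, mul_assoc, mul_inv_cancel_left]
  exact mul_mem hc (inv_mem hc')

theorem Jf.card_J (h : D.Jf a b p θ ε β) : Nat.card (D.J a b p) = 16 * Nat.card (D.Z0 a p) := by
  have : Function.Bijective fun v : V4 × D.Z0 a p =>
      (⟨_, mul_mem (Jf.w_mem v.1) (h.Z0_le v.2.2)⟩ : D.J a b p) := by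
    refine ⟨fun ⟨v, g, hg⟩ ⟨v', g', hg'⟩ e => ?_, fun ⟨u, hu⟩ => ?_⟩
    · have e := Subtype.ext_iff.1 e
      obtain rfl := h.wJ_inj hg hg' e
      obtain rfl : g = g' := mul_left_cancel e
      rfl
    · obtain ⟨v, g, hg, rfl⟩ := h.mem_J.1 hu
      exact ⟨(v, ⟨g, hg⟩), rfl⟩
  rw [← Nat.card_eq_of_bijective _ this]; simp

theorem Jf.two_J (h : D.Jf a b p θ ε β) : IsPGroup 2 (D.J a b p) := isPGroup_iff_mem.2 fun u hu => ⟨2, by
  obtain ⟨v, g, hg, rfl⟩ := h.mem_J.1 hu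
  obtain ⟨k, hk, e⟩ := h.wmul v v hg hg
  rw [vv, h.w0, one_mul] at e
  rw [show 2 ^ 2 = 2 * 2 from rfl, pow_mul, pow_two, pow_two, e, h.Z0_sq hk]⟩

theorem Jf.t_J (h : D.Jf a b p θ ε β) {u : G} (hu : u ∈ D.J a b p) : D.t * u * D.t ∈ D.J a b p := by
  obtain ⟨v, g, hg, rfl⟩ := h.mem_J.1 hu
  obtain ⟨c, hc, e⟩ := h.t_wJ v
  rw [Jf.tconj, e]
  exact mul_mem (mul_mem (Jf.w_mem _) (h.Z0_le (h.za_le hc))) (h.Z0_le (h.t_Z0 hg))

theorem Jf.x_J (h : D.Jf a b p θ ε β) {u : G} (hu : u ∈ D.J a b p) : D.x * u * D.x⁻¹ ∈ D.J a b p := by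
  obtain ⟨v, g, hg, rfl⟩ := h.mem_J.1 hu
  obtain ⟨c, hc, e⟩ := h.x_wJ v
  rw [← conj_mul, e]
  exact mul_mem (mul_mem (Jf.w_mem _) (h.Z0_le (h.za_le hc))) (h.Z0_le (h.x_Z0 hg))

end Fr

end CfsgLib.L33
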