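import Mathlib
import Cfsg.Agent.Lib.L33.I2

/-! Involution centralizers with a 2-component of type `L₃(3)` (plans/L33.md, package I3). -/

set_option autoImplicit false
set_option linter.unusedSectionVars false

namespace CfsgLib.L33

open Subgroup CfsgLib.Tech

variable {G : Type*} [Group G] [Finite G]

namespace Fr

variable {D : Fr G} {a b p θ : G} {ε β : ZMod 2}

/-- `u ∈ J` lies in the coset `v` of `Z₀` -/
def Co (D : Fr G) (a b p u : G) (v : V4) : Prop := ∃ g ∈ D.Z0 a p, u = D.wJ b v * g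

/-- `g` acts on `J / Z₀` as `M` -/
def AcJ (D : Fr G) (a b p g : G) (M : V4 → V4) : Prop :=
  ∀ u v, D.Co a b p u v → D.Co a b p (g * u * g⁻¹) (M v)

theorem i3_ti (D : Fr G) : D.t⁻¹ = D.t := inv_eq_of_mul_eq_one_right D.tt

theorem i3_tζ (D : Fr G) (ε : ZMod 2) : D.t * D.ζ ε = D.ζ ε * D.t :=
  (((Commute.refl D.t).pow_right _).mul_right (show Commute D.t D.x from D.c_tx)).eq

theorem i3_zζ (D : Fr G) (ε : ZMod 2) : D.ζ ε * D.z = D.z * D.ζ ε :=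
  (((show Commute D.z D.t from D.c_tz.symm).pow_right _).mul_right (show Commute D.z D.x from D.c_zx)).eq.symm

theorem i3_tpow (D : Fr G) (ε : ZMod 2) : D.t ^ ε.val * D.t ^ ε.val = 1 := by
  rw [← (Commute.refl D.t).mul_pow, D.tt, one_pow]

theorem i3_co_w (v : V4) : D.Co a b p (D.wJ b v) v := ⟨1, one_mem _, (mul_one _).symm⟩

theorem i3_ac_mul {g g' : G} {M M' : V4 → V4} (h1 : D.AcJ a b p g M) (h2 : D.AcJ a b p g' M') :
    D.AcJ a b p (g * g') (fun v => M (M' v)) := fun u v hu => by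
  have := h1 _ _ (h2 _ _ hu)
  rwa [show g * (g' * u * g'⁻¹) * g⁻¹ = g * g' * u * (g * g')⁻¹ by group] at this

theorem i3_idx {K Y : Subgroup G} {k : G} (h : ∀ g ∈ Y, g ∈ K ∨ k * g ∈ K) : Nat.card Y ≤ 2 * Nat.card ↥(Y ⊓ K) :=
  card_le_two_mul fun g hg g' hg' h1 h2 => by
    have := mul_mem (inv_mem ((h g hg).resolve_left h1)) ((h g' hg').resolve_left h2)
    rwa [show (k * g)⁻¹ * (k * g') = g⁻¹ * g' by group] at this

theorem i3_coset {K : Subgroup G} {k s : G} (h2 : k * k ∈ K) (hs : k * s ∈ K) : ∃ m ∈ K, s = k * m :=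
  ⟨(k * k)⁻¹ * (k * s), mul_mem (inv_mem h2) hs, by group⟩

namespace Jf

variable (h : D.Jf a b p θ ε β)
include h

theorem co_J {u : G} : u ∈ D.J a b p ↔ ∃ v, D.Co a b p u v := h.mem_J

theorem co_mem {u : G} {v : V4} (hu : D.Co a b p u v) : u ∈ D.J a b p := h.co_J.2 ⟨v, hu⟩

theorem co_mul {u u' : G} {v v' : V4} (h1 : D.Co a b p u v) (h2 : D.Co a b p u' v') :
    D.Co a b p (u * u') (v + v') := by
  obtain ⟨g, hg, rfl⟩ := h1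
  obtain ⟨g', hg', rfl⟩ := h2
  exact h.wmul v v' hg hg'

theorem co_inj {u : G} {v v' : V4} (h1 : D.Co a b p u v) (h2 : D.Co a b p u v') : v = v' := by
  obtain ⟨g, hg, e⟩ := h1
  obtain ⟨g', hg', e'⟩ := h2
  exact h.wJ_inj hg hg' (e.symm.trans e')

theorem co_zero {u : G} : D.Co a b p u 0 ↔ u ∈ D.Z0 a p :=
  ⟨fun ⟨g, hg, e⟩ => by rw [e, h.w0, one_mul]; exact hg, fun hu => ⟨u, hu, by rw [h.w0, one_mul]⟩⟩

theorem co_inv {u : G} {v : V4} (h1 : D.Co a b p u v) : D.Co a b p u⁻¹ v := by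
  obtain ⟨v', h2⟩ := h.co_J.1 (inv_mem (h.co_mem h1))
  have h3 := h.co_mul h1 h2
  rw [mul_inv_cancel] at h3
  rwa [I2.vv' _ _ (h.co_inj h3 (h.co_zero.2 (one_mem _)))]

theorem co_sq {u : G} {v : V4} (h1 : D.Co a b p u v) : u * u = D.za a (qJ ε β v).1 (qJ ε β v).2 := by
  obtain ⟨g, hg, rfl⟩ := h1
  rw [mul_assoc, ← mul_assoc g, ← h.cw v hg, mul_assoc, h.Z0_sq hg, mul_one, h.wJ_sq]; rfl

theorem co_q {u : G} {v : V4} (h1 : D.Co a b p u v) (h2 : u * u = 1) : qJ ε β v = 0 := by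
  have := h.za_one ((h.co_sq h1).symm.trans h2)
  exact Prod.ext this.1 this.2

theorem ac_J {j : G} (hj : j ∈ D.J a b p) : D.AcJ a b p j id := fun u v hu => by
  obtain ⟨w, hw⟩ := h.co_J.1 hj
  have := h.co_mul (h.co_mul hw hu) (h.co_inv hw)
  rwa [add_comm w, add_assoc, I2.vv, add_zero] at this

theorem ac_of {g : G} {M : V4 → V4} (h0 : ∀ c ∈ D.Z0 a p, g * c * g⁻¹ ∈ D.Z0 a p)
    (h1 : ∀ v, D.Co a b p (g * D.wJ b v * g⁻¹) (M v)) : D.AcJ a b p g M := by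
  rintro _ v ⟨c, hc, rfl⟩
  have := h.co_mul (h1 v) (h.co_zero.2 (h0 c hc))
  rwa [conj_mul, add_zero] at this

theorem ac_t : D.AcJ a b p D.t tJ :=
  h.ac_of (fun c hc => by rw [D.i3_ti]; exact h.t_Z0 hc) fun v => by
    obtain ⟨c, hc, e⟩ := h.t_wJ v
    rw [D.i3_ti]; exact ⟨c, h.za_le hc, e⟩

theorem ac_ζ : D.AcJ a b p (D.ζ ε) (ζJ ε) :=
  h.ac_of (fun c hc => by
    rw [Jf.ζ_conj]; split_ifs
    exacts [h.x_Z0 hc, h.t_Z0 (h.x_Z0 hc)]) fun v => by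
    obtain ⟨c, hc, e⟩ := h.ζ_wJ v
    exact ⟨c, h.za_le hc, e⟩

theorem ac_uniq {g : G} {M M' : V4 → V4} (h1 : D.AcJ a b p g M) (h2 : D.AcJ a b p g M') (v : V4) : M v = M' v :=
  h.co_inj (h1 _ _ (i3_co_w v)) (h2 _ _ (i3_co_w v))

theorem ac_mem {g : G} {M : V4 → V4} (h1 : D.AcJ a b p g M) {u : G} (hu : u ∈ D.J a b p) :
    g * u * g⁻¹ ∈ D.J a b p := by
  obtain ⟨v, hv⟩ := h.co_J.1 hu
  exact h.co_mem (h1 _ _ hv)

theorem ζζ : D.ζ ε * D.ζ ε = D.wJ b (1, 0, 1, 0) := by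
  have c : Commute D.x (D.t ^ ε.val) := (show Commute D.x D.t from D.c_tx.symm).pow_right _
  rw [ζ, c.mul_mul_mul_comm, D.i3_tpow, one_mul, D.xx, ← D.ef]
  simp [wJ, ZMod.val_one]

theorem ζζJ : D.ζ ε * D.ζ ε ∈ D.J a b p := h.ζζ ▸ Jf.w_mem _

theorem tζtζ : D.t * D.ζ ε * (D.t * D.ζ ε) ∈ D.J a b p := by
  rw [(show Commute (D.ζ ε) D.t from (D.i3_tζ ε).symm).mul_mul_mul_comm, D.tt, one_mul]; exact h.ζζJ

theorem ac_tc {s : G} (hs : D.t * s ∈ D.J a b p) : D.AcJ a b p s tJ := by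
  obtain ⟨m, hm, rfl⟩ := i3_coset (D.tt ▸ one_mem _) hs
  exact i3_ac_mul h.ac_t (h.ac_J hm)

theorem ac_ζc {s : G} (hs : D.ζ ε * s ∈ D.J a b p) : D.AcJ a b p s (ζJ ε) := by
  obtain ⟨m, hm, rfl⟩ := i3_coset h.ζζJ hs
  exact i3_ac_mul h.ac_ζ (h.ac_J hm)

theorem ac_tζc {s : G} (hs : D.t * D.ζ ε * s ∈ D.J a b p) : D.AcJ a b p s fun v => tJ (ζJ ε v) := by
  obtain ⟨m, hm, rfl⟩ := i3_coset h.tζtζ hs
  have := i3_ac_mul (i3_ac_mul h.ac_t h.ac_ζ) (h.ac_J hm)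
  exact this

theorem ta_ne : D.t * a ≠ a * D.t := fun e => by
  have := h.tat
  rw [e, mul_assoc, D.tt, mul_one, left_eq_mul] at this
  exact D.z1 this

theorem Ja {u : G} (hu : u ∈ D.J a b p) : u * a = a * u := h.Z0_cent h.aZ hu

theorem tc_a {s : G} (hs : D.t * s ∈ D.J a b p) : s * a ≠ a * s := fun e => by
  obtain ⟨m, hm, rfl⟩ := i3_coset (D.tt ▸ one_mem _) hs
  rw [mul_assoc, h.Ja hm, ← mul_assoc, ← mul_assoc, mul_left_inj] at e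
  exact h.ta_ne e

theorem ζc_a {s : G} (hs : D.ζ ε * s ∈ D.J a b p) : s * a = a * s := by
  obtain ⟨m, hm, rfl⟩ := i3_coset h.ζζJ hs
  rw [mul_assoc, h.Ja hm, ← mul_assoc, h.ζa, mul_assoc]

theorem tζc_a {s : G} (hs : D.t * D.ζ ε * s ∈ D.J a b p) : s * a ≠ a * s := fun e => by
  obtain ⟨m, hm, rfl⟩ := i3_coset h.tζtζ hs
  rw [mul_assoc, h.Ja hm, ← mul_assoc, ← mul_assoc, mul_left_inj, mul_assoc, h.ζa, ← mul_assoc, ← mul_assoc,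
    mul_left_inj] at e
  exact h.ta_ne e

theorem card_Z0' : 4 ≤ Nat.card (D.Z0 a p) ∧ Nat.card (D.Z0 a p) ≤ 16 ∧ Nat.card D.A ≤ 2 * Nat.card (D.Z0 a p) ∧
    (D.τ ≠ 1 → 8 ≤ Nat.card (D.Z0 a p)) := by
  have h1 := h.card_Z0
  have h2 := D.card_A
  refine ⟨by omega, by omega, by omega, fun hτ => ?_⟩
  rcases h2 with ⟨e, -⟩ | ⟨-, e⟩
  · exact (hτ e).elim
  · omega

end Jf

/-- principle Q in case I -/
theorem Jf.qq (h : D.Jf a b p θ ε β) {s : G} (hs : IsConj D.t s) {F Y : Subgroup G}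
    (hF : ∀ v ∈ F, v * v = 1) (h4 : 4 ≤ Nat.card F) (sF : s ∉ F) (hY : IsPGroup 2 Y) (FY : F ≤ Y) (sY : s ∈ Y)
    (cF : ∀ g ∈ Y, ∀ v ∈ F, g * v = v * g) (cs : ∀ g ∈ Y, g * s * g⁻¹ * s⁻¹ ∈ F) :
    Nat.card Y ≤ 8 * Nat.card (D.Z0 a p) := by
  obtain ⟨h1, h2⟩ := h.th.toTh0.qq hs hF h4 sF hY FY sY cF cs
  rcases h.card_Z0 with ⟨hm, e⟩ | e
  · have := h2 hm; omega
  · omega

theorem Jf.not_conj_J (h : D.Jf a b p θ ε β) {u : G} (hu : u ∈ D.J a b p) : ¬ IsConj D.t u := fun hs => by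
  have h1 := h.card_J
  have h2 := h.card_Z0'
  by_cases hZ : u ∈ D.Z0 a p
  · have := D.card_le_S hs h.two_J fun v hv => h.Z0_cent hZ hv
    omega
  · have := h.qq hs (fun v hv => h.Z0_sq hv) h2.1 hZ h.two_J h.Z0_le hu (fun g hg v hv => h.Z0_cent hv hg)
      fun g hg => h.za_le (h.comm_J hg hu)
    omega

theorem Jf.t_not_J (h : D.Jf a b p θ ε β) : D.t ∉ D.J a b p := fun ht => h.not_conj_J ht (IsConj.refl _)

theorem Jf.ζ_not_J (h : D.Jf a b p θ ε β) : D.ζ ε ∉ D.J a b p ∧ D.t * D.ζ ε ∉ D.J a b p := by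
  have k : ∀ ε : ZMod 2, ζJ ε (1, 0, 0, 0) ≠ (1, 0, 0, 0) ∧ tJ (ζJ ε (1, 0, 0, 0)) ≠ (1, 0, 0, 0) := by decide
  exact ⟨fun e => (k ε).1 (h.ac_uniq h.ac_ζ (h.ac_J e) _),
    fun e => (k ε).2 (h.ac_uniq (i3_ac_mul h.ac_t h.ac_ζ) (h.ac_J e) _)⟩

theorem Jf.ζ_sq (h : D.Jf a b p θ ε β) : D.ζ ε * D.ζ ε = D.wJ b (1, 0, 1, 0) := h.ζζ

theorem Jf.mem_K1 (h : D.Jf a b p θ ε β) {g : G} :
    g ∈ D.J a b p ⊔ zpowers D.t ↔ g ∈ D.J a b p ∨ D.t * g ∈ D.J a b p :=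
  mem_sup_two (fun _ hk => h.ac_mem h.ac_t hk) (D.tt ▸ one_mem _)

theorem Jf.ζ_K1 (h : D.Jf a b p θ ε β) : ∀ k ∈ D.J a b p ⊔ zpowers D.t,
    D.ζ ε * k * (D.ζ ε)⁻¹ ∈ D.J a b p ⊔ zpowers D.t := fun k hk => by
  rw [h.mem_K1] at hk ⊢
  refine hk.imp (h.ac_mem h.ac_ζ) fun hk => ?_
  have := h.ac_mem h.ac_ζ hk
  rwa [← mul_assoc, ← D.i3_tζ, mul_assoc D.t, mul_assoc D.t] at this

theorem Jf.P2_eq (h : D.Jf a b p θ ε β) : D.P2 a b p = D.J a b p ⊔ zpowers D.t ⊔ zpowers (D.ζ ε) := by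
  have m : ∀ {g}, g ∈ ({D.τ, a, p, D.e, b, D.t, D.x} : Set G) → g ∈ D.P2 a b p := fun hg => subset_closure hg
  have hx := m (g := D.x) (by simp)
  have ht := m (g := D.t) (by simp)
  refine le_antisymm ((closure_le _).2 ?_) (sup_le (sup_le ((closure_le _).2 ?_) (zpowers_le.2 ht))
    (zpowers_le.2 (mul_mem (pow_mem ht _) hx)))
  · have t1 : D.t ∈ D.J a b p ⊔ zpowers D.t ⊔ zpowers (D.ζ ε) := mem_sup_left (mem_sup_right (mem_zpowers _))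
    rintro _ (rfl | rfl | rfl | rfl | rfl | rfl | rfl)
    iterate 5 exact mem_sup_left (mem_sup_left (subset_closure (by simp)))
    · exact t1
    · have := mul_mem (pow_mem t1 ε.val) (mem_sup_right (mem_zpowers (D.ζ ε)))
      rwa [ζ, ← mul_assoc, D.i3_tpow, one_mul] at this
  · rintro _ (rfl | rfl | rfl | rfl | rfl | rfl | rfl | rfl)
    exacts [m (by simp), pow_mem hx 4, m (by simp), m (by simp), m (by simp), m (by simp),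
      mul_mem (m (by simp)) (pow_mem hx 2), mul_mem (mul_mem hx (m (by simp))) (inv_mem hx)]

theorem Jf.mem_P2' (h : D.Jf a b p θ ε β) {g : G} :
    g ∈ D.P2 a b p ↔ g ∈ D.J a b p ⊔ zpowers D.t ∨ D.ζ ε * g ∈ D.J a b p ⊔ zpowers D.t := by
  rw [h.P2_eq, mem_sup_two h.ζ_K1 (mem_sup_left h.ζζJ)]

theorem Jf.mem_P2 (h : D.Jf a b p θ ε β) {g : G} : g ∈ D.P2 a b p ↔ g ∈ D.J a b p ∨ D.t * g ∈ D.J a b p ∨
    D.ζ ε * g ∈ D.J a b p ∨ D.t * D.ζ ε * g ∈ D.J a b p := by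
  rw [h.mem_P2', h.mem_K1, h.mem_K1, or_assoc, mul_assoc]

theorem Jf.S_le (h : D.Jf a b p θ ε β) : D.S ≤ D.P2 a b p := closure_mono (by intro; simp; tauto)
theorem Jf.J_le (h : D.Jf a b p θ ε β) : D.J a b p ≤ D.P2 a b p := fun _ hg => h.mem_P2.2 (Or.inl hg)
theorem Jf.P2_norm (h : D.Jf a b p θ ε β) : D.P2 a b p ≤ normalizer (D.J a b p : Set G) := fun g hg =>
  mem_normalizer_of_forall fun _ hu => by
    rcases h.mem_P2.1 hg with e | e | e | e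
    exacts [h.ac_mem (h.ac_J e) hu, h.ac_mem (h.ac_tc e) hu, h.ac_mem (h.ac_ζc e) hu, h.ac_mem (h.ac_tζc e) hu]
theorem Jf.two_P2 (h : D.Jf a b p θ ε β) : IsPGroup 2 (D.P2 a b p) := by
  rw [h.P2_eq]
  exact two_sup_two (two_sup_two h.two_J (fun _ hk => h.ac_mem h.ac_t hk) (D.tt ▸ one_mem _)) h.ζ_K1
    (mem_sup_left h.ζζJ)
theorem Jf.card_P2 (h : D.Jf a b p θ ε β) : Nat.card (D.P2 a b p) = 64 * Nat.card (D.Z0 a p) := by
  rw [h.P2_eq, card_sup_two h.ζ_K1 (mem_sup_left h.ζζJ) fun e => (h.mem_K1.1 e).elim h.ζ_not_J.1 h.ζ_not_J.2,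
    card_sup_two (fun _ hk => h.ac_mem h.ac_t hk) (D.tt ▸ one_mem _) h.t_not_J, h.card_J]
  ring

theorem Jf.t_P2 (h : D.Jf a b p θ ε β) : D.t ∈ D.P2 a b p := h.S_le (subset_closure (by simp))

theorem Jf.inv_t0 (h : D.Jf a b p θ ε β) {c : G} (hc : c ∈ D.Z1) :
    ∃ j ∈ D.Z0 a p, j * D.t * j⁻¹ = D.t * c ∨ (D.Sm ∧ D.τ ≠ 1 ∧ j * (D.t * D.τ) * j⁻¹ = D.t * c) := by
  have aτ : a * D.τ * a⁻¹ = D.τ := by rw [h.aτ, mul_inv_cancel_right]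
  have pz : p * D.z * p⁻¹ = D.z := by rw [h.pz, mul_inv_cancel_right]
  rcases D.mem_Z1.1 hc with rfl | rfl | rfl | rfl
  · exact ⟨1, one_mem _, Or.inl (by group)⟩
  · exact ⟨a, h.aZ, Or.inl h.at'⟩
  · by_cases hτ : D.τ = 1
    · exact ⟨1, one_mem _, Or.inl (by rw [hτ]; group)⟩
    rcases h.hp with ⟨-, hm⟩ | ⟨-, e, -⟩
    · exact ⟨1, one_mem _, Or.inr ⟨hm, hτ, by group⟩⟩
    · exact ⟨p, h.pZ, Or.inl e⟩
  · by_cases hτ : D.τ = 1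
    · exact ⟨a, h.aZ, Or.inl (by rw [hτ, one_mul, h.at'])⟩
    rcases h.hp with ⟨-, hm⟩ | ⟨-, e, -⟩
    · exact ⟨a, h.aZ, Or.inr ⟨hm, hτ, by rw [← conj_mul, aτ, h.at', mul_assoc, D.c_τz]⟩⟩
    · refine ⟨p * a, mul_mem h.pZ h.aZ, Or.inl ?_⟩
      rw [show p * a * D.t * (p * a)⁻¹ = p * (a * D.t * a⁻¹) * p⁻¹ by group, h.at', ← conj_mul, e, pz, mul_assoc]

/-- the involutions of `t J` -/
theorem Jf.inv_tJ (h : D.Jf a b p θ ε β) {u : G} (hu : u ∈ D.J a b p) (h2 : D.t * u * (D.t * u) = 1) :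
    ∃ j ∈ D.J a b p, j * D.t * j⁻¹ = D.t * u ∨
      (D.Sm ∧ D.τ ≠ 1 ∧ j * (D.t * D.τ) * j⁻¹ = D.t * u) := by
  obtain ⟨v, hv⟩ := h.co_J.1 hu
  have h3 := h.co_mul (h.ac_t _ _ hv) hv
  rw [D.i3_ti, mul_assoc, h2] at h3
  have k : ∀ v : V4, tJ v + v = 0 → ∃ w, v = tJ w + w := by decide
  obtain ⟨w, rfl⟩ := k v (h.co_inj h3 (h.co_zero.2 (one_mem _)))
  have hw : D.Co a b p (D.wJ b w) w := i3_co_w w
  generalize D.wJ b w = j at hw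
  have h4 := h.co_mul (h.co_inv (h.co_mul (h.ac_t _ _ hw) (h.co_inv hw))) hv
  rw [I2.vv, h.co_zero] at h4
  generalize hc : (D.t * j * D.t⁻¹ * j⁻¹)⁻¹ * u = c at h4
  have hj := h.co_mem hw
  have h5 : D.t * u = j * (D.t * c) * j⁻¹ := by
    rw [mul_assoc j, mul_assoc D.t, ← h.Z0_cent h4 (inv_mem hj), ← hc]
    calc D.t * u = (D.t * D.t) * j * D.t⁻¹ * j⁻¹ * ((D.t * j * D.t⁻¹ * j⁻¹)⁻¹ * u) := by group
      _ = _ := by rw [D.tt, D.i3_ti]; group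
  have h6 : c * D.t = D.t * c := by
    rw [h5, conj_mul, conj_eq_one_iff, mul_assoc, ← eq_inv_mul_iff_mul_eq, mul_one, D.i3_ti, ← mul_assoc,
      ← eq_mul_inv_iff_mul_eq, inv_eq_of_mul_eq_one_right (h.Z0_sq h4)] at h2
    exact h2
  obtain ⟨k, hk, e⟩ := h.inv_t0 (h.cent_t h4 h6)
  refine ⟨j * k, mul_mem hj (h.Z0_le hk), e.imp (fun e => ?_) fun e => ⟨e.1, e.2.1, ?_⟩⟩
  · rw [h5, ← e]; group
  · rw [h5, ← e.2.2]; group

theorem Jf.conj_tJ (h : D.Jf a b p θ ε β) {u : G} (hu : u ∈ D.J a b p) (hs : IsConj D.t (D.t * u)) :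
    ∃ j ∈ D.J a b p, j * D.t * j⁻¹ = D.t * u := by
  obtain ⟨j, hj, e | ⟨hm, hτ, e⟩⟩ := h.inv_tJ hu (D.conj_sq hs)
  · exact ⟨j, hj, e⟩
  · exact (hm.2 hτ (hs.trans (isConj_iff.2 ⟨j, e⟩).symm)).elim

/-- two involutions of `ζ J` are conjugate under `J` modulo `Z₀` -/
theorem Jf.inv_ζJ (h : D.Jf a b p θ ε β) {s s' : G} (hs : D.ζ ε * s ∈ D.J a b p) (hs' : D.ζ ε * s' ∈ D.J a b p)
    (h2 : s * s ∈ D.Z0 a p) (h2' : s' * s' ∈ D.Z0 a p) : ∃ j ∈ D.J a b p, j * s * j⁻¹ * s'⁻¹ ∈ D.Z0 a p := by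
  have h3 := mul_mem (inv_mem hs) hs'
  rw [show (D.ζ ε * s)⁻¹ * (D.ζ ε * s') = s⁻¹ * s' by group] at h3
  obtain ⟨v, hv⟩ := h.co_J.1 h3
  have ac := h.ac_ζc hs
  have h4 := h.co_mul (h.co_mul (ac _ _ hv) (h.co_zero.2 h2)) hv
  rw [show s * (s⁻¹ * s') * s⁻¹ * (s * s) * (s⁻¹ * s') = s' * s' by group] at h4
  have k : ∀ (ε : ZMod 2) (v : V4), ζJ ε v + 0 + v = 0 → ∃ w, w + ζJ ε w + ζJ ε v = 0 := by decide
  obtain ⟨w, e⟩ := k ε v (h.co_inj h4 (h.co_zero.2 h2'))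
  have hw : D.Co a b p (D.wJ b w) w := i3_co_w w
  have h5 := h.co_mul (h.co_mul hw (ac _ _ (h.co_inv hw))) (ac _ _ (h.co_inv hv))
  rw [e, h.co_zero] at h5
  exact ⟨_, h.co_mem hw, by convert h5 using 1; group⟩

theorem Jf.no_inv_ζJ (h : D.Jf a b p θ ε β) (hτ : D.τ = 1) {s : G} (hs : D.ζ ε * s ∈ D.J a b p) : s * s ≠ 1 := by
  intro h1
  have hp : p = 1 := (h.hp.resolve_right fun e => e.1 hτ).1
  have he : D.e ∈ D.J a b p := subset_closure (by simp)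
  have h2 : D.ζ ε * D.e * (D.ζ ε * D.e) = D.z := by
    have c : Commute D.i (D.t ^ ε.val) := (show Commute D.i D.t from D.c_ti.symm).pow_right _
    rw [ζ, mul_assoc _ D.x]
    change D.t ^ ε.val * D.i * (D.t ^ ε.val * D.i) = _
    rw [c.mul_mul_mul_comm, D.i3_tpow, one_mul, D.ii]
  obtain ⟨j, -, hc⟩ := h.inv_ζJ hs (s' := D.ζ ε * D.e) (by rw [← mul_assoc]; exact mul_mem h.ζζJ he)
    (h1 ▸ one_mem _) (h2 ▸ h.zZ)
  generalize hg : j * s * j⁻¹ * (D.ζ ε * D.e)⁻¹ = c at hc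
  have h3 : Commute (D.ζ ε * D.e) c := (show Commute (D.ζ ε) c from
    Jf.cz (by rw [hτ, mul_one, one_mul]) (D.i3_zζ ε) h.ζa (by rw [hp, mul_one, one_mul]) hc).mul_left (h.ce hc)
  have h4 := h3.mul_mul_mul_comm c (D.ζ ε * D.e)
  rw [h.Z0_sq hc, h2, one_mul, ← hg, inv_mul_cancel_right, conj_mul, h1, mul_one, mul_inv_cancel] at h4
  exact D.z1 h4.symm

/-! subgroups of `J` containing `Z₀` and the subgroups used with principle Q -/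

/-- the preimage in `J` of a subspace of `J / Z₀` -/
def Jf.Sub (h : D.Jf a b p θ ε β) (W : V4 → Prop) (h0 : W 0) (hW : ∀ v v', W v → W v' → W (v + v')) : Subgroup G where
  carrier := {u | ∃ v, W v ∧ D.Co a b p u v}
  one_mem' := ⟨0, h0, h.co_zero.2 (one_mem _)⟩
  mul_mem' := fun ⟨v, h1, h2⟩ ⟨v', h1', h2'⟩ => ⟨_, hW v v' h1 h1', h.co_mul h2 h2'⟩
  inv_mem' := fun ⟨v, h1, h2⟩ => ⟨v, h1, h.co_inv h2⟩

theorem Jf.card_ge (h : D.Jf a b p θ ε β) {Y : Subgroup G} (W : Finset V4)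
    (hY : ∀ v ∈ W, ∀ u, D.Co a b p u v → u ∈ Y) : W.card * Nat.card (D.Z0 a p) ≤ Nat.card Y := by
  have := Nat.card_le_card_of_injective (fun v : W × D.Z0 a p =>
    (⟨D.wJ b v.1 * v.2, hY _ v.1.2 _ ⟨_, v.2.2, rfl⟩⟩ : Y)) fun ⟨⟨v, hv⟩, g, hg⟩ ⟨⟨v', hv'⟩, g', hg'⟩ e => by
      have e := Subtype.ext_iff.1 e
      obtain rfl := h.wJ_inj hg hg' e
      obtain rfl : g = g' := mul_left_cancel e
      rfl
  simpa using this

/-- the elements of `P` centralizing `F` and `s` modulo `F` -/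
def Ysub (P F : Subgroup G) (s : G) : Subgroup G where
  carrier := {u | u ∈ P ∧ (∀ v ∈ F, u * v = v * u) ∧ u * s * u⁻¹ * s⁻¹ ∈ F}
  one_mem' := ⟨one_mem _, by simp, by simp⟩
  mul_mem' := by
    rintro u u' ⟨h1, h2, h3⟩ ⟨h1', h2', h3'⟩
    refine ⟨mul_mem h1 h1', fun v hv => by rw [mul_assoc, h2' v hv, ← mul_assoc, h2 v hv, mul_assoc], ?_⟩
    have := mul_mem h3' h3
    rwa [← mul_assoc, ← mul_assoc, ← mul_assoc, ← h2 _ h3', show u * (u' * s * u'⁻¹ * s⁻¹) * s * u⁻¹ * s⁻¹ =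
      u * u' * s * (u * u')⁻¹ * s⁻¹ by group] at this
  inv_mem' := by
    rintro u ⟨h1, h2, h3⟩
    refine ⟨inv_mem h1, fun v hv => ((show Commute u v from h2 v hv).inv_left).eq, ?_⟩
    have h4 := inv_mem h3
    rwa [show u⁻¹ * s * u⁻¹⁻¹ * s⁻¹ = u⁻¹ * ((u * s * u⁻¹ * s⁻¹)⁻¹ * u) by group, ← h2 _ h4, inv_mul_cancel_left]

theorem Jf.mem_Y (h : D.Jf a b p θ ε β) {P : Subgroup G} {s u : G} (hs : s * s = 1) (hu : u ∈ P)
    (h1 : ∀ v ∈ D.Z0 a p, v * s = s * v → u * v = v * u) (h2 : u * s * u⁻¹ * s⁻¹ ∈ D.Z0 a p) :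
    u ∈ Ysub P (D.Z0 a p ⊓ centralizer {s}) s := by
  refine ⟨hu, fun v hv => h1 v hv.1 (mem_centralizer_singleton_iff.1 hv.2), h2, mem_centralizer_singleton_iff.2 ?_⟩
  generalize hc : u * s * u⁻¹ * s⁻¹ = c at h2
  have h3 : c * s * (c * s) = 1 := by rw [← hc, inv_mul_cancel_right, conj_mul, hs, mul_one, mul_inv_cancel]
  rw [eq_inv_of_mul_eq_one_left h3, mul_inv_rev, inv_eq_of_mul_eq_one_right hs,
    inv_eq_of_mul_eq_one_right (h.Z0_sq h2)]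

theorem Jf.big (h : D.Jf a b p θ ε β) {P : Subgroup G} (hP : IsPGroup 2 P) (hJ : D.J a b p ≤ P) {s : G} (sP : s ∈ P)
    (hs : IsConj D.t s) (sz : s * D.z = D.z * s) (sa : s * a = a * s) {M : V4 → V4} (hM : D.AcJ a b p s M) :
    Nat.card (Ysub P (D.Z0 a p ⊓ centralizer {s}) s) ≤ 8 * Nat.card (D.Z0 a p) ∧
      s ∈ Ysub P (D.Z0 a p ⊓ centralizer {s}) s ∧ (Finset.univ.filter fun v => M v = v).card * Nat.card (D.Z0 a p) ≤
        Nat.card ↥(Ysub P (D.Z0 a p ⊓ centralizer {s}) s ⊓ D.J a b p) := by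
  have ss := D.conj_sq hs
  have h1 : ∀ u v, M v = v → D.Co a b p u v → u ∈ Ysub P (D.Z0 a p ⊓ centralizer {s}) s := fun u v hv hu => by
    refine h.mem_Y ss (hJ (h.co_mem hu)) (fun c hc _ => h.Z0_cent hc (h.co_mem hu)) ?_
    have := h.co_mul hu (hM _ _ (h.co_inv hu))
    rwa [hv, I2.vv, h.co_zero, ← mul_assoc, ← mul_assoc] at this
  have h0 : M 0 = 0 := by
    have := hM _ _ (h.co_zero.2 (one_mem _))
    rw [mul_one, mul_inv_cancel] at this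
    exact h.co_inj this (h.co_zero.2 (one_mem _))
  have h2 : s ∈ Ysub P (D.Z0 a p ⊓ centralizer {s}) s := h.mem_Y ss sP (fun _ _ e => e.symm) (by simp)
  refine ⟨h.qq (F := D.Z0 a p ⊓ centralizer {s}) hs (fun v hv => h.Z0_sq hv.1) ?_ (fun e => h.not_conj_J (h.Z0_le e.1) hs)
    (hP.to_le fun _ e => e.1) (fun c hc => h1 c 0 h0 (h.co_zero.2 hc.1)) h2 (fun g hg => hg.2.1) fun g hg => hg.2.2,
    h2, h.card_ge _ fun v hv u hu => ⟨h1 u v (by simpa using hv) hu, h.co_mem hu⟩⟩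
  rw [← h.card_za]
  refine card_le_of_le (le_inf h.za_le ((closure_le _).2 ?_))
  rintro _ (rfl | rfl) <;> exact mem_centralizer_singleton_iff.2 (by symm; assumption)

end Fr

end CfsgLib.L33
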