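import Mathlib
import Cfsg.Agent.Lib.L33.I3

/-! Involution centralizers with a 2-component of type `L₃(3)` (plans/L33.md, package I4). -/

set_option autoImplicit false
set_option linter.unusedSectionVars false

namespace CfsgLib.L33

open Subgroup CfsgLib.Tech

variable {G : Type*} [Group G] [Finite G]

namespace Fr

variable {D : Fr G} {a b p θ : G} {ε β : ZMod 2}

set_option synthInstance.maxSize 2000 in
set_option synthInstance.maxHeartbeats 200000 in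
theorem i4_fix : ∀ (ε β : ZMod 2) (v v' : V4), (ζJ ε v = v ∧ ζJ ε v' = v' ∨ tJ (ζJ ε v) = v ∧ tJ (ζJ ε v') = v') →
    qJ ε β v = 0 → qJ ε β v' = 0 → qJ ε β (v + v') = 0 → v ≠ 0 → v' ≠ 0 → v + v' = 0 := by decide +kernel

theorem i4_nd : ∀ (ε β : ZMod 2) (v : V4), (∀ v', qJ ε β (v + v') = qJ ε β v + qJ ε β v') → v = 0 := by
  decide +kernel

theorem i4_q : ∀ ε β : ZMod 2, (∀ v : V4, v.2.2.1 = 0 ∧ v.2.2.2 = 0 → qJ ε β v = 0) ∧
    ∀ v : V4, v.1 = 0 ∧ v.2.1 = 0 → qJ ε β v = 0 := by decide +kernel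

theorem i4_comm {U : Subgroup G} (h2 : ∀ u ∈ U, u * u = 1) {u w : G} (hu : u ∈ U) (hw : w ∈ U) : u * w = w * u := by
  rw [← inv_eq_of_mul_eq_one_right (h2 _ (mul_mem hu hw)), mul_inv_rev, inv_eq_of_mul_eq_one_right (h2 _ hu),
    inv_eq_of_mul_eq_one_right (h2 _ hw)]

theorem Jf.ζτ (hτ : D.τ ≠ 1) : D.ζ ε * D.τ ≠ D.τ * D.ζ ε := fun e => by
  have h1 := Jf.ζ_conj (D := D) (ε := ε) D.τ
  rw [e, mul_inv_cancel_right, D.xτ hτ, Jf.Z1t (D.mem_Z1.2 (by simp)), ite_self, left_eq_mul] at h1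
  exact D.z1 h1

theorem Jf.K1τ (h : D.Jf a b p θ ε β) {g : G} (hg : g ∈ D.J a b p ⊔ zpowers D.t) : g * D.τ = D.τ * g := by
  have : D.J a b p ⊔ zpowers D.t ≤ centralizer {D.τ} :=
    sup_le (fun u hu => mem_centralizer_singleton_iff.2 (h.Z0_cent h.τZ hu))
      (zpowers_le.2 (mem_centralizer_singleton_iff.2 D.c_tτ))
  exact mem_centralizer_singleton_iff.1 (this hg)

theorem Jf.mem_K1_of (h : D.Jf a b p θ ε β) (hτ : D.τ ≠ 1) {g : G} (hg : g ∈ D.P2 a b p) (e : g * D.τ = D.τ * g) :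
    g ∈ D.J a b p ⊔ zpowers D.t := (h.mem_P2'.1 hg).resolve_right fun h1 => Jf.ζτ (ε := ε) hτ <| by
  have := h.K1τ h1
  rwa [mul_assoc, e, ← mul_assoc, ← mul_assoc, mul_left_inj] at this

theorem Jf.i4_a (h : D.Jf a b p θ ε β) {U : Subgroup G} (hU : U ≤ D.P2 a b p) (h2 : ∀ u ∈ U, u * u = 1)
    (hc : 4 * Nat.card (D.Z0 a p) ≤ Nat.card U) (hn : ∀ u ∈ U, ¬ IsConj D.t u) {u : G} (hu : u ∈ U) :
    D.t * u ∉ D.J a b p := fun hJ => by
  have tu : D.t * (D.t * u) = u := by rw [← mul_assoc, D.tt, one_mul]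
  obtain ⟨j, hj, e | ⟨-, hτ, e⟩⟩ := h.inv_tJ hJ (by rw [tu]; exact h2 u hu) <;> rw [tu] at e
  · exact hn u hu (isConj_iff.2 ⟨j, e⟩)
  have c1 := i3_idx (Y := U) (k := D.ζ ε) fun g hg => h.mem_P2'.1 (hU hg)
  have c2 := i3_idx (Y := U ⊓ (D.J a b p ⊔ zpowers D.t)) (k := D.t) fun g hg => h.mem_K1.1 hg.2
  rw [inf_assoc, inf_eq_right.2 (le_sup_left : D.J a b p ≤ _)] at c2
  have c3 := h.card_Z0'.2.2.2 hτ
  have c4 := (D.card_A.resolve_left fun e => hτ e.1).2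
  set X := cj j⁻¹ (U ⊓ D.J a b p) with hX
  have mX : ∀ {w}, w ∈ X ↔ j * w * j⁻¹ ∈ U ⊓ D.J a b p := by intro w; rw [hX, mem_cj, inv_inv]
  have XJ : X ≤ D.J a b p := fun w hw => by
    have := mul_mem (mul_mem (inv_mem hj) (mX.1 hw).2) hj
    rwa [show j⁻¹ * (j * w * j⁻¹) * j = w by group] at this
  have Xt : ∀ w ∈ X, D.t * w = w * D.t := fun w hw => by
    have := i4_comm h2 hu (mX.1 hw).1
    rw [← e, conj_mul, conj_mul, mul_left_inj, mul_right_inj, mul_assoc, ← h.Z0_cent h.τZ (XJ hw), ← mul_assoc,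
      ← mul_assoc, mul_left_inj] at this
    exact this
  have X2 : ∀ w ∈ X, w * w = 1 := syl_elab_cj _ fun v hv => h2 v hv.1
  have nX : ∀ k ∈ X, D.t * k * D.t⁻¹ ∈ X := fun k hk => by rwa [Xt k hk, mul_inv_cancel_right]
  have c5 := card_sup_two nX (D.tt ▸ one_mem _) fun e => h.t_not_J (XJ e)
  have XS : X ⊔ zpowers D.t ≤ D.S := sup_le (fun w hw => D.mem_S_of h.two_P2 h.S_le (h.J_le (XJ hw)) (Xt w hw).symm)
    (zpowers_le.2 (Rho.t_S D))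
  have el := Rho.elab_sup X2 D.tt Xt
  have c6 := D.elab_le XS el
  have c7 : Nat.card X = Nat.card ↥(U ⊓ D.J a b p) := card_cj _ _
  have h5 : D.τ ∈ X ⊔ zpowers D.t := by
    rcases D.elab_eq XS el (by omega) with e | e <;> rw [e]
    · exact D.syl_τA
    · have := conj_mem_cj (g := D.x).2 (mul_mem D.syl_τA D.syl_zA)
      rwa [← conj_mul, D.xτ hτ, ← D.c_zx, mul_inv_cancel_right, mul_assoc, D.zz, mul_one] at this
  have h6 : D.τ ∈ U := by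
    rcases (mem_sup_two nX (D.tt ▸ one_mem _)).1 h5 with e | e
    · have := (mX.1 e).1
      rwa [h.Z0_cent h.τZ hj, mul_inv_cancel_right] at this
    · exact (h.t_not_J ((mul_mem_cancel_right (h.Z0_le h.τZ)).1 (XJ e))).elim
  rw [inf_eq_left.2 fun g hg => h.mem_K1_of hτ (hU hg) (i4_comm h2 hg h6)] at c2
  omega

theorem Jf.i4_le (h : D.Jf a b p θ ε β) {U : Subgroup G} (hU : U ≤ D.P2 a b p) (h2 : ∀ u ∈ U, u * u = 1)
    (hc : 4 * Nat.card (D.Z0 a p) ≤ Nat.card U) (hn : ∀ u ∈ U, ¬ IsConj D.t u) : U ≤ D.J a b p := fun u hu => by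
  by_contra hJ
  have ha := fun {u} hu => h.i4_a hU h2 hc hn (u := u) hu
  have c1 := i3_idx (Y := U) (k := D.ζ ε) fun g hg => h.mem_P2'.1 (hU hg)
  have e1 : U ⊓ (D.J a b p ⊔ zpowers D.t) = U ⊓ D.J a b p := le_antisymm
    (fun g hg => ⟨hg.1, (h.mem_K1.1 hg.2).resolve_right (ha hg.1)⟩) (inf_le_inf_left _ le_sup_left)
  rw [e1] at c1
  have hk := ((h.mem_P2.1 (hU hu)).resolve_left hJ).resolve_left (ha hu)
  have c2 : Nat.card ↥(U ⊓ D.J a b p) ≤ 2 * Nat.card ↥(U ⊓ D.J a b p ⊓ D.Z0 a p) :=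
    card_le_two_mul fun g hg g' hg' h1 h1' => by
      obtain ⟨v, hv⟩ := h.co_J.1 hg.2
      obtain ⟨v', hv'⟩ := h.co_J.1 hg'.2
      have fx : ∀ {M w v}, D.AcJ a b p u M → w ∈ U → D.Co a b p w v → M v = v := fun hM hw hv => by
        have := hM _ _ hv
        rw [i4_comm h2 hu hw, mul_inv_cancel_right] at this
        exact h.co_inj this hv
      have := h.co_mul (h.co_inv hv) hv'
      rwa [i4_fix ε β v v' (hk.imp (fun e => ⟨fx (h.ac_ζc e) hg.1 hv, fx (h.ac_ζc e) hg'.1 hv'⟩)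
        fun e => ⟨fx (h.ac_tζc e) hg.1 hv, fx (h.ac_tζc e) hg'.1 hv'⟩) (h.co_q hv (h2 _ hg.1)) (h.co_q hv' (h2 _ hg'.1))
        (h.co_q (h.co_mul hv hv') (h2 _ (mul_mem hg.1 hg'.1))) (fun e => h1 (h.co_zero.1 (e ▸ hv)))
        (fun e => h1' (h.co_zero.1 (e ▸ hv'))), h.co_zero] at this
  have e2 := eq_of_le_of_card_ge (inf_le_right : U ⊓ D.J a b p ⊓ D.Z0 a p ≤ _) (by omega)
  have ZU : D.Z0 a p ≤ U := e2 ▸ inf_le_left.trans inf_le_left
  rcases hk with e | e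
  · by_cases hτ : D.τ = 1
    · exact h.no_inv_ζJ hτ e (h2 u hu)
    · exact (h.mem_K1.1 (h.mem_K1_of hτ (hU hu) (i4_comm h2 hu (ZU h.τZ)))).elim hJ (ha hu)
  · exact h.tζc_a e (i4_comm h2 hu (ZU h.aZ))

theorem Jf.i4_sub (h : D.Jf a b p θ ε β) {g : G} (hg : g ∈ normalizer (D.P2 a b p : Set G)) (W : V4 → Prop)
    [DecidablePred W] (h0 : W 0) (hW : ∀ v v', W v → W v' → W (v + v')) (hq : ∀ v, W v → qJ ε β v = 0)
    (h4 : (Finset.univ.filter W).card = 4) {u : G} {v : V4} (hv : W v) (hu : D.Co a b p u v) :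
    g * u * g⁻¹ ∈ D.J a b p := by
  have le : h.Sub W h0 hW ≤ D.J a b p := fun _ ⟨_, _, e⟩ => h.co_mem e
  refine h.i4_le (U := cj g (h.Sub W h0 hW)) (cj_le_iff.2 fun w hw => conj_mem_of_mem_normalizer hg (h.J_le (le hw)))
    (syl_elab_cj g ?_) ?_ (fun w hw e => ?_) (conj_mem_cj.2 ⟨v, hv, hu⟩)
  · rintro w ⟨v, hv, hw⟩
    rw [h.co_sq hw, hq v hv]; exact Jf.za00
  · rw [card_cj, ← h4]
    exact h.card_ge _ fun v hv u hu => ⟨v, by simpa using hv, hu⟩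
  · exact h.not_conj_J (le (mem_cj.1 hw)) (e.trans (isConj_iff.2 ⟨g⁻¹, by rw [inv_inv]⟩))

/-- `J` is characteristic in `P₂` -/
theorem Jf.norm_J (h : D.Jf a b p θ ε β) {g : G} (hg : g ∈ normalizer (D.P2 a b p : Set G)) :
    g ∈ normalizer (D.J a b p : Set G) := mem_normalizer_of_forall fun u hu => by
  obtain ⟨⟨i, j, k, l⟩, hv⟩ := h.co_J.1 hu
  have h1 : D.Co a b p (D.wJ b (i, j, 0, 0)) (i, j, 0, 0) := i3_co_w _
  have h2 := h.co_mul (h.co_inv h1) hv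
  have h3 := h.i4_sub hg (fun v => v.2.2.1 = 0 ∧ v.2.2.2 = 0) ⟨rfl, rfl⟩ (by decide +kernel) (i4_q ε β).1
    (by decide +kernel) ⟨rfl, rfl⟩ h1
  have h4 := h.i4_sub hg (fun v => v.1 = 0 ∧ v.2.1 = 0) ⟨rfl, rfl⟩ (by decide +kernel) (i4_q ε β).2
    (by decide +kernel) ⟨CharTwo.add_self_eq_zero i, CharTwo.add_self_eq_zero j⟩ h2
  have := mul_mem h3 h4
  rwa [conj_mul, mul_inv_cancel_left] at this

/-- `Z₀ = Z(J)`, `⟨z, a⟩ = J'` -/
theorem Jf.norm_Z0 (h : D.Jf a b p θ ε β) {g : G} (hg : g ∈ normalizer (D.J a b p : Set G)) :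
    g ∈ normalizer (D.Z0 a p : Set G) ∧ g ∈ normalizer ((closure {D.z, a} : Subgroup G) : Set G) := by
  refine ⟨mem_normalizer_of_forall fun c hc => ?_, Nrm.norm_of rfl ?_⟩
  · obtain ⟨v, hv⟩ := h.co_J.1 (conj_mem_of_mem_normalizer hg (h.Z0_le hc))
    refine h.co_zero.1 (i4_nd ε β v (fun v' => ?_) ▸ hv)
    have hw : D.Co a b p (D.wJ b v') v' := i3_co_w v'
    generalize D.wJ b v' = w at hw
    have c1 : Commute w (g * c * g⁻¹) := by
      have := h.Z0_cent hc (conj_mem_of_mem_normalizer' hg (h.co_mem hw))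
      change w * _ = _ * w
      rw [show w * (g * c * g⁻¹) = g * (g⁻¹ * w * g * c) * g⁻¹ by group, this]; group
    have := h.co_sq (h.co_mul hv hw)
    rw [c1.mul_mul_mul_comm, h.co_sq hv, h.co_sq hw, h.za_mul] at this
    exact Prod.ext (h.za_eq this).1.symm (h.za_eq this).2.symm
  · have k : ∀ v, g * D.za a (qJ ε β v).1 (qJ ε β v).2 * g⁻¹ ∈ closure {D.z, a} := fun v => by
      obtain ⟨v', hv⟩ := h.co_J.1 (conj_mem_of_mem_normalizer hg (Jf.w_mem (a := a) (p := p) v))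
      rw [← h.co_sq (i3_co_w v), ← conj_mul, h.co_sq hv]; exact h.zaZ _ _
    rintro _ (rfl | rfl)
    · simpa [qJ, Jf.za10] using k (1, 0, 1, 0)
    · simpa [qJ, Jf.za01] using k (0, 1, 1, 0)

/-- `⟨z⟩ = Z(P₂)` -/
theorem Jf.norm_z (h : D.Jf a b p θ ε β) {g : G} (hg : g ∈ normalizer (D.P2 a b p : Set G)) :
    g * D.z = D.z * g := by
  have h1 : D.P2 a b p ≤ centralizer {D.z} := by
    rw [h.P2_eq]
    exact sup_le (sup_le (fun u hu => mem_centralizer_singleton_iff.2 (h.Z0_cent h.zZ hu))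
      (zpowers_le.2 (mem_centralizer_singleton_iff.2 D.c_tz))) (zpowers_le.2 (mem_centralizer_singleton_iff.2 (D.i3_zζ ε)))
  have h2 : ∀ u ∈ D.P2 a b p, g * D.z * g⁻¹ * u = u * (g * D.z * g⁻¹) := fun u hu => by
    have := mem_centralizer_singleton_iff.1 (h1 (conj_mem_of_mem_normalizer' hg hu))
    rw [show u * (g * D.z * g⁻¹) = g * (g⁻¹ * u * g * D.z) * g⁻¹ by group, this]; group
  have aJ := h.Z0_le h.aZ
  have h3 := D.mem_S_of h.two_P2 h.S_le (conj_mem_of_mem_normalizer hg (h.J_le (h.Z0_le h.zZ))) (h2 _ h.t_P2)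
  have h4 := h2 _ (h.J_le aJ)
  rcases D.mem_V.1 (D.cent_S h3 (h2 _ (h.S_le D.syl_xS)) (h2 _ (h.S_le (D.syl_A_le D.syl_eA)))) with e | e | e | e
  · exact (D.z1 (conj_eq_one_iff.1 e)).elim
  · exact (h.ta_ne (e ▸ h4)).elim
  · exact mul_inv_eq_iff_eq_mul.1 e
  · exact (h.tc_a (by rw [← mul_assoc, D.tt, one_mul]; exact h.Z0_le h.zZ) (e ▸ h4)).elim

end Fr

end CfsgLib.L33
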