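import Mathlib
import Cfsg.Agent.Lib.L33.I4

/-! Involution centralizers with a 2-component of type `L₃(3)` (plans/L33.md, package I5). -/

set_option autoImplicit false
set_option linter.unusedSectionVars false

namespace CfsgLib.L33

open Subgroup CfsgLib.Tech

variable {G : Type*} [Group G] [Finite G]

namespace I5

/-- the additive map determined by the images of the second and the fourth basis vector -/
def lin (ε : ZMod 2) (m m' v : V4) : V4 :=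
  v.1 • (m + tJ (ζJ ε m)) + v.2.1 • m + v.2.2.1 • (m' + tJ (ζJ ε m')) + v.2.2.2 • m'

theorem eq_lin (ε : ZMod 2) (M : V4 → V4) (hM : ∀ v v', M (v + v') = M v + M v')
    (hT : ∀ v, M (tJ v) = tJ (ζJ ε (M v))) : M = lin ε (M (0, 1, 0, 0)) (M (0, 0, 0, 1)) := by
  have h0 : M 0 = 0 := by simpa using hM 0 0
  have h1 : ∀ (i : ZMod 2) v, M (i • v) = i • M v := fun i v => by
    rcases I2.z2 i with rfl | rfl <;> simp [h0]
  have h2 : ∀ v, M (v + tJ v) = M v + tJ (ζJ ε (M v)) := fun v => by rw [hM, hT]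
  funext v
  have h3 : ∀ v : V4, v = v.1 • ((0, 1, 0, 0) + tJ (0, 1, 0, 0)) + v.2.1 • (0, 1, 0, 0) +
    v.2.2.1 • ((0, 0, 0, 1) + tJ (0, 0, 0, 1)) + v.2.2.2 • (0, 0, 0, 1) := by decide +kernel
  conv_lhs => rw [h3 v]
  rw [hM, hM, hM, h1, h1, h1, h1, h2, h2, lin]

set_option synthInstance.maxSize 2000 in
set_option synthInstance.maxHeartbeats 200000 in
theorem chk : ∀ (ε β : ZMod 2) (m m' : V4), (∀ v, qJ ε β (lin ε m m' v) = qJ ε β v) →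
    (∀ v, lin ε m m' (tJ v) = tJ (ζJ ε (lin ε m m' v))) →
    (∀ v, lin ε m m' (lin ε m m' v) = v) ∧ 8 ≤ (Finset.univ.filter fun v => lin ε m m' v = v).card ∧
      ∃ v₁, lin ε m m' v₁ = v₁ ∧ v₁ ≠ 0 ∧ ∃ v₂, lin ε m m' v₂ = v₂ ∧ v₂ ≠ 0 ∧ v₂ ≠ v₁ ∧
        ∃ v₃, lin ε m m' v₃ = v₃ ∧ v₃ ≠ 0 ∧ v₃ ≠ v₁ ∧ v₃ ≠ v₂ ∧ v₃ ≠ v₁ + v₂ := by
  decide +kernel

theorem fin (ε β : ZMod 2) (M : V4 → V4) (hM : ∀ v v', M (v + v') = M v + M v')
    (hq : ∀ v, qJ ε β (M v) = qJ ε β v) (hT : ∀ v, M (tJ v) = tJ (ζJ ε (M v))) :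
    (∀ v, M (M v) = v) ∧ 8 ≤ (Finset.univ.filter fun v => M v = v).card ∧
      ∃ v₁, M v₁ = v₁ ∧ v₁ ≠ 0 ∧ ∃ v₂, M v₂ = v₂ ∧ v₂ ≠ 0 ∧ v₂ ≠ v₁ ∧
        ∃ v₃, M v₃ = v₃ ∧ v₃ ≠ 0 ∧ v₃ ≠ v₁ ∧ v₃ ≠ v₂ ∧ v₃ ≠ v₁ + v₂ := by
  have e := eq_lin ε M hM hT
  generalize M (0, 1, 0, 0) = m at e
  generalize M (0, 0, 0, 1) = m' at e
  subst e
  exact chk ε β m m' hq hT

end I5

/-- the finite check -/
theorem fin_M (ε β : ZMod 2) (M : V4 → V4) (hM : ∀ v v', M (v + v') = M v + M v')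
    (hq : ∀ v, qJ ε β (M v) = qJ ε β v) (hT : ∀ v, M (tJ v) = tJ (ζJ ε (M v))) :
    (∀ v, M (M v) = v) ∧ ∃ v₁ v₂ v₃ : V4, M v₁ = v₁ ∧ M v₂ = v₂ ∧ M v₃ = v₃ ∧ v₁ ≠ 0 ∧ v₂ ≠ 0 ∧ v₂ ≠ v₁ ∧
      v₃ ≠ 0 ∧ v₃ ≠ v₁ ∧ v₃ ≠ v₂ ∧ v₃ ≠ v₁ + v₂ := by
  obtain ⟨h1, -, v₁, a1, a2, v₂, b1, b2, b3, v₃, c1, c⟩ := I5.fin ε β M hM hq hT
  exact ⟨h1, v₁, v₂, v₃, a1, b1, c1, a2, b2, b3, c⟩

namespace Fr

variable {D : Fr G} {a b p θ : G} {ε β : ZMod 2}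

theorem Jf.i5_mem (h : D.Jf a b p θ ε β) {P : Subgroup G} (hP : IsPGroup 2 P) (h2 : D.P2 a b p ≤ P) {k : G}
    (hk : k ∈ P) (e : D.t * (k * D.t * k⁻¹) ∈ D.J a b p) : k ∈ D.P2 a b p := by
  have tu : D.t * (D.t * (k * D.t * k⁻¹)) = k * D.t * k⁻¹ := by rw [← mul_assoc, D.tt, one_mul]
  obtain ⟨j, hj, e1⟩ := h.conj_tJ e (by rw [tu]; exact isConj_iff.2 ⟨k, rfl⟩)
  rw [tu] at e1
  have := h.S_le (D.mem_S_of hP (h.S_le.trans h2) (mul_mem (inv_mem (h2 (h.J_le hj))) hk) (Nrm.com_of_eq e1))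
  exact (mul_mem_cancel_left (inv_mem (h.J_le hj))).1 this

/-- elements of `N(P₂)` outside `P₂` centralizing `a` -/
theorem Jf.out (h : D.Jf a b p θ ε β) {P : Subgroup G} (hP : IsPGroup 2 P) (h2 : D.P2 a b p ≤ P)
    (hn : P ≤ normalizer (D.P2 a b p : Set G)) {g : G} (hg : g ∈ P) (hg2 : g ∉ D.P2 a b p) (ha : g * a = a * g) :
    D.t * D.ζ ε * (g * D.t * g⁻¹) ∈ D.J a b p ∧ D.t * g * (D.t * g) ≠ 1 ∧ ¬ IsConj D.t g := by
  have nJ := h.norm_J (hn hg)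
  have nZ := (h.norm_Z0 nJ).1
  have gz := h.norm_z (hn hg)
  have h1 : D.t * D.ζ ε * (g * D.t * g⁻¹) ∈ D.J a b p := by
    rcases h.mem_P2.1 (conj_mem_of_mem_normalizer (hn hg) h.t_P2) with e | e | e | e
    · exact (h.not_conj_J e (isConj_iff.2 ⟨g, rfl⟩)).elim
    · exact (hg2 (h.i5_mem hP h2 hg e)).elim
    · have := h.ζc_a e
      rw [← Nrm.fix ha, conj_mul, conj_mul, mul_left_inj, mul_right_inj] at this
      exact (h.ta_ne this).elim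
    · exact e
  choose M hM using fun v => h.co_J.1 (conj_mem_of_mem_normalizer nJ (Jf.w_mem (a := a) (p := p) v))
  have ac : D.AcJ a b p g M := h.ac_of (fun c hc => conj_mem_of_mem_normalizer nZ hc) hM
  have acT := h.ac_tζc h1
  obtain ⟨hMM, h8, -⟩ := I5.fin ε β M (fun v v' => by
      have := h.co_mul (hM v) (hM v')
      rw [conj_mul] at this
      exact h.co_inj (ac _ _ (h.co_mul (i3_co_w v) (i3_co_w v'))) this) (fun v => by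
      have := h.co_sq (hM v)
      rw [conj_mul, h.co_sq (i3_co_w v), Nrm.fix (a := D.za a _ _) (((show Commute g D.z from gz).pow_right _).mul_right
        ((show Commute g a from ha).pow_right _)).eq] at this
      exact Prod.ext (h.za_eq this).1.symm (h.za_eq this).2.symm) (fun v => by
      have := i3_ac_mul acT ac
      rw [inv_mul_cancel_right] at this
      exact h.ac_uniq (i3_ac_mul ac h.ac_t) this v)
  refine ⟨h1, fun e => ?_, fun hs => ?_⟩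
  · have := i3_ac_mul h.ac_t (i3_ac_mul acT (i3_ac_mul ac ac))
    rw [show D.t * (g * D.t * g⁻¹ * (g * g)) = D.t * g * (D.t * g) by group, e] at this
    have k : ∀ ε : ZMod 2, tJ (tJ (ζJ ε (1, 0, 0, 0))) ≠ (1, 0, 0, 0) := by decide
    have := h.ac_uniq this (h.ac_J (one_mem _)) (1, 0, 0, 0)
    rw [hMM] at this
    exact k ε this
  · obtain ⟨c1, c2, c3⟩ := h.big hP (h.J_le.trans h2) hg hs gz ha ac
    have c4 := two_mul_card_le (inf_le_left : _ ⊓ D.J a b p ≤ _) c2 fun e => hg2 (h.J_le e.2)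
    have c5 := Nat.mul_le_mul_right (Nat.card (D.Z0 a p)) h8
    have := h.card_Z0'.1
    omega

end Fr

end CfsgLib.L33
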