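import Mathlib
import Cfsg.Agent.Lib.L33.I5
import Cfsg.Agent.Lib.Transfer.Thompson

/-! Involution centralizers with a 2-component of type `L₃(3)` (plans/L33.md, package I6). -/

set_option autoImplicit false
set_option linter.unusedSectionVars false

namespace CfsgLib.L33

open Subgroup CfsgLib.Tech

variable {G : Type*} [Group G] [Finite G]

namespace Fr

variable {D : Fr G} {a b p θ : G} {ε β : ZMod 2}

theorem Jf.adj (h : D.Jf a b p θ ε β) {g : G} (hg : g ∈ normalizer (D.P2 a b p : Set G)) :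
    g * a = a * g ∨ g * D.t * a = a * (g * D.t) := by
  have gz := Nrm.fix (h.norm_z hg)
  obtain ⟨i, j, e⟩ := h.mem_za.1 (conj_mem_of_mem_normalizer (h.norm_Z0 (h.norm_J hg)).2
    (subset_closure (by simp) : a ∈ closure {D.z, a}))
  have a1 : a ≠ 1 := fun e => h.ta_ne (by rw [e, mul_one, one_mul])
  have az : a ≠ D.z := fun e => h.ta_ne (by rw [e, D.c_tz])
  rcases I2.z2 i with rfl | rfl <;> rcases I2.z2 j with rfl | rfl
  · exact (Nrm.conj_ne_one a1 (e.trans Jf.za00)).elim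
  · exact Or.inl (Nrm.com (e.trans Jf.za01))
  · exact (Nrm.conj_ne az (e.trans (Jf.za10.trans gz.symm))).elim
  · refine Or.inr (Nrm.com ?_)
    rw [Nrm.cj2, D.i3_ti, h.tat, ← conj_mul, e, gz, ← Jf.za10 (a := a), h.za_mul]
    exact Jf.za01

theorem Jf.ex_g (h : D.Jf a b p θ ε β) {P : Subgroup G} (h2 : D.P2 a b p ≤ P)
    (hn : P ≤ normalizer (D.P2 a b p : Set G)) {g : G} (hg : g ∈ P) (hg2 : g ∉ D.P2 a b p) :
    ∃ k ∈ D.P2 a b p, g * k ∈ P ∧ g * k ∉ D.P2 a b p ∧ g * k * a = a * (g * k) := by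
  rcases h.adj (hn hg) with e | e
  · exact ⟨1, one_mem _, by simpa using ⟨hg, hg2, e⟩⟩
  · exact ⟨D.t, h.t_P2, mul_mem hg (h2 h.t_P2), fun e => hg2 ((mul_mem_cancel_right h.t_P2).1 e), e⟩

/-- no conjugate of `t` centralizes `a` in `P₃` -/
theorem Jf.not_conj_Ω (h : D.Jf a b p θ ε β) {P : Subgroup G} (hP : IsPGroup 2 P) (h2 : D.P2 a b p < P)
    (hn : P ≤ normalizer (D.P2 a b p : Set G)) {s : G} (hs : s ∈ P) (ha : s * a = a * s) : ¬ IsConj D.t s := by
  intro hc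
  by_cases hs2 : s ∉ D.P2 a b p
  · exact (h.out hP h2.le hn hs hs2 ha).2.2 hc
  rw [not_not] at hs2
  have key : ∀ u ∈ D.P2 a b p, u * a = a * u → IsConj D.t u → D.ζ ε * u ∈ D.J a b p := fun u hu e c => by
    rcases h.mem_P2.1 hu with e1 | e1 | e1 | e1
    exacts [(h.not_conj_J e1 c).elim, (h.tc_a e1 e).elim, e1, (h.tζc_a e1 e).elim]
  have hζ := key s hs2 ha hc
  obtain ⟨g0, hg0, hg1⟩ := SetLike.exists_of_lt h2
  obtain ⟨k, -, hg, hg2, ga⟩ := h.ex_g h2.le hn hg0 hg1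
  generalize g0 * k = g at hg hg2 ga
  have ss := D.conj_sq hc
  have hζ' := key (g * s * g⁻¹) (conj_mem_of_mem_normalizer (hn hg) hs2)
    (by rw [← Nrm.fix ga, conj_mul, conj_mul, ha]) (hc.trans (isConj_iff.2 ⟨g, rfl⟩))
  obtain ⟨j, hj, e⟩ := h.inv_ζJ hζ' hζ (by rw [conj_mul, ss]; simp) (ss ▸ one_mem _)
  obtain ⟨c1, c2, c3⟩ := h.big hP (h.J_le.trans h2.le) hs hc (h.norm_z (hn hs)) ha (h.ac_ζc hζ)
  have c4 := h.mem_Y (u := j * g) ss (mul_mem (h2.le (h.J_le hj)) hg) (fun v hv e => by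
    obtain ⟨m, hm, rfl⟩ := i3_coset h.ζζJ hζ
    rw [mul_assoc, h.Z0_cent hv hm, ← mul_assoc, ← mul_assoc, mul_left_inj] at e
    obtain ⟨i, l, rfl⟩ := h.mem_za.1 (h.cent_ζ hv e.symm)
    exact Nrm.com_mul (h.Z0_cent hv hj) (((show Commute g D.z from h.norm_z (hn hg)).pow_right _).mul_right
      ((show Commute g a from ga).pow_right _)).eq) (by rwa [Nrm.cj2])
  generalize Ysub P (D.Z0 a p ⊓ centralizer {s}) s = Y at c1 c2 c3 c4
  have c5 := two_mul_card_le (inf_le_left : Y ⊓ D.P2 a b p ≤ _) c4 fun e =>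
    hg2 ((mul_mem_cancel_left (h.J_le hj)).1 e.2)
  have c6 := two_mul_card_le (inf_le_inf_left Y h.J_le) ⟨c2, hs2⟩ fun e => h.not_conj_J e.2 hc
  have k : ∀ ε : ZMod 2, (Finset.univ.filter fun v => ζJ ε v = v).card = 4 := by decide +kernel
  rw [k] at c3
  have := h.card_Z0'.1
  omega

theorem Jf.card_P3 (h : D.Jf a b p θ ε β) {P : Subgroup G} (hP : IsPGroup 2 P) (h2 : D.P2 a b p ≤ P)
    (hn : P ≤ normalizer (D.P2 a b p : Set G)) : Nat.card P ≤ 2 * Nat.card (D.P2 a b p) := by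
  have := card_le_two_mul (Y := P) (K := D.P2 a b p) fun g hg g' hg' h1 h1' => by
    obtain ⟨k, hk, a1, a2, a3⟩ := h.ex_g h2 hn hg h1
    obtain ⟨k', hk', b1, b2, b3⟩ := h.ex_g h2 hn hg' h1'
    have := conj_mem_of_mem_normalizer' (h.norm_J (hn a1))
      (mul_mem (inv_mem (h.out hP h2 hn a1 a2 a3).1) (h.out hP h2 hn b1 b2 b3).1)
    have := h.i5_mem hP h2 (mul_mem (inv_mem a1) b1) (by convert this using 1; nth_rw 1 [← D.i3_ti]; group)
    have := mul_mem (mul_mem hk this) (inv_mem hk')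
    rwa [show k * ((g * k)⁻¹ * (g' * k')) * k'⁻¹ = g⁻¹ * g' by group] at this
  rwa [inf_eq_right.2 h2] at this

theorem Jf.bd (h : D.Jf a b p θ ε β) : Bd G := by
  obtain ⟨T, hT, hT2⟩ := exists_isSylowIn_ge h.two_P2 (le_top : D.P2 a b p ≤ ⊤)
  have c1 := h.card_P2
  have c2 := h.card_Z0'.2.1
  rcases hT2.eq_or_lt with e | hlt
  · exact Or.inl (not_dvd_of_syl hT (by rw [← e]; omega))
  have h2 := lt_inf_normalizer_of_lt hT.pgroup hlt
  have hn : T ⊓ normalizer (D.P2 a b p : Set G) ≤ _ := inf_le_right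
  have hle : T ⊓ normalizer (D.P2 a b p : Set G) ≤ _ := inf_le_left
  generalize T ⊓ normalizer (D.P2 a b p : Set G) = P at h2 hn hle
  have hP := hT.pgroup.to_le hle
  have tP := h2.le h.t_P2
  obtain rfl : P = T := by
    by_contra hne
    obtain ⟨k, hk, hk1, hk2⟩ := exists_mem_normalizer_of_lt hT.pgroup (hle.lt_of_ne hne)
    have hs := conj_mem_of_mem_normalizer hk2 tP
    have hc : IsConj D.t (k * D.t * k⁻¹) := isConj_iff.2 ⟨k, rfl⟩
    have ss := D.conj_sq hc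
    have h3 := fun e => h.not_conj_Ω hP h2 hn hs e hc
    have h4 : D.t * (k * D.t * k⁻¹) ∈ D.P2 a b p := by
      by_contra h5
      have h6 := Nrm.com_inv ((h.adj (hn hs)).resolve_left h3)
      rw [mul_inv_rev (k * D.t * k⁻¹), D.i3_ti, inv_eq_of_mul_eq_one_right ss] at h6
      refine (h.out hP h2.le hn (mul_mem tP hs) h5 h6).2.1 ?_
      rw [← mul_assoc D.t D.t, D.tt, one_mul, ss]
    rcases h.mem_P2.1 ((mul_mem_cancel_left h.t_P2).1 h4) with e | e | e | e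
    · exact h.not_conj_J e hc
    · exact hk1 (h2.le (h.i5_mem hT.pgroup hT2 hk e))
    · exact h3 (h.ζc_a e)
    · obtain ⟨g0, hg0, hg1⟩ := SetLike.exists_of_lt h2
      obtain ⟨k', -, hg, hg2, ga⟩ := h.ex_g h2.le hn hg0 hg1
      generalize g0 * k' = g at hg hg2 ga
      have := conj_mem_of_mem_normalizer' (h.norm_J (hn hg)) (mul_mem (inv_mem (h.out hP h2.le hn hg hg2 ga).1) e)
      have := h.i5_mem hT.pgroup hT2 (mul_mem (inv_mem (hle hg)) hk) (by
        convert this using 1; nth_rw 1 [← D.i3_ti]; group)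
      exact hk1 ((mul_mem_cancel_left (inv_mem hg)).1 (h2.le this))
  have c3 := h.card_P3 hP h2.le hn
  have hi : (P ⊓ centralizer {a}).relIndex P = 2 := relIndex_eq_two_iff_exists_notMem_and.2
    ⟨D.t, tP, fun e => h.ta_ne (mem_centralizer_singleton_iff.1 e.2), fun g hg => (h.adj (hn hg)).symm.imp
      (fun e => ⟨mul_mem hg tP, mem_centralizer_singleton_iff.2 e⟩) fun e => ⟨hg, mem_centralizer_singleton_iff.2 e⟩⟩
  rcases Transfer.thompson_transfer (by simpa using hT.not_dvd) hi (orderOf_eq_prime (by rw [pow_two, D.tt]) D.rel.t1)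
    with ⟨M, -, hM, -⟩ | ⟨g, hg⟩
  · exact Or.inr ⟨not_dvd_of_syl hT (by omega), M, hM⟩
  · exact (h.not_conj_Ω hP h2 hn hg.1 (mem_centralizer_singleton_iff.1 hg.2) (isConj_iff.2 ⟨g, rfl⟩)).elim

end Fr

end CfsgLib.L33
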