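import Mathlib
import Cfsg.Agent.Lib.L33.Tool

/-! Involution centralizers with a 2-component of type `L₃(3)` (plans/L33.md, package STEP1). -/

set_option autoImplicit false
set_option linter.unusedSectionVars false

namespace CfsgLib.L33

open Subgroup CfsgLib.Tech

variable {G : Type*} [Group G] [Finite G]

namespace Fr0

variable (D : Fr0 G)

local instance s1_fact : Fact (Nat.Prime 2) := ⟨Nat.prime_two⟩

/-- the semidihedral group -/
def s1D : Subgroup G := closure {D.x, D.e}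
/-- `R D` -/
def s1M : Subgroup G := D.R ⊔ D.s1D
/-- the Sylow subgroup -/
def s1S : Subgroup G := D.R ⊔ closure {D.τ, D.x, D.e}

theorem s1_ord : orderOf D.x = 8 := orderOf_eq_prime_pow (p := 2) (n := 2) D.rel.x4 D.rel.x8

theorem s1_xp {m n : ℕ} : D.x ^ m = D.x ^ n ↔ m % 8 = n % 8 := by
  rw [pow_eq_pow_iff_modEq, D.s1_ord]; rfl

theorem s1_ei : D.e⁻¹ = D.e := inv_eq_of_mul_eq_one_right D.rel.ee

theorem s1_ex (k : ℕ) : D.e * D.x ^ k * D.e⁻¹ = D.x ^ (3 * k) := by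
  rw [← conj_pow, D.s1_ei, D.rel.ex, pow_mul]

theorem s1_ex' (k : ℕ) : D.e * D.x ^ k = D.x ^ (3 * k) * D.e := by
  rw [← D.s1_ex, inv_mul_cancel_right]

theorem s1_τx (h : D.τ ≠ 1) (k : ℕ) : D.τ * D.x ^ k * D.τ⁻¹ = D.x ^ (5 * k) := by
  rw [← conj_pow, D.rel.τx.resolve_left h, pow_mul]

theorem s1_en (k : G) (hk : k ∈ zpowers D.x) : D.e * k * D.e⁻¹ ∈ zpowers D.x := by
  obtain ⟨n, rfl⟩ := (mem_powers_iff_mem_zpowers.2 hk : k ∈ Submonoid.powers D.x)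
  show D.e * D.x ^ n * D.e⁻¹ ∈ _
  rw [D.s1_ex]; exact pow_mem (mem_zpowers _) _

theorem s1D_eq : D.s1D = zpowers D.x ⊔ zpowers D.e := by
  rw [s1D, zpowers_eq_closure, zpowers_eq_closure, ← Subgroup.closure_union]; rfl

theorem s1_xD : D.x ∈ D.s1D := subset_closure (by simp)
theorem s1_eD : D.e ∈ D.s1D := subset_closure (by simp)
theorem s1_zD : D.x ^ 4 ∈ D.s1D := pow_mem D.s1_xD 4

theorem s1_memD {d : G} (h : d ∈ D.s1D) : ∃ k : ℕ, d = D.x ^ k ∨ d = D.x ^ k * D.e := by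
  rw [D.s1D_eq, mem_sup_two D.s1_en (by rw [D.rel.ee]; exact one_mem _)] at h
  rcases h with h | h
  · obtain ⟨n, hn⟩ := (mem_powers_iff_mem_zpowers.2 h : _ ∈ Submonoid.powers D.x)
    exact ⟨n, .inl hn.symm⟩
  · obtain ⟨n, hn⟩ := (mem_powers_iff_mem_zpowers.2 h : _ ∈ Submonoid.powers D.x)
    refine ⟨3 * n, .inr ?_⟩
    rw [← D.s1_ex', show D.x ^ n = D.e * d from hn, ← mul_assoc, D.rel.ee, one_mul]

theorem s1_DL : D.s1D ≤ D.L := (closure_le _).2 (by rintro v (rfl | rfl); exacts [D.xL, D.eL])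

theorem s1_RD {r d : G} (hr : r ∈ D.R) (hd : d ∈ D.s1D) : r * d = d * r := by
  have hx : Commute r D.x := D.Rx r hr
  have he : Commute r D.e := D.Re r hr
  obtain ⟨k, rfl | rfl⟩ := D.s1_memD hd
  · exact (hx.pow_right k).eq
  · exact ((hx.pow_right k).mul_right he).eq

theorem s1_memM {u : G} (h : u ∈ D.s1M) : ∃ r ∈ D.R, ∃ d ∈ D.s1D, u = r * d := by
  let B : Subgroup G :=
    { carrier := {u | ∃ r ∈ D.R, ∃ d ∈ D.s1D, u = r * d}
      one_mem' := ⟨1, one_mem _, 1, one_mem _, by simp⟩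
      mul_mem' := by
        rintro a b ⟨r, hr, d, hd, rfl⟩ ⟨r', hr', d', hd', rfl⟩
        refine ⟨r * r', mul_mem hr hr', d * d', mul_mem hd hd', ?_⟩
        rw [mul_assoc, ← mul_assoc d, ← D.s1_RD hr' hd]; group
      inv_mem' := by
        rintro a ⟨r, hr, d, hd, rfl⟩
        exact ⟨r⁻¹, inv_mem hr, d⁻¹, inv_mem hd, by rw [D.s1_RD hr hd, mul_inv_rev]⟩ }
  exact (sup_le (fun r hr => ⟨r, hr, 1, one_mem _, by simp⟩) (fun d hd => ⟨1, one_mem _, d, hd, by simp⟩) :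
    D.s1M ≤ B) h

theorem s1_τD {d : G} (h : d ∈ D.s1D) : D.τ * d * D.τ⁻¹ ∈ D.s1D := by
  by_cases h1 : D.τ = 1
  · rw [h1]; simpa using h
  obtain ⟨k, rfl | rfl⟩ := D.s1_memD h
  · rw [D.s1_τx h1]; exact pow_mem D.s1_xD _
  · rw [show D.τ * (D.x ^ k * D.e) * D.τ⁻¹ = D.τ * D.x ^ k * D.τ⁻¹ * (D.τ * D.e) * D.τ⁻¹ by group, D.s1_τx h1,
      D.rel.τe, ← mul_assoc, mul_inv_cancel_right]
    exact mul_mem (pow_mem D.s1_xD _) D.s1_eD

theorem s1_τM (u : G) (h : u ∈ D.s1M) : D.τ * u * D.τ⁻¹ ∈ D.s1M := by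
  obtain ⟨r, hr, d, hd, rfl⟩ := D.s1_memM h
  rw [show D.τ * (r * d) * D.τ⁻¹ = D.τ * r * D.τ⁻¹ * (D.τ * d * D.τ⁻¹) by group]
  exact mul_mem (mem_sup_left (D.τR r hr)) (mem_sup_right (D.s1_τD hd))

theorem s1S_eq : D.s1S = D.s1M ⊔ zpowers D.τ := by
  rw [s1S, s1M, s1D, zpowers_eq_closure, sup_assoc, ← Subgroup.closure_union, Set.union_comm]; rfl

theorem s1_memS {u : G} : u ∈ D.s1S ↔ u ∈ D.s1M ∨ D.τ * u ∈ D.s1M := by
  rw [D.s1S_eq, mem_sup_two D.s1_τM (mem_sup_left D.ττ)]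

theorem s1_MS : D.s1M ≤ D.s1S := fun _ h => D.s1_memS.2 (.inl h)
theorem s1_RS : D.R ≤ D.s1S := le_sup_left
theorem s1_DS : D.s1D ≤ D.s1S := le_sup_right.trans D.s1_MS
theorem s1_τS : D.τ ∈ D.s1S := D.s1_memS.2 (.inr (mem_sup_left D.ττ))
theorem s1_syl : IsSylowIn 2 D.s1S (centralizer {D.t}) := D.syl
theorem s1_St {u : G} (h : u ∈ D.s1S) : u * D.t = D.t * u := mem_centralizer_singleton_iff.1 (D.syl.le h)

theorem s1_out2 {u v : G} (hu : u ∈ D.s1S) (hv : v ∈ D.s1S) (hu' : u ∉ D.s1M) (hv' : v ∉ D.s1M) :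
    u * v ∈ D.s1M := by
  rw [show u * v = D.τ⁻¹ * (D.τ * u) * D.τ * (D.τ * D.τ)⁻¹ * (D.τ * v) by group]
  exact mul_mem (mul_mem (conj_mem_of_mem_normalizer' (mem_normalizer_of_forall D.s1_τM)
    ((D.s1_memS.1 hu).resolve_left hu')) (inv_mem (mem_sup_left D.ττ))) ((D.s1_memS.1 hv).resolve_left hv')

theorem s1_nD {u d : G} (hu : u ∈ D.s1S) (hd : d ∈ D.s1D) : u * d * u⁻¹ ∈ D.s1D :=
  D.SL _ (mul_mem (mul_mem hu (D.s1_DS hd)) (inv_mem hu)) (D.Ln u (D.syl.le hu) d (D.s1_DL hd))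

theorem s1_nR {u r : G} (hu : u ∈ D.s1S) (hr : r ∈ D.R) : u * r * u⁻¹ ∈ D.R := by
  have key : ∀ u ∈ D.s1M, u * r * u⁻¹ ∈ D.R := by
    intro u hu
    obtain ⟨r', hr', d, hd, rfl⟩ := D.s1_memM hu
    rw [show r' * d * r * (r' * d)⁻¹ = r' * (d * r) * d⁻¹ * r'⁻¹ by group, ← D.s1_RD hr hd, ← mul_assoc,
      mul_inv_cancel_right]
    exact mul_mem (mul_mem hr' hr) (inv_mem hr')
  rcases D.s1_memS.1 hu with h | h
  · exact key u h
  · have := conj_mem_of_mem_normalizer' (mem_normalizer_of_forall D.τR) (key _ h)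
    rwa [show D.τ⁻¹ * (D.τ * u * r * (D.τ * u)⁻¹) * D.τ = u * r * u⁻¹ by group] at this

theorem s1_Rc {r r' : G} (hr : r ∈ D.R) (hr' : r' ∈ D.R) : r * r' = r' * r := by
  haveI := D.cyc
  letI : CommGroup D.R := IsCyclic.commGroup
  exact congrArg Subtype.val (mul_comm (⟨r, hr⟩ : D.R) ⟨r', hr'⟩)

theorem s1_uniq {r : G} (hr : r ∈ D.R) (h2 : r * r = 1) : r = 1 ∨ r = D.t := by
  classical
  haveI := D.cyc
  haveI := Fintype.ofFinite D.R
  by_contra hn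
  push Not at hn
  have h := IsCyclic.card_pow_eq_one_le (α := D.R) (n := 2) (by norm_num)
  have h3 : ({1, ⟨r, hr⟩, ⟨D.t, D.tR⟩} : Finset D.R) ⊆ Finset.univ.filter fun a => a ^ 2 = 1 := by
    intro a ha
    simp only [Finset.mem_insert, Finset.mem_singleton] at ha
    rcases ha with rfl | rfl | rfl
    · simp
    · exact Finset.mem_filter.2 ⟨Finset.mem_univ _, Subtype.ext (by rw [pow_two]; exact h2)⟩
    · exact Finset.mem_filter.2 ⟨Finset.mem_univ _, Subtype.ext (by rw [pow_two]; exact D.rel.tt)⟩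
  have h4 := (Finset.card_le_card h3).trans h
  rw [Finset.card_eq_three.2 ⟨_, _, _, fun h => hn.1 (congrArg Subtype.val h).symm,
    fun h => D.rel.t1 (congrArg Subtype.val h).symm, fun h => hn.2 (congrArg Subtype.val h), rfl⟩] at h4
  omega

theorem s1_root (h : ¬ D.R ≤ zpowers D.t) : ∃ r ∈ D.R, r * r = D.t := by
  obtain ⟨r, hr, hrt⟩ := SetLike.not_le_iff_exists.1 h
  obtain ⟨k, hk⟩ := isPGroup_iff_mem.1 D.syl.pgroup r (D.s1_RS hr)
  induction k generalizing r with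
  | zero => exact absurd (by rw [show r = 1 by simpa using hk]; exact one_mem _) hrt
  | succ k ih =>
    by_cases h1 : r * r ∈ zpowers D.t
    · have h2 : r * r * (r * r) = 1 := by
        obtain ⟨n, hn⟩ := (mem_powers_iff_mem_zpowers.2 h1 : _ ∈ Submonoid.powers D.t)
        rw [← show D.t ^ n = r * r from hn, ← pow_two, ← pow_mul, mul_comm n, pow_mul, pow_two, D.rel.tt, one_pow]
      rcases D.s1_uniq (mul_mem hr hr) h2 with h3 | h3
      · rcases D.s1_uniq hr h3 with h4 | h4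
        · exact absurd (by rw [h4]; exact one_mem _) hrt
        · exact absurd (by rw [h4]; exact mem_zpowers _) hrt
      · exact ⟨r, hr, h3⟩
    · exact ih (r * r) (mul_mem hr hr) h1 (by rw [← pow_two, ← pow_mul, ← pow_succ', hk])

theorem s1_act {u : G} (h : u ∈ D.s1M) : u * D.x * u⁻¹ = D.x ∨ u * D.x * u⁻¹ = D.x ^ 3 := by
  obtain ⟨r, hr, d, hd, rfl⟩ := D.s1_memM h
  have : r * d * D.x * (r * d)⁻¹ = d * D.x * d⁻¹ := by
    rw [D.s1_RD hr hd, mul_assoc d, D.Rx r hr]; group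
  rw [this]
  obtain ⟨k, rfl | rfl⟩ := D.s1_memD hd
  · left; group
  · right
    rw [mul_assoc _ D.e, ← pow_one D.x, D.s1_ex']; group

theorem s1_out {u : G} (h : u ∈ D.s1S) (h' : u ∉ D.s1M) :
    D.τ ≠ 1 ∧ (u * D.x * u⁻¹ = D.x ^ 5 ∨ u * D.x * u⁻¹ = D.x ^ 7) := by
  have h1 := (D.s1_memS.1 h).resolve_left h'
  have h2 : D.τ ≠ 1 := fun h3 => h' (by rwa [h3, one_mul] at h1)
  refine ⟨h2, ?_⟩
  have h3 : u * D.x * u⁻¹ = D.τ⁻¹ * (D.τ * u * D.x * (D.τ * u)⁻¹) * D.τ := by group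
  rcases D.s1_act h1 with h4 | h4
  · left
    have h5 : D.τ * D.x ^ 5 * D.τ⁻¹ = D.x := by
      rw [D.s1_τx h2]; exact ((D.s1_xp (m := 5 * 5) (n := 1)).2 rfl).trans (pow_one _)
    calc u * D.x * u⁻¹ = D.τ⁻¹ * (D.τ * D.x ^ 5 * D.τ⁻¹) * D.τ := by rw [h3, h4, h5]
      _ = _ := by group
  · right
    rw [h3, h4, show D.x ^ 3 = D.x ^ (5 * 7) by rw [D.s1_xp], ← D.s1_τx h2]; group

theorem s1_z1 : D.x ^ 4 ≠ 1 := D.rel.x4
theorem s1_zz : D.x ^ 4 * D.x ^ 4 = 1 := by rw [← pow_add, D.rel.x8]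
theorem s1_tL : D.t ∉ D.L := fun h => D.rel.t1 (D.RL _ D.tR h)

theorem s1_zc {u : G} (h : u ∈ D.s1S) : u * D.x ^ 4 = D.x ^ 4 * u := by
  rw [← mul_inv_eq_iff_eq_mul, ← conj_pow]
  by_cases h' : u ∈ D.s1M
  · rcases D.s1_act h' with h1 | h1 <;> rw [h1]
    rw [← pow_mul, D.s1_xp]
  · rcases (D.s1_out h h').2 with h1 | h1 <;> rw [h1, ← pow_mul, D.s1_xp]

theorem s1_centD {d : G} (h : d ∈ D.s1D) (hx : d * D.x = D.x * d) (he : d * D.e = D.e * d) :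
    d = 1 ∨ d = D.x ^ 4 := by
  obtain ⟨k, rfl | rfl⟩ := D.s1_memD h
  · rw [D.s1_ex', mul_left_inj, D.s1_xp] at he
    rw [← pow_zero D.x, D.s1_xp, D.s1_xp]
    omega
  · exfalso
    rw [mul_assoc, ← pow_one D.x, D.s1_ex', ← mul_assoc, ← mul_assoc, mul_left_inj, ← pow_mul, ← pow_add, ← pow_add,
      D.s1_xp] at hx
    omega

theorem s1_cent {u : G} (h : u ∈ D.s1S) (hx : u * D.x = D.x * u) (he : u * D.e = D.e * u) :
    ∃ r ∈ D.R, u = r ∨ u = r * D.x ^ 4 := by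
  by_cases h' : u ∈ D.s1M
  · obtain ⟨r, hr, d, hd, rfl⟩ := D.s1_memM h'
    rw [mul_assoc, ← mul_assoc D.x, ← D.Rx r hr, mul_assoc, mul_right_inj] at hx
    rw [mul_assoc, ← mul_assoc D.e, ← D.Re r hr, mul_assoc, mul_right_inj] at he
    rcases D.s1_centD hd hx he with rfl | rfl
    · exact ⟨r, hr, .inl (mul_one r)⟩
    · exact ⟨r, hr, .inr rfl⟩
  · exfalso
    rcases (D.s1_out h h').2 with h1 | h1
    all_goals
      rw [hx, mul_inv_cancel_right, ← pow_one D.x, ← pow_mul, D.s1_xp] at h1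
      omega

theorem s1_inv3 {u : G} (h : u ∈ D.s1S) (hc : ∀ v ∈ D.s1S, u * v = v * u) (h2 : u * u = 1) :
    u = 1 ∨ u = D.t ∨ u = D.x ^ 4 ∨ u = D.t * D.x ^ 4 := by
  obtain ⟨r, hr, rfl | rfl⟩ := D.s1_cent h (hc _ (D.s1_DS D.s1_xD)) (hc _ (D.s1_DS D.s1_eD))
  · rcases D.s1_uniq hr h2 with h3 | h3 <;> simp [h3]
  · rw [mul_assoc, ← mul_assoc _ r, ← D.s1_RD hr D.s1_zD, mul_assoc, D.s1_zz, mul_one] at h2
    rcases D.s1_uniq hr h2 with h3 | h3 <;> simp [h3]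

theorem s1_tz : D.t * D.x ^ 4 ∉ D.L := fun h =>
  D.s1_tL (by simpa using mul_mem h (inv_mem (D.s1_DL D.s1_zD)))

/-- an element of `N(S₀)` moving `t` maps `t` to `t z` -/
theorem s1_move {a : G} (ha : a ∈ normalizer (D.s1S : Set G)) (hat : a * D.t * a⁻¹ ≠ D.t) :
    a * D.t * a⁻¹ = D.t * D.x ^ 4 := by
  have hc : ∀ w ∈ D.s1S, (∀ v ∈ D.s1S, w * v = v * w) → ∀ v ∈ D.s1S, a * w * a⁻¹ * v = v * (a * w * a⁻¹) := by
    intro w _ hw v hv
    calc a * w * a⁻¹ * v = a * (w * (a⁻¹ * v * a)) * a⁻¹ := by group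
      _ = _ := by rw [hw _ (conj_mem_of_mem_normalizer' ha hv)]; group
  have hzS := D.s1_DS D.s1_zD
  have htS := D.s1_RS D.tR
  have hD' : cj a D.s1D ≤ D.s1S := cj_le_iff.2 fun d hd => conj_mem_of_mem_normalizer ha (D.s1_DS hd)
  have hn' : ∀ u ∈ D.s1S, ∀ d ∈ cj a D.s1D, u * d * u⁻¹ ∈ cj a D.s1D := fun u hu d hd => by
    have := D.s1_nD (conj_mem_of_mem_normalizer' ha hu) (mem_cj.1 hd)
    rw [mem_cj]
    convert this using 1
    group
  have hz : a * D.x ^ 4 * a⁻¹ ∈ D.s1D := by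
    by_cases hb : D.s1D ⊓ cj a D.s1D = ⊥
    · exfalso
      have key : ∀ d' ∈ cj a D.s1D, ∃ r ∈ D.R, d' = r ∨ d' = r * D.x ^ 4 := by
        intro d' hd'
        have : ∀ d ∈ D.s1D, d' * d = d * d' := fun d hd => by
          have h1 : d' * d * d'⁻¹ * d⁻¹ ∈ D.s1D ⊓ cj a D.s1D := by
            refine mem_inf.2 ⟨mul_mem (D.s1_nD (hD' hd') hd) (inv_mem hd), ?_⟩
            rw [show d' * d * d'⁻¹ * d⁻¹ = d' * (d * d'⁻¹ * d⁻¹) by group]
            exact mul_mem hd' (hn' d (D.s1_DS hd) _ (inv_mem hd'))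
          rw [hb, mem_bot] at h1
          calc d' * d = d' * d * d'⁻¹ * d⁻¹ * (d * d') := by group
            _ = _ := by rw [h1, one_mul]
        exact D.s1_cent (hD' hd') (this _ D.s1_xD) (this _ D.s1_eD)
      obtain ⟨r, hr, h1⟩ := key _ (conj_mem_cj.2 D.s1_xD)
      obtain ⟨r', hr', h2⟩ := key _ (conj_mem_cj.2 D.s1_eD)
      have c1 : Commute r r' := D.s1_Rc hr hr'
      have c2 : Commute r (D.x ^ 4) := D.s1_RD hr D.s1_zD
      have c3 : Commute (D.x ^ 4) r' := (D.s1_RD hr' D.s1_zD).symm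
      have c4 : Commute (a * D.x * a⁻¹) (a * D.e * a⁻¹) := by
        rcases h1 with h1 | h1 <;> rcases h2 with h2 | h2 <;> rw [h1, h2]
        · exact c1
        · exact c1.mul_right c2
        · exact c1.mul_left c3
        · exact (c1.mul_right c2).mul_left (c3.mul_right (Commute.refl _))
      have c5 : D.e * D.x ^ 1 = D.x ^ 1 * D.e := by
        rw [pow_one]
        calc D.e * D.x = a⁻¹ * (a * D.e * a⁻¹ * (a * D.x * a⁻¹)) * a := by group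
          _ = _ := by rw [← c4.eq]; group
      rw [D.s1_ex', mul_left_inj, D.s1_xp] at c5
      omega
    · obtain ⟨w, hw, hw2, hwc⟩ := exists_mem_center_of_normalized (p := 2) (T := cj a D.s1D)
        (D.syl.pgroup.to_le hD') inf_le_right (fun u hu => mem_normalizer_of_forall fun v hv =>
          mem_inf.2 ⟨D.s1_nD (hD' hu) (mem_inf.1 hv).1, hn' u (hD' hu) v (mem_inf.1 hv).2⟩) hb
      have key : ∀ d ∈ D.s1D, a⁻¹ * w * a * d = d * (a⁻¹ * w * a) := fun d hd => by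
        calc a⁻¹ * w * a * d = a⁻¹ * (w * (a * d * a⁻¹)) * a := by group
          _ = _ := by rw [← hwc _ (conj_mem_cj.2 hd)]; group
      rcases D.s1_centD (mem_cj.1 (mem_inf.1 hw).2) (key _ D.s1_xD) (key _ D.s1_eD) with h1 | h1
      · exact absurd (by rw [show w = a * (a⁻¹ * w * a) * a⁻¹ by group, h1]; group) (ne_one_of_orderOf_two hw2)
      · rw [← h1, show a * (a⁻¹ * w * a) * a⁻¹ = w by group]
        exact (mem_inf.1 hw).1
  have hz' : a * D.x ^ 4 * a⁻¹ = D.x ^ 4 := by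
    have h0 := hc _ hzS fun v hv => (D.s1_zc hv).symm
    rcases D.s1_centD hz (h0 _ (D.s1_DS D.s1_xD)) (h0 _ (D.s1_DS D.s1_eD)) with h1 | h1
    · exact absurd (by simpa using h1) D.s1_z1
    · exact h1
  rcases D.s1_inv3 (conj_mem_of_mem_normalizer ha htS) (hc _ htS fun v hv => (D.s1_St hv).symm)
    (by rw [show a * D.t * a⁻¹ * (a * D.t * a⁻¹) = a * (D.t * D.t) * a⁻¹ by group, D.rel.tt]; group)
    with h1 | h1 | h1 | h1
  · exact absurd (by simpa using h1) D.rel.t1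
  · exact absurd h1 hat
  · rw [← hz', mul_left_inj, mul_right_inj] at h1
    exact absurd (h1 ▸ D.s1_DL D.s1_zD) D.s1_tL
  · exact h1

theorem s1_small {a : G} (ha : a ∈ normalizer (D.s1S : Set G)) (hat : a * D.t * a⁻¹ = D.t * D.x ^ 4) :
    D.R ≤ zpowers D.t := by
  by_contra h
  obtain ⟨r, hr, hrr⟩ := D.s1_root h
  have hrS := conj_mem_of_mem_normalizer ha (D.s1_RS hr)
  have key : ∀ d ∈ D.s1D, a * r * a⁻¹ * d = d * (a * r * a⁻¹) := by
    intro d hd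
    have h1 : a * r * a⁻¹ * d * (a * r * a⁻¹)⁻¹ * d⁻¹ ∈ D.s1D := mul_mem (D.s1_nD hrS hd) (inv_mem hd)
    have hd' := conj_mem_of_mem_normalizer' ha (D.s1_DS hd)
    have h2 := D.s1_nR hd' hr
    have h3 : a⁻¹ * d * a * r * (a⁻¹ * d * a)⁻¹ * (a⁻¹ * d * a * r * (a⁻¹ * d * a)⁻¹) = D.t := by
      calc _ = a⁻¹ * d * a * (r * r) * (a⁻¹ * d * a)⁻¹ := by group
        _ = _ := by rw [hrr, D.s1_St hd', mul_inv_cancel_right]
    generalize hr' : a⁻¹ * d * a * r * (a⁻¹ * d * a)⁻¹ = r' at h2 h3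
    have h4 : a * r * a⁻¹ * d * (a * r * a⁻¹)⁻¹ * d⁻¹ = a * (r * r'⁻¹) * a⁻¹ := by rw [← hr']; group
    rcases D.s1_uniq (mul_mem hr (inv_mem h2)) (by
      rw [mul_assoc, ← mul_assoc r'⁻¹, D.s1_Rc (inv_mem h2) hr, mul_assoc, ← mul_inv_rev, h3, ← mul_assoc, hrr,
        mul_inv_cancel]) with h5 | h5
    · calc a * r * a⁻¹ * d = a * r * a⁻¹ * d * (a * r * a⁻¹)⁻¹ * d⁻¹ * (d * (a * r * a⁻¹)) := by group
        _ = _ := by rw [h4, h5]; group
    · rw [h4, h5, hat] at h1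
      exact absurd (D.s1_DL h1) D.s1_tz
  have h6 : a * r * a⁻¹ * (a * r * a⁻¹) = D.t * D.x ^ 4 := by rw [← hat, ← hrr]; group
  obtain ⟨r', hr', h1⟩ := D.s1_cent hrS (key _ D.s1_xD) (key _ D.s1_eD)
  have h7 : r' * r' = D.t * D.x ^ 4 := by
    rcases h1 with h1 | h1
    · rw [← h1, h6]
    · rw [← h6, h1, mul_assoc, ← mul_assoc _ r', ← D.s1_RD hr' D.s1_zD, mul_assoc, D.s1_zz, mul_one]
  refine D.s1_z1 (D.RL _ ?_ (D.s1_DL D.s1_zD))
  simpa [h7] using mul_mem (inv_mem D.tR) (mul_mem hr' hr')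

theorem s1_memM' (h : D.R ≤ zpowers D.t) {u : G} (hu : u ∈ D.s1M) : u ∈ D.s1D ∨ D.t * u ∈ D.s1D := by
  obtain ⟨r, hr, d, hd, rfl⟩ := D.s1_memM hu
  obtain ⟨n, hn⟩ := (mem_powers_iff_mem_zpowers.2 (h hr) : _ ∈ Submonoid.powers D.t)
  rcases D.s1_uniq hr (by
    rw [← show D.t ^ n = r from hn, ← pow_two, ← pow_mul, mul_comm n, pow_mul, pow_two, D.rel.tt, one_pow])
    with rfl | rfl
  · exact .inl (by rwa [one_mul])
  · exact .inr (by rwa [← mul_assoc, D.rel.tt, one_mul])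

theorem s1_ττ {a : G} (ha : a ∈ normalizer (D.s1S : Set G)) (hat : a * D.t * a⁻¹ = D.t * D.x ^ 4) :
    D.τ * D.τ = 1 := by
  have hR := D.s1_small ha hat
  by_contra h1
  have hτ : D.τ ≠ 1 := fun h => h1 (by rw [h, one_mul])
  have h2 : D.τ * D.τ = D.t := by
    obtain ⟨n, hn⟩ := (mem_powers_iff_mem_zpowers.2 (hR D.ττ) : _ ∈ Submonoid.powers D.t)
    refine (D.s1_uniq D.ττ ?_).resolve_left h1
    rw [← show D.t ^ n = D.τ * D.τ from hn, ← pow_two, ← pow_mul, mul_comm n, pow_mul, pow_two, D.rel.tt, one_pow]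
  have hti : D.t⁻¹ = D.t := inv_eq_of_mul_eq_one_right D.rel.tt
  have ctx : ∀ k : ℕ, Commute D.t (D.x ^ k) := fun k => (show Commute D.t D.x from D.rel.tx).pow_right k
  have cτt : Commute D.τ D.t := D.rel.tτ.symm
  have cτy : ∀ k : ℕ, k % 2 = 0 → Commute D.τ (D.x ^ k) := fun k hk => by
    rw [Commute, SemiconjBy, ← mul_inv_eq_iff_eq_mul, D.s1_τx hτ, D.s1_xp]; omega
  -- roots of `t z`
  have root : ∀ u ∈ D.s1S, u * u = D.t * D.x ^ 4 → ∃ k : ℕ, k % 2 = 0 ∧ (D.τ * u = D.x ^ k ∨ D.τ * u = D.t * D.x ^ k) := by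
    intro u hu huu
    have hut := D.s1_St hu
    rcases D.s1_memS.1 hu with h | h
    · exfalso
      refine D.s1_tz (D.s1_DL ?_)
      rw [← huu]
      rcases D.s1_memM' hR h with h | h
      · exact mul_mem h h
      · have := mul_mem h h
        rwa [mul_assoc, ← mul_assoc u, hut, ← mul_assoc, ← mul_assoc, D.rel.tt, one_mul] at this
    · have key : ∀ d ∈ D.s1D, D.τ * d * D.τ⁻¹ * d = D.x ^ 4 → ∃ k : ℕ, k % 2 = 0 ∧ d = D.x ^ k := by
        intro d hd h3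
        obtain ⟨k, rfl | rfl⟩ := D.s1_memD hd
        · rw [D.s1_τx hτ, ← pow_add, D.s1_xp] at h3
          exact ⟨k, by omega, rfl⟩
        · exfalso
          rw [show D.τ * (D.x ^ k * D.e) * D.τ⁻¹ = D.τ * D.x ^ k * D.τ⁻¹ * (D.τ * D.e) * D.τ⁻¹ by group, D.s1_τx hτ,
            D.rel.τe, ← mul_assoc, ← mul_assoc, mul_inv_cancel_right, mul_assoc _ D.e, D.s1_ex', mul_assoc,
            mul_assoc, D.rel.ee, mul_one, ← pow_add, D.s1_xp] at h3
          omega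
      have h4 : D.τ * (D.τ * u) * D.τ⁻¹ * (D.τ * u) = D.x ^ 4 := by
        calc _ = D.τ * D.τ * (u * u) := by group
          _ = _ := by rw [h2, huu, ← mul_assoc, D.rel.tt, one_mul]
      rcases D.s1_memM' hR h with h | h
      · obtain ⟨k, hk, h5⟩ := key _ h h4
        exact ⟨k, hk, .inl h5⟩
      · obtain ⟨k, hk, h5⟩ := key _ h (by
          have h6 := D.s1_St (mul_mem (mul_mem D.s1_τS (mul_mem D.s1_τS hu)) (inv_mem D.s1_τS))
          calc _ = D.τ * D.t * (D.τ * u) * D.τ⁻¹ * D.t * (D.τ * u) := by group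
            _ = D.t * (D.τ * (D.τ * u) * D.τ⁻¹ * D.t) * (D.τ * u) := by rw [cτt.eq]; group
            _ = _ := by rw [h6, ← mul_assoc D.t D.t, D.rel.tt, one_mul, h4])
        exact ⟨k, hk, .inr (by rw [← h5, ← mul_assoc D.t, D.rel.tt, one_mul])⟩
  have hi : D.τ * (D.x * D.e) * D.τ⁻¹ = D.x ^ 5 * D.e := by
    rw [show D.τ * (D.x * D.e) * D.τ⁻¹ = D.τ * D.x * D.τ⁻¹ * (D.τ * D.e) * D.τ⁻¹ by group,
      D.rel.τx.resolve_left hτ, D.rel.τe]; group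
  have hj : D.τ * (D.x * D.e) * (D.τ * (D.x * D.e)) = D.t := by
    calc _ = D.τ * D.τ * (D.τ⁻¹ * (D.x * D.e) * D.τ * (D.x * D.e)) := by group
      _ = _ := by
        have : D.τ⁻¹ * (D.x * D.e) * D.τ = D.x ^ 5 * D.e := by
          have h6 : D.τ⁻¹ = D.t * D.τ := by rw [inv_eq_iff_mul_eq_one, cτt.left_comm, h2, D.rel.tt]
          have h7 : D.τ = D.τ⁻¹ * D.t := by rw [← h2]; group
          calc D.τ⁻¹ * (D.x * D.e) * D.τ = D.t * (D.τ * (D.x * D.e) * D.τ⁻¹) * D.t := by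
                nth_rewrite 1 [h6]; nth_rewrite 2 [h7]; group
            _ = _ := by
              rw [hi, ((ctx 5).mul_right D.rel.te).eq, mul_assoc, D.rel.tt, mul_one]
        rw [this, h2, mul_assoc, ← mul_assoc D.e, ← pow_one D.x, D.s1_ex', mul_assoc, D.rel.ee, mul_one, ← pow_mul,
          ← pow_add, D.rel.x8, mul_one]
  have hiS : D.τ * (D.x * D.e) ∈ D.s1S := mul_mem D.s1_τS (D.s1_DS (mul_mem D.s1_xD D.s1_eD))
  obtain ⟨k, hk, h3⟩ := root _ (conj_mem_of_mem_normalizer ha D.s1_τS) (by rw [← hat, ← h2]; group)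
  obtain ⟨k', hk', h4⟩ := root _ (conj_mem_of_mem_normalizer ha hiS) (by rw [← hat, ← hj]; group)
  have cc : ∀ u k, k % 2 = 0 → (D.τ * u = D.x ^ k ∨ D.τ * u = D.t * D.x ^ k) →
      Commute u D.τ ∧ Commute u D.t ∧ ∀ m, m % 2 = 0 → Commute u (D.x ^ m) := by
    intro u k hk h
    have h5 : u = D.τ⁻¹ * (D.τ * u) := by group
    rcases h with h | h <;> rw [h5, h]
    · exact ⟨(Commute.refl _).inv_left.mul_left (cτy k hk).symm, cτt.inv_left.mul_left (ctx k).symm,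
        fun m hm => (cτy m hm).inv_left.mul_left (Commute.pow_pow_self _ _ _)⟩
    · exact ⟨(Commute.refl _).inv_left.mul_left (cτt.symm.mul_left (cτy k hk).symm),
        cτt.inv_left.mul_left ((Commute.refl _).mul_left (ctx k).symm),
        fun m hm => (cτy m hm).inv_left.mul_left ((ctx m).mul_left (Commute.pow_pow_self _ _ _))⟩
  obtain ⟨c1, c2, c3⟩ := cc _ k hk h3
  have c4 : Commute (a * D.τ * a⁻¹) (a * (D.τ * (D.x * D.e)) * a⁻¹) := by
    rw [show a * (D.τ * (D.x * D.e)) * a⁻¹ = D.τ⁻¹ * (D.τ * (a * (D.τ * (D.x * D.e)) * a⁻¹)) by group]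
    rcases h4 with h4 | h4 <;> rw [h4]
    · exact c1.inv_right.mul_right (c3 k' hk')
    · exact c1.inv_right.mul_right (c2.mul_right (c3 k' hk'))
  have c5 : D.x ^ 5 * D.e = D.x ^ 1 * D.e := by
    rw [← hi, pow_one]
    calc _ = D.τ⁻¹ * a⁻¹ * (a * D.τ * a⁻¹ * (a * (D.τ * (D.x * D.e)) * a⁻¹)) * a * D.τ⁻¹ := by group
      _ = _ := by rw [c4.eq]; group
  rw [mul_left_inj, D.s1_xp] at c5
  omega

theorem s1_fr {a : G} (ha : a ∈ normalizer (D.s1S : Set G)) (hat : a * D.t * a⁻¹ ≠ D.t) : Nonempty (Fr G) := by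
  have h1 := D.s1_move ha hat
  have hR := D.s1_small ha h1
  have hτL : ∀ u ∈ D.s1S, u * D.x * u⁻¹ = D.x ^ 5 → u ∉ D.L := fun u hu h5 hL => by
    rcases D.s1_act (mem_sup_right (D.SL u hu hL)) with h | h
    · rw [h5, ← pow_one D.x, ← pow_mul, D.s1_xp] at h
      omega
    · rw [h5, D.s1_xp] at h
      omega
  have htS := D.s1_RS D.tR
  refine ⟨⟨D.t, D.τ, D.x, D.e, D.L, D.rel, D.s1_ττ ha h1, ?_, D.LH, D.Ln, D.xL, D.eL, D.s1_tL, fun hτ => ⟨?_, ?_⟩,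
    fun h hh => ?_, D.θ0, D.ρ0, isConj_iff.2 ⟨a, h1⟩⟩⟩
  · have : closure {D.t, D.τ, D.x, D.e} = D.R ⊔ closure {D.τ, D.x, D.e} := by
      rw [le_antisymm hR (zpowers_le.2 D.tR), zpowers_eq_closure, ← Subgroup.closure_union]; rfl
    rw [this]; exact D.syl
  · exact hτL _ D.s1_τS (D.rel.τx.resolve_left hτ)
  · refine hτL _ (mul_mem htS D.s1_τS) ?_
    rw [show D.t * D.τ * D.x * (D.t * D.τ)⁻¹ = D.t * (D.τ * D.x * D.τ⁻¹) * D.t⁻¹ by group, D.rel.τx.resolve_left hτ,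
      ((show Commute D.t D.x from D.rel.tx).pow_right 5).eq, mul_inv_cancel_right]
  · obtain ⟨s, hs, hl⟩ := D.HL h hh
    have key : ∀ k ∈ D.s1S, k * s ∈ D.s1D → k * h ∈ D.L := fun k hk hks => by
      rw [show k * h = k * (h * s⁻¹) * k⁻¹ * (k * s) by group]
      exact mul_mem (D.Ln k (D.syl.le hk) _ hl) (D.s1_DL hks)
    rcases D.s1_memS.1 hs with h2 | h2 <;> rcases D.s1_memM' hR h2 with h3 | h3
    · exact .inl (by simpa using key 1 (one_mem _) (by rwa [one_mul]))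
    · exact .inr (.inl (key _ htS h3))
    · exact .inr (.inr (.inl (key _ D.s1_τS h3)))
    · exact .inr (.inr (.inr (key _ (mul_mem htS D.s1_τS) (by rwa [mul_assoc]))))

omit D in
theorem s1_card_sup {K : Subgroup G} {g : G} (hn : ∀ k ∈ K, g * k * g⁻¹ ∈ K) (h2 : g * g ∈ K) :
    Nat.card ↥(K ⊔ zpowers g) ≤ 2 * Nat.card K := by
  by_cases hg : g ∈ K
  · rw [sup_eq_left.2 (zpowers_le.2 hg)]; omega
  · exact (card_sup_two hn h2 hg).le

theorem s1_card (h : D.R ≤ zpowers D.t) : Nat.card D.s1S ≤ 2 ^ 6 := by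
  have h1 := s1_card_sup D.s1_en (by rw [D.rel.ee]; exact one_mem _)
  rw [← D.s1D_eq, Nat.card_zpowers, D.s1_ord] at h1
  have h2 := s1_card_sup (K := D.s1D) (g := D.t) (fun k hk => D.s1_nD (D.s1_RS D.tR) hk)
    (by rw [D.rel.tt]; exact one_mem _)
  have h3 : Nat.card D.s1M ≤ Nat.card ↥(D.s1D ⊔ zpowers D.t) :=
    card_le_of_le (sup_le (h.trans le_sup_right) le_sup_left)
  have h4 := s1_card_sup D.s1_τM (mem_sup_left D.ττ)
  rw [← D.s1S_eq] at h4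
  omega

theorem s1_conj_z {d : G} (h : d ∈ D.s1D) (h2 : d * d = 1) (h1 : d ≠ 1) : ∃ l ∈ D.L, l * D.x ^ 4 * l⁻¹ = d := by
  obtain ⟨k, rfl | rfl⟩ := D.s1_memD h
  · refine ⟨1, one_mem _, ?_⟩
    rw [← pow_add, ← pow_zero D.x, D.s1_xp] at h2
    rw [Ne, ← pow_zero D.x, D.s1_xp] at h1
    rw [one_mul, inv_one, mul_one, D.s1_xp]
    omega
  · obtain ⟨θ, hθ, h3, -⟩ := D.θ0
    rw [mul_assoc, ← mul_assoc D.e, D.s1_ex', mul_assoc, D.rel.ee, mul_one, ← pow_add, ← pow_zero D.x, D.s1_xp] at h2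
    refine ⟨D.x ^ (3 * (k / 2)) * θ, mul_mem (pow_mem D.xL _) hθ, ?_⟩
    rw [show D.x ^ (3 * (k / 2)) * θ * D.x ^ 4 * (D.x ^ (3 * (k / 2)) * θ)⁻¹ =
      D.x ^ (3 * (k / 2)) * (θ * D.x ^ 4 * θ⁻¹) * (D.x ^ (3 * (k / 2)))⁻¹ by group, h3, mul_inv_eq_iff_eq_mul,
      mul_assoc, D.s1_ex', ← mul_assoc, ← pow_add, mul_left_inj, D.s1_xp]
    omega

/-- Burnside's lemma -/
theorem s1_burn (hN : normalizer (D.s1S : Set G) ≤ centralizer {D.t}) {w : G} (hw : IsConj D.t w)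
    (hc : ∀ v ∈ D.s1S, v * w = w * v) : w = D.t := by
  obtain ⟨g, rfl⟩ := isConj_iff.1 hw
  have h1 := D.s1_syl.cj g
  rw [cj_centralizer_singleton] at h1
  have h2 := (syl_top_of_norm D.s1_syl hN).of_le (fun v hv => mem_centralizer_singleton_iff.2 (hc v hv)) le_top
  obtain ⟨c, hc', h3⟩ := h1.exists_cj_eq h2
  rw [← cj_mul] at h3
  have h4 := mem_centralizer_singleton_iff.1 (hN (mem_normalizer_iff_cj.2 h3))
  have h5 := mem_centralizer_singleton_iff.1 hc'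
  calc g * D.t * g⁻¹ = c * (g * D.t * g⁻¹) * c⁻¹ := by rw [h5, mul_inv_cancel_right]
    _ = c * g * D.t * (c * g)⁻¹ := by group
    _ = _ := by rw [h4, mul_inv_cancel_right]

theorem s1_star (hN : normalizer (D.s1S : Set G) ≤ centralizer {D.t}) {v : G} (hv : v ∈ D.s1M)
    (hw : IsConj D.t v) : v = D.t := by
  have hv2 : v * v = 1 := by
    obtain ⟨g, rfl⟩ := isConj_iff.1 hw
    rw [show g * D.t * g⁻¹ * (g * D.t * g⁻¹) = g * (D.t * D.t) * g⁻¹ by group, D.rel.tt]; group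
  have hv1 : v ≠ 1 := by
    rintro rfl
    exact D.rel.t1 (isConj_one_left.1 hw)
  obtain ⟨r, hr, d, hd, rfl⟩ := D.s1_memM hv
  have h1 : r * r = (d * d)⁻¹ := by
    rw [eq_inv_iff_mul_eq_one, ← hv2, mul_assoc, mul_assoc, ← mul_assoc d r, ← D.s1_RD hr hd, mul_assoc]
  have h2 : r * r = 1 := D.RL _ (mul_mem hr hr) (h1 ▸ inv_mem (D.s1_DL (mul_mem hd hd)))
  have h3 : d * d = 1 := by rwa [h2, eq_comm, inv_eq_one] at h1
  by_cases h4 : d = 1
  · rw [h4, mul_one] at hv1 ⊢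
    exact (D.s1_uniq hr h2).resolve_left hv1
  exfalso
  obtain ⟨l, hL, hl⟩ := D.s1_conj_z hd h3 h4
  have hlt := mem_centralizer_singleton_iff.1 (D.LH hL)
  rcases D.s1_uniq hr h2 with rfl | rfl
  · have := D.s1_burn hN (w := D.x ^ 4) (hw.trans (isConj_iff.2 ⟨l⁻¹, by rw [← hl]; group⟩)) fun v hv => D.s1_zc hv
    exact D.s1_tL (this ▸ D.s1_DL D.s1_zD)
  · have := D.s1_burn hN (w := D.t * D.x ^ 4) (hw.trans (isConj_iff.2 ⟨l⁻¹, by
      rw [← hl, ← mul_assoc D.t, ← mul_assoc D.t, ← hlt]; group⟩)) fun v hv => by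
        rw [← mul_assoc, D.s1_St hv, mul_assoc, D.s1_zc hv, mul_assoc]
    exact D.s1_z1 (mul_eq_left.1 this)

theorem s1_big (hN : normalizer (D.s1S : Set G) ≤ centralizer {D.t}) {r : G} (hr : r ∈ D.R) (hrr : r * r = D.t)
    {s : G} (hs : IsConj D.t s) (hst : s ≠ D.t) (hS : s ∈ D.s1S) : False := by
  have hM : s ∉ D.s1M := fun h => hst (D.s1_star hN h hs)
  have htS := D.s1_RS D.tR
  have hzS := D.s1_DS D.s1_zD
  obtain ⟨c, hc, hcs⟩ : ∃ c : G, c * r = r * c ∧ c * s * c⁻¹ = D.x ^ 4 * s := by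
    rcases (D.s1_out hS hM).2 with h | h
    · refine ⟨D.x, (D.Rx r hr).symm, ?_⟩
      calc D.x * s * D.x⁻¹ = D.x * (s * D.x * s⁻¹)⁻¹ * s := by group
        _ = (D.x ^ 4)⁻¹ * s := by rw [h]; group
        _ = _ := by rw [inv_eq_of_mul_eq_one_right D.s1_zz]
    · refine ⟨D.x ^ 2, (D.s1_RD hr (pow_mem D.s1_xD 2)).symm, ?_⟩
      calc D.x ^ 2 * s * (D.x ^ 2)⁻¹ = D.x ^ 2 * ((s * D.x * s⁻¹) ^ 2)⁻¹ * s := by rw [conj_pow]; group
        _ = (D.x ^ 8)⁻¹ * (D.x ^ 4)⁻¹ * s := by rw [h]; group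
        _ = _ := by rw [inv_eq_of_mul_eq_one_right D.s1_zz, D.rel.x8, inv_one, one_mul]
  obtain ⟨g, hg, hX⟩ : ∃ g : G, g * s * g⁻¹ = D.t ∧ ∀ v ∈ D.s1S, v * s = s * v → g * v * g⁻¹ ∈ D.s1S := by
    obtain ⟨b, hb⟩ := isConj_iff.1 hs.symm
    obtain ⟨h, hh, hle⟩ := D.s1_syl.exists_cj_le (isPGroup_cj b (D.syl.pgroup.to_inf_left (K := centralizer {s})))
      (by rw [← hb, ← cj_centralizer_singleton]; exact cj_mono b inf_le_right)
    refine ⟨h * b, ?_, fun v hv hvs => ?_⟩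
    · rw [show h * b * s * (h * b)⁻¹ = h * (b * s * b⁻¹) * h⁻¹ by group, hb, mem_centralizer_singleton_iff.1 hh,
        mul_inv_cancel_right]
    · rw [← cj_mul] at hle
      exact hle (conj_mem_cj.2 (mem_inf.2 ⟨hv, mem_centralizer_singleton_iff.2 hvs⟩))
  have ht' := hX _ htS (D.s1_St hS).symm
  have hz' := hX _ hzS (D.s1_zc hS).symm
  have ht'M : g * D.t * g⁻¹ ∉ D.s1M := fun h => by
    have h1 := D.s1_star hN h (isConj_iff.2 ⟨g, rfl⟩)
    nth_rewrite 2 [← hg] at h1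
    rw [mul_left_inj, mul_right_inj] at h1
    exact hst h1.symm
  have hsr := D.s1_nR hS hr
  have h3 : s * r * s⁻¹ * (s * r * s⁻¹) = D.t := by
    calc _ = s * (r * r) * s⁻¹ := by group
      _ = _ := by rw [hrr, D.s1_St hS, mul_inv_cancel_right]
  rcases D.s1_uniq (mul_mem hr (inv_mem hsr)) (by
    rw [mul_assoc, ← mul_assoc (s * r * s⁻¹)⁻¹, D.s1_Rc (inv_mem hsr) hr, mul_assoc, ← mul_inv_rev, h3, ← mul_assoc,
      hrr, mul_inv_cancel]) with h5 | h5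
  · have h6 := hX r (D.s1_RS hr) (by rw [mul_inv_eq_one] at h5; nth_rewrite 1 [h5]; group)
    refine ht'M ?_
    rw [← hrr, show g * (r * r) * g⁻¹ = g * r * g⁻¹ * (g * r * g⁻¹) by group]
    by_cases h7 : g * r * g⁻¹ ∈ D.s1M
    · exact mul_mem h7 h7
    · exact D.s1_out2 h6 h6 h7 h7
  · have h6 : r * s * r⁻¹ = D.t * s := by rw [← h5]; group
    have htM : D.t ∈ D.s1M := mem_sup_left D.tR
    by_cases h7 : g * D.x ^ 4 * g⁻¹ ∈ D.s1M
    · have := D.s1_star hN (mul_mem h7 htM) (hs.trans (isConj_iff.2 ⟨g * c, by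
        rw [show g * c * s * (g * c)⁻¹ = g * (c * s * c⁻¹) * g⁻¹ by group, hcs, ← hg]; group⟩))
      exact D.s1_z1 (by simpa using this)
    · have := D.s1_star hN (mul_mem (D.s1_out2 hz' ht' h7 ht'M) htM) (hs.trans (isConj_iff.2 ⟨g * r * c, by
        calc g * r * c * s * (g * r * c)⁻¹ = g * (r * (c * s * c⁻¹) * r⁻¹) * g⁻¹ := by group
          _ = g * (D.x ^ 4 * (r * s * r⁻¹)) * g⁻¹ := by rw [hcs, ← mul_assoc r, D.s1_RD hr D.s1_zD]; group
          _ = g * D.x ^ 4 * g⁻¹ * (g * D.t * g⁻¹) * (g * s * g⁻¹) := by rw [h6]; group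
          _ = _ := by rw [hg]⟩))
      have h8 : D.x ^ 4 * D.t = 1 := by
        have h9 := mul_eq_right.1 this
        calc D.x ^ 4 * D.t = g⁻¹ * (g * D.x ^ 4 * g⁻¹ * (g * D.t * g⁻¹)) * g := by group
          _ = 1 := by rw [h9]; group
      refine D.s1_tz ?_
      rw [D.s1_RD D.tR D.s1_zD, h8]; exact one_mem _

end Fr0

theorem Fr0.step1 (D : Fr0 G) (h : ∃ s, IsConj D.t s ∧ s ≠ D.t ∧ s * D.t = D.t * s) :
    ¬ 2 ^ 7 ∣ Nat.card G ∨ Nonempty (Fr G) := by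
  haveI : Fact (Nat.Prime 2) := ⟨Nat.prime_two⟩
  by_cases hN : normalizer (D.s1S : Set G) ≤ centralizer {D.t}
  · by_cases hR : D.R ≤ zpowers D.t
    · exact .inl (not_dvd_of_syl (syl_top_of_norm D.s1_syl hN) (D.s1_card hR))
    · exfalso
      obtain ⟨r, hr, hrr⟩ := D.s1_root hR
      obtain ⟨s, hs, hst, hc⟩ := h
      have h2 : s * s = 1 := by
        obtain ⟨g, rfl⟩ := isConj_iff.1 hs
        rw [show g * D.t * g⁻¹ * (g * D.t * g⁻¹) = g * (D.t * D.t) * g⁻¹ by group, D.rel.tt]; group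
      obtain ⟨g, hg, hS⟩ := D.s1_syl.exists_conj_mem (mem_centralizer_singleton_iff.2 hc) (isPGroup_two_zpowers h2)
      refine D.s1_big hN hr hrr (hs.trans (isConj_iff.2 ⟨g, rfl⟩)) (fun h1 => hst ?_) hS
      rw [mul_inv_eq_iff_eq_mul, ← mem_centralizer_singleton_iff.1 hg] at h1
      exact mul_left_cancel h1
  · obtain ⟨a, ha, hat⟩ := SetLike.not_le_iff_exists.1 hN
    exact .inr (D.s1_fr ha fun h1 => hat (mem_centralizer_singleton_iff.2 (mul_inv_eq_iff_eq_mul.1 h1)))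

end CfsgLib.L33
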