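import Mathlib
import Cfsg.Agent.Lib.L33.Trb

/-! Involution centralizers with a 2-component of type `L₃(3)` (plans/L33.md, package T1). -/

set_option autoImplicit false
set_option linter.unusedSectionVars false

namespace CfsgLib.L33

open Subgroup CfsgLib.Tech

variable {G : Type*} [Group G] [Finite G]

namespace T1

/-- coordinates on `U` -/
def uu (a b : G) (i j : ZMod 4) : G := a ^ i.val * b ^ j.val

/-- the elements normalizing `F` and the coset `F s` -/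
def cm (F : Subgroup G) (s : G) : Subgroup G where
  carrier := {g | g ∈ normalizer (F : Set G) ∧ g * s * g⁻¹ * s⁻¹ ∈ F}
  one_mem' := ⟨one_mem _, by simp⟩
  mul_mem' := fun {g k} hg hk => ⟨mul_mem hg.1 hk.1, by
    rw [show g * k * s * (g * k)⁻¹ * s⁻¹ = g * (k * s * k⁻¹ * s⁻¹) * g⁻¹ * (g * s * g⁻¹ * s⁻¹) by group]
    exact mul_mem (conj_mem_of_mem_normalizer hg.1 hk.2) hg.2⟩
  inv_mem' := fun {g} hg => ⟨inv_mem hg.1, by
    rw [show g⁻¹ * s * g⁻¹⁻¹ * s⁻¹ = g⁻¹ * (g * s * g⁻¹ * s⁻¹)⁻¹ * g by group]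
    exact conj_mem_of_mem_normalizer' hg.1 (inv_mem hg.2)⟩

theorem mem_cm {F : Subgroup G} {s g : G} :
    g ∈ cm F s ↔ g ∈ normalizer (F : Set G) ∧ g * s * g⁻¹ * s⁻¹ ∈ F := Iff.rfl

theorem inv_eq {g : G} (h : g * g = 1) : g⁻¹ = g := inv_eq_of_mul_eq_one_right h

theorem ct_le_nm (F : Subgroup G) : centralizer (F : Set G) ≤ normalizer (F : Set G) :=
  centralizer_le_normalizer _

theorem A0_cases (D : Fr G) {v : G} (hv : v ∈ D.A0) : v ∈ D.E ∨ D.τ * v ∈ D.E := by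
  obtain ⟨b, c, d, rfl⟩ := D.mem_A0.1 hv
  rcases Fr.Nrm.z2 b with rfl | rfl
  · exact Or.inl (Fr.Nrm.u_E D c d)
  · refine Or.inr ?_
    rw [← D.u_τ, D.u_mul, show (1 + 1 : ZMod 2) = 0 from rfl, add_zero]
    exact Fr.Nrm.u_E D _ _

theorem cA0 (D : Fr G) {g : G} (h1 : g * D.τ = D.τ * g) (h2 : g * D.z = D.z * g) (h3 : g * D.e = D.e * g)
    {v : G} (hv : v ∈ D.A0) : g * v = v * g := by
  refine (mem_centralizer_singleton_iff.1 ((closure_le (centralizer {g})).2 ?_ hv)).symm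
  rintro x (rfl | rfl | rfl) <;> refine mem_centralizer_singleton_iff.2 (Eq.symm ?_) <;> assumption

theorem f_Dg (D : Fr G) : D.f ∈ D.Dg :=
  mul_mem (subset_closure (by simp)) (pow_mem (subset_closure (by simp)) 2)

end T1

namespace Fr

open T1

variable {D : Fr G} {a b θ : G}

theorem Two.c_ab (h : D.Two a b θ) : a * b = b * a := h.hb ▸ h.ab
theorem Two.b2 (h : D.Two a b θ) : b * b = D.e := by
  rw [h.hb, conj_mul, h.a2, h.th.θz]
theorem Two.a4 (h : D.Two a b θ) : a ^ 4 = 1 := by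
  rw [show a ^ 4 = a * a * (a * a) by simp only [pow_succ, pow_zero, one_mul, mul_assoc], h.a2, D.zz]
theorem Two.b4 (h : D.Two a b θ) : b ^ 4 = 1 := by
  rw [show b ^ 4 = b * b * (b * b) by simp only [pow_succ, pow_zero, one_mul, mul_assoc], h.b2, D.ee]

theorem Two.uu_mul (h : D.Two a b θ) (i j i' j' : ZMod 4) :
    uu a b i j * uu a b i' j' = uu a b (i + i') (j + j') := by
  simp only [uu, ZMod.val_add, ← pow_eq_pow_mod _ h.a4, ← pow_eq_pow_mod _ h.b4, pow_add]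
  rw [mul_assoc, ← mul_assoc (b ^ j.val), ← (Commute.pow_pow h.c_ab i'.val j.val).eq]
  group

theorem uu_00 : uu a b 0 0 = 1 := by simp [uu]
theorem uu_10 : uu a b 1 0 = a := by
  simp only [uu, ZMod.val_zero, pow_zero, mul_one, show (1 : ZMod 4).val = 1 from rfl, pow_one]
theorem uu_01 : uu a b 0 1 = b := by
  simp only [uu, ZMod.val_zero, pow_zero, one_mul, show (1 : ZMod 4).val = 1 from rfl, pow_one]
theorem Two.uu_20 (h : D.Two a b θ) : uu a b 2 0 = D.z := by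
  have := h.uu_mul 1 0 1 0
  rw [uu_10, h.a2] at this
  exact this.symm
theorem Two.uu_02 (h : D.Two a b θ) : uu a b 0 2 = D.e := by
  have := h.uu_mul 0 1 0 1
  rw [uu_01, h.b2] at this
  exact this.symm
theorem Two.uu_22 (h : D.Two a b θ) : uu a b 2 2 = D.e * D.z := by
  rw [← h.uu_20, ← h.uu_02, h.uu_mul]; rfl
theorem Two.uu_inv (h : D.Two a b θ) (i j : ZMod 4) : (uu a b i j)⁻¹ = uu a b (-i) (-j) :=
  inv_eq_of_mul_eq_one_right (by rw [h.uu_mul, add_neg_cancel, add_neg_cancel, uu_00])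
theorem Two.uu_pow (h : D.Two a b θ) (i j : ZMod 4) (n : ℕ) : uu a b i j ^ n = uu a b (n * i) (n * j) := by
  induction n with
  | zero => simp [uu_00]
  | succ n ih => rw [pow_succ, ih, h.uu_mul]; push_cast; rw [add_one_mul, add_one_mul]

theorem Two.uu_one (h : D.Two a b θ) {i j : ZMod 4} (e : uu a b i j = 1) : i = 0 ∧ j = 0 := by
  have k : ∀ i j : ZMod 4, (i = 2 ∧ j = 0 ∨ i = 0 ∧ j = 2 ∨ i = 2 ∧ j = 2) → uu a b i j ≠ 1 := by
    rintro _ _ (⟨rfl, rfl⟩ | ⟨rfl, rfl⟩ | ⟨rfl, rfl⟩)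
    · rw [h.uu_20]; exact D.z1
    · rw [h.uu_02]; exact Nrm.e1 D
    · rw [h.uu_22]; exact Nrm.ez1 D
  have e2 : uu a b (i + i) (j + j) = 1 := by rw [← h.uu_mul, e, one_mul]
  by_contra hn
  rcases (by clear hn e2 e; revert i j; decide : (i = 2 ∧ j = 0 ∨ i = 0 ∧ j = 2 ∨ i = 2 ∧ j = 2) ∨ (i = 0 ∧ j = 0) ∨
    (i + i = 2 ∧ j + j = 0 ∨ i + i = 0 ∧ j + j = 2 ∨ i + i = 2 ∧ j + j = 2)) with q | q | q
  exacts [k _ _ q e, hn q, k _ _ q e2]

theorem Two.uu_inj (h : D.Two a b θ) {i j i' j' : ZMod 4} (e : uu a b i j = uu a b i' j') :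
    i = i' ∧ j = j' := by
  have := h.uu_one (i := i + -i') (j := j + -j') (by rw [← h.uu_mul, ← h.uu_inv, e, mul_inv_cancel])
  exact ⟨add_neg_eq_zero.1 this.1, add_neg_eq_zero.1 this.2⟩

theorem Two.uu_conj (h : D.Two a b θ) {g : G} {p q r s : ZMod 4} (ha : g * a * g⁻¹ = uu a b p q)
    (hb : g * b * g⁻¹ = uu a b r s) (i j : ZMod 4) :
    g * uu a b i j * g⁻¹ = uu a b (i * p + j * r) (i * q + j * s) := by
  rw [uu, ← conj_mul, ← conj_pow, ← conj_pow, ha, hb, h.uu_pow, h.uu_pow, h.uu_mul]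
  simp only [ZMod.natCast_val, ZMod.cast_id', id_eq]

theorem a_U : a ∈ D.U a b := subset_closure (by simp)
theorem b_U : b ∈ D.U a b := subset_closure (by simp)
theorem uu_U (i j : ZMod 4) : uu a b i j ∈ D.U a b := mul_mem (pow_mem a_U _) (pow_mem b_U _)

theorem Two.U_le (h : D.Two a b θ) {K : Subgroup G} (ha : a ∈ K) (hb : b ∈ K) : D.U a b ≤ K := by
  refine (closure_le K).2 ?_
  rintro x (rfl | rfl | rfl | rfl)
  exacts [h.a2 ▸ mul_mem ha ha, h.b2 ▸ mul_mem hb hb, ha, hb]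

theorem Two.mem_U (h : D.Two a b θ) {u : G} : u ∈ D.U a b ↔ ∃ i j : ZMod 4, u = a ^ i.val * b ^ j.val := by
  refine ⟨fun hu => ?_, fun ⟨i, j, e⟩ => e ▸ uu_U i j⟩
  show ∃ i j, u = uu a b i j
  induction hu using closure_induction with
  | mem x hx =>
    rcases hx with rfl | rfl | rfl | rfl
    exacts [⟨_, _, h.uu_20.symm⟩, ⟨_, _, h.uu_02.symm⟩, ⟨_, _, uu_10.symm⟩, ⟨_, _, uu_01.symm⟩]
  | one => exact ⟨_, _, uu_00.symm⟩
  | mul x y _ _ hx hy =>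
    obtain ⟨i, j, rfl⟩ := hx
    obtain ⟨i', j', rfl⟩ := hy
    exact ⟨_, _, h.uu_mul _ _ _ _⟩
  | inv x _ hx =>
    obtain ⟨i, j, rfl⟩ := hx
    exact ⟨_, _, h.uu_inv _ _⟩

theorem Two.mem_U' (h : D.Two a b θ) {u : G} (hu : u ∈ D.U a b) : ∃ i j : ZMod 4, u = uu a b i j :=
  h.mem_U.1 hu

theorem Two.comm (h : D.Two a b θ) {u u' : G} (hu : u ∈ D.U a b) (hu' : u' ∈ D.U a b) : u * u' = u' * u := by
  obtain ⟨i, j, rfl⟩ := h.mem_U' hu
  obtain ⟨i', j', rfl⟩ := h.mem_U' hu'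
  rw [h.uu_mul, h.uu_mul, add_comm i, add_comm j]
theorem Two.E_le (h : D.Two a b θ) : D.E ≤ D.U a b := closure_mono (by
  rintro x (rfl | rfl) <;> simp)

theorem Two.uu_E (h : D.Two a b θ) {i j : ZMod 4} : uu a b i j ∈ D.E ↔ i + i = 0 ∧ j + j = 0 := by
  rw [D.mem_E, ← uu_00 (a := a) (b := b), ← h.uu_22, ← h.uu_20, ← h.uu_02]
  constructor
  · rintro (e | e | e | e) <;> obtain ⟨rfl, rfl⟩ := h.uu_inj e <;> decide
  · intro q
    rcases (by revert i j; decide : (i = 0 ∧ j = 0) ∨ (i = 2 ∧ j = 0) ∨ (i = 0 ∧ j = 2) ∨ (i = 2 ∧ j = 2))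
      with ⟨rfl, rfl⟩ | ⟨rfl, rfl⟩ | ⟨rfl, rfl⟩ | ⟨rfl, rfl⟩ <;> simp

theorem Two.sq_mem (h : D.Two a b θ) {u : G} (hu : u ∈ D.U a b) : u * u ∈ D.E := by
  obtain ⟨i, j, rfl⟩ := h.mem_U' hu
  rw [h.uu_mul, h.uu_E]
  clear hu; revert i j; decide
theorem Two.mem_E (h : D.Two a b θ) {u : G} (hu : u ∈ D.U a b) (h2 : u * u = 1) : u ∈ D.E := by
  obtain ⟨i, j, rfl⟩ := h.mem_U' hu
  rw [h.uu_mul] at h2
  exact h.uu_E.2 (h.uu_one h2)
theorem Two.root (h : D.Two a b θ) {v : G} (hv : v ∈ D.E) : ∃ u ∈ D.U a b, u * u = v := by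
  rcases D.mem_E.1 hv with rfl | rfl | rfl | rfl
  · exact ⟨1, one_mem _, one_mul 1⟩
  · exact ⟨a, a_U, h.a2⟩
  · exact ⟨b, b_U, h.b2⟩
  · exact ⟨_, uu_U 1 1, (h.uu_mul _ _ _ _).trans h.uu_22⟩
theorem Two.card_U (h : D.Two a b θ) : Nat.card (D.U a b) = 16 := by
  rw [← Nat.card_eq_of_bijective (fun p : ZMod 4 × ZMod 4 => (⟨uu a b p.1 p.2, uu_U _ _⟩ : D.U a b))
    ⟨fun p q e => Prod.ext (h.uu_inj (congrArg Subtype.val e)).1 (h.uu_inj (congrArg Subtype.val e)).2,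
      fun u => by
        obtain ⟨i, j, e⟩ := h.mem_U' u.2
        exact ⟨(i, j), Subtype.ext e.symm⟩⟩]
  simp

theorem Two.uu_ab (h : D.Two a b θ) : (a * b)⁻¹ = uu a b (-1) (-1) := by
  have := h.uu_mul 1 0 0 1
  rw [uu_10, uu_01] at this
  rw [this, h.uu_inv]; rfl

theorem Two.t_uu (h : D.Two a b θ) (i j : ZMod 4) : D.t * uu a b i j * D.t⁻¹ = uu a b (-i) (-j) := by
  have k : ∀ {c v : G}, c * D.t * c⁻¹ = D.t * v → c * c = v → v * v = 1 → D.t * c * D.t⁻¹ = c⁻¹ := by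
    intro c v e1 e2 e3
    rw [inv_eq D.tt]
    calc D.t * c * D.t = D.t * (c * D.t * c⁻¹) * c := by group
      _ = v * v * c⁻¹ := by rw [e1, ← mul_assoc, D.tt, one_mul, ← e2]; group
      _ = _ := by rw [e3, one_mul]
  rw [h.uu_conj (p := -1) (q := -0) (r := -0) (s := -1)
    (by rw [← h.uu_inv, uu_10]; exact k h.at' h.a2 D.zz)
    (by rw [← h.uu_inv, uu_01]; exact k (h.hb ▸ h.toTr.bt) h.b2 D.ee)]
  congr 1 <;> ring
theorem Two.f_uu (h : D.Two a b θ) (i j : ZMod 4) : D.f * uu a b i j * D.f⁻¹ = uu a b (i - j) (-j) := by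
  rw [h.uu_conj (p := 1) (q := 0) (r := -1) (s := -1) (by rw [uu_10, ← h.af, mul_inv_cancel_right])
    (by rw [← h.uu_ab, inv_eq D.ff, h.hb]; exact h.toTr.fb)]
  congr 1 <;> ring
theorem Two.θ_uu (h : D.Two a b θ) (i j : ZMod 4) : θ * uu a b i j * θ⁻¹ = uu a b (-j) (i - j) := by
  rw [h.uu_conj (p := 0) (q := 1) (r := -1) (s := -1) (by rw [uu_01, h.hb])
    (by rw [← h.uu_ab, h.hb]; exact h.toTr.θb)]
  congr 1 <;> ring

theorem Two.t_U (h : D.Two a b θ) {u : G} (hu : u ∈ D.U a b) : D.t * u * D.t = u⁻¹ := by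
  obtain ⟨i, j, rfl⟩ := h.mem_U' hu
  rw [h.uu_inv, ← h.t_uu, inv_eq D.tt]
theorem Two.τ_U (h : D.Two a b θ) {u : G} (hu : u ∈ D.U a b) : D.τ * u = u * D.τ :=
  (mem_centralizer_singleton_iff.1 (h.U_le (K := centralizer {D.τ}) (mem_centralizer_singleton_iff.2 h.aτ)
    (mem_centralizer_singleton_iff.2 (h.hb ▸ h.toTr.bτ)) hu)).symm
theorem Two.f_U (h : D.Two a b θ) {u : G} (hu : u ∈ D.U a b) : D.f * u * D.f ∈ D.U a b := by
  obtain ⟨i, j, rfl⟩ := h.mem_U' hu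
  have := h.f_uu i j
  rw [inv_eq D.ff] at this
  exact this ▸ uu_U _ _
theorem Two.θ_U (h : D.Two a b θ) {u : G} (hu : u ∈ D.U a b) : θ * u * θ⁻¹ ∈ D.U a b := by
  obtain ⟨i, j, rfl⟩ := h.mem_U' hu
  exact h.θ_uu i j ▸ uu_U _ _
theorem Two.gen (h : D.Two a b θ) {u u' : G} (hu : u ∈ D.U a b) (hu' : u' ∈ D.U a b) (h1 : u * u ≠ 1)
    (h1' : u' * u' ≠ 1) (hne : u * u ≠ u' * u') : D.U a b ≤ closure {u, u'} := by
  obtain ⟨i, j, rfl⟩ := h.mem_U' hu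
  obtain ⟨i', j', rfl⟩ := h.mem_U' hu'
  rw [h.uu_mul] at h1 h1' hne
  rw [h.uu_mul] at hne
  have k : ∀ m n : ZMod 4, uu a b (m * i + n * i') (m * j + n * j') ∈ closure {uu a b i j, uu a b i' j'} :=
    fun m n => by
      have := mul_mem (pow_mem (subset_closure (k := {uu a b i j, uu a b i' j'}) (Or.inl rfl)) m.val)
        (pow_mem (Subgroup.subset_closure (k := {uu a b i j, uu a b i' j'}) (Or.inr rfl)) n.val)
      rw [h.uu_pow, h.uu_pow, h.uu_mul] at this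
      simpa only [ZMod.natCast_val, ZMod.cast_id', id_eq] using this
  obtain ⟨⟨m, n, e1, e2⟩, m', n', e1', e2'⟩ : (∃ m n, m * i + n * i' = 1 ∧ m * j + n * j' = 0) ∧
      ∃ m n, m * i + n * i' = 0 ∧ m * j + n * j' = 1 := by
    have q1 : ¬ (i + i = 0 ∧ j + j = 0) := fun q => h1 (by rw [q.1, q.2, uu_00])
    have q2 : ¬ (i' + i' = 0 ∧ j' + j' = 0) := fun q => h1' (by rw [q.1, q.2, uu_00])
    have q3 : ¬ (i + i = i' + i' ∧ j + j = j' + j') := fun q => hne (by rw [q.1, q.2])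
    clear k h1 h1' hne hu hu'
    revert i j i' j'; decide +kernel
  refine h.U_le ?_ ?_
  · simpa only [e1, e2, uu_10] using k m n
  · simpa only [e1', e2', uu_01] using k m' n'

theorem B_eq : D.B a b 1 = (D.U a b ⊔ zpowers D.τ) ⊔ zpowers D.t := by
  refine le_antisymm ((closure_le _).2 ?_) (sup_le (sup_le (closure_mono ?_) ?_) ?_)
  · rintro x (rfl | rfl | rfl | rfl | rfl | rfl | rfl)
    · exact mem_sup_right (mem_zpowers _)
    · exact mem_sup_left (mem_sup_right (mem_zpowers _))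
    iterate 4 exact mem_sup_left (mem_sup_left (subset_closure (by simp)))
    exact one_mem _
  · rintro x (rfl | rfl | rfl | rfl) <;> simp
  all_goals exact zpowers_le.2 (subset_closure (by simp))

theorem Two.τ_nm (h : D.Two a b θ) : ∀ k ∈ D.U a b, D.τ * k * D.τ⁻¹ ∈ D.U a b := fun k hk => by
  rwa [h.τ_U hk, mul_inv_cancel_right]
theorem Two.mem_Uτ (h : D.Two a b θ) {g : G} :
    g ∈ D.U a b ⊔ zpowers D.τ ↔ g ∈ D.U a b ∨ D.τ * g ∈ D.U a b :=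
  mem_sup_two h.τ_nm (D.ττ ▸ one_mem _)
/-- an element commuting with `τ` and normalizing `U` normalizes `U ⟨τ⟩` -/
theorem Two.nm_Uτ (h : D.Two a b θ) {g : G} (h1 : g * D.τ = D.τ * g)
    (h2 : ∀ u ∈ D.U a b, g * u * g⁻¹ ∈ D.U a b) :
    ∀ k ∈ D.U a b ⊔ zpowers D.τ, g * k * g⁻¹ ∈ D.U a b ⊔ zpowers D.τ := fun k hk => by
  refine h.mem_Uτ.2 ((h.mem_Uτ.1 hk).imp (h2 k) fun q => ?_)
  have := h2 _ q
  rwa [← mul_assoc, h1, mul_assoc, mul_assoc, ← mul_assoc g] at this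
theorem Two.t_nm (h : D.Two a b θ) :
    ∀ k ∈ D.U a b ⊔ zpowers D.τ, D.t * k * D.t⁻¹ ∈ D.U a b ⊔ zpowers D.τ :=
  h.nm_Uτ D.c_tτ fun u hu => by rw [inv_eq D.tt, h.t_U hu]; exact inv_mem hu
theorem Two.mem_B' (h : D.Two a b θ) {g : G} :
    g ∈ D.B a b 1 ↔ g ∈ D.U a b ⊔ zpowers D.τ ∨ D.t * g ∈ D.U a b ⊔ zpowers D.τ := by
  rw [B_eq, mem_sup_two h.t_nm (D.tt ▸ one_mem _)]

theorem Two.mem_B (h : D.Two a b θ) {g : G} : g ∈ D.B a b 1 ↔
    g ∈ D.U a b ∨ D.τ * g ∈ D.U a b ∨ D.t * g ∈ D.U a b ∨ D.t * D.τ * g ∈ D.U a b := by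
  rw [h.mem_B', h.mem_Uτ, h.mem_Uτ, or_assoc, ← mul_assoc, D.c_tτ]
theorem Two.c_Uτ (h : D.Two a b θ) {g u : G} (hg : g ∈ D.U a b ⊔ zpowers D.τ) (hu : u ∈ D.U a b) :
    g * u * g⁻¹ = u := by
  rw [mem_centralizer_singleton_iff.1 ((sup_le (fun x hx => mem_centralizer_singleton_iff.2 (h.comm hx hu))
    (zpowers_le.2 (mem_centralizer_singleton_iff.2 (h.τ_U hu))) : _ ≤ centralizer {u}) hg),
    mul_inv_cancel_right]
theorem Two.t_not (h : D.Two a b θ) : D.t ∉ D.U a b ⊔ zpowers D.τ := fun q => by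
  have := h.c_Uτ q (uu_U 1 0)
  rw [h.t_uu] at this
  exact absurd (h.uu_inj this).1 (by decide)
theorem Two.not_U (h : D.Two a b θ) :
    D.t ∉ D.U a b ∧ D.t * D.τ ∉ D.U a b ∧ (D.τ ≠ 1 → D.τ ∉ D.U a b) :=
  ⟨fun q => h.t_not (mem_sup_left q), fun q => h.t_not (h.mem_Uτ.2 (Or.inr (D.c_tτ ▸ q))),
    fun q1 q => (D.τL q1).1 (Nrm.E_le_L D (h.mem_E q D.ττ))⟩
theorem Two.A_le (h : D.Two a b θ) : D.A ≤ D.B a b 1 := closure_mono (by
  rintro x (rfl | rfl | rfl | rfl) <;> simp)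
theorem U_le_B : D.U a b ≤ D.B a b 1 := by rw [B_eq]; exact le_sup_left.trans le_sup_left
theorem Two.card_B (h : D.Two a b θ) : Nat.card (D.B a b 1) = 4 * Nat.card D.A := by
  rw [B_eq, card_sup_two h.t_nm (D.tt ▸ one_mem _) h.t_not]
  rcases D.card_A with ⟨q, c⟩ | ⟨q, c⟩
  · rw [q, zpowers_one_eq_bot, sup_bot_eq, h.card_U, c]
  · rw [card_sup_two h.τ_nm (D.ττ ▸ one_mem _) (h.not_U.2.2 q), h.card_U, c]
theorem Two.B_cent (h : D.Two a b θ) {g v : G} (hg : g ∈ D.B a b 1) (hv : v ∈ D.A0) : g * v = v * g := by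
  refine mem_centralizer_singleton_iff.1 ((closure_le (centralizer {v})).2 ?_ hg)
  have hv' := D.A0_le_A hv
  rintro x (rfl | rfl | rfl | rfl | rfl | rfl | rfl) <;> refine mem_centralizer_singleton_iff.2 ?_
  exacts [D.A_comm (Nrm.t_A D) hv', D.A_comm (Nrm.τ_A D) hv', D.A_comm (Nrm.z_A D) hv',
    D.A_comm (Nrm.e_A D) hv', cA0 D h.aτ h.az h.ae hv,
    cA0 D (h.hb ▸ h.toTr.bτ) (h.hb ▸ h.toTr.bz) (h.hb ▸ h.toTr.be) hv, by rw [one_mul, mul_one]]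

theorem Two.nm_B (h : D.Two a b θ) {g : G} (h0 : g * D.t = D.t * g) (h1 : g * D.τ = D.τ * g)
    (h2 : ∀ u ∈ D.U a b, g * u * g⁻¹ ∈ D.U a b) : g ∈ normalizer (D.B a b 1 : Set G) :=
  mem_normalizer_of_forall fun k hk => by
    refine h.mem_B'.2 ((h.mem_B'.1 hk).imp (h.nm_Uτ h1 h2 k) fun q => ?_)
    have := h.nm_Uτ h1 h2 _ q
    rwa [← mul_assoc, h0, mul_assoc, mul_assoc, ← mul_assoc g] at this
theorem Two.f_nm (h : D.Two a b θ) : D.f ∈ normalizer (D.B a b 1 : Set G) :=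
  h.nm_B D.c_tf.symm D.c_τf.symm fun u hu => by rw [inv_eq D.ff]; exact h.f_U hu
theorem P1_eq : D.P1 a b 1 = D.B a b 1 ⊔ zpowers D.f := by
  rw [P1, B, Set.insert_eq, Subgroup.closure_union, sup_comm, zpowers_eq_closure]

theorem Two.mem_P1 (h : D.Two a b θ) {g : G} : g ∈ D.P1 a b 1 ↔ g ∈ D.B a b 1 ∨ D.f * g ∈ D.B a b 1 := by
  rw [P1_eq, mem_sup_two (fun _ => conj_mem_of_mem_normalizer h.f_nm) (by rw [D.ff]; exact one_mem _)]
theorem Two.two_B (h : D.Two a b θ) : IsPGroup 2 (D.B a b 1) := by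
  rw [B_eq]
  exact two_sup_two (two_sup_two (IsPGroup.of_card (n := 4) h.card_U) h.τ_nm (D.ττ ▸ one_mem _)) h.t_nm
    (D.tt ▸ one_mem _)
theorem Two.two_P1 (h : D.Two a b θ) : IsPGroup 2 (D.P1 a b 1) := by
  rw [P1_eq]
  exact two_sup_two h.two_B (fun _ => conj_mem_of_mem_normalizer h.f_nm) (by rw [D.ff]; exact one_mem _)
theorem Two.B_le_cE (h : D.Two a b θ) : D.B a b 1 ≤ centralizer (D.E : Set G) := fun _ hg =>
  mem_centralizer_iff.2 fun _ hv => (h.B_cent hg (D.E_le_A0 hv)).symm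
theorem Two.P1_norm (h : D.Two a b θ) :
    D.P1 a b 1 ≤ normalizer (D.E : Set G) ⊓ normalizer (D.B a b 1 : Set G) := by
  rw [P1_eq]
  exact sup_le (le_inf (h.B_le_cE.trans (ct_le_nm _)) le_normalizer) (zpowers_le.2
    ⟨(h.th.toTh0.clo (subset_closure (by simp))).2.2.1, h.f_nm⟩)
theorem Two.θ_norm (h : D.Two a b θ) : θ ∈ normalizer (D.E : Set G) ⊓ normalizer (D.B a b 1 : Set G) :=
  ⟨(h.th.toTh0.clo (subset_closure (by simp))).2.2.1, h.nm_B h.th.θt h.th.θτ fun _ => h.θ_U⟩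

theorem Two.inv_A0 (h : D.Two a b θ) {g : G} (hg : g ∈ D.U a b ⊔ zpowers D.τ) (g2 : g * g = 1) :
    g ∈ D.A0 := by
  rcases h.mem_Uτ.1 hg with q | q
  · exact D.E_le_A0 (h.mem_E q g2)
  · refine (mul_mem_cancel_left (Nrm.τ_A0 D)).1 (D.E_le_A0 (h.mem_E q ?_))
    calc D.τ * g * (D.τ * g) = D.τ * g * D.τ * g := by group
      _ = D.τ * D.τ * (g * g) := by rw [← h.τ_U q]; group
      _ = 1 := by rw [D.ττ, g2, one_mul]

theorem Two.act (h : D.Two a b θ) {g : G} (hg : g ∈ D.B a b 1) : g ∈ D.U a b ⊔ zpowers D.τ ∨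
    ∀ i j, g * uu a b i j * g⁻¹ = uu a b (-i) (-j) := (h.mem_B'.1 hg).imp_right fun q i j => by
  rw [← h.t_uu, ← h.c_Uτ q (uu_U i j), inv_eq D.tt]
  calc g * (D.t * g * uu a b i j * (D.t * g)⁻¹) * g⁻¹ = g * uu a b i j * g⁻¹ := by
        rw [h.c_Uτ q (uu_U i j)]
    _ = D.t * D.t * g * uu a b i j * g⁻¹ * (D.t * D.t)⁻¹ * (D.t * D.t) := by rw [D.tt]; group
    _ = _ := by rw [D.tt, ← D.tt]; group

/-- an element of `P₁` whose commutators with `U` lie in a group of order 2 -/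
theorem Two.small (h : D.Two a b θ) {g c : G} (hg : g ∈ D.P1 a b 1) (g2 : g * g = 1) (c2 : c * c = 1)
    (hc : ∀ u ∈ D.U a b, g * u * g⁻¹ = u ∨ g * u * g⁻¹ = u * c) : g ∈ D.A0 := by
  have k : ∀ {i j p q}, g * uu a b i j * g⁻¹ = uu a b p q → (p = i ∧ q = j) ∨ c = uu a b (p - i) (q - j) :=
    fun {i j p q} e => (hc _ (uu_U i j)).imp (fun r => h.uu_inj (e.symm.trans r)) fun r => by
      rw [eq_inv_mul_of_mul_eq (r.symm.trans e), h.uu_inv, h.uu_mul]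
      congr 1 <;> ring
  rcases h.mem_P1.1 hg with q | q
  · rcases h.act q with r | r
    · exact h.inv_A0 r g2
    · have e1 := (k (r 1 0)).resolve_left (by decide)
      have e2 := (k (r 0 1)).resolve_left (by decide)
      exact absurd (h.uu_inj (e1.symm.trans e2)) (by decide)
  · have k' : ∀ {p q}, D.f * g * uu a b 0 1 * (D.f * g)⁻¹ = uu a b p q →
        g * uu a b 0 1 * g⁻¹ = uu a b (p - q) (-q) := fun e => by
      rw [← h.f_uu, ← e, ← Nrm.cj2, ← mul_assoc D.f, D.ff, one_mul]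
    rcases h.act q with r | r
    · rw [(k (k' (h.c_Uτ r (uu_U 0 1)))).resolve_left (by decide), h.uu_mul] at c2
      exact absurd (h.uu_one c2) (by decide)
    · rw [(k (k' (r 0 1))).resolve_left (by decide), h.uu_mul] at c2
      exact absurd (h.uu_one c2) (by decide)

theorem Two.conj_sq (h : D.Two a b θ) {k u v : G} (hk : ∀ w ∈ D.U a b, k * w * k⁻¹ = w⁻¹)
    (hu : u ∈ D.U a b) (hv : v ∈ D.E) : IsConj (k * u) (k * (u * v)) := by
  obtain ⟨w, hw, rfl⟩ := h.root hv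
  refine isConj_iff.2 ⟨w⁻¹, ?_⟩
  rw [← hk w hw]
  calc k * w * k⁻¹ * (k * u) * (k * w * k⁻¹)⁻¹ = k * (w * u) * (k * w * k⁻¹)⁻¹ := by group
    _ = _ := by rw [hk w hw, h.comm hw hu]; group

theorem Two.t_inv (h : D.Two a b θ) : ∀ w ∈ D.U a b, D.t * w * D.t⁻¹ = w⁻¹ := fun _ hw => by
  rw [inv_eq D.tt, h.t_U hw]

/-- `t ^ G ∩ B = t U` -/
theorem Two.conj_tU (h : D.Two a b θ) {u : G} (hu : u ∈ D.U a b) : IsConj D.t (D.t * u) := by
  have st : ∀ {i j} (p q), IsConj D.t (D.t * uu a b i j) → p - i + (p - i) = 0 ∧ q - j + (q - j) = 0 →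
      IsConj D.t (D.t * uu a b p q) := fun {i j} p q c e => by
    have := h.conj_sq h.t_inv (uu_U i j) (h.uu_E.2 e)
    rw [h.uu_mul, add_sub_cancel, add_sub_cancel] at this
    exact c.trans this
  have th : ∀ {i j}, IsConj D.t (D.t * uu a b i j) → IsConj D.t (D.t * uu a b (-j) (i - j)) := fun c =>
    c.trans (isConj_iff.2 ⟨θ, by rw [← h.θ_uu, ← conj_mul, h.th.θt, mul_inv_cancel_right]⟩)
  have e1 : b * (D.t * D.f) * b⁻¹ = D.t * D.f * a := by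
    have q1 : b * D.t * b⁻¹ = D.t * D.e := h.hb ▸ h.toTr.bt
    have q2 := h.f_uu 0 1
    rw [uu_01, inv_eq D.ff] at q2
    calc b * (D.t * D.f) * b⁻¹ = b * D.t * b⁻¹ * (D.f * D.f) * b * D.f * b⁻¹ := by rw [D.ff]; group
      _ = D.t * (D.e * D.f * D.e) * (D.e⁻¹ * (D.f * b * D.f) * b⁻¹) := by rw [q1]; group
      _ = D.t * D.f * (D.z * (D.e⁻¹ * (D.f * b * D.f) * b⁻¹)) := by rw [D.efe]; group
      _ = _ := by
        rw [q2, ← h.uu_20, ← h.uu_02, show b⁻¹ = (uu a b 0 1)⁻¹ by rw [uu_01]]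
        simp only [h.uu_inv, h.uu_mul]
        exact congrArg _ uu_10
  have c1 : IsConj D.t (D.t * D.f * a) := (D.conj_t_mul (f_Dg D) D.ff).trans (isConj_iff.2 ⟨b, e1⟩)
  have k : ∀ w, D.x * w * D.x⁻¹ = a → IsConj D.t (D.t * (D.e * w)) := fun w e =>
    c1.trans (isConj_iff.2 ⟨D.x, by
      rw [← conj_mul, ← conj_mul, ← D.c_tx, mul_inv_cancel_right, D.xe, e, mul_assoc]⟩).symm
  have c2 : IsConj D.t (D.t * uu a b 1 0) := by
    rcases h.xa with e | e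
    · have := k (uu a b 1 0) (by rwa [uu_10])
      rw [← h.uu_02, h.uu_mul] at this
      exact st _ _ this (by decide)
    · have := k (uu a b 1 0 * D.z) (by
        rw [uu_10, ← conj_mul, e, ← D.c_zx, mul_inv_cancel_right, mul_assoc, D.zz, mul_one])
      rw [← h.uu_02, ← h.uu_20, h.uu_mul, h.uu_mul] at this
      exact st _ _ this (by decide)
  have c0 : IsConj D.t (D.t * uu a b 0 0) := by rw [uu_00, mul_one]
  obtain ⟨i, j, rfl⟩ := h.mem_U' hu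
  by_contra hn
  have n0 := fun e => hn (st i j c0 e)
  have n1 := fun e => hn (st i j c2 e)
  have n2 := fun e => hn (st i j (th c2) e)
  have n3 := fun e => hn (st i j (th (th c2)) e)
  clear hn hu
  revert i j; decide

theorem Two.mem_tU (h : D.Two a b θ) {s : G} (hB : s ∈ D.B a b 1) (hs : IsConj D.t s) : D.t * s ∈ D.U a b := by
  rcases h.mem_B'.1 hB with q | q
  · have q0 := h.inv_A0 q (D.conj_sq hs)
    exact (D.t_not_A0 ((mul_mem_cancel_right q0).1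
      (D.E_le_A0 (h.th.toTh0.mem_E h.sm (D.A0_le_A q0) hs)))).elim
  refine (h.mem_Uτ.1 q).elim id fun q => ?_
  rcases D.card_A with ⟨q1, -⟩ | ⟨-, c⟩
  · rwa [q1, one_mul] at q
  exfalso
  obtain ⟨u, hu, rfl⟩ : ∃ u ∈ D.U a b, s = D.t * D.τ * u :=
    ⟨_, q, by rw [mul_assoc, ← mul_assoc D.τ, D.ττ, one_mul, ← mul_assoc, D.tt, one_mul]⟩
  have c8 : Nat.card D.A0 = 8 := by have := D.card_A0; omega
  have mB : D.t * u ∈ D.B a b 1 := mul_mem (h.A_le (Nrm.t_A D)) (U_le_B hu)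
  have := (h.th.toTh0.q0 h.sm (h.conj_tU hu) (F := D.A0) (X := D.A0) (fun v hv => D.A_sq (D.A0_le_A hv))
    (by omega) (fun v hv => ?_) ((Nrm.two_A D).to_le D.A0_le_A) le_rfl (fun g hg => (h.B_cent mB hg).symm)
    fun g hg v hv => D.A_comm (D.A0_le_A hg) (D.A0_le_A hv)).1
  · omega
  rw [← h.B_cent mB hv, mul_assoc]
  rcases A0_cases D hv with r | r
  · exact h.conj_tU (mul_mem hu (h.E_le r))
  · have := hs.trans (h.conj_sq (k := D.t * D.τ) (fun w hw => by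
      rw [Nrm.cj2, h.τ_U hw, mul_inv_cancel_right, h.t_inv w hw]) hu r)
    rwa [mul_assoc, ← mul_assoc D.τ, h.τ_U hu, mul_assoc u, ← mul_assoc D.τ, D.ττ, one_mul] at this

/-- `N(B)` normalizes `U`, `A₀`, and `C(E) ∩ N(B)` acts trivially on `U / E` and `A₀ / E` -/
theorem Two.norm_U (h : D.Two a b θ) {g : G} (hg : g ∈ normalizer (D.B a b 1 : Set G)) :
    (∀ u ∈ D.U a b, g * u * g⁻¹ ∈ D.U a b) ∧ D.t * (g * D.t * g⁻¹) ∈ D.U a b := by
  have k : ∀ u ∈ D.U a b, D.t * (g * (D.t * u) * g⁻¹) ∈ D.U a b := fun u hu =>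
    h.mem_tU (conj_mem_of_mem_normalizer hg (mul_mem (h.A_le (Nrm.t_A D)) (U_le_B hu)))
      ((h.conj_tU hu).trans (isConj_iff.2 ⟨g, rfl⟩))
  have k1 := k 1 (one_mem _)
  rw [mul_one] at k1
  refine ⟨fun u hu => ?_, k1⟩
  rw [show g * u * g⁻¹ = (D.t * (g * D.t * g⁻¹))⁻¹ * (D.t * (g * (D.t * u) * g⁻¹)) by group]
  exact mul_mem (inv_mem k1) (k u hu)
theorem Two.norm_C (h : D.Two a b θ) {g : G} (hg : g ∈ normalizer (D.B a b 1 : Set G))
    (hc : g ∈ centralizer (D.E : Set G)) :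
    (∀ u ∈ D.U a b, g * u * g⁻¹ * u⁻¹ ∈ D.E) ∧ g * D.τ * g⁻¹ * D.τ ∈ D.E := by
  constructor
  · intro u hu
    have hw := (h.norm_U hg).1 u hu
    refine h.mem_E (mul_mem hw (inv_mem hu)) ?_
    calc g * u * g⁻¹ * u⁻¹ * (g * u * g⁻¹ * u⁻¹) = g * u * g⁻¹ * (u⁻¹ * (g * u * g⁻¹)) * u⁻¹ := by group
      _ = g * (u * u) * g⁻¹ * (u * u)⁻¹ := by rw [h.comm (inv_mem hu) hw]; group
      _ = 1 := by rw [← mem_centralizer_iff.1 hc _ (h.sq_mem hu)]; group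
  · have t2 : g * D.τ * g⁻¹ * (g * D.τ * g⁻¹) = 1 := by rw [conj_mul, D.ττ, mul_one, mul_inv_cancel]
    have := h.small (h.mem_P1.2 (Or.inl (conj_mem_of_mem_normalizer hg (h.A_le (Nrm.τ_A D))))) t2
      (one_mul 1) fun u hu => Or.inl (by
        have := h.τ_U ((h.norm_U (inv_mem hg)).1 u hu)
        calc g * D.τ * g⁻¹ * u * (g * D.τ * g⁻¹)⁻¹ = g * (D.τ * (g⁻¹ * u * g⁻¹⁻¹)) * D.τ⁻¹ * g⁻¹ := by group
          _ = u := by rw [this]; group)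
    rcases A0_cases D this with r | r
    · refine mul_mem r ?_
      rw [show D.τ = g⁻¹ * (g * D.τ * g⁻¹) * g by group]
      exact conj_mem_of_mem_normalizer' (ct_le_nm _ hc) r
    · have := inv_mem r
      rwa [mul_inv_rev, inv_eq t2, inv_eq D.ττ] at this

theorem Two.B_le_cm (h : D.Two a b θ) {u : G} (hu : u ∈ D.U a b) : D.B a b 1 ≤ cm D.E (D.t * u) := by
  have n := h.B_le_cE.trans (ct_le_nm _)
  rw [B_eq]
  refine sup_le (sup_le (fun w hw => ⟨n (U_le_B hw), ?_⟩) (zpowers_le.2 ⟨n (h.A_le (Nrm.τ_A D)), ?_⟩))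
    (zpowers_le.2 ⟨n (h.A_le (Nrm.t_A D)), ?_⟩)
  · rw [show w * (D.t * u) * w⁻¹ * (D.t * u)⁻¹ = w * (D.t * (u * w⁻¹ * u⁻¹) * D.t⁻¹) by group,
      h.comm hu (inv_mem hw), mul_inv_cancel_right, h.t_inv _ (inv_mem hw), inv_inv]
    exact h.sq_mem hw
  · rw [← mul_assoc, ← D.c_tτ, mul_assoc D.t, h.τ_U hu, ← mul_assoc, mul_inv_cancel_right, mul_inv_cancel]
    exact one_mem _
  · rw [show D.t * (D.t * u) * D.t⁻¹ * (D.t * u)⁻¹ = D.t * D.t * u * (D.t⁻¹ * u⁻¹ * D.t⁻¹) by group,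
      D.tt, one_mul, inv_eq D.tt, h.t_U (inv_mem hu), inv_inv]
    exact h.sq_mem hu

/-- `B` is the largest 2-subgroup of `C(E)` normalizing `⟨t u⟩ E` -/
theorem Two.max_B (h : D.Two a b θ) {u : G} (hu : u ∈ D.U a b) {Y : Subgroup G} (hY : IsPGroup 2 Y)
    (hB : D.B a b 1 ≤ Y) {g : G} (hg : g ∈ Y) (hc : g ∈ centralizer (D.E : Set G))
    (hs : g * (D.t * u) * g⁻¹ * (D.t * u)⁻¹ ∈ D.E) : g ∈ D.B a b 1 := by
  have l : D.B a b 1 ≤ Y ⊓ centralizer (D.E : Set G) ⊓ cm D.E (D.t * u) :=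
    le_inf (le_inf hB h.B_le_cE) (h.B_le_cm hu)
  have := (h.th.toTh0.qq (h.conj_tU hu) (fun v hv => D.A_sq (Nrm.E_le_A D hv)) D.card_E.ge
    (fun q => h.not_U.1 ((mul_mem_cancel_right hu).1 (h.E_le q)))
    (hY.to_le (inf_le_left.trans inf_le_left)) ((h.E_le.trans U_le_B).trans l)
    (l (mul_mem (h.A_le (Nrm.t_A D)) (U_le_B hu)))
    (fun g hg v hv => (mem_centralizer_iff.1 hg.1.2 v hv).symm) fun g hg => hg.2.2).2 h.sm
  rw [eq_of_le_of_card_ge l (h.card_B ▸ this)]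
  exact ⟨⟨hg, hc⟩, ct_le_nm _ hc, hs⟩

end Fr

end CfsgLib.L33
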