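import Mathlib
import Cfsg.Agent.Lib.L33.T1

/-! Involution centralizers with a 2-component of type `L₃(3)` (plans/L33.md, package T2). -/

set_option autoImplicit false
set_option linter.unusedSectionVars false

namespace CfsgLib.L33

open Subgroup CfsgLib.Tech

variable {G : Type*} [Group G] [Finite G]

namespace T2

/-- the square of `[t, g]` -/
def sg (t g : G) : G := t * (g * t * g⁻¹) * (t * (g * t * g⁻¹))

theorem sg_conj {t c : G} (h : c * t = t * c) (g : G) : sg t (c * g * c⁻¹) = c * sg t g * c⁻¹ := by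
  have e : t * (c * g * c⁻¹ * t * (c * g * c⁻¹)⁻¹) = c * (t * (g * t * g⁻¹)) * c⁻¹ := by
    calc _ = t * c * g * c⁻¹ * (t * c) * g⁻¹ * c⁻¹ := by group
      _ = _ := by rw [← h]; group
  rw [sg, e, conj_mul, sg]

theorem clo_inv {X : Set G} {k : G} (hc : ∀ x ∈ X, ∀ y ∈ X, x * y = y * x)
    (hi : ∀ x ∈ X, k * x * k⁻¹ = x⁻¹) :
    (∀ x ∈ closure X, ∀ y ∈ closure X, x * y = y * x) ∧ ∀ x ∈ closure X, k * x * k⁻¹ = x⁻¹ := by
  have c : ∀ x ∈ closure X, ∀ y ∈ closure X, x * y = y * x := fun x hx y hy =>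
    mem_centralizer_singleton_iff.1 ((closure_le (centralizer {y})).2 (fun x hx =>
      mem_centralizer_singleton_iff.2 (mem_centralizer_singleton_iff.1 ((closure_le (centralizer {x})).2
        (fun y hy => mem_centralizer_singleton_iff.2 (hc y hy x hx)) hy)).symm) hx)
  refine ⟨c, fun x hx => ?_⟩
  induction hx using closure_induction with
  | mem x hx => exact hi x hx
  | one => simp
  | mul x y hx hy ix iy => rw [← conj_mul, ix, iy, c x hx y hy, mul_inv_rev]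
  | inv x _ ix => rw [← conj_inv, ix]

variable {D : Fr G} {θ : G}

theorem th_mul (h : D.Th0 θ) {c : G} (h1 : c * D.t = D.t * c) (h2 : c * D.τ = D.τ * c)
    (h3 : c * D.z = D.z * c) (h4 : c * D.e = D.e * c) : D.Th0 (c * θ) :=
  ⟨Fr.Nrm.com_mul h1 h.θt, Fr.Nrm.com_mul h2 h.θτ, by rw [Fr.Nrm.cj2, h.θz, Fr.Nrm.fix h4],
    by rw [Fr.Nrm.cj2, h.θe, ← conj_mul, Fr.Nrm.fix h4, Fr.Nrm.fix h3]⟩

theorem E_cube (h : D.Th0 θ) {v : G} (hv : v ∈ D.E) : θ ^ 3 * v = v * θ ^ 3 := by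
  obtain ⟨c, d, rfl⟩ := D.mem_E'.1 hv
  refine Fr.Nrm.com ?_
  rw [pow_three', Fr.Nrm.cj2, Fr.Nrm.cj2, h.conj_u, h.conj_u, h.conj_u]
  congr 1 <;> clear hv <;> revert c d <;> decide

theorem E_fix (h : D.Th0 θ) {v : G} (hv : v ∈ D.E) (e : θ * v * θ⁻¹ = v) : v = 1 := by
  obtain ⟨c, d, rfl⟩ := D.mem_E'.1 hv
  rw [h.conj_u] at e
  obtain ⟨-, -, e1, e2⟩ := D.u_inj e
  obtain ⟨rfl, rfl⟩ : c = 0 ∧ d = 0 := by clear e hv; revert c d; decide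
  exact D.u_one

theorem E_prod (h : D.Th0 θ) {v : G} (hv : v ∈ D.E) :
    v * (θ * v * θ⁻¹) * (θ * (θ * v * θ⁻¹) * θ⁻¹) = 1 := by
  obtain ⟨c, d, rfl⟩ := D.mem_E'.1 hv
  rw [h.conj_u, h.conj_u, D.u_mul, D.u_mul, ← D.u_one]
  congr 1 <;> clear hv <;> revert c d <;> decide

theorem E_span (h : D.Th0 θ) {v w : G} (hv : v ∈ D.E) (h1 : v ≠ 1) (hw : w ∈ D.E) :
    w = 1 ∨ v * w = 1 ∨ θ * v * θ⁻¹ * w = 1 ∨ v * (θ * v * θ⁻¹) * w = 1 := by
  obtain ⟨c, d, rfl⟩ := D.mem_E'.1 hv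
  obtain ⟨c', d', rfl⟩ := D.mem_E'.1 hw
  simp only [h.conj_u, D.u_mul, add_zero]
  have q : ¬ (c = 0 ∧ d = 0) := fun q => h1 (by rw [q.1, q.2, D.u_one])
  rcases (by clear hv hw h1; revert c d c' d'; decide : (c' = 0 ∧ d' = 0) ∨ (c + c' = 0 ∧ d + d' = 0) ∨
    (d + c' = 0 ∧ c + d + d' = 0) ∨ (c + d + c' = 0 ∧ d + (c + d) + d' = 0)) with q | q | q | q <;>
    simp [q.1, q.2, D.u_one]

end T2

namespace Fr

open T1 T2

variable {D : Fr G} {a b θ : G}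

/-- `C(E) ∩ N(B)` -/
abbrev XB (D : Fr G) (a b : G) : Subgroup G := centralizer (D.E : Set G) ⊓ normalizer (D.B a b 1 : Set G)

theorem Two.sg_E (h : D.Two a b θ) {g : G} (hg : g ∈ D.XB a b) : sg D.t g ∈ D.E :=
  h.sq_mem (h.norm_U hg.2).2

theorem Two.sg_mul (h : D.Two a b θ) {g k : G} (hg : g ∈ D.XB a b) (hk : k ∈ D.XB a b) :
    sg D.t (g * k) = sg D.t g * sg D.t k := by
  have h1 := (h.norm_U hg.2).2
  have h2 := (h.norm_U hg.2).1 _ (h.norm_U hk.2).2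
  have e : D.t * (g * k * D.t * (g * k)⁻¹) = D.t * (g * D.t * g⁻¹) * (g * (D.t * (k * D.t * k⁻¹)) * g⁻¹) := by
    calc _ = D.t * g * (D.t * D.t) * k * D.t * k⁻¹ * g⁻¹ := by rw [D.tt]; group
      _ = _ := by group
  rw [sg, e, (Commute.symm (h.comm h1 h2)).mul_mul_mul_comm, conj_mul]
  exact congrArg _ (Nrm.fix (mem_centralizer_iff.1 hg.1 _ (h.sg_E hk)).symm)

theorem δ_eq (g : G) : g * D.t * g⁻¹ * D.t⁻¹ = (D.t * (g * D.t * g⁻¹))⁻¹ := by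
  rw [mul_inv_rev, conj_inv, inv_eq D.tt]

theorem Two.sg_B (h : D.Two a b θ) {g : G} (hg : g ∈ D.B a b 1) : sg D.t g = 1 := by
  have := (h.B_le_cm (one_mem _) hg).2
  rw [mul_one, δ_eq, inv_mem_iff] at this
  exact D.A_sq (Nrm.E_le_A D this)

theorem Two.B_of_sg (h : D.Two a b θ) {Y : Subgroup G} (hY : IsPGroup 2 Y) (hB : D.B a b 1 ≤ Y) {g : G}
    (hg : g ∈ Y) (hX : g ∈ D.XB a b) (e : sg D.t g = 1) : g ∈ D.B a b 1 :=
  h.max_B (one_mem _) hY hB hg hX.1 (by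
    rw [mul_one, δ_eq]; exact inv_mem (h.mem_E (h.norm_U hX.2).2 e))

theorem Two.exists_θ (h : D.Two a b θ) {B₁ : Subgroup G} (h1 : IsSylowIn 2 B₁ (D.XB a b))
    (hB : D.B a b 1 ≤ B₁) : ∃ θ', D.Th0 θ' ∧ θ' ∈ normalizer (B₁ : Set G) ∧
      θ' ∈ normalizer (D.B a b 1 : Set G) ∧ ∀ g ∈ B₁, θ' ^ 3 * g = g * θ' ^ 3 := by
  have s1 : sg D.t 1 = 1 := h.sg_B (one_mem _)
  let K : Subgroup G :=
    { carrier := {g | g ∈ D.XB a b ∧ sg D.t g = 1}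
      one_mem' := ⟨one_mem _, s1⟩
      mul_mem' := fun hg hk => ⟨mul_mem hg.1 hk.1, by rw [h.sg_mul hg.1 hk.1, hg.2, hk.2, one_mul]⟩
      inv_mem' := fun {g} hg => ⟨inv_mem hg.1, by
        rw [← mul_one (sg D.t g⁻¹), ← hg.2, ← h.sg_mul (inv_mem hg.1) hg.1, inv_mul_cancel, s1, hg.2]⟩ }
  obtain ⟨n, hn, nθ⟩ := h1.frattini (g := θ) (mem_normalizer_iff_cj.2 (by
    rw [cj_inf, cj_centralizer, cj_normalizer, mem_normalizer_iff_cj.1 h.θ_norm.1,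
      mem_normalizer_iff_cj.1 h.θ_norm.2]))
  obtain ⟨β, hβ, hk, e⟩ := syl_cover (C := K) h1 (fun _ hg => hg.1) (fun g hg c hc =>
    ⟨mul_mem (mul_mem hg hc.1) (inv_mem hg), by
      rw [h.sg_mul (mul_mem hg hc.1) (inv_mem hg), h.sg_mul hg hc.1, hc.2, mul_one,
        ← h.sg_mul hg (inv_mem hg), mul_inv_cancel, s1]⟩) (fun g hg => ⟨pow_mem hg 4, by
      have q : sg D.t (g * g) = 1 := by
        rw [h.sg_mul hg hg]; exact D.A_sq (Nrm.E_le_A D (h.sg_E hg))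
      rw [show g ^ 4 = g * g * (g * g) by simp only [pow_succ, pow_zero, one_mul, mul_assoc],
        h.sg_mul (mul_mem hg hg) (mul_mem hg hg), q, one_mul]⟩) hn
  obtain ⟨u, hu, eu⟩ := h.root (h.mem_E (h.norm_U hk.2).2 e)
  have uB := U_le_B hu
  have cX : u * (β⁻¹ * n) ∈ D.XB a b := mul_mem (h1.le (hB uB)) hk
  have ct : u * (β⁻¹ * n) * D.t = D.t * (u * (β⁻¹ * n)) := Nrm.com (by
    rw [Nrm.cj2, eq_inv_mul_of_mul_eq eu.symm, inv_eq D.tt]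
    calc u * (D.t * (u * u)) * u⁻¹ = u * (D.t * u * D.t⁻¹) * D.t := by group
      _ = D.t := by rw [h.t_inv u hu]; group)
  have n1 : u * (β⁻¹ * n) * θ ∈ normalizer (B₁ : Set G) := by
    rw [mul_assoc, mul_assoc]
    exact mul_mem (le_normalizer (hB uB)) (mul_mem (inv_mem (le_normalizer hβ)) nθ)
  generalize u * (β⁻¹ * n) = c at cX ct n1
  have cz := (mem_centralizer_iff.1 cX.1 _ (Nrm.z_E D)).symm
  have ce := (mem_centralizer_iff.1 cX.1 _ (Nrm.e_E D)).symm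
  have cA : c ∈ normalizer (D.A : Set G) := mem_normalizer_of_forall fun v hv => by
    have k : ∀ w ∈ D.A, c * w = w * c → c * v * c⁻¹ * w = w * (c * v * c⁻¹) := fun w hw e =>
      Nrm.com_mul (Nrm.com_mul e (D.A_comm hv hw)) (Nrm.com_inv e)
    exact D.mem_A_of h.two_B h.A_le (conj_mem_of_mem_normalizer cX.2 (h.A_le hv)) (k _ (Nrm.t_A D) ct)
      (k _ (Nrm.z_A D) cz) (k _ (Nrm.e_A D) ce)
  have t1 := th_mul h.th.toTh0 ct (D.cent_of_norm cA ct cz ce) cz ce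
  have n2 : c * θ ∈ normalizer (D.B a b 1 : Set G) := mul_mem cX.2 h.θ_norm.2
  generalize c * θ = θ₁ at t1 n1 n2
  obtain ⟨m, ho, hm⟩ := exists_odd_pow θ₁
  have t2 : D.Th0 (θ₁ ^ m) := by
    rw [← Nat.div_add_mod m 3, hm, pow_succ, pow_mul]
    exact th_mul t1 (Nrm.com_pow (Nrm.com_pow t1.θt 3) _) (Nrm.com_pow (Nrm.com_pow t1.θτ 3) _)
      (Nrm.com_pow (E_cube t1 (Nrm.z_E D)) _) (Nrm.com_pow (E_cube t1 (Nrm.e_E D)) _)
  replace n1 := pow_mem n1 m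
  replace n2 := pow_mem n2 m
  generalize θ₁ ^ m = θ' at t2 n1 n2 ho
  refine ⟨θ', t2, n1, n2, fun g hg => ?_⟩
  have o3 : Odd (orderOf (θ' ^ 3)) := ho.of_dvd_nat (orderOf_pow_dvd 3)
  have oX : θ' ^ 3 ∈ D.XB a b := ⟨mem_centralizer_iff.2 fun v hv => (E_cube t2 hv).symm, pow_mem n2 3⟩
  have ot := Nrm.com_pow t2.θt 3
  have oτ := Nrm.com_pow t2.θτ 3
  replace n1 := pow_mem n1 3
  generalize θ' ^ 3 = o at o3 oX ot oτ n1
  have k : ∀ w, (∃ k, (w⁻¹ * (o * w * o⁻¹)) ^ 2 ^ k = 1) →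
      o * (w⁻¹ * (o * w * o⁻¹)) = w⁻¹ * (o * w * o⁻¹) * o → o * w = w * o := fun w ⟨_, e1⟩ e2 =>
    Nrm.com (inv_mul_eq_one.1 (odd_cent o3 (mul_inv_cancel_left _ _).symm e2 e1)).symm
  have oB : D.B a b 1 ≤ centralizer {o} := by
    rw [B_eq]
    refine sup_le (sup_le (fun w hw => ?_) (zpowers_le.2 ?_)) (zpowers_le.2 ?_) <;>
      refine mem_centralizer_singleton_iff.2 (Eq.symm ?_)
    · have := (h.norm_C oX.2 oX.1).1 w hw
      rw [h.comm ((h.norm_U oX.2).1 w hw) (inv_mem hw)] at this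
      exact k w ⟨1, by rw [pow_one, sq]; exact D.A_sq (Nrm.E_le_A D this)⟩
        (mem_centralizer_iff.1 oX.1 _ this).symm
    exacts [oτ, ot]
  have m1 : g⁻¹ * (o * g * o⁻¹) ∈ B₁ := mul_mem (inv_mem hg) (conj_mem_of_mem_normalizer n1 hg)
  refine k g (isPGroup_iff_mem.1 h1.pgroup _ m1) (mem_centralizer_singleton_iff.1
    (oB (h.B_of_sg h1.pgroup hB m1 (h1.le m1) ?_))).symm
  have gX := h1.le hg
  rw [h.sg_mul (inv_mem gX) (h1.le (conj_mem_of_mem_normalizer n1 hg)), sg_conj ot,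
    Nrm.fix (mem_centralizer_iff.1 oX.1 _ (h.sg_E gX)).symm, ← h.sg_mul (inv_mem gX) gX, inv_mul_cancel, s1]

theorem Two.τ_E (h : D.Two a b θ) {g : G} (hg : g ∈ D.XB a b) : D.τ * (g * D.τ * g⁻¹) ∈ D.E := by
  have := inv_mem (h.norm_C hg.2 hg.1).2
  rwa [mul_inv_rev, conj_inv, inv_eq D.ττ] at this

theorem Two.nm_Uτ' (h : D.Two a b θ) {g : G} (hg : g ∈ D.XB a b) :
    ∀ k ∈ D.U a b ⊔ zpowers D.τ, g * k * g⁻¹ ∈ D.U a b ⊔ zpowers D.τ := fun k hk => by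
  refine h.mem_Uτ.2 ((h.mem_Uτ.1 hk).imp ((h.norm_U hg.2).1 k) fun q => ?_)
  rw [show D.τ * (g * k * g⁻¹) = D.τ * (g * D.τ * g⁻¹) * (g * ((D.τ * D.τ)⁻¹ * (D.τ * k)) * g⁻¹) by group,
    D.ττ, inv_one, one_mul]
  exact mul_mem (h.E_le (h.τ_E hg)) ((h.norm_U hg.2).1 _ q)

theorem Two.k_eq {g : G} : D.t * D.τ * (g * (D.t * D.τ) * g⁻¹) =
    D.τ * (D.t * (g * D.t * g⁻¹)) * (g * D.τ * g⁻¹) := by
  rw [← conj_mul, D.c_tτ]; group

/-- the last case: `B₁` is generalized dihedral -/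
theorem Two.dih (h : D.Two a b θ) {B₁ Z : Subgroup G} (h2 : IsPGroup 2 B₁) (hB : D.B a b 1 ≤ B₁)
    (hf : ∀ g ∈ B₁, D.f * g * D.f ∈ B₁) (c : ∀ x ∈ Z, ∀ y ∈ Z, x * y = y * x)
    (i : ∀ x ∈ Z, D.t * x * D.t⁻¹ = x⁻¹) (hτ : D.τ ∈ Z) (hZ : ∀ g ∈ B₁, g ∈ Z ∨ D.t * g ∈ Z) {u : G}
    (hu : u ∈ B₁) (e4 : u ^ 4 = D.e ∨ u ^ 4 = D.e * D.z) : False := by
  have fi := inv_eq D.ff
  have k : ∀ g ∈ B₁, g ^ 4 ≠ 1 → g ∈ Z := fun g hg g4 => (hZ g hg).resolve_right fun q => g4 (by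
    have := i _ q
    rw [← mul_assoc, D.tt, one_mul, mul_inv_rev, mul_left_inj] at this
    rw [show g ^ 4 = g * g * (g * g) by simp only [pow_succ, pow_zero, one_mul, mul_assoc],
      mul_eq_one_iff_eq_inv.2 this, one_mul])
  have u4 : u ^ 4 ≠ 1 := by
    rcases e4 with e | e <;> rw [e]
    exacts [Nrm.e1 D, Nrm.ez1 D]
  have uZ := k u hu u4
  have hu' : D.f * u * D.f⁻¹ ∈ B₁ := by rw [fi]; exact hf u hu
  have fZ := k _ hu' (by rw [conj_pow]; exact Nrm.conj_ne_one u4)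
  have cm : Commute u (D.f * u * D.f⁻¹)⁻¹ := c _ uZ _ (inv_mem fZ)
  have r4 : (u * (D.f * u * D.f⁻¹)⁻¹) ^ 4 = D.z := by
    rw [cm.mul_pow, inv_pow, conj_pow]
    rcases e4 with e | e <;> rw [e]
    · rw [Nrm.f_e, mul_inv_rev, inv_eq D.zz, inv_eq D.ee, D.c_ze, ← mul_assoc, D.ee, one_mul]
    · rw [Nrm.f_ez, ← D.c_ze, mul_inv_cancel_right]
  have fr : D.f * (u * (D.f * u * D.f⁻¹)⁻¹) * D.f⁻¹ = (u * (D.f * u * D.f⁻¹)⁻¹)⁻¹ := by
    rw [mul_inv_rev u, inv_inv, ← conj_mul, conj_inv, ← Nrm.cj2, D.ff, one_mul, inv_one, mul_one]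
  have rZ : u * (D.f * u * D.f⁻¹)⁻¹ ∈ Z := mul_mem uZ (inv_mem fZ)
  have rB : u * (D.f * u * D.f⁻¹)⁻¹ ∈ B₁ := mul_mem hu (inv_mem hu')
  generalize u * (D.f * u * D.f⁻¹)⁻¹ = r at r4 fr rZ rB
  obtain ⟨g, gt, gS⟩ := D.exists_conj_S (D.conj_t_mul (f_Dg D) D.ff)
    (X := (B₁ ⊔ zpowers D.f) ⊓ centralizer {D.t * D.f}) ((two_sup_two h2 (fun g hg => by
      rw [fi]; exact hf g hg) (by rw [D.ff]; exact one_mem _)).to_le inf_le_left)
    fun v hv => mem_centralizer_singleton_iff.1 hv.2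
  have mr := gS r ⟨mem_sup_left rB, mem_centralizer_singleton_iff.2 (Nrm.com (by
    rw [Nrm.cj2, fr, ← conj_inv, i r rZ, inv_inv])).symm⟩
  have mτ := gS D.τ ⟨mem_sup_left (hB (h.A_le (Nrm.τ_A D))), mem_centralizer_singleton_iff.2
    (Nrm.com_mul D.c_tτ D.c_τf.symm).symm⟩
  have mf := gS D.f ⟨mem_sup_right (mem_zpowers _), mem_centralizer_singleton_iff.2
    (Nrm.com_mul D.c_tf rfl).symm⟩
  obtain ⟨gz, o1, o2⟩ := D.ord8 mr (by rw [conj_pow, r4]; exact Nrm.conj_ne_one D.z1)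
  rw [conj_pow, r4] at gz
  by_cases q : D.τ = 1
  · refine o2 q _ mf ?_
    rw [conj_inv, conj_mul, conj_mul, fr, conj_inv]
  have := o1 _ mτ (by rw [conj_mul, D.ττ, mul_one, mul_inv_cancel])
    (by rw [conj_mul, conj_mul, c _ hτ _ rZ])
  rw [D.mem_V] at this
  rcases this with e | e | e | e
  · exact Nrm.conj_ne_one q e
  · refine Nrm.conj_ne (b := D.t * D.f) (fun r => D.f_not_A ((mul_mem_cancel_left (Nrm.t_A D)).1
      (r ▸ Nrm.τ_A D))) (e.trans gt.symm)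
  · exact Nrm.conj_ne (a := D.τ) (b := D.z) (fun r => (D.τL q).1 (r ▸ Nrm.E_le_L D (Nrm.z_E D)))
      (e.trans gz.symm)
  · refine Nrm.conj_ne (g := g) (b := D.t * D.f * D.z) (fun r => D.f_not_A ((mul_mem_cancel_left (Nrm.t_A D)).1
      ((mul_mem_cancel_right (Nrm.z_A D)).1 (r ▸ Nrm.τ_A D)))) ?_
    rw [e, ← conj_mul, gt, gz]

/-- `t ^ G ∩ B₁ = t U` for a Sylow 2-subgroup `B₁` of `C(E) ∩ N(B)` normalized by `f` -/
theorem Two.mem_tU1 (h : D.Two a b θ) {B₁ : Subgroup G}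
    (h1 : IsSylowIn 2 B₁ (centralizer (D.E : Set G) ⊓ normalizer (D.B a b 1 : Set G))) (hB : D.B a b 1 ≤ B₁)
    (hf : ∀ g ∈ B₁, D.f * g * D.f ∈ B₁) {s : G} (hs1 : s ∈ B₁) (hs : IsConj D.t s) : s ∈ D.B a b 1 := by
  by_contra hs0
  obtain ⟨θ', th, n1, n2, cube⟩ := h.exists_θ h1 hB
  have X : B₁ ≤ D.XB a b := h1.le
  have nU : ∀ {g u}, g ∈ B₁ → u ∈ D.U a b → g * u * g⁻¹ ∈ D.U a b := fun hg hu =>
    (h.norm_U (X hg).2).1 _ hu
  have θ1 : ∀ {g}, g ∈ B₁ → θ' * g * θ'⁻¹ ∈ B₁ := conj_mem_of_mem_normalizer n1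
  have sm : ∀ {g k}, g ∈ B₁ → k ∈ B₁ → sg D.t (g * k) = sg D.t g * sg D.t k := fun hg hk =>
    h.sg_mul (X hg) (X hk)
  have sB : ∀ {g}, g ∈ B₁ → sg D.t g = 1 → g ∈ D.B a b 1 := fun hg => h.B_of_sg h1.pgroup hB hg (X hg)
  have vE := h.sg_E (X hs1)
  have s2 := D.conj_sq hs
  have m3 := mul_mem (mul_mem hs1 (θ1 hs1)) (θ1 (θ1 hs1))
  obtain ⟨k, hk, km⟩ : ∃ k, ((k = 1 ∨ k = D.τ) ∨ (k = D.t ∨ k = D.t * D.τ)) ∧
      k * (s * (θ' * s * θ'⁻¹) * (θ' * (θ' * s * θ'⁻¹) * θ'⁻¹)) ∈ D.U a b := by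
    rcases h.mem_B.1 (sB m3 (by
      rw [sm (mul_mem hs1 (θ1 hs1)) (θ1 (θ1 hs1)), sm hs1 (θ1 hs1), sg_conj th.θt, sg_conj th.θt,
        sg_conj th.θt]
      exact E_prod th vE)) with q | q | q | q
    exacts [⟨1, by simp, by rwa [one_mul]⟩, ⟨_, by simp, q⟩, ⟨_, by simp, q⟩, ⟨_, by simp, q⟩]
  have kA : k ∈ D.A := by
    rcases hk with (rfl | rfl) | rfl | rfl
    exacts [one_mem _, Nrm.τ_A D, Nrm.t_A D, mul_mem (Nrm.t_A D) (Nrm.τ_A D)]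
  have kθ : θ' * k = k * θ' := by
    rcases hk with (rfl | rfl) | rfl | rfl
    exacts [by simp, th.θτ, th.θt, (Nrm.com_mul th.θt.symm th.θτ.symm).symm]
  have kU : ∀ g ∈ B₁, k * (g * k * g⁻¹) ∈ D.U a b := fun g hg => by
    have q1 := (h.norm_U (X hg).2).2
    have q2 := h.E_le (h.τ_E (X hg))
    rcases hk with (rfl | rfl) | rfl | rfl
    exacts [by simpa using one_mem _, q2, q1, by
      rw [Two.k_eq, h.τ_U q1, mul_assoc]; exact mul_mem q1 q2]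
  have k2 := D.A_sq kA
  have k1 := hB (h.A_le kA)
  have sq : ∀ {g}, g ∈ B₁ → g * g = 1 → k * g * (k * g) ∈ D.U a b := fun {g} hg e => by
    have := kU g hg
    rwa [inv_eq e, mul_assoc g, ← mul_assoc] at this
  have p : k * s * (θ' * (k * s) * θ'⁻¹) * (θ' * (θ' * (k * s) * θ'⁻¹) * θ'⁻¹) ∈ D.U a b := by
    simp only [← conj_mul (a := k), Nrm.fix kθ]
    generalize θ' * (θ' * s * θ'⁻¹) * θ'⁻¹ = s₂ at km
    have q := kU _ (mul_mem hs1 (θ1 hs1))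
    generalize θ' * s * θ'⁻¹ = s₁ at km q
    rw [show k * s * (k * s₁) * (k * s₂) = k * (s * k * s⁻¹) * (k⁻¹ * (k * (s * s₁ * k * (s * s₁)⁻¹)) * k⁻¹⁻¹) *
      (k * k)⁻¹ * (k * (s * s₁ * s₂)) by group, k2, inv_one, mul_one]
    exact mul_mem (mul_mem (kU s hs1) (nU (inv_mem k1) q)) km
  have u2 := sq hs1 s2
  have ki : k * (k * s) * k⁻¹ = (k * s)⁻¹ := by rw [← mul_assoc, k2, one_mul, mul_inv_rev, inv_eq s2]
  have v1 : sg D.t (k * s) ≠ 1 := fun e => hs0 ((mul_mem_cancel_left (h.A_le kA)).1 (sB (mul_mem k1 hs1) e))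
  have es : s = k * (k * s) := by rw [← mul_assoc, k2, one_mul]
  have u1 := mul_mem k1 hs1
  generalize k * s = u at p u2 ki v1 es u1
  replace vE := h.sg_E (X u1)
  have θU := (h.norm_U n2).1
  have u2' : θ' * u * θ'⁻¹ * (θ' * u * θ'⁻¹) ∈ D.U a b := by rw [conj_mul]; exact θU _ u2
  have u2'' : θ' * (θ' * u * θ'⁻¹) * θ'⁻¹ * (θ' * (θ' * u * θ'⁻¹) * θ'⁻¹) ∈ D.U a b := by
    rw [conj_mul]; exact θU _ u2'
  have sw : sg D.t (θ' * u * θ'⁻¹) = θ' * sg D.t u * θ'⁻¹ := sg_conj th.θt u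
  have w1 := θ1 u1
  have w2 := θ1 w1
  have ki' : k * (θ' * u * θ'⁻¹) * k⁻¹ = (θ' * u * θ'⁻¹)⁻¹ := by
    rw [← Nrm.cj2, ← kθ, Nrm.cj2, ki, conj_inv]
  have vv : sg D.t u * (θ' * sg D.t u * θ'⁻¹) ≠ 1 := fun e => v1 (E_fix th vE (by
    rw [← inv_eq_of_mul_eq_one_right e, inv_eq (D.A_sq (Nrm.E_le_A D vE))]))
  obtain ⟨w, ew⟩ : ∃ w, w = θ' * u * θ'⁻¹ := ⟨_, rfl⟩
  rw [← ew] at p u2' u2'' sw w1 w2 ki'
  have c01 : u * w * u⁻¹ * w⁻¹ ∈ D.U a b := by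
    generalize θ' * w * θ'⁻¹ = y at p u2'' w2
    rw [show u * w * u⁻¹ * w⁻¹ = u * w * y * (y⁻¹ * (u * w * y) * y⁻¹⁻¹) * (y * y)⁻¹ *
      (w⁻¹ * (u * u)⁻¹ * w⁻¹⁻¹) * (w * w)⁻¹ by group]
    exact mul_mem (mul_mem (mul_mem (mul_mem p (nU (inv_mem w2) p)) (inv_mem u2''))
      (nU (inv_mem w1) (inv_mem u2))) (inv_mem u2')
  have m0 : ∀ {g}, g ∈ D.U a b ⊔ zpowers u ↔ g ∈ D.U a b ∨ u * g ∈ D.U a b :=
    mem_sup_two (fun _ => nU u1) u2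
  have mW : ∀ {g}, g ∈ D.U a b ⊔ zpowers u ⊔ zpowers w ↔
      g ∈ D.U a b ⊔ zpowers u ∨ w * g ∈ D.U a b ⊔ zpowers u :=
    mem_sup_two (fun g hg => m0.2 ((m0.1 hg).imp (nU w1) fun q => by
      rw [show u * (w * g * w⁻¹) = u * w * u⁻¹ * w⁻¹ * (w * (u * g) * w⁻¹) by group]
      exact mul_mem c01 (nU w1 q))) (mem_sup_left u2')
  have UW : D.U a b ≤ D.U a b ⊔ zpowers u ⊔ zpowers w := le_sup_left.trans le_sup_left
  have uW : u ∈ D.U a b ⊔ zpowers u ⊔ zpowers w := mem_sup_left (mem_sup_right (mem_zpowers _))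
  have wW : w ∈ D.U a b ⊔ zpowers u ⊔ zpowers w := mem_sup_right (mem_zpowers _)
  have WB : D.U a b ⊔ zpowers u ⊔ zpowers w ≤ B₁ :=
    sup_le (sup_le (U_le_B.trans hB) (zpowers_le.2 u1)) (zpowers_le.2 w1)
  have nB : u ∉ D.B a b 1 ∧ w ∉ D.B a b 1 ∧ u * w ∉ D.B a b 1 := ⟨fun q => v1 (h.sg_B q),
    fun q => Nrm.conj_ne_one v1 (sw ▸ h.sg_B q), fun q => vv (by rw [← sw, ← sm u1 w1, h.sg_B q])⟩
  have cuw : u * w = w * u := ew ▸ (fpf3 (U := D.U a b ⊔ zpowers u ⊔ zpowers w) (θ := θ')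
    (fun g hg => (sup_le (sup_le (fun x hx => UW (θU x hx)) (zpowers_le.2 (ew ▸ wW))) (zpowers_le.2
      ((mul_mem_cancel_left (mul_mem uW wW)).1 (UW p))) :
        _ ≤ comap (MulAut.conj θ').toMonoidHom (D.U a b ⊔ zpowers u ⊔ zpowers w)) hg)
    (fun g hg => cube g (WB hg)) (fun g hg e => by
      have gB := sB (WB hg) (E_fix th (h.sg_E (X (WB hg))) (by rw [← sg_conj th.θt, Nrm.fix e]))
      have gU : g ∈ D.U a b := by
        rcases mW.1 hg with q | q <;> rcases m0.1 q with q | q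
        · exact q
        · exact (nB.1 ((mul_mem_cancel_right gB).1 (U_le_B q))).elim
        · exact (nB.2.1 ((mul_mem_cancel_right gB).1 (U_le_B q))).elim
        · exact (nB.2.2 ((mul_mem_cancel_right gB).1 (U_le_B (mul_assoc u w g ▸ q)))).elim
      exact E_fix th (h.mem_E gU (E_fix th (h.sq_mem gU) (by rw [← conj_mul, Nrm.fix e]))) (Nrm.fix e))
    uW).2
  have sX := X hs1
  have E2 : ∀ v ∈ D.E, v * v = 1 := fun v hv => D.A_sq (Nrm.E_le_A D hv)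
  rcases hk with hk | hk
  · have kE : ∀ g ∈ B₁, g * k * g⁻¹ * k⁻¹ ∈ D.E := fun g hg => by
      rcases hk with rfl | rfl
      exacts [by simpa using one_mem _, by rw [inv_eq D.ττ]; exact (h.norm_C (X hg).2 (X hg).1).2]
    have nE : ∀ {g}, g ∈ B₁ → g ∈ normalizer (D.E : Set G) := fun hg => ct_le_nm _ (X hg).1
    have cmE : ∀ {g}, g ∈ B₁ → g * u = u * g → g ∈ B₁ ⊓ cm D.E s := fun {g} hg e => ⟨hg, nE hg, by
      rw [es, ← conj_mul, Nrm.fix e, mul_inv_rev, mul_assoc, mul_inv_cancel_left]; exact kE g hg⟩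
    have l0 : D.U a b ⊔ zpowers D.τ ≤ B₁ ⊓ cm D.E s := by
      have τ1 := hB (h.A_le (Nrm.τ_A D))
      refine sup_le (fun x hx => ⟨hB (U_le_B hx), nE (hB (U_le_B hx)), ?_⟩) (zpowers_le.2 ⟨τ1, nE τ1, ?_⟩)
      · have := inv_mem ((h.norm_C sX.2 sX.1).1 x hx)
        rwa [show (s * x * s⁻¹ * x⁻¹)⁻¹ = x * s * x⁻¹ * s⁻¹ by group] at this
      · have := h.τ_E sX
        rwa [inv_eq D.ττ, mul_assoc, mul_assoc, ← mul_assoc s]
    have n0 := h.nm_Uτ' (X u1)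
    have UB : D.U a b ⊔ zpowers D.τ ≤ D.B a b 1 := by rw [B_eq]; exact le_sup_left
    have c1 := card_sup_two n0 (mem_sup_left u2) fun q => nB.1 (UB q)
    have c2 := two_mul_card_le (sup_le l0 (zpowers_le.2 (cmE u1 rfl))) (cmE w1 cuw.symm) fun q =>
      ((mem_sup_two n0 (mem_sup_left u2)).1 q).elim (fun q => nB.2.1 (UB q)) fun q => nB.2.2 (UB q)
    have c3 := card_sup_two h.t_nm (D.tt ▸ one_mem _) h.t_not
    rw [← B_eq, h.card_B] at c3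
    have c4 := (th.qq hs E2 D.card_E.ge (fun q => hs0 (U_le_B (h.E_le q))) (h1.pgroup.to_le inf_le_left)
      ((h.E_le.trans le_sup_left).trans l0) ⟨hs1, nE hs1, by simpa using one_mem _⟩
      (fun g hg v hv => (mem_centralizer_iff.1 (X hg.1).1 v hv).symm) fun g hg => hg.2.2).2 h.sm
    have : 0 < Nat.card D.A := Nat.card_pos
    omega
  have kinv : ∀ x ∈ D.U a b, k * x * k⁻¹ = x⁻¹ := fun x hx => by
    rcases hk with rfl | rfl
    exacts [h.t_inv x hx, by rw [Nrm.cj2, h.τ_U hx, mul_inv_cancel_right, h.t_inv x hx]]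
  have four : ∀ {g}, g ∈ B₁ → k * g * k⁻¹ = g⁻¹ → g * g * (g * g) = sg D.t g := fun {g} hg e => by
    have e1 : k * (g * k * g⁻¹) = (g * g)⁻¹ := by
      rw [mul_inv_rev, ← mul_assoc, ← mul_assoc, mul_left_inj, ← e, inv_eq k2]
    rw [← inv_eq (E2 _ (h.sg_E (X hg))), ← inv_eq_iff_eq_inv, mul_inv_rev, ← e1]
    rcases hk with rfl | rfl
    · rfl
    · have q1 := (h.norm_U (X hg).2).2
      have q2 := h.τ_E (X hg)
      rw [Two.k_eq, h.τ_U q1, mul_assoc _ D.τ, (Commute.symm (h.comm q1 (h.E_le q2))).mul_mul_mul_comm,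
        E2 _ q2, mul_one, sg]
  have f1 := four u1 ki
  have f2 := four w1 ki'
  have gen := h.gen u2 u2' (f1 ▸ v1) (by rw [f2, sw]; exact Nrm.conj_ne_one v1)
    (by rw [f1, f2, sw]; exact fun e => v1 (E_fix th vE e.symm))
  by_cases hv : D.τ * (u * D.τ * u⁻¹) = 1
  · have τu : D.τ * u = u * D.τ := by
      rw [← inv_eq D.ττ, inv_mul_eq_one, inv_eq D.ττ] at hv; exact (Nrm.com hv.symm).symm
    have τw : D.τ * w = w * D.τ := ew ▸ (Nrm.com_mul (Nrm.com_mul th.θτ τu.symm) (Nrm.com_inv th.θτ)).symm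
    have ti : ∀ {g}, D.τ * g = g * D.τ → k * g * k⁻¹ = g⁻¹ → D.t * g * D.t⁻¹ = g⁻¹ := fun e1 e2 => by
      rcases hk with rfl | rfl
      exacts [e2, by rwa [Nrm.cj2, Nrm.fix e1] at e2]
    obtain ⟨c, i⟩ := clo_inv (X := {u, w, D.τ}) (k := D.t) (by
      rintro _ (rfl | rfl | rfl) _ (rfl | rfl | rfl) <;> first | rfl | assumption | (symm; assumption)) (by
      rintro _ (rfl | rfl | rfl)
      exacts [ti τu ki, ti τw ki', by rw [Nrm.fix D.c_tτ, inv_eq D.ττ]])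
    have uZ : u ∈ closure {u, w, D.τ} := subset_closure (by simp)
    have wZ : w ∈ closure {u, w, D.τ} := subset_closure (by simp)
    have τZ : D.τ ∈ closure {u, w, D.τ} := subset_closure (by simp)
    have UZ : D.U a b ⊔ zpowers D.τ ≤ closure {u, w, D.τ} := sup_le (gen.trans ((closure_le _).2 (by
      rintro _ (rfl | rfl)
      exacts [mul_mem uZ uZ, mul_mem wZ wZ]))) (zpowers_le.2 τZ)
    have hZ : ∀ g ∈ B₁, g ∈ closure {u, w, D.τ} ∨ D.t * g ∈ closure {u, w, D.τ} := fun g hg => by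
      obtain ⟨y, y1, yZ, e⟩ : ∃ y ∈ B₁, y ∈ closure {u, w, D.τ} ∧ sg D.t y * sg D.t g = 1 := by
        rcases E_span th vE v1 (h.sg_E (X hg)) with e | e | e | e
        exacts [⟨1, one_mem _, one_mem _, by rw [e, h.sg_B (one_mem _), one_mul]⟩, ⟨u, u1, uZ, e⟩,
          ⟨w, w1, wZ, sw ▸ e⟩, ⟨_, mul_mem u1 w1, mul_mem uZ wZ, by rwa [sm u1 w1, sw]⟩]
      refine (h.mem_B'.1 (sB (mul_mem y1 hg) (by rwa [sm y1 hg]))).imp
        (fun q => (mul_mem_cancel_left yZ).1 (UZ q)) fun q => (mul_mem_cancel_left (inv_mem yZ)).1 ?_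
      rw [← i y yZ, mul_assoc, inv_mul_cancel_left, mul_assoc]
      exact UZ q
    have p4 : ∀ g : G, g ^ 4 = g * g * (g * g) := fun g => by
      simp only [pow_succ, pow_zero, one_mul, mul_assoc]
    rcases D.mem_E.1 vE with e | e | e | e
    · exact v1 e
    · exact h.dih h1.pgroup hB hf c i τZ hZ w1 (Or.inl (by rw [p4, f2, sw, e, th.θz]))
    · exact h.dih h1.pgroup hB hf c i τZ hZ u1 (Or.inl (by rw [p4, f1, e]))
    · exact h.dih h1.pgroup hB hf c i τZ hZ u1 (Or.inr (by rw [p4, f1, e]))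
  have cU : ∀ x ∈ D.U a b, x * s * x⁻¹ = x * x * s := fun x hx => by
    have := mem_centralizer_singleton_iff.1 ((gen.trans ((closure_le (centralizer {u})).2 (by
      rintro _ (rfl | rfl) <;> refine mem_centralizer_singleton_iff.2 ?_
      exacts [mul_assoc _ _ _, Nrm.com_mul cuw.symm cuw.symm]))) (inv_mem hx))
    rw [es]
    calc x * (k * u) * x⁻¹ = x * k * (u * x⁻¹) := by group
      _ = x * (k * x⁻¹ * k⁻¹) * (k * u) := by rw [← this]; group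
      _ = _ := by rw [kinv _ (inv_mem hx), inv_inv]
  have vE' := h.τ_E (X u1)
  obtain ⟨x, hx, ex⟩ := h.root vE'
  have := (th.q0 h.sm hs (F := D.E) (X := D.B a b 1 ⊓ centralizer {s}) E2 D.card_E.ge (fun v hv => by
      obtain ⟨y, hy, rfl⟩ := h.root hv
      exact hs.trans (isConj_iff.2 ⟨y, cU y hy⟩)) (h.two_B.to_le inf_le_left)
    (fun v hv => ⟨U_le_B (h.E_le hv), mem_centralizer_singleton_iff.2 (mem_centralizer_iff.1 sX.1 v hv)⟩)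
    (fun g hg => mem_centralizer_singleton_iff.1 hg.2) fun g hg v hv => h.B_cent hg.1 (D.E_le_A0 hv)).2.2
    (D.τ * x) ⟨mul_mem (h.A_le (Nrm.τ_A D)) (U_le_B hx), mem_centralizer_singleton_iff.2 (Nrm.com (by
      have c1 := D.A_comm kA (Nrm.τ_A D)
      have c2 := D.A_comm kA (Nrm.E_le_A D vE')
      have c3 := D.A_comm (Nrm.τ_A D) (Nrm.E_le_A D vE')
      rw [Nrm.cj2, cU x hx, ex, es, ← conj_mul, Nrm.fix c3, ← conj_mul, Nrm.fix c1.symm, ← mul_assoc, ← c2,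
        inv_eq D.ττ, mul_assoc k]
      congr 1
      calc D.τ * (u * D.τ * u⁻¹) * (D.τ * u * D.τ)
          = D.τ * (u * D.τ * u⁻¹) * (D.τ * (u * D.τ * u⁻¹)) * u := by group
        _ = u := by rw [E2 _ vE', one_mul]))⟩
  refine hv ?_
  rw [← ex, ← this, mul_assoc, ← mul_assoc x, ← h.τ_U hx, ← mul_assoc, ← mul_assoc, D.ττ, one_mul]

end Fr

end CfsgLib.L33
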