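import Mathlib
import Cfsg.Agent.Lib.L33.T2

/-! Involution centralizers with a 2-component of type `L₃(3)` (plans/L33.md, package T3). -/

set_option autoImplicit false
set_option linter.unusedSectionVars false

namespace CfsgLib.L33

open Subgroup CfsgLib.Tech

variable {G : Type*} [Group G] [Finite G]

namespace T3

variable {D : Fr G} {P : Subgroup G}

theorem cz (hP : IsPGroup 2 P) (hn : P ≤ normalizer (D.E : Set G)) (hE : D.E ≤ P) (hf : D.f ∈ P) {g : G}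
    (hg : g ∈ P) : g * D.z = D.z * g := by
  obtain ⟨v, hv, v2, c⟩ := exists_mem_center_of_normalized hP hE hn
    fun e => D.z1 (mem_bot.1 (e ▸ Fr.Nrm.z_E D))
  have cf := Fr.Nrm.fix (c _ hf)
  rcases D.mem_E.1 hv with rfl | rfl | rfl | rfl
  · exact (ne_one_of_orderOf_two v2 rfl).elim
  · exact c g hg
  · rw [Fr.Nrm.f_e, mul_eq_left] at cf
    exact (D.z1 cf).elim
  · rw [Fr.Nrm.f_ez, left_eq_mul] at cf
    exact (D.z1 cf).elim

theorem ce (hP : IsPGroup 2 P) (hn : P ≤ normalizer (D.E : Set G)) (hE : D.E ≤ P) (hf : D.f ∈ P) {g : G}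
    (hg : g ∈ P) : g ∈ centralizer (D.E : Set G) ∨ g * D.e * g⁻¹ = D.e * D.z := by
  have z := cz hP hn hE hf hg
  rcases D.mem_E.1 (conj_mem_of_mem_normalizer (hn hg) (Fr.Nrm.e_E D)) with e | e | e | e
  · exact (Fr.Nrm.conj_ne_one (Fr.Nrm.e1 D) e).elim
  · exact (Fr.Nrm.conj_ne (Fr.Nrm.ze D) ((Fr.Nrm.fix z).trans e.symm)).elim
  · exact Or.inl (mem_centralizer_iff.2 fun v hv => (Fr.Nrm.cent_E z (Fr.Nrm.com e) v hv).symm)
  · exact Or.inr e

theorem mul_ce (hP : IsPGroup 2 P) (hn : P ≤ normalizer (D.E : Set G)) (hE : D.E ≤ P) (hf : D.f ∈ P)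
    {g g' : G} (hg : g ∈ P) (hg' : g' ∈ P) (h : g ∉ centralizer (D.E : Set G))
    (h' : g' ∉ centralizer (D.E : Set G)) : g⁻¹ * g' ∈ centralizer (D.E : Set G) :=
  mem_centralizer_iff.2 fun v hv => (Fr.Nrm.cent_E (cz hP hn hE hf (mul_mem (inv_mem hg) hg'))
    (Fr.Nrm.com_of_eq (((ce hP hn hE hf hg).resolve_left h).trans
      ((ce hP hn hE hf hg').resolve_left h').symm)) v hv).symm

theorem conj_E (hP : IsPGroup 2 P) (hn : P ≤ normalizer (D.E : Set G)) (hE : D.E ≤ P) (hf : D.f ∈ P)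
    {g v : G} (hg : g ∈ P) (hv : v ∈ D.E) : g * v * g⁻¹ = v ∨ g * v * g⁻¹ = v * D.z := by
  have z := Fr.Nrm.fix (cz hP hn hE hf hg)
  rcases ce hP hn hE hf hg with c | c
  · exact Or.inl (Fr.Nrm.fix (mem_centralizer_iff.1 c v hv).symm)
  rcases D.mem_E.1 hv with rfl | rfl | rfl | rfl
  exacts [Or.inl (by simp), Or.inl z, Or.inr c, Or.inr (by rw [← conj_mul, c, z])]

end T3

namespace Fr

open T1 T2

variable {D : Fr G} {a b θ : G}

theorem B_le_P1 : D.B a b 1 ≤ D.P1 a b 1 := by rw [P1_eq]; exact le_sup_left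
theorem f_P1 : D.f ∈ D.P1 a b 1 := subset_closure (by simp)

theorem Two.exists_P (h : D.Two a b θ) : ∃ P : Subgroup G, IsSylowIn 2 P (normalizer (D.E : Set G)) ∧
    D.P1 a b 1 ≤ P ∧ Nat.card P ≤ 2 ^ 9 ∧
    ∀ s ∈ P, s ∈ centralizer (D.E : Set G) → IsConj D.t s → D.t * s ∈ D.U a b := by
  obtain ⟨P₂, s₂, l₂⟩ := exists_isSylowIn_ge h.two_P1 h.P1_norm
  obtain ⟨P, sP, l⟩ := exists_isSylowIn_ge s₂.pgroup (s₂.le.trans inf_le_left)
  have nC : normalizer (D.E : Set G) ≤ normalizer (centralizer (D.E : Set G) : Set G) := fun g hg =>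
    mem_normalizer_iff_cj.2 (by rw [cj_centralizer, mem_normalizer_iff_cj.1 hg])
  have s₁ := s₂.inf_of_le_normalizer (inf_le_left.trans nC)
  rw [inf_right_comm, inf_eq_right.2 (ct_le_nm D.E)] at s₁
  have hB : D.B a b 1 ≤ P₂ ⊓ centralizer (D.E : Set G) := le_inf (B_le_P1.trans l₂) h.B_le_cE
  have hf : ∀ g ∈ P₂ ⊓ centralizer (D.E : Set G), D.f * g * D.f ∈ P₂ ⊓ centralizer (D.E : Set G) :=
    fun g hg => ⟨mul_mem (mul_mem (l₂ f_P1) hg.1) (l₂ f_P1), by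
      have := conj_mem_of_mem_normalizer (nC (h.P1_norm f_P1).1) hg.2
      rwa [inv_eq D.ff] at this⟩
  have tB := h.A_le (Nrm.t_A D)
  have BP : D.B a b 1 ≤ P := hB.trans (inf_le_left.trans l)
  have eY : P₂ ⊓ centralizer (D.E : Set G) = P ⊓ centralizer (D.E : Set G) := by
    by_contra hn
    obtain ⟨u, hu, hu', n⟩ := exists_mem_normalizer_of_lt (sP.pgroup.to_le inf_le_left)
      (lt_of_le_of_ne (inf_le_inf_right _ l) hn)
    have c : IsConj D.t (u * D.t * u⁻¹) := isConj_iff.2 ⟨u, rfl⟩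
    have m := h.mem_tU (h.mem_tU1 s₁ hB hf (conj_mem_of_mem_normalizer n (hB tB)) c) c
    have nB : u ∈ normalizer (D.B a b 1 : Set G) := mem_normalizer_of_forall fun β hβ =>
      h.max_B m sP.pgroup BP (mul_mem (mul_mem hu.1 (BP hβ)) (P.inv_mem hu.1))
        (conj_mem_of_mem_normalizer (nC (sP.le hu.1)) (h.B_le_cE hβ)) (by
          have := conj_mem_of_mem_normalizer (sP.le hu.1) (h.B_le_cm (one_mem _) hβ).2
          rw [← mul_assoc D.t, D.tt, one_mul]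
          rwa [show u * (β * (D.t * 1) * β⁻¹ * (D.t * 1)⁻¹) * u⁻¹ =
            u * β * u⁻¹ * (u * D.t * u⁻¹) * (u * β * u⁻¹)⁻¹ * (u * D.t * u⁻¹)⁻¹ by group] at this)
    refine hu' ⟨?_, hu.2⟩
    rw [← s₂.eq_of_le (Q := P ⊓ normalizer (D.B a b 1 : Set G)) (sP.pgroup.to_le inf_le_left)
      (le_inf l (s₂.le.trans inf_le_right)) (inf_le_inf_right _ sP.le)]
    exact ⟨hu.1, nB⟩
  refine ⟨P, sP, l₂.trans l, ?_, fun s hs hc ct =>
    h.mem_tU (h.mem_tU1 s₁ hB hf (eY ▸ ⟨hs, hc⟩) ct) ct⟩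
  have c1 := card_le_two_mul (Y := P) (K := centralizer (D.E : Set G)) fun g hg g' hg' =>
    T3.mul_ce sP.pgroup sP.le ((h.E_le.trans U_le_B).trans BP) (l (l₂ f_P1)) hg hg'
  have c2 := card_le_mul (Y := P₂ ⊓ centralizer (D.E : Set G)) (F := D.U a b) (s := D.t) fun g hg => by
    rw [δ_eq]; exact inv_mem (h.norm_U (s₁.le hg).2).2
  have c3 : Nat.card ↥(P₂ ⊓ centralizer (D.E : Set G) ⊓ centralizer {D.t}) ≤ Nat.card D.A :=
    card_le_of_le fun g hg => D.mem_A_of s₁.pgroup (h.A_le.trans hB) hg.1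
      (mem_centralizer_singleton_iff.1 hg.2) (mem_centralizer_iff.1 hg.1.2 _ (Nrm.z_E D)).symm
      (mem_centralizer_iff.1 hg.1.2 _ (Nrm.e_E D)).symm
  rw [h.card_U, eY] at c2
  rw [eY] at c3
  rcases D.card_A with ⟨-, c⟩ | ⟨-, c⟩ <;> omega

theorem Two.bd (h : D.Two a b θ) : Bd G := by
  obtain ⟨P, sP, l, c, hP⟩ := h.exists_P
  refine Or.inl (not_dvd_of_syl (syl_top_of_norm sP fun g hg => ?_) (c.trans (by norm_num)))
  have BP := B_le_P1.trans l
  have AP := h.A_le.trans BP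
  have EP := (Nrm.E_le_A D).trans AP
  have fP := l f_P1
  have k : ∀ p ∈ P, ∀ v ∈ D.E, p * (g * v * g⁻¹) * p⁻¹ = g * v * g⁻¹ ∨
      p * (g * v * g⁻¹) * p⁻¹ = g * v * g⁻¹ * (g * D.z * g⁻¹) := fun p hp v hv => by
    rw [show p * (g * v * g⁻¹) * p⁻¹ = g * (g⁻¹ * p * g * v * (g⁻¹ * p * g)⁻¹) * g⁻¹ by group, conj_mul]
    exact (T3.conj_E sP.pgroup sP.le EP fP (conj_mem_of_mem_normalizer' hg hp) hv).imp
      (fun e => by rw [e]) fun e => by rw [e]
  have cz : ∀ p ∈ P, g * D.z * g⁻¹ * p = p * (g * D.z * g⁻¹) := fun p hp => by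
    have := T3.cz sP.pgroup sP.le EP fP (conj_mem_of_mem_normalizer' hg hp)
    calc g * D.z * g⁻¹ * p = g * (D.z * (g⁻¹ * p * g)) * g⁻¹ := by group
      _ = _ := by rw [← this]; group
  have zA := D.mem_A_of sP.pgroup AP (conj_mem_of_mem_normalizer hg (AP (Nrm.z_A D)))
    (cz _ (AP (Nrm.t_A D))) (cz _ (AP (Nrm.z_A D))) (cz _ (AP (Nrm.e_A D)))
  have A0 : ∀ v ∈ D.E, g * v * g⁻¹ ∈ D.A0 := fun v hv => by
    have wP := conj_mem_of_mem_normalizer hg (EP hv)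
    have w2 : g * v * g⁻¹ * (g * v * g⁻¹) = 1 := by
      rw [conj_mul, D.A_sq (Nrm.E_le_A D hv), mul_one, mul_inv_cancel]
    have k' := fun p hp => k p hp v hv
    generalize g * v * g⁻¹ = w at wP w2 k'
    generalize g * D.z * g⁻¹ = y at k' cz zA
    have k2 : ∀ p ∈ P, w * p * w⁻¹ = p ∨ w * p * w⁻¹ = p * y := fun p hp =>
      (k' p⁻¹ (inv_mem hp)).imp (fun e => by
        rw [show w * p * w⁻¹ = p * (p⁻¹ * w * p⁻¹⁻¹) * w⁻¹ by group, e, mul_inv_cancel_right]) fun e => by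
        rw [show w * p * w⁻¹ = p * (p⁻¹ * w * p⁻¹⁻¹) * w⁻¹ by group, e, ← cz w wP, ← mul_assoc,
          mul_inv_cancel_right]
    have nA : w ∈ normalizer (D.A : Set G) := mem_normalizer_of_forall fun p hp => by
      rcases k2 p (AP hp) with e | e <;> rw [e]
      exacts [hp, mul_mem hp zA]
    have kB : ∀ {x}, x ∈ P → x ∈ normalizer (D.A : Set G) → x ∈ centralizer (D.E : Set G) →
        x ∈ D.B a b 1 := fun hx n c => h.max_B (one_mem _) sP.pgroup BP hx c (by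
      rw [mul_one, δ_eq]
      exact inv_mem (h.th.toTh0.mem_E h.sm (conj_mem_of_mem_normalizer n (Nrm.t_A D))
        (isConj_iff.2 ⟨_, rfl⟩)))
    refine h.small (h.mem_P1.2 ?_) w2 (D.A_sq zA) fun u hu => k2 u (BP (U_le_B hu))
    by_cases c : w ∈ centralizer (D.E : Set G)
    · exact Or.inl (kB wP nA c)
    · refine Or.inr (kB (mul_mem fP wP) (mul_mem (Nrm.f_norm D) nA) ?_)
      have := T3.mul_ce sP.pgroup sP.le EP fP fP wP (fun q => D.z1 (by
        have := Nrm.fix (mem_centralizer_iff.1 q _ (Nrm.e_E D)).symm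
        rwa [Nrm.f_e, mul_eq_left] at this)) c
      rwa [inv_eq D.ff] at this
  have kU : ∀ u ∈ D.U a b, D.t * (g⁻¹ * (D.t * u) * g) ∈ D.U a b := fun u hu => by
    have m := mul_mem (h.A_le (Nrm.t_A D)) (U_le_B hu)
    refine hP _ (conj_mem_of_mem_normalizer' hg (BP m)) (mem_centralizer_iff.2 fun v hv => ?_)
      ((h.conj_tU hu).trans (isConj_iff.2 ⟨g⁻¹, by rw [inv_inv]⟩))
    calc v * (g⁻¹ * (D.t * u) * g) = g⁻¹ * (g * v * g⁻¹ * (D.t * u)) * g := by group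
      _ = _ := by rw [← h.B_cent m (A0 v hv)]; group
  refine inv_mem_iff.1 (mem_normalizer_of_forall fun v hv => ?_)
  obtain ⟨u, hu, rfl⟩ := h.root hv
  rw [← conj_mul]
  refine h.sq_mem ?_
  rw [show g⁻¹ * u * g⁻¹⁻¹ = (D.t * (g⁻¹ * (D.t * 1) * g))⁻¹ * (D.t * (g⁻¹ * (D.t * u) * g)) by group]
  exact mul_mem (inv_mem (kU 1 (one_mem _))) (kU u hu)

end Fr

end CfsgLib.L33
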