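import Mathlib
import Cfsg.Agent.Lib.L33.Al1
import Cfsg.Agent.Lib.L33.Al2
import Cfsg.Agent.Lib.L33.Al3
import Cfsg.Agent.Lib.L33.Gck
import Cfsg.Agent.Lib.L33.I1
import Cfsg.Agent.Lib.L33.I6
import Cfsg.Agent.Lib.L33.T3
import Cfsg.Agent.Lib.L33.F2
import Cfsg.Agent.Lib.L33.Step1

/-! Involution centralizers with a 2-component of type `L₃(3)` (plans/L33.md, package MAIN). -/

set_option autoImplicit false
set_option linter.unusedSectionVars false

namespace CfsgLib.L33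

open Subgroup CfsgLib.Tech

variable {G : Type*} [Group G] [Finite G]

theorem Fr.bd (D : Fr G) : Bd G := by
  obtain ⟨D, θ, n, p, h⟩ := D.exists_act
  have key : n * D.e * n⁻¹ = D.e → Bd G := fun hn => by
    obtain ⟨a, p', θ', T⟩ := h.exists_tr hn
    rcases T.cases with ha | ⟨-, T⟩ | T
    · obtain ⟨b, θ'', ε, β, J⟩ := T.exists_jf ha
      exact J.bd
    · exact T.bd
    · exact T.bd
  rcases h.hp with ⟨-, -, hn⟩ | ⟨hτ, hp, hn | hn⟩
  · exact key hn
  · exact key hn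
  · obtain ⟨a, p', C⟩ := h.exists_gc hτ hp hn
    exact C.false.elim

theorem Fr0.bd (D : Fr0 G) (h : ∃ s, IsConj D.t s ∧ s ≠ D.t ∧ s * D.t = D.t * s) : Bd G := by
  rcases D.step1 h with h | ⟨⟨D'⟩⟩
  · exact Or.inl fun h' => h ((show 2 ^ 7 ∣ 2 ^ 11 by norm_num).trans h')
  · exact D'.bd

end CfsgLib.L33
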