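import Mathlib
import Cfsg.Agent.Lib.L33.Defs
import Cfsg.Agent.Lib.ClAut.PSL
import Cfsg.Agent.Lib.Classical.SmallIso
import Cfsg.Agent.S0243

/-! Involution centralizers with a 2-component of type `L₃(3)` (plans/L33.md, package RED1). -/

set_option autoImplicit false
set_option linter.unusedSectionVars false

namespace CfsgLib.L33

open Subgroup CfsgLib.Tech

variable {G : Type*} [Group G] [Finite G]

/-- the data of `L₃(3)` and its automorphism group -/
structure Mod (K : Type*) [Group K] where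
  x : K
  e : K
  θ : K
  ρ : K
  τ : MulAut K
  x8 : x ^ 8 = 1
  x4 : x ^ 4 ≠ 1
  ee : e * e = 1
  ex : e * x * e = x ^ 3
  τx : τ x = x ^ 5
  τe : τ e = e
  ττ : τ * τ = 1
  θz : θ * x ^ 4 * θ⁻¹ = e
  θe : θ * e * θ⁻¹ = e * x ^ 4
  ρy : ρ * x ^ 2 * ρ⁻¹ = x * e
  ρi : ρ * (x * e) * ρ⁻¹ = x ^ 2 * (x * e)
  card : ¬ 32 ∣ Nat.card K
  cen : ∀ g : K, (∀ k, g * k = k * g) → g = 1
  aut : ∀ β : MulAut K, ∃ g : K, β = MulAut.conj g ∨ β = MulAut.conj g * τ

namespace Red1

open Matrix CfsgLib.ClAut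

/-- transport of the data along an isomorphism -/
def map {K K' : Type*} [Group K] [Group K'] (M : Mod K') (φ : K ≃* K') : Mod K where
  x := φ.symm M.x
  e := φ.symm M.e
  θ := φ.symm M.θ
  ρ := φ.symm M.ρ
  τ := (φ.trans M.τ).trans φ.symm
  x8 := by rw [← map_pow, M.x8, map_one]
  x4 := by rw [← map_pow]; intro h; exact M.x4 (φ.symm.injective (by rw [h, map_one]))
  ee := by rw [← map_mul, M.ee, map_one]
  ex := by rw [← map_mul, ← map_mul, M.ex, map_pow]
  τx := by simp [M.τx]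
  τe := by simp [M.τe]
  ττ := by
    ext g
    have := congrArg (fun β : MulAut K' => β (φ g)) M.ττ
    simp only [MulAut.mul_apply, MulAut.one_apply] at this
    simp [this]
  θz := by rw [← map_pow, ← map_inv, ← map_mul, ← map_mul, M.θz]
  θe := by rw [← map_pow, ← map_inv, ← map_mul, ← map_mul, M.θe, map_mul]
  ρy := by rw [← map_pow, ← map_inv, ← map_mul, ← map_mul, M.ρy, map_mul]
  ρi := by rw [← map_pow, ← map_inv, ← map_mul, ← map_mul, ← map_mul, M.ρi, map_mul, map_mul]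
  card := by rw [Nat.card_congr φ.toEquiv]; exact M.card
  cen := by
    intro g hg
    have := M.cen (φ g) fun k => by
      obtain ⟨k, rfl⟩ := φ.surjective k
      rw [← map_mul, hg, map_mul]
    simpa using this
  aut := by
    intro β
    obtain ⟨g, h | h⟩ := M.aut ((φ.symm.trans β).trans φ)
    · refine ⟨φ.symm g, Or.inl ?_⟩
      ext k
      have := congrArg (fun γ : MulAut K' => γ (φ k)) h
      apply φ.injective
      simpa using this
    · refine ⟨φ.symm g, Or.inr ?_⟩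
      ext k
      have := congrArg (fun γ : MulAut K' => γ (φ k)) h
      apply φ.injective
      simpa using this

abbrev S3 := SpecialLinearGroup (Fin 3) (ZMod 3)

def mx : S3 := ⟨!![1, 1, 0; 1, 0, 0; 0, 0, 2], by decide⟩
def me : S3 := ⟨!![1, 0, 0; 2, 2, 0; 0, 0, 2], by decide⟩
def mθ : S3 := ⟨!![0, 0, 1; 1, 0, 1; 2, 1, 0], by decide⟩
def mρ : S3 := ⟨!![1, 1, 0; 0, 1, 0; 0, 0, 1], by decide⟩
def mg : S3 := ⟨!![1, 1, 0; 1, 2, 0; 0, 0, 1], by decide⟩
def mx' : S3 := ⟨!![0, 1, 0; 1, 2, 0; 0, 0, 2], by decide⟩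
def me' : S3 := ⟨!![1, 2, 0; 0, 2, 0; 0, 0, 2], by decide⟩
def mg' : S3 := ⟨!![2, 2, 0; 2, 1, 0; 0, 0, 1], by decide⟩

theorem cen_eq {s : S3} (h : s ∈ center S3) : s = 1 := by
  obtain ⟨r, hr, h⟩ := Matrix.SpecialLinearGroup.mem_center_iff.1 h
  have : r = 1 := by
    rw [Fintype.card_fin] at hr
    exact (by decide : ∀ r : ZMod 3, r ^ 3 = 1 → r = 1) r hr
  subst this
  apply Subtype.ext
  rw [← h]; simp

theorem mk_inj {s s' : S3} (h : (QuotientGroup.mk s : S3 ⧸ center S3) = QuotientGroup.mk s') : s = s' :=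
  inv_mul_eq_one.1 (cen_eq (QuotientGroup.eq.1 h))

theorem invT_mk {s s' : S3} (h : (s' : Matrix (Fin 3) (Fin 3) (ZMod 3))ᵀ * s = 1) :
    pslInvT (Fin 3) (ZMod 3) (QuotientGroup.mk s) = QuotientGroup.mk s' := by
  refine indAut_mk _ slGL_injective _ ?_
  apply Units.ext
  show (s' : Matrix (Fin 3) (Fin 3) (ZMod 3)) = (((slGL (Fin 3) (ZMod 3) s)⁻¹ : GL (Fin 3) (ZMod 3)) : Matrix _ _ _)ᵀ
  rw [← transpose_transpose (s' : Matrix (Fin 3) (Fin 3) (ZMod 3))]
  congr 1
  exact (Units.inv_eq_of_mul_eq_one_left (u := slGL (Fin 3) (ZMod 3) s) h).symm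

theorem conj_inner (g : GL (Fin 3) (ZMod 3)) :
    ∃ s : S3, pslConj (Fin 3) (ZMod 3) g = MulAut.conj (QuotientGroup.mk s) := by
  have h0 : (g : Matrix (Fin 3) (Fin 3) (ZMod 3)).det ≠ 0 := by
    have := det_coe_inv_mul g
    intro h; rw [h, mul_zero] at this; exact zero_ne_one this
  have h1 : ∀ d : ZMod 3, d ≠ 0 → d = 1 ∨ d = -1 := by decide
  rcases h1 _ h0 with h | h
  · obtain ⟨s, rfl⟩ := mem_range_slGL.2 h
    exact ⟨s, pslConj_slGL s⟩
  · have h2 : ((-g : GL (Fin 3) (ZMod 3)) : Matrix (Fin 3) (Fin 3) (ZMod 3)).det = 1 := by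
      rw [Units.val_neg, det_neg, h]; decide
    obtain ⟨s, hs⟩ := mem_range_slGL.2 h2
    refine ⟨s, ?_⟩
    rw [← pslConj_slGL, hs, pslConj_eq, pslConj_eq]
    congr 1
    apply Subtype.ext
    ext1 k
    simp [MulAut.conj_apply]

theorem mod3 : Nonempty (Mod (ProjectiveSpecialLinearGroup (Fin 3) (ZMod 3))) := by
  haveI : Fact (Nat.Prime 3) := ⟨Nat.prime_three⟩
  let π : S3 →* ProjectiveSpecialLinearGroup (Fin 3) (ZMod 3) := QuotientGroup.mk' _
  have hx : pslInvT (Fin 3) (ZMod 3) (π mx) = π mx' := invT_mk (by decide)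
  have he : pslInvT (Fin 3) (ZMod 3) (π me) = π me' := invT_mk (by decide)
  have hg : pslInvT (Fin 3) (ZMod 3) (π mg) = π mg' := invT_mk (by decide)
  have h8 : mx ^ 8 = 1 := Subtype.ext (by decide)
  have h4 : mx ^ 4 ≠ 1 := fun h => absurd (congrArg Subtype.val h) (by decide)
  have hee : me * me = 1 := Subtype.ext (by decide)
  have hex : me * mx * me = mx ^ 3 := Subtype.ext (by decide)
  have hτx : mg * mx' = mx ^ 5 * mg := Subtype.ext (by decide)
  have hτe : mg * me' = me * mg := Subtype.ext (by decide)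
  have hgg : mg * mg' = 1 := Subtype.ext (by decide)
  have hθz : mθ * mx ^ 4 = me * mθ := Subtype.ext (by decide)
  have hθe : mθ * me = me * mx ^ 4 * mθ := Subtype.ext (by decide)
  have hρy : mρ * mx ^ 2 = mx * me * mρ := Subtype.ext (by decide)
  have hρi : mρ * (mx * me) = mx ^ 2 * (mx * me) * mρ := Subtype.ext (by decide)
  refine ⟨⟨π mx, π me, π mθ, π mρ, MulAut.conj (π mg) * pslInvT (Fin 3) (ZMod 3), ?_, ?_, ?_, ?_, ?_, ?_, ?_, ?_, ?_,
    ?_, ?_, ?_, ?_, ?_⟩⟩
  · rw [← map_pow, h8, map_one]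
  · rw [← map_pow]; intro h; exact h4 (mk_inj h)
  · rw [← map_mul, hee, map_one]
  · rw [← map_mul, ← map_mul, hex, map_pow]
  · rw [MulAut.mul_apply, hx, MulAut.conj_apply, ← map_mul, hτx, map_mul, map_pow, mul_inv_cancel_right]
  · rw [MulAut.mul_apply, he, MulAut.conj_apply, ← map_mul, hτe, map_mul, mul_inv_cancel_right]
  · ext1 k
    have h1 := congrArg (fun β : MulAut (ProjectiveSpecialLinearGroup (Fin 3) (ZMod 3)) => β k)
      (pslInvT_mul_self (ι := Fin 3) (F := ZMod 3))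
    simp only [MulAut.mul_apply, MulAut.one_apply] at h1
    have h2 : π mg * π mg' = 1 := by rw [← map_mul, hgg, map_one]
    simp only [MulAut.mul_apply, MulAut.one_apply, MulAut.conj_apply, map_mul, map_inv, h1, hg]
    rw [eq_inv_of_mul_eq_one_right h2]
    group
  · rw [← map_pow, ← map_mul, hθz, map_mul, mul_inv_cancel_right]
  · rw [← map_pow, ← map_mul, hθe, map_mul, map_mul, mul_inv_cancel_right]
  · rw [← map_pow, ← map_mul, hρy, map_mul, map_mul, mul_inv_cancel_right]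
  · rw [← map_pow, ← map_mul, ← map_mul, hρi, map_mul, mul_inv_cancel_right, map_mul]
  · have h := Cfsg.Agent.S0243.result (F := ZMod 3) (q := 3) (ZMod.card 3) 3 (by norm_num)
    have h2 : ∏ i : Fin 3, (3 ^ 3 - 3 ^ (i : ℕ)) = 11232 := by decide
    have h3 : Nat.gcd 3 (3 - 1) = 1 := by decide
    rw [h2, h3] at h
    omega
  · intro g hg
    obtain ⟨s, rfl⟩ := QuotientGroup.mk_surjective g
    have : s ∈ center S3 := mem_center_iff.2 fun k => mk_inj (by
      rw [QuotientGroup.mk_mul, QuotientGroup.mk_mul]; exact (hg _).symm)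
    rw [cen_eq this]; rfl
  · intro β
    obtain ⟨g, σ, h⟩ := psl_aut (by simp) β
    have hσ : σ = 1 := by
      ext a
      exact congrArg (fun φ : ZMod 3 →+* ZMod 3 => φ a) (RingHom.ext_zmod (σ : ZMod 3 →+* ZMod 3) (RingHom.id _))
    obtain ⟨s, hs⟩ := conj_inner g
    rw [hσ, map_one, mul_one, hs] at h
    rcases h with h | h
    · exact ⟨_, Or.inl h⟩
    · refine ⟨QuotientGroup.mk s * (π mg)⁻¹, Or.inr ?_⟩
      rw [h, map_mul, map_inv, mul_assoc, inv_mul_cancel_left]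

end Red1

theorem exists_mod {K F : Type*} [Group K] [Field F] [Fintype F] (hF : Fintype.card F = 3)
    (φ : K ≃* Matrix.ProjectiveSpecialLinearGroup (Fin 3) F) : Nonempty (Mod K) := by
  haveI : Fact (Nat.Prime 3) := ⟨Nat.prime_three⟩
  obtain ⟨M⟩ := Red1.mod3
  exact ⟨Red1.map M (φ.trans (CfsgLib.Classical.pslMapEquiv
    (FiniteField.ringEquivOfCardEq (K' := ZMod 3) (by rw [hF, ZMod.card]))))⟩

end CfsgLib.L33
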