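import Mathlib
import Cfsg.Agent.Lib.L33.Red1
import Cfsg.Agent.Lib.L33.Tool
import Cfsg.Agent.Lib.HSub.Basic
import Cfsg.Agent.Lib.W2.Tools

/-! Involution centralizers with a 2-component of type `L₃(3)` (plans/L33.md, package RED2). -/

set_option autoImplicit false
set_option linter.unusedSectionVars false

namespace CfsgLib.L33

open Subgroup CfsgLib.Tech

variable {G : Type*} [Group G] [Finite G]

namespace RED2

theorem syl_map {H : Type*} [Group H] {T K : Subgroup G} (h : IsSylowIn 2 T K) (f : G →* H) :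
    IsSylowIn 2 (T.map f) (K.map f) :=
  ⟨map_mono h.le, h.pgroup.map f, fun e => h.not_dvd (e.trans (by
    rw [← relIndex_comap]
    exact relIndex_dvd_of_le_left _ (le_comap_map f T)))⟩

theorem eq_one {x : G} {k n : ℕ} (h : x ^ 2 ^ k = 1) (hn : Odd n) (h' : x ^ n = 1) : x = 1 :=
  orderOf_eq_one_iff.1 (Nat.eq_one_of_dvd_coprimes ((Nat.coprime_two_left.2 hn).pow_left k)
    (orderOf_dvd_of_pow_eq_one h) (orderOf_dvd_of_pow_eq_one h'))

/-- transport of the frame from the centralizer -/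
theorem lift {H : Subgroup G} (D : Fr0 H) (hH : centralizer {(D.t : G)} = H) : ∃ D' : Fr0 G, D'.t = D.t := by
  have hT : centralizer {D.t} = ⊤ := eq_top_iff.2 fun h _ => mem_centralizer_singleton_iff.2 (Subtype.ext
    (mem_centralizer_singleton_iff.1 (hH.ge h.2)))
  have e1 : (D.R ⊔ closure {D.τ, D.x, D.e}).map H.subtype =
      D.R.map H.subtype ⊔ closure {(D.τ : G), (D.x : G), (D.e : G)} := by
    rw [Subgroup.map_sup, MonoidHom.map_closure, Set.image_insert_eq, Set.image_insert_eq, Set.image_singleton]; rfl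
  have e2 : (closure {D.x, D.e}).map H.subtype = closure {(D.x : G), (D.e : G)} := by
    rw [MonoidHom.map_closure, Set.image_insert_eq, Set.image_singleton]; rfl
  have c : ∀ {a b : H}, a = b → (a : G) = b := fun e => congrArg Subtype.val e
  have mm : ∀ {A : Subgroup H} {a : H}, (a : G) ∈ A.map H.subtype ↔ a ∈ A := fun {A a} =>
    mem_map_iff_mem H.subtype_injective
  have r := D.rel
  refine ⟨⟨D.t, D.τ, D.x, D.e, D.R.map H.subtype, D.L.map H.subtype, ⟨c r.tt, fun e => r.t1 (Subtype.ext e), c r.x8,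
    fun e => r.x4 (Subtype.ext e), c r.ee, c r.ex, c r.tx, c r.te, c r.tτ, c r.τe, r.τx.imp c c⟩, mm.2 D.tR,
    ?_, ?_, ?_, ?_, mm.2 D.ττ, ?_, hH.symm ▸ map_subtype_le _, ?_, mm.2 D.xL, mm.2 D.eL, ?_, ?_, ?_, ?_, ?_⟩, rfl⟩
  · have := D.cyc
    exact isCyclic_of_surjective _ (H.subtype.subgroupMap_surjective D.R)
  · rintro _ ⟨a, ha, rfl⟩
    exact c (D.Rx a ha)
  · rintro _ ⟨a, ha, rfl⟩
    exact c (D.Re a ha)
  · rintro _ ⟨a, ha, rfl⟩
    exact mm.2 (D.τR a ha)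
  · have := syl_map D.syl H.subtype
    rw [hT, e1, ← MonoidHom.range_eq_map, range_subtype] at this
    exact hH.symm ▸ this
  · rintro h hh _ ⟨a, ha, rfl⟩
    exact mm.2 (D.Ln ⟨h, hH.le hh⟩ (hT ▸ mem_top _) a ha)
  · rintro _ ⟨a, ha, rfl⟩ h
    exact c (D.RL a ha (mm.1 h))
  · rw [← e1, ← e2]
    rintro _ ⟨a, ha, rfl⟩ h
    exact mm.2 (D.SL a ha (mm.1 h))
  · intro h hh
    obtain ⟨s, hs, h1⟩ := D.HL ⟨h, hH.le hh⟩ (hT ▸ mem_top _)
    exact ⟨s, e1 ▸ mm.2 hs, mm.2 h1⟩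
  · obtain ⟨θ, h1, h2, h3⟩ := D.θ0
    exact ⟨θ, mm.2 h1, c h2, c h3⟩
  · obtain ⟨θ, h1, h2, h3⟩ := D.ρ0
    exact ⟨θ, mm.2 h1, c h2, c h3⟩

variable {K : Type*} [Group K]

/-- the action on the quotient -/
theorem exists_act {L : Subgroup G} [L.Normal] (π : L →* K) (hπ : Function.Surjective π)
    (hk : ∀ h : G, ∀ l : L, π l = 1 → π (MulAut.conjNormal h l) = 1) :
    ∃ φ : G →* MulAut K, ∀ h : G, ∀ l : L, φ h (π l) = π (MulAut.conjNormal h l) := by
  have : ∀ h : G, ∃ ψ : K →* K, ∀ l : L, ψ (π l) = π (MulAut.conjNormal h l) := fun h =>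
    ⟨π.liftOfRightInverse (Function.surjInv hπ) (Function.rightInverse_surjInv hπ)
      ⟨π.comp (MulAut.conjNormal h : MulAut L).toMonoidHom, fun l hl => hk h l hl⟩,
      fun l => π.liftOfRightInverse_comp_apply _ _ _ l⟩
  choose ψ hψ using this
  have inv : ∀ h : G, ∀ k, ψ h⁻¹ (ψ h k) = k := fun h k => by
    obtain ⟨l, rfl⟩ := hπ k
    rw [hψ, hψ, map_inv, MulAut.inv_apply_self]
  refine ⟨MonoidHom.mk' (fun h => ⟨⟨ψ h, ψ h⁻¹, inv h, fun k => by simpa using inv h⁻¹ k⟩, map_mul (ψ h)⟩)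
    fun a b => MulEquiv.ext fun k => ?_, hψ⟩
  obtain ⟨l, rfl⟩ := hπ k
  change ψ (a * b) (π l) = ψ a (ψ b (π l))
  rw [hψ, hψ, hψ, map_mul, MulAut.mul_apply]

theorem syl_D [Finite K] (M : Mod K) : IsSylowIn 2 (closure {M.x, M.e}) ⊤ := by
  have h8 : orderOf M.x = 2 ^ 3 := orderOf_eq_prime_pow (p := 2) (n := 2) M.x4 M.x8
  have ei : M.e⁻¹ = M.e := inv_eq_of_mul_eq_one_right M.ee
  have hn : ∀ k ∈ zpowers M.x, M.e * k * M.e⁻¹ ∈ zpowers M.x := by
    rintro _ ⟨n, rfl⟩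
    rw [← conj_zpow, ei, M.ex]
    exact zpow_mem (pow_mem (mem_zpowers _) _) _
  have he : M.e ∉ zpowers M.x := by
    rintro ⟨n, hn⟩
    have h1 : M.e * M.x = M.x * M.e := by rw [← hn]; exact (Commute.self_zpow _ n).symm
    have h2 := M.ex
    rw [h1, mul_assoc, M.ee, mul_one] at h2
    have h3 : M.x ^ 2 = 1 := mul_left_cancel (a := M.x) (by rw [← pow_succ', ← h2, mul_one])
    exact M.x4 (by rw [show 4 = 2 * 2 from rfl, pow_mul, h3, one_pow])
  have e : closure {M.x, M.e} = zpowers M.x ⊔ zpowers M.e := by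
    rw [Set.insert_eq, Subgroup.closure_union, zpowers_eq_closure, zpowers_eq_closure]
  have hc : Nat.card ↥(closure {M.x, M.e}) = 2 ^ 4 := by
    rw [e, card_sup_two hn (M.ee ▸ one_mem _) he, Nat.card_zpowers, h8]; rfl
  refine ⟨le_top, IsPGroup.of_card hc, fun h => M.card ?_⟩
  rw [relIndex_top_right] at h
  rw [← card_mul_index (closure {M.x, M.e}), hc]
  exact Nat.mul_dvd_mul_left 16 h

/-- lifting a conjugation along a map with kernel of odd order -/
theorem lift_conj {L : Type*} [Group L] [Finite L] {π : L →* K} (hπ : Function.Surjective π) {D : Subgroup L}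
    (hD : IsSylowIn 2 D ⊤) (inj : ∀ a ∈ D, ∀ b ∈ D, π a = π b → a = b) {a b a' b' : L} (ha : a ∈ D) (hb : b ∈ D)
    (ha' : a' ∈ D) (hb' : b' ∈ D) {g : K} (h1 : g * π a * g⁻¹ = π a') (h2 : g * π b * g⁻¹ = π b') :
    ∃ k : L, k * a * k⁻¹ = a' ∧ k * b * k⁻¹ = b' := by
  obtain ⟨k, rfl⟩ := hπ g
  have hle : closure {a, b} ≤ D := (closure_le _).2 (by rintro _ (rfl | rfl); exacts [ha, hb])
  have mem : ∀ v v' : L, v' ∈ D → π k * π v * (π k)⁻¹ = π v' → k * v * k⁻¹ ∈ D ⊔ π.ker := fun v v' hv e => by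
    rw [← mul_inv_cancel_left v' (k * v * k⁻¹)]
    refine mul_mem_sup hv (MonoidHom.mem_ker.2 ?_)
    rw [map_mul, map_mul, map_mul, map_inv, map_inv, e, inv_mul_cancel]
  obtain ⟨c, hc, h3⟩ := (hD.of_le le_sup_left le_top : IsSylowIn 2 D (D ⊔ π.ker)).exists_cj_le
    (isPGroup_cj k (hD.pgroup.to_le hle)) (by
      rw [cj, MonoidHom.map_closure]
      refine (closure_le _).2 ?_
      rintro _ ⟨_, rfl | rfl, rfl⟩
      exacts [mem _ _ ha' h1, mem _ _ hb' h2])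
  obtain ⟨d, hd, o, ho, rfl⟩ := mem_sup_of_normal_right.1 hc
  have fin : ∀ v v' : L, v ∈ closure {a, b} → v' ∈ D → π k * π v * (π k)⁻¹ = π v' →
      o * k * v * (o * k)⁻¹ = v' := fun v v' hv hv' e => by
    refine inj _ ?_ _ hv' ?_
    · have := D.mul_mem (D.mul_mem (D.inv_mem hd) (cj_le_iff.1 h3 _ (conj_mem_cj.2 hv))) hd
      simpa [mul_assoc] using this
    · rw [map_mul, map_mul, map_inv, map_mul, MonoidHom.mem_ker.1 ho, one_mul, e]
  exact ⟨o * k, fin _ _ (subset_closure (by simp)) ha' h1, fin _ _ (subset_closure (by simp)) hb' h2⟩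

theorem core (M : Mod K) {t : G} (ht : orderOf t = 2) (hz : ∀ h : G, h * t = t * h) {L : Subgroup G} [L.Normal]
    (π : L →* K) (hπ : Function.Surjective π) (ho : Odd (Nat.card π.ker))
    (hk : ∀ h : G, ∀ l : L, π l = 1 → π (MulAut.conjNormal h l) = 1)
    (hc : ∀ P : Subgroup G, IsPGroup 2 P → (∀ g ∈ P, ∀ l : L, π (MulAut.conjNormal g l) = π l) → IsCyclic P) :
    ∃ D : Fr0 G, D.t = t := by
  have : Finite K := Finite.of_surjective π hπ
  obtain ⟨φ, hφ⟩ := exists_act π hπ hk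
  have φL : ∀ l : L, φ l = MulAut.conj (π l) := fun l => MulEquiv.ext fun k => by
    obtain ⟨m, rfl⟩ := hπ k
    rw [hφ, MulAut.conj_apply, ← map_inv, ← map_mul, ← map_mul]
    rfl
  have cinj : Function.Injective (MulAut.conj : K →* MulAut K) := (injective_iff_map_eq_one _).2 fun g hg =>
    M.cen g fun k => mul_inv_eq_iff_eq_mul.1 (DFunLike.congr_fun hg k)
  obtain ⟨σ, hσ, σr, haut⟩ : ∃ σ : MulAut K, (σ = 1 ∨ σ = M.τ) ∧ σ ∈ φ.range ∧
      ∀ h, ∃ k, φ h = MulAut.conj k ∨ φ h = MulAut.conj k * σ := by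
    by_cases h : ∀ h, ∃ k, φ h = MulAut.conj k
    · exact ⟨1, .inl rfl, one_mem _, fun g => (h g).imp fun k e => .inl e⟩
    · push Not at h
      obtain ⟨g, hg⟩ := h
      obtain ⟨k, hk⟩ := M.aut (φ g)
      obtain ⟨l, rfl⟩ := hπ k
      exact ⟨M.τ, .inr rfl, ⟨(l : G)⁻¹ * g, by
        rw [map_mul, map_inv, φL, hk.resolve_left (hg _), inv_mul_cancel_left]⟩, fun h => M.aut _⟩
  have hD := syl_D M
  have xD : M.x ∈ closure {M.x, M.e} := subset_closure (by simp)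
  have eD : M.e ∈ closure {M.x, M.e} := subset_closure (by simp)
  have σσ : σ * σ = 1 := by rcases hσ with rfl | rfl; exacts [mul_one _, M.ττ]
  have σe : σ M.e = M.e := by rcases hσ with rfl | rfl; exacts [rfl, M.τe]
  have σD : ∀ k ∈ closure {M.x, M.e}, σ k ∈ closure {M.x, M.e} := by
    have : closure {M.x, M.e} ≤ (closure {M.x, M.e}).comap σ.toMonoidHom := (closure_le _).2 (by
      rintro _ (rfl | rfl)
      · change σ M.x ∈ closure {M.x, M.e}
        rcases hσ with rfl | rfl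
        · exact xD
        · rw [M.τx]; exact pow_mem xD 5
      · change σ M.e ∈ closure {M.x, M.e}
        rw [σe]; exact eD)
    exact this
  have hW : IsPGroup 2 ↥((closure {M.x, M.e}).map MulAut.conj ⊔ zpowers σ) :=
    two_sup_two (hD.pgroup.map _) (by
      rintro _ ⟨k, hk, rfl⟩
      exact ⟨σ k, σD k hk, MulEquiv.ext fun y => by simp⟩) (σσ ▸ one_mem _)
  obtain ⟨S, hS, hWS⟩ : ∃ S : Subgroup G, IsSylowIn 2 S ⊤ ∧
      (closure {M.x, M.e}).map MulAut.conj ⊔ zpowers σ ≤ S.map φ := by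
    obtain ⟨S, hS⟩ := exists_isSylowIn 2 (⊤ : Subgroup G)
    obtain ⟨_, ⟨g, -, rfl⟩, h1⟩ := (syl_map hS φ).exists_cj_le hW (by
      rw [← MonoidHom.range_eq_map]
      refine sup_le ?_ (zpowers_le.2 σr)
      rintro _ ⟨k, -, rfl⟩
      obtain ⟨l, rfl⟩ := hπ k
      exact ⟨l, φL l⟩)
    refine ⟨cj g⁻¹ S, hS.cj_of_mem (mem_top _), fun w hw => ?_⟩
    obtain ⟨s, hs, e⟩ := cj_le_iff.1 h1 w hw
    exact ⟨g⁻¹ * s * g⁻¹⁻¹, conj_mem_cj.2 hs, by rw [map_mul, map_mul, inv_inv, map_inv, e]; group⟩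
  have inD : ∀ s ∈ S, ∀ k, φ s = MulAut.conj k → k ∈ closure {M.x, M.e} := fun s hs k e => by
    have := hD.eq_of_le (Q := (S.map φ).comap MulAut.conj) ((hS.pgroup.map φ).comap_of_injective _ cinj)
      (fun y hy => hWS (mem_sup_left ⟨y, hy, rfl⟩)) le_top
    rw [← this]
    exact ⟨s, hs, e⟩
  have hSL : IsSylowIn 2 (S.subgroupOf L) ⊤ := by
    have h1 := hS.inf_of_le_normalizer (N := L) le_normalizer_of_normal
    rw [top_inf_eq] at h1
    have := IsSylowIn.of_sylow_top h1.toSylow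
    rwa [h1.coe_toSylow, inf_subgroupOf_right] at this
  have inj : ∀ a ∈ S.subgroupOf L, ∀ b ∈ S.subgroupOf L, π a = π b → a = b := fun a ha b hb e => by
    obtain ⟨k, hk⟩ := isPGroup_iff_mem.1 hSL.pgroup _ (mul_mem (inv_mem ha) hb)
    refine inv_mul_eq_one.1 (eq_one hk ho (orderOf_dvd_iff_pow_eq_one.1 (orderOf_dvd_natCard π.ker ?_)))
    rw [MonoidHom.mem_ker, map_mul, map_inv, e, inv_mul_cancel]
  have img : (S.subgroupOf L).map π = closure {M.x, M.e} := by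
    have h1 := syl_map hSL π
    rw [← MonoidHom.range_eq_map, MonoidHom.range_eq_top.2 hπ] at h1
    refine (h1.eq_of_le hD.pgroup ?_ le_top).symm
    rintro _ ⟨l, hl, rfl⟩
    exact inD l hl _ (φL l)
  obtain ⟨x, hx, πx⟩ := img.ge xD
  obtain ⟨e, he, πe⟩ := img.ge eD
  obtain ⟨τ, hτ, φτ, τ1⟩ : ∃ τ ∈ S, φ τ = σ ∧ (τ = 1 ∨ σ = M.τ) := by
    rcases hσ with h | h
    · exact ⟨1, one_mem _, by rw [map_one, h], .inl rfl⟩
    · obtain ⟨τ, h1, h2⟩ := hWS (mem_sup_right (mem_zpowers σ))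
      exact ⟨τ, h1, h2, .inr h⟩
  have act : ∀ s ∈ S, ∀ a ∈ S.subgroupOf L, ∀ b ∈ S.subgroupOf L, φ s (π a) = π b →
      s * a * s⁻¹ = b := fun s hs a ha b hb e =>
    congrArg Subtype.val (inj (MulAut.conjNormal s a) (S.mul_mem (S.mul_mem hs ha) (S.inv_mem hs)) b hb
      ((hφ s a).symm.trans e))
  have cen : ∀ r ∈ S ⊓ φ.ker, ∀ a ∈ S.subgroupOf L, r * a = a * r := fun r hr a ha =>
    mul_inv_eq_iff_eq_mul.1 (act r hr.1 a ha a ha (by rw [MonoidHom.mem_ker.1 hr.2]; rfl))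
  have t2 : t * t = 1 := by rw [← pow_two, ← ht, pow_orderOf_eq_one]
  have tR : t ∈ S ⊓ φ.ker := by
    refine ⟨hS.le_of_normalizes (isPGroup_zpowers_of_pow (k := 1) (by rw [pow_one, pow_two, t2])) le_top
      (zpowers_le.2 (mem_normalizer_of_forall fun s hs => by rwa [← hz, mul_inv_cancel_right])) (mem_zpowers t),
      MulEquiv.ext fun k => ?_⟩
    obtain ⟨l, rfl⟩ := hπ k
    rw [hφ]
    exact congrArg π (Subtype.ext (by rw [MulAut.conjNormal_apply, ← hz, mul_inv_cancel_right]))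
  have hT : centralizer {t} = ⊤ := eq_top_iff.2 fun h _ => mem_centralizer_singleton_iff.2 (hz h)
  have cyc : IsCyclic ↥(S ⊓ φ.ker) := hc _ hS.pgroup.to_inf_left fun g hg l => by
    rw [← hφ, MonoidHom.mem_ker.1 hg.2]; rfl
  have inDg : ∀ k ∈ closure {M.x, M.e}, ∃ d : L, (d : G) ∈ closure {(x : G), (e : G)} ∧ π d = k := fun k hk => by
    have : closure {M.x, M.e} ≤ ((closure {(x : G), (e : G)}).subgroupOf L).map π := (closure_le _).2 (by
      rintro _ (rfl | rfl)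
      · exact ⟨x, Subgroup.subset_closure (k := {(x : G), (e : G)}) (by simp), πx⟩
      · exact ⟨e, Subgroup.subset_closure (k := {(x : G), (e : G)}) (by simp), πe⟩)
    exact this hk
  have DgS : closure {(x : G), (e : G)} ≤ S := (closure_le _).2 (by rintro _ (rfl | rfl); exacts [hx, he])
  have DgC : closure {(x : G), (e : G)} ≤ closure {τ, (x : G), (e : G)} := closure_mono (Set.subset_insert _ _)
  have τC : τ ∈ closure {τ, (x : G), (e : G)} := subset_closure (by simp)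
  have hSe : S ⊓ φ.ker ⊔ closure {τ, (x : G), (e : G)} = S := by
    refine le_antisymm (sup_le inf_le_left ((closure_le _).2 ?_)) fun s hs => ?_
    · rintro _ (rfl | rfl | rfl); exacts [hτ, hx, he]
    have k1 : ∀ s ∈ S, ∀ k, φ s = MulAut.conj k → s ∈ S ⊓ φ.ker ⊔ closure {τ, (x : G), (e : G)} := by
      intro s hs k e1
      obtain ⟨d, hd, rfl⟩ := inDg k (inD s hs k e1)
      rw [← inv_mul_cancel_right s d]
      exact mul_mem_sup ⟨S.mul_mem hs (S.inv_mem (DgS hd)), MonoidHom.mem_ker.2 (by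
        rw [map_mul, map_inv, φL, e1, mul_inv_cancel])⟩ (DgC hd)
    obtain ⟨k, e1 | e1⟩ := haut s
    · exact k1 s hs k e1
    · rw [← inv_mul_cancel_right s τ]
      exact mul_mem (k1 _ (S.mul_mem hs (S.inv_mem hτ)) k (by
        rw [map_mul, map_inv, φτ, e1, mul_inv_cancel_right])) (mem_sup_right τC)
  have hR : IsSylowIn 2 (S ⊓ φ.ker) φ.ker := by
    have := hS.inf_of_le_normalizer (N := φ.ker) le_normalizer_of_normal
    rwa [top_inf_eq] at this
  have hO := PComp.opOf_normal (p := 2) φ.ker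
  have hOo : Odd (Nat.card (PComp.opOf 2 φ.ker)) := Nat.coprime_two_right.1 (PComp.coprime_card_opOf _)
  have hC : φ.ker ≤ PComp.opOf 2 φ.ker ⊔ S ⊓ φ.ker :=
    W2.le_of_npc (HSub.npc_of_cyclic hR (fun _ _ _ => Nat.coprime_one_right _) cyc) hR le_sup_left le_sup_right
  have SL : ∀ s ∈ S, s ∈ L ⊔ PComp.opOf 2 φ.ker → s ∈ L := fun s hs h => by
    obtain ⟨l, hl, o, ho, rfl⟩ := mem_sup_of_normal_right.1 h
    obtain ⟨k, hk⟩ := isPGroup_iff_mem.1 hS.pgroup _ hs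
    refine (QuotientGroup.eq_one_iff _).1 (eq_one (k := k) (x := QuotientGroup.mk' L (l * o))
      (by rw [← map_pow, hk, map_one]) hOo ?_)
    have : QuotientGroup.mk' L l = 1 := (QuotientGroup.eq_one_iff l).2 hl
    rw [map_mul, this, one_mul, ← map_pow, orderOf_dvd_iff_pow_eq_one.1 (orderOf_dvd_natCard _ ho), map_one]
  have c : ∀ {a b : L}, a ∈ S.subgroupOf L → b ∈ S.subgroupOf L → π a = π b → (a : G) = b :=
    fun ha hb e => congrArg Subtype.val (inj _ ha _ hb e)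
  refine ⟨⟨t, τ, x, e, S ⊓ φ.ker, L ⊔ PComp.opOf 2 φ.ker, ⟨t2, fun h => ?_, ?_, fun h => M.x4 ?_, ?_, ?_,
    (hz _).symm, (hz _).symm, (hz _).symm, ?_, ?_⟩, tR, cyc, fun r hr => cen r hr x hx, fun r hr => cen r hr e he,
    fun r hr => ?_, ?_, ?_, ?_, fun h _ l hl => Normal.conj_mem inferInstance l hl h, mem_sup_left x.2,
    mem_sup_left e.2, fun r hr h => ?_, fun s hs h => ?_, fun h _ => ?_, ?_, ?_⟩, rfl⟩
  · rw [h, orderOf_one] at ht; exact absurd ht (by norm_num)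
  · exact c (pow_mem hx 8) (one_mem _) (by rw [map_pow, πx, M.x8, map_one])
  · rw [← πx, ← map_pow, show x ^ 4 = 1 from Subtype.ext h, map_one]
  · exact c (mul_mem he he) (one_mem _) (by rw [map_mul, πe, M.ee, map_one])
  · exact c (mul_mem (mul_mem he hx) he) (pow_mem hx 3) (by rw [map_mul, map_mul, map_pow, πe, πx, M.ex])
  · exact mul_inv_eq_iff_eq_mul.1 (act τ hτ e he e he (by rw [φτ, πe, σe]))
  · exact τ1.imp id fun h => act τ hτ x hx (x ^ 5) (pow_mem hx 5) (by rw [φτ, map_pow, πx, h, M.τx])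
  · exact ⟨S.mul_mem (S.mul_mem hτ hr.1) (S.inv_mem hτ), φ.normal_ker.conj_mem r hr.2 τ⟩
  · exact ⟨S.mul_mem hτ hτ, MonoidHom.mem_ker.2 (by rw [map_mul, φτ, σσ])⟩
  · rwa [hSe, hT]
  · rw [hT]; exact le_top
  · have h1 := SL r hr.1 h
    refine c (a := ⟨r, h1⟩) hr.1 (one_mem _) (cinj ?_)
    rw [← φL, map_one, map_one]
    exact hr.2
  · rw [hSe] at hs
    have h1 := SL s hs h
    obtain ⟨d, hd, e1⟩ := inDg _ (inD s hs _ (φL ⟨s, h1⟩))
    rw [show s = d from c (a := ⟨s, h1⟩) hs (DgS hd) e1.symm]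
    exact hd
  · rw [hSe]
    have k1 : ∀ h : G, ∀ k, φ h = MulAut.conj k → ∃ s ∈ S, h * s⁻¹ ∈ L ⊔ PComp.opOf 2 φ.ker := by
      intro h k e1
      obtain ⟨l, rfl⟩ := hπ k
      obtain ⟨o, ho, r, hr, e2⟩ := mem_sup_of_normal_left.1 (hC (x := (l : G)⁻¹ * h) (MonoidHom.mem_ker.2 (by
        rw [map_mul, map_inv, φL, e1, inv_mul_cancel])))
      refine ⟨r, hr.1, ?_⟩
      rw [← mul_inv_cancel_left (l : G) h, ← e2, mul_assoc, mul_inv_cancel_right]
      exact mul_mem_sup l.2 ho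
    obtain ⟨k, e1 | e1⟩ := haut h
    · exact k1 h k e1
    · obtain ⟨s, hs, h1⟩ := k1 (h * τ⁻¹) k (by rw [map_mul, map_inv, φτ, e1, mul_inv_cancel_right])
      exact ⟨s * τ, S.mul_mem hs hτ, by rwa [mul_inv_rev, ← mul_assoc]⟩
  · obtain ⟨k, h1, h2⟩ := lift_conj hπ hSL inj (pow_mem hx 4) he he (mul_mem he (pow_mem hx 4)) (g := M.θ)
      (by rw [map_pow, πx, πe, M.θz]) (by rw [map_mul, map_pow, πx, πe, M.θe])
    exact ⟨k, mem_sup_left k.2, congrArg Subtype.val h1, congrArg Subtype.val h2⟩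
  · obtain ⟨k, h1, h2⟩ := lift_conj hπ hSL inj (pow_mem hx 2) (mul_mem hx he) (mul_mem hx he)
      (mul_mem (pow_mem hx 2) (mul_mem hx he)) (g := M.ρ)
      (by rw [map_pow, map_mul, πx, πe, M.ρy]) (by rw [map_mul, map_mul, map_mul, map_pow, πx, πe, M.ρi])
    exact ⟨k, mem_sup_left k.2, congrArg Subtype.val h1, congrArg Subtype.val h2⟩

end RED2

/-- `L` is normal in `C(t)`, `π : L → K` has kernel `O` of odd order, normal in `C(t)` -/
theorem exists_fr0 {K : Type*} [Group K] (M : Mod K) {t : G} (ht : orderOf t = 2) {L : Subgroup G}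
    (hL : L ≤ centralizer {t}) (hn : ∀ h ∈ centralizer {t}, ∀ l ∈ L, h * l * h⁻¹ ∈ L) (π : L →* K)
    (hπ : Function.Surjective π) (ho : Odd (Nat.card π.ker))
    (hk : ∀ h, ∀ hh : h ∈ centralizer {t}, ∀ l : L, π l = 1 → π ⟨h * l * h⁻¹, hn h hh l l.2⟩ = 1)
    (hc : ∀ P : Subgroup G, IsPGroup 2 P → ∀ hP : P ≤ centralizer {t},
      (∀ g, ∀ hg : g ∈ P, ∀ l : L, π ⟨g * l * g⁻¹, hn g (hP hg) l l.2⟩ = π l) → IsCyclic P) :
    ∃ D : Fr0 G, D.t = t := by
  let H := centralizer ({t} : Set G)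
  have tH : t ∈ H := mem_centralizer_singleton_iff.2 rfl
  have hN : (L.subgroupOf H).Normal := ⟨fun l hl h => hn h h.2 l hl⟩
  let ε := subgroupOfEquivOfLe hL
  obtain ⟨D, hD⟩ := RED2.core (G := H) M (t := ⟨t, tH⟩) (by rw [Subgroup.orderOf_mk, ht])
    (fun h => Subtype.ext (mem_centralizer_singleton_iff.1 h.2)) (L := L.subgroupOf H)
    (π.comp ε.toMonoidHom) (hπ.comp ε.surjective) (by
      rw [← MonoidHom.comap_ker]
      exact Odd.of_dvd_nat ho (card_comap_dvd_of_injective _ _ ε.injective))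
    (fun h l hl => hk h h.2 (ε l) hl) fun P hP h => by
      have := hc (P.map H.subtype) (hP.map _) (map_subtype_le _) (by
        rintro _ ⟨g, hg, rfl⟩ l
        exact h g hg (ε.symm l))
      exact isCyclic_of_surjective _ (P.equivMapOfInjective _ H.subtype_injective).symm.surjective
  obtain ⟨D', hD'⟩ := RED2.lift D (by rw [hD])
  exact ⟨D', by rw [hD', hD]⟩

end CfsgLib.L33
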