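import Mathlib
import Cfsg.Agent.Lib.L33.Main
import Cfsg.Agent.Lib.L33.Red2
import Cfsg.Agent.Lib.ZStar.Main
import Cfsg.Agent.Lib.Core.Cores

/-! Involution centralizers with a 2-component of type `L₃(3)` (plans/L33.md, package TOP). -/

set_option autoImplicit false
set_option linter.unusedSectionVars false

namespace CfsgLib.L33

open Subgroup CfsgLib.Tech

variable {G : Type*} [Group G] [Finite G]

theorem top {F : Subgroup G} [F.Normal] [IsSimpleGroup F] (hF : ¬ IsMulCommutative F)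
    (hC : centralizer (F : Set G) = ⊥) {K : Type*} [Group K] (M : Mod K) {t : G} (ht : orderOf t = 2) {L : Subgroup G}
    (LF : L ≤ F) (hL : L ≤ centralizer {t}) (hn : ∀ h ∈ centralizer {t}, ∀ l ∈ L, h * l * h⁻¹ ∈ L) (π : L →* K)
    (hπ : Function.Surjective π) (ho : Odd (Nat.card π.ker))
    (hk : ∀ h, ∀ hh : h ∈ centralizer {t}, ∀ l : L, π l = 1 → π ⟨h * l * h⁻¹, hn h hh l l.2⟩ = 1)
    (hc : ∀ P : Subgroup G, IsPGroup 2 P → ∀ hP : P ≤ centralizer {t},
      (∀ g, ∀ hg : g ∈ P, ∀ l : L, π ⟨g * l * g⁻¹, hn g (hP hg) l l.2⟩ = π l) → IsCyclic P) :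
    ¬ 2 ^ 11 ∣ Nat.card F := fun hd => by
  set H : Subgroup G := F ⊔ zpowers t with hH
  have FH : F ≤ H := le_sup_left
  have tH : t ∈ H := mem_sup_right (mem_zpowers t)
  have tt : t * t = 1 := mul_self_of_orderOf_two ht
  let t' : H := ⟨t, tH⟩
  have ht' : orderOf t' = 2 := by rw [← ht]; exact (orderOf_injective H.subtype H.subtype_injective t').symm
  have ce : ∀ h : H, h ∈ centralizer {t'} ↔ (h : G) ∈ centralizer {t} := fun h => by
    simp only [mem_centralizer_singleton_iff]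
    exact Subtype.ext_iff
  let e := subgroupOfEquivOfLe (LF.trans FH)
  have hn' : ∀ h ∈ centralizer {t'}, ∀ l ∈ L.subgroupOf H, h * l * h⁻¹ ∈ L.subgroupOf H :=
    fun h hh l hl => hn h ((ce h).1 hh) l hl
  obtain ⟨D, hD⟩ := exists_fr0 M ht' (L := L.subgroupOf H) (fun l hl => (ce l).2 (hL hl)) hn' (π.comp e.toMonoidHom)
    (hπ.comp e.surjective) (by
      rw [← MonoidHom.comap_ker, comap_equiv_eq_map_symm', card_map_of_injective e.symm.injective]; exact ho)
    (fun h hh l hl => hk h ((ce h).1 hh) (e l) hl) (fun P hP hP' h => by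
      have := hc (P.map H.subtype) (hP.map _) (by rintro _ ⟨g, hg, rfl⟩; exact (ce g).1 (hP' hg)) (by
        rintro _ ⟨g, hg, rfl⟩ l
        exact h g hg (e.symm l))
      exact isCyclic_of_surjective _ (equivMapOfInjective P _ H.subtype_injective).symm.surjective)
  have hF2 : ¬ Odd (Nat.card F) := fun h => by
    have := h.of_dvd_nat ((show 2 ∣ 2 ^ 11 by norm_num).trans hd); exact absurd this (by decide)
  have ni : ∃ s, IsConj D.t s ∧ s ≠ D.t ∧ s * D.t = D.t * s := by
    by_contra hcon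
    have iso : Cfsg.IsIsolatedInvolution t' := ⟨ht', fun g hg => by
      by_contra h
      exact hcon ⟨g * t' * g⁻¹, hD ▸ isConj_iff.2 ⟨g, rfl⟩, hD ▸ h, hD ▸ hg.eq.symm⟩⟩
    let O : Subgroup F := (Cfsg.pPrimeCore 2 H).comap (inclusion FH)
    have : (Cfsg.pPrimeCore 2 H).Normal := haveI := Core.pPrimeCore_characteristic 2 H; inferInstance
    have hO : O = ⊥ := (IsSimpleGroup.eq_bot_or_eq_top_of_normal O inferInstance).resolve_right fun h => hF2 <| by
      refine (Core.odd_card_oddCore H).of_dvd_nat ?_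
      refine card_dvd_of_injective ((inclusion FH).codRestrict _ fun x => show x ∈ O from h ▸ mem_top x) ?_
      exact (MonoidHom.injective_codRestrict _ _ _).2 (inclusion_injective FH)
    have : t ∈ centralizer (F : Set G) := fun g hg => by
      have h1 : t * g * t⁻¹ * g⁻¹ ∈ F := F.mul_mem (Normal.conj_mem inferInstance g hg t) (F.inv_mem hg)
      have h2 : (⟨_, h1⟩ : F) ∈ O := ZStar.zstar iso ⟨g, FH hg⟩
      rw [hO, mem_bot, Subtype.ext_iff] at h2
      have h3 : t * g * t⁻¹ * g⁻¹ = 1 := h2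
      rw [mul_inv_eq_one, mul_inv_eq_iff_eq_mul] at h3
      exact h3.symm
    rw [hC, mem_bot] at this
    exact ne_one_of_orderOf_two ht this
  rcases D.bd ni with h | ⟨h, N, hN⟩
  · exact h (hd.trans (card_dvd_of_le FH))
  by_cases tF : t ∈ F
  · have e2 : H = F := le_antisymm (sup_le le_rfl (zpowers_le.2 tF)) FH
    let φ : H ≃* F := MulEquiv.subgroupCongr e2
    have h2 : (N.map (φ : H →* F)).index = 2 := by rw [index_map_equiv, hN]
    rcases IsSimpleGroup.eq_bot_or_eq_top_of_normal _ (normal_of_index_eq_two h2) with h3 | h3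
    · rw [h3, index_bot] at h2
      rw [h2] at hd; norm_num at hd
    · rw [h3, index_top] at h2; norm_num at h2
  · refine h ?_
    rw [hH, card_sup_two (fun k hk => Normal.conj_mem inferInstance k hk t) (tt ▸ F.one_mem) tF, pow_succ']
    exact Nat.mul_dvd_mul_left 2 hd

/-- a group with a quotient containing a four-group has a non-cyclic 2-subgroup -/
theorem exists_noncyclic {L K : Type*} [Group L] [Finite L] [Group K] (M : Mod K) (π : L →* K)
    (hπ : Function.Surjective π) : ∃ P : Subgroup L, IsPGroup 2 P ∧ ¬ IsCyclic P := by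
  have := Fact.mk Nat.prime_two
  have : Finite K := Finite.of_surjective π hπ
  have z2 : M.x ^ 4 * M.x ^ 4 = 1 := by rw [← pow_add]; exact M.x8
  have ei : M.e⁻¹ = M.e := inv_eq_of_mul_eq_one_right M.ee
  have ez : M.e * M.x ^ 4 * M.e⁻¹ = M.x ^ 4 := by
    rw [← conj_pow, ei, M.ex, ← pow_mul, show 3 * 4 = 8 + 4 from rfl, pow_add, M.x8, one_mul]
  have h2 : IsPGroup 2 ↥(zpowers (M.x ^ 4) ⊔ zpowers M.e) := two_sup_two (isPGroup_two_zpowers z2) (by
    rintro _ ⟨k, rfl⟩
    exact ⟨k, by simp only; rw [← conj_zpow, ez]⟩) (M.ee ▸ one_mem _)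
  obtain ⟨Q, hQ⟩ := h2.exists_le_sylow
  obtain ⟨P, rfl⟩ := Sylow.mapSurjective_surjective hπ 2 Q
  refine ⟨P, P.2, fun h => ?_⟩
  have h3 : IsCyclic (Subgroup.map π P) := isCyclic_of_surjective _ (π.subgroupMap_surjective P)
  have hz : M.x ^ 4 ∈ Subgroup.map π P := hQ (mem_sup_left (mem_zpowers _))
  have he : M.e ∈ Subgroup.map π P := hQ (mem_sup_right (mem_zpowers _))
  have ne : ∀ k : ℕ, M.e ≠ M.x ^ k := fun k h => M.x4 <| by
    have h4 := M.ex
    have : M.x ^ 3 = M.x := by
      rw [← h4, mul_assoc, h, ← (Commute.pow_self M.x k).eq, ← mul_assoc, ← h, M.ee, one_mul]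
    have h5 : M.x ^ 2 = 1 := by
      rw [pow_succ] at this; exact mul_eq_right.1 this
    rw [show 4 = 2 * 2 from rfl, pow_mul, h5, one_pow]
  classical
  have := Fintype.ofFinite (Subgroup.map π P)
  have h5 := IsCyclic.card_pow_eq_one_le (α := Subgroup.map π P) (n := 2) two_pos
  refine absurd (le_trans (Finset.card_le_card (s := {1, ⟨_, hz⟩, ⟨_, he⟩}) ?_) h5) ?_
  · intro a ha
    simp only [Finset.mem_insert, Finset.mem_singleton] at ha
    rcases ha with rfl | rfl | rfl <;> simp [Subtype.ext_iff, pow_two, z2, M.ee]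
  · rw [Finset.card_eq_three.2 ⟨_, _, _, fun h => M.x4 (Subtype.ext_iff.1 h).symm,
      fun h => ne 0 (by simpa using (Subtype.ext_iff.1 h).symm), fun h => ne 4 (Subtype.ext_iff.1 h).symm, rfl⟩]
    norm_num

end CfsgLib.L33
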